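import Cfsg.Agent.H35.S4Defs

/-!
# The commutator of the two doubled short root groups next to a long root
-/

set_option autoImplicit false
set_option linter.unusedSectionVars false

namespace Cfsg.Agent.H94.S4Rad2

open Cfsg Cfsg.Agent.H63 Cfsg.Agent.H63.SL Cfsg.Agent.H35.S4 Subgroup
open scoped commutatorElement

universe u v

variable {F : Type v} [Field F] {G : Type u} [Group G]
variable {L : Subgroup G} {x : ZMod 8 → F → G} {t : G} {c l : F} {Xh : ZMod 8 → Subgroup G}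

theorem x_zero (h : Pin2 x) (i : ZMod 8) : x i 0 = 1 := by
  have := h.add i 0 0
  rw [add_zero] at this
  exact left_eq_mul.mp this

theorem aa (h : Pin2 x) (a : F) : a + a = 0 := by
  rw [← two_mul, h.two, zero_mul]

theorem x_sq (h : Pin2 x) (i : ZMod 8) (a : F) : x i a * x i a = 1 := by
  rw [← h.add, aa h, x_zero h]

theorem x_inv (h : Pin2 x) (i : ZMod 8) (a : F) : (x i a)⁻¹ = x i a :=
  inv_eq_of_mul_eq_one_right (x_sq h i a)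

theorem x_mem (i : ZMod 8) (a : F) : x i a ∈ XR x i := subset_closure ⟨a, rfl⟩

theorem memA_mid (i : ZMod 8) (a : F) : x i a ∈ A3 x i :=
  mem_sup_left (mem_sup_right (x_mem i a))

theorem memA_lo (i : ZMod 8) (a : F) : x (i - 1) a ∈ A3 x i :=
  mem_sup_left (mem_sup_left (x_mem _ a))

theorem memA_hi (i : ZMod 8) (a : F) : x (i + 1) a ∈ A3 x i :=
  mem_sup_right (x_mem _ a)

theorem cen (hP : HatP L x t c l Xh) {i : ZMod 8} (hi : sh i) {p : G} (hp : p ∈ Xh i) {v : G}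
    (hv : v ∈ A3 x i) : Commute p v :=
  (mem_centralizer_iff.mp ((hP.mem i hi p).mp hp).1 v hv).symm

theorem cenT (hP : HatP L x t c l Xh) {i : ZMod 8} (hi : sh i) {p : G} (hp : p ∈ Xh i) {v : G}
    (hv : v ∈ TT x L i) : Commute p v :=
  (mem_centralizer_iff.mp ((hP.mem i hi p).mp hp).2.1 v hv).symm

theorem mov (hP : HatP L x t c l Xh) {i : ZMod 8} (hi : sh i) {p : G} (hp : p ∈ Xh i) :
    ∃ a, p * t * p⁻¹ = t * x i a := by
  obtain ⟨a, ha, -⟩ := ((hP.mem i hi p).mp hp).2.2.1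
  exact ⟨a, ha⟩

theorem conj_of_commute {p v : G} (h : Commute p v) : p * v * p⁻¹ = v := by
  rw [h.eq, mul_inv_cancel_right]

theorem conj_of_comm {p v z : G} (h : ⁅p, v⁆ = z) : p * v * p⁻¹ = z * v := by
  rw [← h, commutatorElement_def, inv_mul_cancel_right]

/-- One half of the argument: the torus centralizing `X_i` kills everything outside
`X_2 X_j`. -/
theorem half (hC : Ctx L x t) (hP : HatP L x t c l Xh) (i j : ZMod 8) (hi : sh i) (hj : sh j)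
    (cij : ∀ a b, Commute (x i a) (x j b)) (ci2 : ∀ a b, Commute (x i a) (x 2 b))
    (c2j : ∀ a b, Commute (x 2 a) (x j b))
    (hA : ∀ v ∈ A3 x 2, ∃ a b c, v = x i a * x 2 b * x j c)
    (hW : ∀ π ∈ Xh i, ∀ p ∈ Xh j, Commute ⁅π, p⁆ t ∧ ⁅π, p⁆ ∈ C[A3 x 2])
    (hπ : ∀ π ∈ Xh i, ∀ s, ∃ b, ⁅π, x j s⁆ = x 2 b)
    (hp : ∀ p ∈ Xh j, ∀ s, ∃ b, ⁅p, x i s⁆ = x 2 b)
    (hp2 : ∀ p ∈ Xh j, ∀ s, Commute p (x 2 s))
    (hh : ∃ h ∈ TT x L i, ∃ γ δ : F, γ ≠ 1 ∧ (∀ s, h * x j s * h⁻¹ = x j (γ * s)) ∧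
      ∀ s, h * x 2 s * h⁻¹ = x 2 (δ * s)) :
    ∀ π ∈ Xh i, ∀ p ∈ Xh j, ∃ b c, ⁅π, p⁆ = x 2 b * x j c := by
  have pin := hC.mod.pin
  obtain ⟨h, hT, γ, δ, hγ, hhj, hh2⟩ := hh
  have hH : h ∈ HH x L := hT.1
  have hL : h ∈ L := hH.1
  have hht : h * t * h⁻¹ = t := conj_of_commute (hC.kb.tL h hL).symm
  have hhi : ∀ s, h * x i s * h⁻¹ = x i s := fun s =>
    conj_of_commute (mem_centralizer_iff.mp hT.2 _ (x_mem i s)).symm
  have umul : ∀ a b c a' b' c', x i a * x 2 b * x j c * (x i a' * x 2 b' * x j c') =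
      x i (a + a') * x 2 (b + b') * x j (c + c') := by
    intro a b c a' b' c'
    rw [pin.add, pin.add, pin.add]
    calc x i a * x 2 b * x j c * (x i a' * x 2 b' * x j c')
        = x i a * x 2 b * (x j c * x i a') * x 2 b' * x j c' := by simp only [mul_assoc]
      _ = x i a * (x 2 b * x i a') * (x j c * x 2 b') * x j c' := by
        rw [← (cij a' c).eq]; simp only [mul_assoc]
      _ = _ := by rw [← (ci2 a' b).eq, ← (c2j b' c).eq]; simp only [mul_assoc]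
  have uinv : ∀ a b c, (x i a * x 2 b * x j c)⁻¹ = x i a * x 2 b * x j c := by
    intro a b c
    apply inv_eq_of_mul_eq_one_right
    rw [umul, aa pin, aa pin, aa pin, x_zero pin, x_zero pin, x_zero pin, one_mul, one_mul]
  have hγ1 : γ + 1 ≠ 0 := by
    intro h0
    apply hγ
    have := aa pin 1
    linear_combination h0 - this
  intro π hπi p hpj
  obtain ⟨a, ha⟩ := mov hP hj hpj
  obtain ⟨p', hp', ha'⟩ := hP.surj j hj (a / (γ + 1))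
  have hp'h : h * p' * h⁻¹ ∈ Xh j :=
    (hP.mem j hj _).mpr (hC.kb.hatH h hH c j p' ((hP.mem j hj _).mp hp'))
  obtain ⟨q, hq⟩ : ∃ q, q = h * p' * h⁻¹ * p'⁻¹ := ⟨_, rfl⟩
  have hqj : q ∈ Xh j := hq ▸ mul_mem hp'h (inv_mem hp')
  have e1 : p'⁻¹ * t * p' = t * x j (a / (γ + 1)) := by
    have h1 : Commute p' (x j (a / (γ + 1))) := cen hP hj hp' (memA_mid j _)
    have h2 : p' * (t * x j (a / (γ + 1))) * p'⁻¹ = t := by
      calc p' * (t * x j (a / (γ + 1))) * p'⁻¹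
          = (p' * t * p'⁻¹) * (p' * x j (a / (γ + 1)) * p'⁻¹) := by group
        _ = t := by rw [ha', conj_of_commute h1, mul_assoc, x_sq pin, mul_one]
    calc p'⁻¹ * t * p' = p'⁻¹ * (p' * (t * x j (a / (γ + 1))) * p'⁻¹) * p' := by rw [h2]
      _ = _ := by group
  have e2 : (h * p' * h⁻¹) * t * (h * p' * h⁻¹)⁻¹ = t * x j (γ * (a / (γ + 1))) := by
    have h1 : h⁻¹ * t * h = t := by
      calc h⁻¹ * t * h = h⁻¹ * (h * t * h⁻¹) * h := by rw [hht]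
        _ = t := by group
    calc (h * p' * h⁻¹) * t * (h * p' * h⁻¹)⁻¹ = h * (p' * (h⁻¹ * t * h) * p'⁻¹) * h⁻¹ := by group
      _ = (h * t * h⁻¹) * (h * x j (a / (γ + 1)) * h⁻¹) := by rw [h1, ha']; group
      _ = _ := by rw [hht, hhj]
  have e3 : q * t * q⁻¹ = t * x j a := by
    have h1 : Commute (h * p' * h⁻¹) (x j (a / (γ + 1))) := cen hP hj hp'h (memA_mid j _)
    calc q * t * q⁻¹ = (h * p' * h⁻¹) * (p'⁻¹ * t * p') * (h * p' * h⁻¹)⁻¹ := by rw [hq]; group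
      _ = ((h * p' * h⁻¹) * t * (h * p' * h⁻¹)⁻¹) *
          ((h * p' * h⁻¹) * x j (a / (γ + 1)) * (h * p' * h⁻¹)⁻¹) := by rw [e1]; group
      _ = t * x j a := by
        rw [e2, conj_of_commute h1, mul_assoc, ← pin.add]
        congr 2
        field_simp
  have e4 : Commute (q⁻¹ * p) t := by
    have : q⁻¹ * p * t * (q⁻¹ * p)⁻¹ = t := by
      calc q⁻¹ * p * t * (q⁻¹ * p)⁻¹ = q⁻¹ * (p * t * p⁻¹) * q := by group
        _ = q⁻¹ * (q * t * q⁻¹) * q := by rw [ha, e3]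
        _ = t := by group
    exact mul_inv_eq_iff_eq_mul.mp this
  obtain ⟨b, hb⟩ := hP.fix j hj _ (mul_mem (inv_mem hqj) hpj) e4
  have hpq : p = q * x j b := by rw [← hb]; group
  obtain ⟨b', hb'⟩ := hπ π hπi b
  have hπh : π * h * π⁻¹ = h := conj_of_commute (cenT hP hi hπi hT)
  have e5 : ⁅π, q⁆ = (h * ⁅π, p'⁆ * h⁻¹) * (q * ⁅π, p'⁆ * q⁻¹)⁻¹ := by
    have h1 : π * h⁻¹ * π⁻¹ = h⁻¹ := by
      calc π * h⁻¹ * π⁻¹ = (π * h * π⁻¹)⁻¹ := by group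
        _ = h⁻¹ := by rw [hπh]
    calc ⁅π, q⁆ = (π * h * π⁻¹) * (π * p' * π⁻¹) * (π * h⁻¹ * π⁻¹) * (π * p'⁻¹ * π⁻¹) * q⁻¹ := by
          rw [commutatorElement_def, hq]; group
      _ = _ := by rw [hπh, h1, commutatorElement_def, hq]; group
  have e6 : ⁅π, p⁆ = ⁅π, q⁆ * x 2 b' := by
    calc ⁅π, p⁆ = ⁅π, q⁆ * (q * ⁅π, x j b⁆ * q⁻¹) := by
          rw [hpq]; simp only [commutatorElement_def]; group
      _ = _ := by rw [hb', conj_of_commute (hp2 q hqj b')]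
  obtain ⟨w1, w2⟩ := hW π hπi p' hp'
  obtain ⟨v, hv, o, ho, hvo⟩ := hC.kb.cA 2 _ w1 w2
  obtain ⟨a1, b1, c1, rfl⟩ := hA v hv
  obtain ⟨b2, hb2⟩ := hp q hqj a1
  have hho : h * o * h⁻¹ = o := conj_of_commute (mem_centralizer_iff.mp ho.1 h hL)
  have hqo : q * o * q⁻¹ = o := conj_of_commute (hP.odd j hj o ho.1 ho.2.1 ho.2.2 q hqj).symm
  have hv1 : h * (x i a1 * x 2 b1 * x j c1) * h⁻¹ = x i a1 * x 2 (δ * b1) * x j (γ * c1) := by
    rw [← hh2, ← hhj]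
    conv_rhs => rw [← hhi a1]
    group
  have hv2 : q * (x i a1 * x 2 b1 * x j c1) * q⁻¹ = x i a1 * x 2 (b2 + b1) * x j c1 := by
    calc q * (x i a1 * x 2 b1 * x j c1) * q⁻¹
        = (q * x i a1 * q⁻¹) * (q * x 2 b1 * q⁻¹) * (q * x j c1 * q⁻¹) := by group
      _ = _ := by
        rw [conj_of_comm hb2, conj_of_commute (hp2 q hqj b1),
          conj_of_commute (cen hP hj hqj (memA_mid j c1)), ← (ci2 a1 b2).eq, pin.add]
        simp only [mul_assoc]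
  have e7 : x i a1 * x 2 (δ * b1) * x j (γ * c1) * (x i a1 * x 2 (b2 + b1) * x j c1)⁻¹ =
      x 2 (δ * b1 + (b2 + b1)) * x j (γ * c1 + c1) := by
    rw [uinv, umul, aa pin, x_zero pin, one_mul]
  have e8 : ∃ b c, ⁅π, q⁆ = x 2 b * x j c := by
    rcases hvo with hvo | hvo
    · refine ⟨δ * b1 + (b2 + b1), γ * c1 + c1, ?_⟩
      rw [e5, hvo, ← e7, ← hv1, ← hv2]
      calc h * (x i a1 * x 2 b1 * x j c1 * o) * h⁻¹ * (q * (x i a1 * x 2 b1 * x j c1 * o) * q⁻¹)⁻¹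
          = h * (x i a1 * x 2 b1 * x j c1) * h⁻¹ * ((h * o * h⁻¹) * (q * o * q⁻¹)⁻¹) *
            (q * (x i a1 * x 2 b1 * x j c1) * q⁻¹)⁻¹ := by group
        _ = _ := by rw [hho, hqo, mul_inv_cancel, mul_one]
    · refine ⟨δ * b1 + (b2 + b1), γ * c1 + c1 + a, ?_⟩
      have hm : Commute t (x 2 (δ * b1 + (b2 + b1)) * x j (γ * c1 + c1 + a)) :=
        hC.kb.tL _ (mul_mem (hC.kb.xL _ _) (hC.kb.xL _ _))
      rw [← conj_of_commute hm, e5, hvo, pin.add j (γ * c1 + c1) a, ← mul_assoc (x 2 _), ← e7,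
        ← hv1, ← hv2, ← x_inv pin j a]
      calc h * (t * (x i a1 * x 2 b1 * x j c1) * o) * h⁻¹ *
            (q * (t * (x i a1 * x 2 b1 * x j c1) * o) * q⁻¹)⁻¹
          = (h * t * h⁻¹) * (h * (x i a1 * x 2 b1 * x j c1) * h⁻¹) *
            ((h * o * h⁻¹) * (q * o * q⁻¹)⁻¹) *
            (q * (x i a1 * x 2 b1 * x j c1) * q⁻¹)⁻¹ * (q * t * q⁻¹)⁻¹ := by group
        _ = _ := by rw [hho, hqo, hht, e3]; group
  obtain ⟨b3, c3, h3⟩ := e8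
  refine ⟨b3 + b', c3, ?_⟩
  rw [e6, h3, pin.add, mul_assoc, ← (c2j b' c3).eq, mul_assoc]

theorem sh1 : sh 1 := by decide
theorem sh3 : sh 3 := by decide

theorem act1 (hP : HatP L x t c l Xh) {p : G} (hp : p ∈ Xh 1) {a : F}
    (ha : p * t * p⁻¹ = t * x 1 a) (s : F) : ⁅p, x 3 s⁆ = x 2 (l * a * s) :=
  (hP.act 1 sh1 p hp a ha s).2

theorem act3 (hP : HatP L x t c l Xh) {p : G} (hp : p ∈ Xh 3) {a : F}
    (ha : p * t * p⁻¹ = t * x 3 a) (s : F) : ⁅p, x 1 s⁆ = x 2 (l * a * s) :=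
  (hP.act 3 sh3 p hp a ha s).1

theorem comm_of {π p g : G} (h : π⁻¹ * (p⁻¹ * g * p⁻¹⁻¹) * π⁻¹⁻¹ = p⁻¹ * (π⁻¹ * g * π⁻¹⁻¹) * p⁻¹⁻¹) :
    Commute ⁅π, p⁆ g := by
  have : ⁅π, p⁆ * g * ⁅π, p⁆⁻¹ = g := by
    calc ⁅π, p⁆ * g * ⁅π, p⁆⁻¹
        = π * p * (π⁻¹ * (p⁻¹ * g * p⁻¹⁻¹) * π⁻¹⁻¹) * p⁻¹ * π⁻¹ := by
          rw [commutatorElement_def]; group
      _ = g := by rw [h]; group
  exact mul_inv_eq_iff_eq_mul.mp this

theorem wall (hC : Ctx L x t) (hP : HatP L x t c l Xh) :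
    ∀ π ∈ Xh 1, ∀ p ∈ Xh 3, Commute ⁅π, p⁆ t ∧ ⁅π, p⁆ ∈ C[A3 x 2] := by
  have pin := hC.mod.pin
  have c12 : ∀ a b, Commute (x 1 a) (x 2 b) := pin.c1 1
  have c23 : ∀ a b, Commute (x 2 a) (x 3 b) := pin.c1 2
  have c13 : ∀ a b, Commute (x 1 a) (x 3 b) := pin.c2 1
  intro π0 hπ0 p0 hp0
  have hπ := inv_mem hπ0
  have hp := inv_mem hp0
  obtain ⟨y, hy⟩ := mov hP sh1 hπ
  obtain ⟨a, ha⟩ := mov hP sh3 hp
  have π1 : ∀ s, π0⁻¹ * x 1 s * π0⁻¹⁻¹ = x 1 s := fun s =>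
    conj_of_commute (cen hP sh1 hπ (memA_mid 1 s))
  have π2 : ∀ s, π0⁻¹ * x 2 s * π0⁻¹⁻¹ = x 2 s := fun s =>
    conj_of_commute (cen hP sh1 hπ (memA_hi 1 s))
  have π3 : ∀ s, π0⁻¹ * x 3 s * π0⁻¹⁻¹ = x 2 (l * y * s) * x 3 s := fun s =>
    conj_of_comm (act1 hP hπ hy s)
  have p3 : ∀ s, p0⁻¹ * x 3 s * p0⁻¹⁻¹ = x 3 s := fun s =>
    conj_of_commute (cen hP sh3 hp (memA_mid 3 s))
  have p2 : ∀ s, p0⁻¹ * x 2 s * p0⁻¹⁻¹ = x 2 s := fun s =>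
    conj_of_commute (cen hP sh3 hp (memA_lo 3 s))
  have p1 : ∀ s, p0⁻¹ * x 1 s * p0⁻¹⁻¹ = x 2 (l * a * s) * x 1 s := fun s =>
    conj_of_comm (act3 hP hp ha s)
  have cm : ∀ g u w : G, g * (u * w) * g⁻¹ = (g * u * g⁻¹) * (g * w * g⁻¹) := fun g u w => by group
  refine ⟨comm_of ?_, ?_⟩
  · rw [ha, hy, cm, cm, ha, hy, π3, p1, show l * a * y = l * y * a by ring]
    calc t * x 1 y * (x 2 (l * y * a) * x 3 a) = t * (x 1 y * x 2 (l * y * a)) * x 3 a := by group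
      _ = t * x 2 (l * y * a) * (x 1 y * x 3 a) := by rw [(c12 _ _).eq]; group
      _ = t * (x 2 (l * y * a) * x 3 a) * x 1 y := by rw [(c13 _ _).eq]; group
      _ = _ := by rw [(c23 _ _).eq]; group
  · refine mem_centralizer_iff.mpr fun v hv => ?_
    obtain ⟨a1, b1, c1, rfl⟩ := (hC.kp.memA 2 v).mp hv
    have h1 : Commute ⁅π0, p0⁆ (x 1 a1) := comm_of (by rw [π1, p1, cm, π2, π1])
    have h2 : Commute ⁅π0, p0⁆ (x 2 b1) := comm_of (by rw [π2, p2, π2])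
    have h3 : Commute ⁅π0, p0⁆ (x 3 c1) := comm_of (by rw [p3, π3, cm, p2, p3])
    exact ((h1.mul_right h2).mul_right h3).symm

theorem rad2 : Rad2Stmt.{u, v} := by
  intro F _ _ G _ _ L x t hC c l Xh hP p hp p' hp'
  have pin := hC.mod.pin
  have c12 : ∀ a b, Commute (x 1 a) (x 2 b) := pin.c1 1
  have c23 : ∀ a b, Commute (x 2 a) (x 3 b) := pin.c1 2
  have c13 : ∀ a b, Commute (x 1 a) (x 3 b) := pin.c2 1
  have a1 : ∀ π ∈ Xh 1, ∀ s, ∃ b, ⁅π, x 3 s⁆ = x 2 b := fun π hπ s => by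
    obtain ⟨y, hy⟩ := mov hP sh1 hπ
    exact ⟨_, act1 hP hπ hy s⟩
  have a3 : ∀ π ∈ Xh 3, ∀ s, ∃ b, ⁅π, x 1 s⁆ = x 2 b := fun π hπ s => by
    obtain ⟨y, hy⟩ := mov hP sh3 hπ
    exact ⟨_, act3 hP hπ hy s⟩
  obtain ⟨γ, hγ, -⟩ := hC.kb.ne1
  have hγ' : (γ : F) ≠ 1 := fun h => hγ (Units.ext h)
  obtain ⟨b, c3, h1⟩ := half hC hP 1 3 sh1 sh3 c13 c12 c23
    (fun v hv => (hC.kp.memA 2 v).mp hv) (wall hC hP) a1 a3
    (fun q hq s => cen hP sh3 hq (memA_lo 3 s)) (by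
      obtain ⟨h, hH, hT⟩ := hC.kp.tor 1 γ
      refine ⟨h, (hC.kb.memT 1 h).mpr ⟨hH.1, 1, γ, hT, rfl⟩, γ, _, hγ', fun s => ?_, hT 2⟩
      rw [hT 3, show wt 1 γ 3 = 1 * γ from rfl, one_mul]) p hp p' hp'
  obtain ⟨b', c1, h2⟩ := half hC hP 3 1 sh3 sh1 (fun a b => (c13 b a).symm)
    (fun a b => (c23 b a).symm) (fun a b => (c12 b a).symm)
    (fun v hv => by
      obtain ⟨a, b, c, rfl⟩ := (hC.kp.memA 2 v).mp hv
      refine ⟨c, b, a, ?_⟩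
      change x 1 a * x 2 b * x 3 c = _
      rw [(c12 a b).eq, mul_assoc, (c13 a c).eq, ← mul_assoc, (c23 b c).eq])
    (fun π hπ q hq => by
      obtain ⟨w1, w2⟩ := wall hC hP q hq π hπ
      rw [← commutatorElement_inv]
      exact ⟨w1.inv_left, inv_mem w2⟩) a3 a1
    (fun q hq s => cen hP sh1 hq (memA_hi 1 s)) (by
      obtain ⟨h, hH, hT⟩ := hC.kp.tor γ γ⁻¹
      exact ⟨h, (hC.kb.memT 3 h).mpr ⟨hH.1, γ, γ⁻¹, hT, mul_inv_cancel γ⟩, γ, _, hγ', hT 1,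
        hT 2⟩) p' hp' p hp
  have h3 : x 1 c1 * x 2 (b' + b) * x 3 c3 * x 4 0 = 1 := by
    rw [x_zero pin, mul_one, pin.add, ← mul_assoc, (c12 c1 b').eq, ← h2, mul_assoc, ← h1,
      ← commutatorElement_inv p p', inv_mul_cancel]
  obtain ⟨-, -, h4, -⟩ := hC.kp.uniq 1 c1 (b' + b) c3 0 h3
  rw [h1, h4, x_zero pin, mul_one]
  exact x_mem 2 b

end Cfsg.Agent.H94.S4Rad2
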