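import Cfsg.Agent.H42.FvDefs

/-!
# The Iwasawa decomposition of a Chevalley group over a valued field
-/

set_option autoImplicit false

namespace Cfsg.Agent.H94.FvIwa

open Cfsg.Lie Cfsg.Agent.H34 Cfsg.Agent.H34.Split Cfsg.Agent.H42.Fv

theorem abs {ι Φ G : Type*} [Finite Φ] {S : SignedSys ι Φ} [Group G] (P : Split S G)
    (K : Submonoid G) (h : ∀ i, ∃ m ∈ P.N, P.ν m = S.s i ∧
      ∀ x ∈ P.X (S.α i), ∃ k ∈ K, k * (x * m) ∈ P.B) (g : G) : ∃ k ∈ K, k * g ∈ P.B := by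
  have hB : ∀ b ∈ P.B, ∀ y, (∃ k ∈ K, k * y ∈ P.B) → ∃ k ∈ K, k * (y * b) ∈ P.B :=
    fun b hb y ⟨k, hk, e⟩ => ⟨k, hk, mul_assoc k y b ▸ mul_mem e hb⟩
  have hN : ∀ l : List ι, ∀ n ∈ P.N, P.ν n = S.word l → ∀ y, (∃ k ∈ K, k * y ∈ P.B) →
      ∃ k ∈ K, k * (y * n) ∈ P.B := fun l => by
    induction l with
    | nil => exact fun n hn e => hB n (H_le_B (mem_H_of hn e))
    | cons i l ih =>
      rintro n hn e y ⟨k, hk, hy⟩
      obtain ⟨m, hm, em, h⟩ := h i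
      obtain ⟨u, hu, t, ht, e'⟩ := mem_B.1 hy
      obtain ⟨x, hx, z, hz, rfl⟩ := dec' S.cl_pos (S.s i) hu
      obtain ⟨k', hk', e''⟩ := h x (U_le_X (fun r hr => by simpa [S.inv_s] using hr.2) hx)
      have := ih (m⁻¹ * n) (mul_mem (inv_mem hm) hn) (by
        rw [P.ν_mul _ (inv_mem hm) _ hn, ν_inv hm, em, e, S.word_cons, inv_mul_cancel_left])
        (y * m) ⟨k' * k, mul_mem hk' hk, by
          have h1 : m⁻¹ * z * m ∈ P.Up := conj_U' hm (fun r hr => by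
            rw [em, S.s_inv]; exact hr.2) hz
          convert mul_mem (mul_mem e'' (Up_le_B h1)) (H_le_B (conj_mem_H' hm ht)) using 1
          rw [mul_assoc k', ← mul_assoc k, e']
          group⟩
      simpa [mul_assoc] using this
  obtain ⟨a, ha, n, hn, u, hu, rfl⟩ := P.bruhat g
  obtain ⟨l, e⟩ := S.mem_W_iff.1 (P.ν_mem n hn)
  exact hB u (Up_le_B (Uinv_le_Up hu)) _
    (hN l n hn e.symm a ⟨1, one_mem _, by simpa using Up_le_B ha⟩)

theorem gen {D : ChevalleyDatum} (C : Cert D) (E : Type) [Field E] (O : ValuationSubring E)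
    (g : D.group E) : ∃ L : List (Fin D.nroots × E), (∀ p ∈ L, p.2 ∈ O) ∧
      (L.map fun p => C.xg E p.1 p.2).prod * g ∈ (C.split E).B := by
  let K : Submonoid (D.group E) :=
    { carrier := {k | ∃ L : List (Fin D.nroots × E), (∀ p ∈ L, p.2 ∈ O) ∧
        (L.map fun p => C.xg E p.1 p.2).prod = k}
      one_mem' := ⟨[], by simp, rfl⟩
      mul_mem' := by
        rintro _ _ ⟨L, h, rfl⟩ ⟨L', h', rfl⟩
        exact ⟨L ++ L', fun p hp => (List.mem_append.1 hp).elim (h p) (h' p), by simp⟩ }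
  have xK : ∀ r : Fin D.nroots, ∀ t ∈ O, C.xg E r t ∈ K := fun r t ht =>
    ⟨[(r, t)], by simpa using ht, by simp⟩
  have iK : ∀ r : Fin D.nroots, ∀ t ∈ O, (C.xg E r t)⁻¹ ∈ K := fun r t ht =>
    Cert.xg_neg (C := C) r t ▸ xK r _ (neg_mem ht)
  refine (abs (C.split E) K (fun i => ?_) g).elim fun _ ⟨⟨L, h, e⟩, e'⟩ => ⟨L, h, e ▸ e'⟩
  have hi := C.V.basic.simple_lt i i.2
  refine ⟨C.ng E (D.simple i) 1, Cert.ng_mem_N hi one_ne_zero, Cert.ν_ng i one_ne_zero,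
    fun x hx => ?_⟩
  obtain ⟨c, rfl⟩ := Cert.mem_X.1 hx
  rw [show D.simple i = C.S.α i from (C.simple_val i).symm] at hi ⊢
  by_cases hc : c ∈ O
  · refine ⟨(C.xg E (C.S.α i) c * C.ng E (C.S.α i) 1)⁻¹, ?_, by simp⟩
    rw [Cert.ng_eq, ← C.neg_val]
    simp only [mul_inv_rev]
    exact mul_mem (mul_mem (iK _ _ O.one_mem) (mul_mem (iK _ _ (by simp)) (iK _ _ O.one_mem)))
      (iK _ _ hc)
  · have c0 : c ≠ 0 := fun e => hc (e ▸ O.zero_mem)
    refine ⟨_, xK (C.R.neg (C.S.α i)) _ (neg_mem ((O.mem_or_inv_mem c).resolve_left hc)), ?_⟩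
    have h1 : C.ng E (C.S.α i) c * C.ng E (C.S.α i) 1 ∈ (C.split E).H :=
      Cert.nG_mul_nG_mem (C := C) hi c0 one_ne_zero
    convert mul_mem (inv_mem (Up_le_B (mem_U (C.S.pos_α i) (Cert.xg_mem_X (C.S.α i) c))))
      (H_le_B h1) using 1
    rw [Cert.ng_eq _ c, C.neg_val]
    group

theorem iwa : IwaStmt := fun E _ O g => gen H50.E83.C8 E O g

end Cfsg.Agent.H94.FvIwa
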