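import Cfsg.Agent.H53.DgDefs
import Cfsg.Agent.H11.Kernel
import Cfsg.Agent.H12.Central

set_option autoImplicit false

namespace Cfsg.Agent.H94.DgVl
open Cfsg.Agent.H53.Dg

theorem zero : ZeroStmt := by
  intro G _ _ χ U hχ h g
  obtain ⟨n, ρ, rfl⟩ := hχ
  have := Fintype.ofFinite U
  rw [finsum_eq_sum_of_fintype] at h ⊢
  have hc : (Nat.card U : ℂ) ≠ 0 := by exact_mod_cast Nat.card_pos.ne'
  set E : (Fin n → ℂ) →ₗ[ℂ] (Fin n → ℂ) := ∑ u : U, ρ u with hE
  have h1 : ∀ v : U, ρ v * E = E := fun v => by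
    rw [hE, Finset.mul_sum]
    exact Fintype.sum_equiv (Equiv.mulLeft v) _ _ fun u => by simp
  have h2 : E * E = (Nat.card U : ℂ) • E := by
    conv_lhs => rw [hE, Finset.sum_mul]
    rw [← hE, Finset.sum_congr rfl fun v _ => h1 v, Finset.sum_const, Finset.card_univ,
      Nat.card_eq_fintype_card, Nat.cast_smul_eq_nsmul]
  have h3 : IsIdempotentElem ((Nat.card U : ℂ)⁻¹ • E) := by
    unfold IsIdempotentElem
    rw [smul_mul_smul_comm, h2, smul_smul, mul_assoc, inv_mul_cancel₀ hc, mul_one]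
  have h4 : (Nat.card U : ℂ)⁻¹ • E = 0 := by
    apply LinearMap.IsIdempotentElem.eq_zero_of_trace_eq_zero h3
    rw [map_smul, hE, map_sum]
    exact smul_eq_zero_of_right _ h
  have h5 : E = 0 := (smul_eq_zero.1 h4).resolve_left (inv_ne_zero hc)
  have h6 : ∑ u : U, ρ.character (g * u) = LinearMap.trace ℂ _ (ρ g * E) := by
    rw [hE, Finset.mul_sum, map_sum]
    exact Finset.sum_congr rfl fun u _ => by simp [Representation.character]
  rw [h6, h5, mul_zero, map_zero]

theorem sum_nat {G : Type*} [Group G] {χ : G → ℂ} (hχ : IsCharacter G χ) (U : Subgroup G) [Fintype U] :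
    ∃ k : ℕ, ∑ u : U, χ u = ((Nat.card U * k : ℕ) : ℂ) := by
  obtain ⟨k, hk⟩ := H11.exists_nat_classInner (H11.isCharacter_restrict hχ U) H11.isCharacter_one
  refine ⟨k, ?_⟩
  have := H11.card_mul_classInner (fun h : U => χ h) (fun _ => 1)
  rw [hk] at this
  simpa using this.symm

theorem sub : SubStmt := by
  intro G _ _ χ χ' U hχ hχ' h
  have := Fintype.ofFinite U
  rw [finsum_eq_sum_of_fintype] at h ⊢
  obtain ⟨k, hk⟩ := sum_nat hχ U
  obtain ⟨k', hk'⟩ := sum_nat hχ' U
  rw [Finset.sum_add_distrib, hk, hk', ← Nat.cast_add, Nat.cast_eq_zero] at h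
  rw [hk, Nat.cast_eq_zero]
  omega

theorem val_zero {G : Type} [Group G] [Finite G] {χ : G → ℂ} {U : Subgroup G} {y : G}
    (hχ : IsCharacter G χ) (h1 : ∀ u ∈ U, y * u * y⁻¹ ∈ U) (h2 : ∀ u ∈ U, y * u = u * y → u = 1)
    (h : ∑ᶠ u : U, χ u = 0) : χ y = 0 := by
  have h3 := zero G χ U hχ h y
  have := Fintype.ofFinite U
  rw [finsum_eq_sum_of_fintype] at h3
  have hc := H11.isClassFunction_of_isCharacter hχ
  let φ : U → U := fun u => ⟨(u : G)⁻¹ * (y * u * y⁻¹), U.mul_mem (U.inv_mem u.2) (h1 u u.2)⟩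
  have hφ : Function.Injective φ := fun u v huv => by
    have h4 : (u : G)⁻¹ * (y * u * y⁻¹) = (v : G)⁻¹ * (y * v * y⁻¹) := congrArg Subtype.val huv
    have h5 := h2 (u * (v : G)⁻¹) (U.mul_mem u.2 (U.inv_mem v.2)) (by
      calc y * (u * (v : G)⁻¹) = u * ((u : G)⁻¹ * (y * u * y⁻¹)) * y * (v : G)⁻¹ := by group
        _ = u * (v : G)⁻¹ * y := by rw [h4]; group)
    exact Subtype.ext (mul_inv_eq_one.1 h5)
  have h4 : ∀ u : U, χ (y * u) = χ y := fun u => by
    obtain ⟨v, rfl⟩ := Finite.injective_iff_surjective.1 hφ u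
    rw [H11.classFun_mul_comm hc, ← H11.classFun_conj_inv hc y v]
    congr 1
    simp only [φ]
    group
  rw [Finset.sum_congr rfl fun u _ => h4 u, Finset.sum_const, Finset.card_univ, nsmul_eq_mul] at h3
  exact (mul_eq_zero.1 h3).resolve_left (by exact_mod_cast Fintype.card_pos.ne')

theorem vl : VlStmt := by
  intro G _ _ χ U x r n hχ hn hr hx h1 h2 h
  have : Fact r.Prime := ⟨hr⟩
  have := Fintype.ofFinite (Subgroup.zpowers x)
  have hc : Nat.card (Subgroup.zpowers x) = r := by rw [Nat.card_zpowers, hx]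
  obtain ⟨k, hk⟩ := sum_nat hχ (Subgroup.zpowers x)
  rw [Finset.sum_eq_single 1 (fun y _ hy => ?_) (by simp), OneMemClass.coe_one, hn, hc,
    Nat.cast_inj] at hk
  · exact ⟨k, hk⟩
  refine val_zero hχ (U := U) ?_ (fun u hu h3 => h2 u hu ?_) h
  · obtain ⟨j, hj⟩ := mem_powers_iff_mem_zpowers.2 y.2
    rw [← hj]
    clear hj
    induction j with
    | zero => simp
    | succ j ih =>
      intro u hu
      have := ih _ (h1 u hu)
      simp only at this ⊢
      convert this using 1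
      group
  · obtain ⟨j, hj⟩ := mem_zpowers_of_prime_card hc hy (g' := ⟨x, Subgroup.mem_zpowers x⟩)
    have h4 : (y : G) ^ j = x := congrArg Subtype.val hj
    rw [← h4]
    exact (Commute.zpow_left h3 j)

theorem pl : PlStmt := by
  intro G _ _ χ U Z p n m hχ hp hU hZ hN hn h
  classical
  have : Fact p.Prime := ⟨hp⟩
  have := Fintype.ofFinite U
  have := Fintype.ofFinite Z
  have : Fintype (IrrCharacter U) := Fintype.ofFinite _
  have hZU : Z ≤ U := hZ.trans (Subgroup.commutator_le.2 fun a ha b hb =>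
    U.mul_mem (U.mul_mem (U.mul_mem ha hb) (U.inv_mem ha)) (U.inv_mem hb))
  have hZn : (Z.subgroupOf U).Normal := ⟨fun z hz u => hN u u.2 z hz⟩
  have := Fintype.ofFinite (Z.subgroupOf U)
  have hZc : Z.subgroupOf U ≤ commutator U := by
    intro z hz
    have h1 : (commutator U).map U.subtype = ⁅U, U⁆ := by
      rw [commutator_def, Subgroup.map_commutator, ← MonoidHom.range_eq_map, Subgroup.range_subtype]
    have h2 := hZ hz
    rw [← h1] at h2
    obtain ⟨w, hw, h3⟩ := h2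
    exact (Subtype.ext h3 : w = z) ▸ hw
  obtain ⟨a, -, ha⟩ := H11.exists_eq_sum_nat (H11.isCharacter_restrict hχ U)
  have hd : ∀ θ : IrrCharacter U, ∃ d c : ℕ, θ.1 1 = d ∧
      ∑ z : Z.subgroupOf U, θ.1 z = Nat.card Z * c ∧ d ≡ c [MOD p] := by
    intro θ
    obtain ⟨d, hd⟩ := H11.exists_nat_degree (H11.irr_isCharacter θ)
    by_cases hk : Z.subgroupOf U ≤ H11.charKer θ.1
    · refine ⟨d, d, hd, ?_, rfl⟩
      rw [Finset.sum_congr rfl fun z _ => H11.apply_eq_of_mem_charKer (hk z.2), Finset.sum_const,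
        Finset.card_univ, nsmul_eq_mul, hd, ← Nat.card_eq_fintype_card,
        Nat.card_congr (Subgroup.subgroupOfEquivOfLe hZU).toEquiv]
    · refine ⟨d, 0, hd, by rw [H11.sum_restrict_eq_zero θ.2 _ hk]; simp, ?_⟩
      obtain ⟨k, hk'⟩ := IsPGroup.iff_card.1 hU
      have h1 := H12.irr_degree_dvd_card θ.2 hd
      rw [hk', Nat.dvd_prime_pow hp] at h1
      obtain ⟨j, -, rfl⟩ := h1
      rcases j with _ | j
      · exact absurd (hZc.trans (H11.commutator_le_charKer (H11.irr_isCharacter θ) (by simpa using hd))) hk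
      · exact (Nat.modEq_zero_iff_dvd.2 (dvd_pow_self p (by omega)))
  choose d c hd hc hdc using hd
  have hv : ∀ u : U, χ u = ∑ θ : IrrCharacter U, (a θ : ℂ) * θ.1 u := fun u => by
    have := congrFun ha u
    simpa [Finset.sum_apply] using this
  have h1 : n = ∑ θ, a θ * d θ := by
    have := hv 1
    rw [OneMemClass.coe_one, hn] at this
    simp only [hd] at this
    exact_mod_cast this
  have h2 : m = ∑ θ, a θ * c θ := by
    rw [finsum_eq_sum_of_fintype, ← Fintype.sum_equiv (Subgroup.subgroupOfEquivOfLe hZU).toEquiv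
      (fun z => χ (z : U)) _ (fun _ => rfl)] at h
    simp only [hv] at h
    rw [Finset.sum_comm] at h
    simp only [← Finset.mul_sum, hc, mul_left_comm _ (Nat.card Z : ℂ)] at h
    have h3 := mul_left_cancel₀ (by exact_mod_cast Nat.card_pos.ne') h
    exact_mod_cast h3.symm
  rw [h1, h2]
  exact Nat.ModEq.sum fun θ _ => (hdc θ).mul_left _

end Cfsg.Agent.H94.DgVl
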