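import Cfsg.Agent.H79.RbCl

/-!
# Jordan–Wigner matrices and representations of the Clifford algebra
-/

set_option autoImplicit false

open Cfsg Equiv Finset CliffordAlgebra Matrix

namespace Cfsg.Agent.H94.RbRep

open Cfsg.Agent.H79.RB

theorem jw : JwStmt := by
  intro k
  induction k with
  | zero =>
    refine ⟨Unit, inferInstance, inferInstance, by simp, fun _ => 1, fun _ => mul_one _, ?_⟩
    intro i j h
    exact absurd (Fin.ext (by omega)) h
  | succ k ih =>
    obtain ⟨J, _, _, hJ, γ, h1, h2⟩ := ih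
    refine ⟨J ⊕ J, inferInstance, inferInstance, by rw [Fintype.card_sum, hJ]; ring,
      fun i => if h : i.val < 2 * k + 1 then fromBlocks (γ ⟨i, h⟩) 0 0 (-γ ⟨i, h⟩) else
        if i.val = 2 * k + 1 then fromBlocks 0 1 1 0 else
          fromBlocks 0 (Complex.I • 1) (-(Complex.I • 1)) 0, ?_, ?_⟩
    · intro i
      dsimp only
      split_ifs
      · simp [fromBlocks_multiply, h1]
      · simp [fromBlocks_multiply]
      · simp [fromBlocks_multiply, smul_smul]
    · intro i j h
      have h' : i.val ≠ j.val := fun e => h (Fin.ext e)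
      have hi := i.2
      have hj := j.2
      dsimp only
      split_ifs with a b
      · rw [fromBlocks_multiply, fromBlocks_multiply, fromBlocks_neg]
        simp [h2 ⟨i, a⟩ ⟨j, b⟩ fun e => h' (Fin.mk.inj e)]
      all_goals first
        | omega
        | simp [fromBlocks_multiply, fromBlocks_neg]

theorem sq_sum {A ι : Type} [Ring A] [Algebra ℂ A] [DecidableEq ι] (γ : ι → A)
    (h1 : ∀ i, γ i * γ i = 1) (h2 : ∀ i j, i ≠ j → γ i * γ j = -(γ j * γ i)) (v : ι → ℂ)
    (s : Finset ι) :
    (∑ i ∈ s, v i • γ i) * (∑ i ∈ s, v i • γ i) = algebraMap ℂ A (∑ i ∈ s, v i * v i) := by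
  induction s using Finset.induction_on with
  | empty => simp
  | insert a s ha ih =>
    have h3 : v a • γ a * ∑ i ∈ s, v i • γ i = -((∑ i ∈ s, v i • γ i) * v a • γ a) := by
      rw [Finset.mul_sum, Finset.sum_mul, ← Finset.sum_neg_distrib]
      refine Finset.sum_congr rfl fun i hi => ?_
      rw [smul_mul_smul_comm, smul_mul_smul_comm, h2 a i (fun e => ha (e ▸ hi)), smul_neg,
        mul_comm (v a)]
    rw [Finset.sum_insert ha, Finset.sum_insert ha, add_mul, mul_add, mul_add, h3, ih,
      smul_mul_smul_comm, h1, map_add, Algebra.algebraMap_eq_smul_one (v a * v a)]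
    abel

theorem rep : RepStmt := by
  intro n k hn
  obtain ⟨J, _, _, hJ, γ, h1, h2⟩ := jw k
  let f : (Fin n → ℂ) →ₗ[ℂ] Matrix J J ℂ := Fintype.linearCombination ℂ fun i => γ (Fin.castLE hn i)
  have hf : ∀ v, f v = ∑ i, v i • γ (Fin.castLE hn i) := fun v => Fintype.linearCombination_apply _ _ _
  have hq : ∀ v, f v * f v = algebraMap ℂ _ (Qn n v) := fun v => by
    rw [hf, Qn_apply]
    exact sq_sum (fun i => γ (Fin.castLE hn i)) (fun i => h1 _)
      (fun i j h => h2 _ _ fun e => h (Fin.castLE_injective hn e)) v _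
  refine ⟨J, inferInstance, inferInstance, hJ, lift (Qn n) ⟨f, hq⟩, fun hk =>
    ⟨γ (Fin.last _), h1 _, fun x => ?_⟩⟩
  induction x using CliffordAlgebra.induction with
  | algebraMap r => rw [AlgHom.commutes, AlgHom.commutes, AlgHom.commutes, Algebra.commutes]
  | ι v =>
    rw [involute_ι, map_neg, lift_ι_apply, hf, Finset.mul_sum, neg_mul, Finset.sum_mul,
      ← Finset.sum_neg_distrib]
    refine Finset.sum_congr rfl fun i _ => ?_
    rw [mul_smul_comm, smul_mul_assoc, h2 _ _ (fun e => ?_), smul_neg]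
    have := congrArg Fin.val e
    have := i.2
    simp at *
    omega
  | mul a b ha hb => rw [map_mul, map_mul, map_mul, ← mul_assoc, ha, mul_assoc, hb, mul_assoc]
  | add a b ha hb => rw [map_add, map_add, map_add, mul_add, add_mul, ha, hb]

end Cfsg.Agent.H94.RbRep
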