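import Mathlib
import Cfsg.Agent.H1.Zipper

/-! Flavell's generalisation of Wielandt's zipper lemma, and subnormal closures (helper94). -/

set_option autoImplicit false

open scoped Pointwise

namespace Cfsg.Agent.H94

open Subgroup H1

variable {G : Type*} [Group G]

/-- `H` is a maximal subgroup containing `X` in which `X` is not subnormal. -/
def BadMax (X H : Subgroup G) : Prop := IsCoatom H ∧ X ≤ H ∧ ¬ SnIn X H

theorem isCoatom_conj_smul {M : Subgroup G} (hM : IsCoatom M) (g : G) :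
    IsCoatom (MulAut.conj g • M) :=
  (OrderIso.isCoatom_iff (MulEquiv.mapSubgroup (MulAut.conj g)) M).2 hM

theorem BadMax.conj {X H : Subgroup G} (h : BadMax X H) (g : G) :
    BadMax (MulAut.conj g • X) (MulAut.conj g • H) := by
  refine ⟨isCoatom_conj_smul h.1 g, pointwise_smul_le_pointwise_smul_iff.2 h.2.1, fun h1 => h.2.2 ?_⟩
  have := h1.smul (MulAut.conj g)⁻¹
  rwa [inv_smul_smul, inv_smul_smul] at this

theorem normalClosure_conj_smul (A : Subgroup G) (g : G) :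
    normalClosure ((MulAut.conj g • A : Subgroup G) : Set G) = normalClosure (A : Set G) := by
  apply le_antisymm
  · apply normalClosure_le_normal
    intro x hx
    have h1 : g⁻¹ * x * g ∈ normalClosure (A : Set G) :=
      subset_normalClosure (mem_conj_smul_iff.1 hx)
    have := (normalClosure_normal (s := (A : Set G))).conj_mem _ h1 g
    simpa [mul_assoc] using this
  · apply normalClosure_le_normal
    intro x hx
    have h1 : g * x * g⁻¹ ∈ normalClosure ((MulAut.conj g • A : Subgroup G) : Set G) :=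
      subset_normalClosure (conj_mem_conj_smul g hx)
    have := (normalClosure_normal).conj_mem _ h1 g⁻¹
    simpa [mul_assoc] using this

theorem normalizer_eq_of_normalClosure_eq_top {A M : Subgroup G}
    (hA : normalClosure (A : Set G) = ⊤) (hM : IsCoatom M) (hAM : A ≤ M) :
    normalizer (M : Set G) = M := by
  rcases (le_normalizer (H := M)).eq_or_lt with h | h
  · exact h.symm
  · have hn : M.Normal := normalizer_eq_top_iff.1 (hM.2 _ h)
    have := normalClosure_le_normal (N := M) hAM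
    rw [hA, top_le_iff] at this
    exact absurd this hM.1

theorem exists_coatom_ge_normalizer [Finite G] {A E M : Subgroup G}
    (hA : normalClosure (A : Set G) = ⊤) (hAE : A ≤ E) (hEM : E ≤ M) (hM : M ≠ ⊤) :
    ∃ H, IsCoatom H ∧ normalizer (E : Set G) ≤ H := by
  refine (eq_top_or_exists_le_coatom _).resolve_left fun h => ?_
  have hn : E.Normal := normalizer_eq_top_iff.1 h
  have := normalClosure_le_normal (N := E) hAE
  rw [hA, top_le_iff] at this
  exact hM (top_le_iff.1 (this ▸ hEM))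

theorem exists_badMax [Finite G] {A H₁ H₂ : Subgroup G} (hA : normalClosure (A : Set G) = ⊤)
    (h₁ : IsCoatom H₁) (h₂ : IsCoatom H₂) (hne : H₁ ≠ H₂) (hA₁ : A ≤ H₁) (hA₂ : A ≤ H₂) :
    ∃ M, BadMax A M := by
  by_contra h
  push Not at h
  have h1 : ∀ H, A ≤ H → H < ⊤ → SnIn A H := by
    intro H hAH hH
    obtain ⟨M, hM, hHM⟩ := (eq_top_or_exists_le_coatom H).resolve_left hH.ne
    by_contra hn
    exact h M ⟨hM, hAH.trans hHM, fun h => hn (h.of_le hAH hHM)⟩
  have h2 : ¬ SnIn A ⊤ := by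
    intro hs
    obtain ⟨K, hK, hKlt, hKn⟩ := hs.exists_normal_lt fun h => h₁.1 (top_le_iff.1 (h ▸ hA₁))
    have hn : K.Normal := normalizer_eq_top_iff.1 (top_le_iff.1 hKn)
    have := normalClosure_le_normal (N := K) hK.le
    rw [hA, top_le_iff] at this
    exact hKlt.ne this
  obtain ⟨M, -, hM, hall⟩ := zipper le_top h1 h2
  have e1 : H₁ = M := (h₁.le_iff_eq hM.ne).1 (hall _ hA₁ h₁.lt_top) |>.symm
  have e2 : H₂ = M := (h₂.le_iff_eq hM.ne).1 (hall _ hA₂ h₂.lt_top) |>.symm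
  exact hne (e1.trans e2.symm)

/-- **Flavell's theorem.** If `A` is contained in two maximal subgroups and in no proper normal
subgroup, then it fails to be subnormal in at least two maximal subgroups containing it. -/
theorem flavell [Finite G] (A : Subgroup G) :
    normalClosure (A : Set G) = ⊤ → ∀ H₁ H₂ : Subgroup G, IsCoatom H₁ → IsCoatom H₂ → H₁ ≠ H₂ →
      A ≤ H₁ → A ≤ H₂ → ∃ M₁ M₂, M₁ ≠ M₂ ∧ BadMax A M₁ ∧ BadMax A M₂ := by
  induction hn : A.index using Nat.strong_induction_on generalizing A with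
  | _ n ih =>
  intro hA H₁ H₂ h₁ h₂ hne hA₁ hA₂
  by_contra hcon
  obtain ⟨M, hM⟩ := exists_badMax hA h₁ h₂ hne hA₁ hA₂
  have huniq : ∀ M', BadMax A M' → M' = M := fun M' h => by
    by_contra h'
    exact hcon ⟨M', M, h', h, hM⟩
  have hNM : normalizer (M : Set G) = M := normalizer_eq_of_normalClosure_eq_top hA hM.1 hM.2.1
  -- conjugates of `A` are indexed by group elements
  set X : G → Subgroup G := fun g => MulAut.conj g • A with hX
  set μ : G → Subgroup G := fun g => MulAut.conj g • M with hμ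
  have hXc : ∀ g h, MulAut.conj g • X h = X (g * h) := fun g h => conj_smul_conj_smul g h A
  have hμc : ∀ g h, MulAut.conj g • μ h = μ (g * h) := fun g h => conj_smul_conj_smul g h M
  have hbad : ∀ g, BadMax (X g) (μ g) := fun g => hM.conj g
  have huniq' : ∀ g M', BadMax (X g) M' → M' = μ g := by
    intro g M' h
    have h1 := h.conj g⁻¹
    rw [hXc, inv_mul_cancel] at h1
    simp only [hX, map_one, one_smul] at h1
    have h2 := huniq _ h1
    simp only [hμ]
    rw [← h2, conj_smul_conj_smul]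
    simp
  have hXtop : ∀ g, normalClosure ((X g : Subgroup G) : Set G) = ⊤ := fun g => by
    rw [← hA]; exact normalClosure_conj_smul A g
  have hμN : ∀ g, normalizer ((μ g : Subgroup G) : Set G) = μ g := fun g =>
    normalizer_eq_of_normalClosure_eq_top (hXtop g) (hbad g).1 (hbad g).2.1
  have hμfix : ∀ g x, x ∈ μ g → μ (x * g) = μ g := fun g x hx => by
    rw [← hμc]; exact mem_normalizer_iff_conj_smul.1 (le_normalizer hx)
  -- (F1)
  have F1 : ∀ g, normalizer ((X g : Subgroup G) : Set G) ≤ μ g := by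
    intro g x hx
    have h1 := (hbad g).conj x
    rw [mem_normalizer_iff_conj_smul.1 hx] at h1
    rw [← hμN g]
    exact mem_normalizer_iff_conj_smul.2 (huniq' g _ h1)
  -- (F5)
  have F5 : ∀ g h (K₁ K₂ : Subgroup G), IsCoatom K₁ → IsCoatom K₂ → K₁ ≠ K₂ → X g ≤ K₁ → X g ≤ K₂ →
      X h ≤ K₁ → X h ≤ K₂ → X g ≠ X h → μ g ≠ μ h ∧ X g ≤ μ h ∧ X h ≤ μ g := by
    intro g h K₁ K₂ k₁ k₂ kne a₁ a₂ b₁ b₂ hgh
    have hidx : ∀ g, (X g).index = n := fun g => by
      rw [← hn]; exact Subgroup.index_map_equiv A (MulAut.conj g)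
    have hlt : X g < X g ⊔ X h := by
      refine lt_of_le_of_ne le_sup_left fun h' => hgh ?_
      have hle : X h ≤ X g := h' ▸ le_sup_right
      have h3 := relIndex_mul_index hle
      rw [hidx, hidx] at h3
      have h4 : (X h).relIndex (X g) = 1 := by
        have : 0 < n := hn ▸ Nat.pos_of_ne_zero index_ne_zero_of_finite
        nlinarith
      exact le_antisymm (relIndex_eq_one.1 h4) hle
    have htop : normalClosure ((X g ⊔ X h : Subgroup G) : Set G) = ⊤ := by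
      rw [eq_top_iff, ← hXtop g]
      exact normalClosure_mono (le_sup_left : X g ≤ X g ⊔ X h)
    obtain ⟨M₁, M₂, hM12, hb₁, hb₂⟩ := ih _ (hidx g ▸ index_strictAnti hlt) (X g ⊔ X h) rfl htop
      K₁ K₂ k₁ k₂ kne (sup_le a₁ b₁) (sup_le a₂ b₂)
    have key : ∀ M', BadMax (X g ⊔ X h) M' → M' = μ g ∨ M' = μ h := by
      intro M' hb
      by_contra hc
      rw [not_or] at hc
      apply hb.2.2
      apply SnIn.sup
      · by_contra h'
        exact hc.1 (huniq' g M' ⟨hb.1, le_sup_left.trans hb.2.1, h'⟩)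
      · by_contra h'
        exact hc.2 (huniq' h M' ⟨hb.1, le_sup_right.trans hb.2.1, h'⟩)
    rcases key _ hb₁ with e₁ | e₁ <;> rcases key _ hb₂ with e₂ | e₂
    · exact absurd (e₁.trans e₂.symm) hM12
    · exact ⟨e₁ ▸ e₂ ▸ hM12, e₂ ▸ le_sup_left.trans hb₂.2.1, e₁ ▸ le_sup_right.trans hb₁.2.1⟩
    · exact ⟨e₁ ▸ e₂ ▸ hM12.symm, e₁ ▸ le_sup_left.trans hb₁.2.1, e₂ ▸ le_sup_right.trans hb₂.2.1⟩
    · exact absurd (e₁.trans e₂.symm) hM12
  -- (F2)
  have F2 : ∀ g x (K : Subgroup G), IsCoatom K → K ≠ μ g → X g ≤ K → x ∈ μ g → X (x * g) ≤ K →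
      X (x * g) = X g := by
    intro g x K hK hKne h1 hx h2
    by_contra hne'
    exact (F5 _ _ K (μ g) hK (hbad g).1 hKne h2 (hμfix g x hx ▸ (hbad (x * g)).2.1) h1
      (hbad g).2.1 hne').1 (hμfix g x hx)
  -- (F3)
  have F3 : ∀ g (K : Subgroup G), IsCoatom K → K ≠ μ g → X g ≤ K →
      K ⊓ μ g ≤ normalizer ((X g : Subgroup G) : Set G) := by
    intro g K hK hKne h1 x hx
    rw [mem_normalizer_iff_conj_smul, hXc]
    exact F2 g x K hK hKne h1 hx.2 (hXc x g ▸ conj_smul_le_of_mem h1 hx.1)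
  -- the main claim
  have main : ∀ a b, μ a ≠ μ b → X a ≤ μ b → X b ≤ μ a →
      ∃ z, X z ≤ μ a ∧ ¬ X z ≤ μ b ∧
        X z ≤ normalizer ((sSup {U | (∃ g, U = X g) ∧ U ≤ μ a ⊓ μ b} : Subgroup G) : Set G) := by
    intro a b hab hXa hXb
    have hXab : X a ≠ X b := fun h => hab (huniq' b _ (h ▸ hbad a))
    -- every member of the line other than `X a` is normalized by `X a`
    have hnorm : ∀ g, X g ≤ μ a → X g ≤ μ b → X g ≠ X a →
        X a ≤ normalizer ((X g : Subgroup G) : Set G) := by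
      intro g h1 h2 h3
      obtain ⟨k1, k2, k3⟩ := F5 g a _ _ (hbad a).1 (hbad b).1 hab h1 h2 (hbad a).2.1 hXa h3
      exact (le_inf (hbad a).2.1 k3).trans (F3 g (μ a) (hbad a).1 k1.symm k2)
    have hfix : ∀ x ∈ μ a, X (x⁻¹ * b) ≤ μ b → X (x * a) = X a := by
      intro x hx h1
      have h0 : X (x⁻¹ * b) ≤ μ a := hXc x⁻¹ b ▸ conj_smul_le_of_mem hXb (inv_mem hx)
      have h2 : X (x⁻¹ * b) ≠ X a := by
        intro h
        have h3 := huniq' a _ (h ▸ hbad (x⁻¹ * b))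
        apply hab
        have h4 : μ b = μ (x * (x⁻¹ * b)) := by rw [mul_inv_cancel_left]
        rw [h4, ← hμc, h3, hμc, hμfix a x hx]
      have h3 := hnorm _ h0 h1 h2
      have h4 : X (x * a) ≤ μ b := by
        refine le_trans ?_ (F1 b)
        have h5 : X b = MulAut.conj x • X (x⁻¹ * b) := by rw [hXc, mul_inv_cancel_left]
        rw [h5, normalizer_conj_smul, ← hXc]
        exact pointwise_smul_le_pointwise_smul_iff.2 h3
      exact F2 a x (μ b) (hbad b).1 hab.symm hXa hx h4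
    set S : Set (Subgroup G) := {U | (∃ g, U = X g) ∧ SnIn U (μ a)} with hS
    set S₀ : Set (Subgroup G) := {U | U ∈ S ∧ U ≤ μ b} with hS₀
    have hbS : X b ∈ S := ⟨⟨b, rfl⟩, by
      by_contra h
      exact hab (huniq' b _ ⟨(hbad a).1, hXb, h⟩)⟩
    have hSconj : ∀ U ∈ S, ∀ g ∈ μ a, MulAut.conj g • U ∈ S := by
      rintro U ⟨⟨u, rfl⟩, hU⟩ g hg
      exact ⟨⟨g * u, hXc g u⟩, hU.conj_of_mem hg⟩
    have hss : S₀ ⊂ S := by
      refine ⟨fun U hU => hU.1, fun hsub => (hbad a).2.2 ?_⟩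
      refine SnIn.of_normal (hbad a).2.1 fun x hx => ?_
      rw [mem_normalizer_iff_conj_smul, hXc]
      apply hfix x hx
      rw [← hXc]
      exact (hsub (hSconj _ hbS _ (inv_mem hx))).2
    obtain ⟨Z, hZS, hZS₀, hZ⟩ := SnIn.exists_le_normalizer_sSup (fun U hU => hU.2) hSconj hss
    obtain ⟨⟨z, rfl⟩, hz⟩ := hZS
    refine ⟨z, hz.le, fun h => hZS₀ ⟨⟨⟨z, rfl⟩, hz⟩, h⟩, ?_⟩
    have hF : sSup S₀ ≤ μ b := sSup_le fun U hU => hU.2
    have hFE : sSup S₀ ≤ sSup {U | (∃ g, U = X g) ∧ U ≤ μ a ⊓ μ b} :=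
      sSup_le_sSup fun U hU => ⟨hU.1.1, le_inf hU.1.2.le hU.2⟩
    apply le_normalizer_sSup_of_conj
    rintro x hx U ⟨⟨u, rfl⟩, hU⟩
    by_cases hua : X u = X a
    · rw [hua, hXc, hfix x (hz.le hx)]
      · exact le_sSup ⟨⟨a, rfl⟩, le_inf (hbad a).2.1 hXa⟩
      · rw [← hXc]
        exact (conj_smul_le_of_mem_normalizer (le_sSup (show X b ∈ S₀ from ⟨hbS, (hbad b).2.1⟩))
          (inv_mem (hZ hx))).trans hF
    · have huS : X u ∈ S₀ := by
        refine ⟨⟨⟨u, rfl⟩, ?_⟩, hU.trans inf_le_right⟩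
        by_contra h
        exact (F5 u a _ _ (hbad a).1 (hbad b).1 hab (hU.trans inf_le_left) (hU.trans inf_le_right)
          (hbad a).2.1 hXa hua).1 (huniq' u _ ⟨(hbad a).1, hU.trans inf_le_left, h⟩).symm
      exact (conj_smul_le_of_mem_normalizer (le_sSup huS) (hZ hx)).trans hFE
  -- a line with two points
  obtain ⟨H, hH, hHM, hAH⟩ : ∃ H, IsCoatom H ∧ H ≠ M ∧ A ≤ H := by
    by_cases h : H₁ = M
    · exact ⟨H₂, h₂, fun h' => hne (h.trans h'.symm), hA₂⟩
    · exact ⟨H₁, h₁, h, hA₁⟩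
  have hX1 : X 1 = A := by simp [hX]
  have hμ1 : μ 1 = M := by simp [hμ]
  have hsn : SnIn A H := by
    by_contra h
    exact hHM (huniq _ ⟨hH, hAH, h⟩)
  obtain ⟨b, hb1, hbH, hbM⟩ : ∃ b, X 1 ≠ X b ∧ X b ≤ H ∧ X b ≤ M := by
    have hss : ({A} : Set (Subgroup G)) ⊂ {U | ∃ g ∈ H, U = X g} := by
      refine ⟨?_, fun hsub => hHM ?_⟩
      · rintro _ rfl
        exact ⟨1, H.one_mem, hX1.symm⟩
      · have : H ≤ M := by
          rw [← hμ1]
          refine le_trans (fun x hx => ?_) (F1 1)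
          rw [hX1, mem_normalizer_iff_conj_smul]
          exact hsub ⟨x, hx, rfl⟩
        exact ((hH.le_iff_eq hM.1.1).1 this).symm
    obtain ⟨Z, ⟨b, hb, rfl⟩, hZ, hZn⟩ := SnIn.exists_le_normalizer_sSup (T := H)
      (by rintro U ⟨g, hg, rfl⟩; exact hsn.conj_of_mem hg)
      (by rintro U ⟨g, hg, rfl⟩ x hx; exact ⟨x * g, H.mul_mem hx hg, hXc x g⟩) hss
    rw [sSup_singleton, ← hX1] at hZn
    exact ⟨b, fun h => hZ (h.symm.trans hX1), conj_smul_le_of_mem hAH hb, hμ1 ▸ hZn.trans (F1 1)⟩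
  obtain ⟨k1, k2, k3⟩ := F5 1 b H M hH hM.1 hHM (hX1 ▸ hAH) (hX1 ▸ hM.2.1) hbH hbM hb1
  obtain ⟨z, hz1, hz2, hz3⟩ := main 1 b k1 k2 k3
  obtain ⟨w, hw1, hw2, hw3⟩ := main b 1 k1.symm k3 k2
  rw [inf_comm] at hw3
  set E : Subgroup G := sSup {U | (∃ g, U = X g) ∧ U ≤ μ 1 ⊓ μ b} with hE
  have hbE : X b ≤ E := le_sSup ⟨⟨b, rfl⟩, le_inf k3 (hbad b).2.1⟩
  obtain ⟨K, hK, hNK⟩ := exists_coatom_ge_normalizer (hXtop b) hbE
    (sSup_le fun U hU => hU.2.trans inf_le_left) (hbad 1).1.1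
  have hK1 : K ≠ μ 1 := fun h => hw2 (h ▸ hw3.trans hNK)
  exact hz2 (F5 z b K (μ 1) hK (hbad 1).1 hK1 (hz3.trans hNK) hz1
    (hbE.trans (le_normalizer.trans hNK)) k3 (fun h => hz2 (h ▸ (hbad b).2.1))).2.1

/-- existence of the subnormal closure -/
theorem exists_subnormal_closure [Finite G] {A H : Subgroup G} (hAH : A ≤ H) :
    ∃ K, A ≤ K ∧ SnIn K H ∧ normalClosure ((A.subgroupOf K : Subgroup K) : Set K) = ⊤ := by
  obtain ⟨K, ⟨hAK, hK⟩, hmin⟩ := WellFounded.has_min (wellFounded_lt (α := Subgroup G))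
    {K | A ≤ K ∧ SnIn K H} ⟨H, hAH, SnIn.refl H⟩
  refine ⟨K, hAK, hK, ?_⟩
  set N := normalClosure ((A.subgroupOf K : Subgroup K) : Set K) with hN
  have h1 : SnIn (N.map K.subtype) K := SnIn.map_subtype (Normal.isSubnormal inferInstance)
  have h2 : A ≤ N.map K.subtype := fun x hx => ⟨⟨x, hAK hx⟩, subset_normalClosure hx, rfl⟩
  have h3 : N.map K.subtype = K := by
    by_contra h
    exact hmin _ ⟨h2, h1.trans hK⟩ (lt_of_le_of_ne h1.le h)
  rw [eq_top_iff]
  intro x _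
  have : (x : G) ∈ N.map K.subtype := by rw [h3]; exact x.2
  obtain ⟨y, hy, hyx⟩ := this
  exact (Subtype.ext hyx : y = x) ▸ hy

end Cfsg.Agent.H94
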