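import Mathlib
import Cfsg.Agent.S3796
import Cfsg.Agent.S0117
import Cfsg.Agent.S0021
import Cfsg.Agent.H1.TwoPrimes
import Cfsg.Agent.H51.Thompson
import Cfsg.Agent.H67.Fit

/-! Coprime action of an elementary abelian group of order `q²` with abelian fixed-point subgroups:
the local analysis of a minimal non-solvable example. -/

set_option autoImplicit false
set_option linter.unusedSectionVars false

namespace Cfsg.Agent.H94.AbCent

open Cfsg Cfsg.Agent.H63 Cfsg.Agent.H67 Cfsg.Agent.H69 Cfsg.Agent.H88 Subgroup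
open scoped IsMulCommutative commutatorElement Pointwise

universe u

variable {X : Type u} [Group X] [Finite X]

/-- The situation of a minimal counterexample. -/
structure St (q : ℕ) (A K : Subgroup X) : Prop where
  hq : q.Prime
  el : IsElementaryAbelian q A
  card : Nat.card A = q * q
  norm : A ≤ N[K]
  cop : (Nat.card A).Coprime (Nat.card K)
  ab : ∀ a ∈ A, a ≠ 1 → IsMulCommutative ↥(K ⊓ C1[a])
  fpf : K ⊓ C[A] = ⊥
  sub : ∀ H, H < K → A ≤ N[H] → Group.IsSolvable H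
  simp : ∀ U, U ⊴ K → A ≤ N[U] → U = ⊥ ∨ U = K
  nsol : ¬ Group.IsSolvable K

theorem nc_of {q : ℕ} (hq : q.Prime) {A : Subgroup X} (hA : IsElementaryAbelian q A)
    (hcard : Nat.card A = q * q) : ¬ IsCyclic A := by
  intro hc
  have h1 := card_le_of_abelem_of_isCyclic hq hA.2 hc
  rw [hcard] at h1
  have := Nat.le_of_dvd hq.pos h1
  nlinarith [hq.one_lt]

theorem norm_cent1 {A H : Subgroup X} (hA : IsMulCommutative A) (hH : A ≤ N[H]) {a : X}
    (ha : a ∈ A) : A ≤ N[H ⊓ C1[a]] := by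
  refine le_normalizer_inf hH ?_
  rw [← centralizer_zpowers]
  exact le_normalizer_centralizer (normalIn_of_isMulCommutative hA (zpowers_le.2 ha)).norm

variable {q : ℕ} {A K : Subgroup X}

namespace St

theorem nc (h : St q A K) : ¬ IsCyclic A := nc_of h.hq h.el h.card

theorem solA (h : St q A K) : Group.IsSolvable A := isSolvable_of_isMulCommutative h.el.1

theorem copH (h : St q A K) {H : Subgroup X} (hH : H ≤ K) : (Nat.card A).Coprime (Nat.card H) :=
  cop_le h.cop le_rfl hH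

theorem gen (h : St q A K) {H L : Subgroup X} (hH : H ≤ K) (hA : A ≤ N[H])
    (hL : ∀ a ∈ A, a ≠ 1 → H ⊓ C1[a] ≤ L) : H ≤ L :=
  coprime_abelian_gen_cent1 h.el.1 h.nc hA (h.copH hH) hL

theorem nc1 (h : St q A K) {H : Subgroup X} (hH : A ≤ N[H]) {a : X} (ha : a ∈ A) :
    A ≤ N[H ⊓ C1[a]] := norm_cent1 h.el.1 hH ha

theorem card_zp (h : St q A K) {a : X} (ha : a ∈ A) (h1 : a ≠ 1) :
    (Nat.card (zpowers a)).Prime := by
  rw [Nat.card_zpowers, elemAb_orderOf h.hq h.el ha h1]; exact h.hq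

theorem zp_eq (h : St q A K) {a b : X} (ha : a ∈ A) (h1 : a ≠ 1) (hb : b ∈ zpowers a)
    (hb1 : b ≠ 1) : zpowers b = zpowers a := zpowers_eq_of_card_prime (h.card_zp ha h1) hb hb1

theorem c1_eq (h : St q A K) {a b : X} (ha : a ∈ A) (h1 : a ≠ 1) (hb : b ∈ zpowers a)
    (hb1 : b ≠ 1) : C1[b] = C1[a] := by
  rw [← centralizer_zpowers, h.zp_eq ha h1 hb hb1, centralizer_zpowers]

theorem two (h : St q A K) {a b : X} (ha : a ∈ A) (h1 : a ≠ 1) (hb : b ∈ A)
    (hba : b ∉ zpowers a) {H : Subgroup X} (hH : H ≤ K) (hHa : H ≤ C1[a]) : H ⊓ C1[b] = ⊥ := by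
  have hb1 : b ≠ 1 := fun e => hba (e ▸ one_mem _)
  have hsup : zpowers a ⊔ zpowers b = A := by
    by_contra hh
    have := eq_of_sup_ne_pq h.hq h.hq h.card _ _ (zpowers_le.2 ha) (zpowers_le.2 hb)
      (zpowers_ne_bot' h1) (zpowers_ne_bot' hb1) hh
    exact hba (this ▸ mem_zpowers b)
  rw [eq_bot_iff, ← h.fpf, ← hsup, centralizer_sup, centralizer_zpowers, centralizer_zpowers]
  exact le_inf (inf_le_left.trans hH) (le_inf (inf_le_left.trans hHa) inf_le_right)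

theorem comm (h : St q A K) {a : X} (ha : a ∈ A) (h1 : a ≠ 1) {U V : Subgroup X} (hU : U ≤ K)
    (hV : V ≤ K) : U ⊓ C1[a] ≤ C[V ⊓ C1[a]] :=
  le_cent_of_comm (h.ab a ha h1) (inf_le_inf_right _ hU) (inf_le_inf_right _ hV)

theorem solN (h : St q A K) {U : Subgroup X} (hU : U ≤ K) (h1 : U ≠ ⊥) (hA : A ≤ N[U])
    (hs : Group.IsSolvable U) : Group.IsSolvable ↥(K ⊓ N[U]) := by
  refine h.sub _ (lt_of_le_of_ne inf_le_left fun e => ?_)
    (le_normalizer_inf h.norm (le_normalizer_normalizer hA))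
  rcases h.simp U ⟨hU, e ▸ inf_le_right⟩ hA with h2 | h2
  · exact h1 h2
  · exact h.nsol (h2 ▸ hs)

theorem cj_eq (h : St q A K) {H T : Subgroup X} (hH : H ≤ K) {c : X} (hc : c ∈ H ⊓ C[A]) :
    cj c T = T := by
  have : c = 1 := by
    have h2 : c ∈ K ⊓ C[A] := ⟨hH hc.1, hc.2⟩
    rw [h.fpf] at h2
    exact h2
  rw [this, cj_one]

theorem le_hall (h : St q A K) {π : Set ℕ} {H M U : Subgroup X} (hH : H ≤ K) (hA : A ≤ N[H])
    (hs : Group.IsSolvable H) (hM : IsPiHallOf π M H) (hAM : A ≤ N[M]) (hU : U ≤ H)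
    (hπ : IsPiSubgroup π U) (hAU : A ≤ N[U]) : U ≤ M := by
  obtain ⟨M', h1, h2, h3⟩ := coprime_hall_subset hA (h.copH hH) hs hU hπ hAU
  obtain ⟨c, hc, e⟩ := coprime_hall_trans hA (h.copH hH) hs hM hAM h1 h2
  rw [e, h.cj_eq hH hc] at h3
  exact h3

theorem le_syl (h : St q A K) {p : ℕ} [Fact p.Prime] {P U : Subgroup X}
    (hP : IsSyl p P K) (hAP : A ≤ N[P]) (hU : U ≤ K)
    (hp : IsPGroup p U) (hAU : A ≤ N[U]) : U ≤ P := by
  obtain ⟨M', h1, h2, h3⟩ := coprime_syl_subset h.norm h.cop (Or.inl h.solA) hU hp hAU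
  obtain ⟨c, hc, e⟩ := coprime_syl_trans h.norm h.cop (Or.inl h.solA) hP hAP h1 h2
  rw [e, h.cj_eq le_rfl hc] at h3
  exact h3

/-- The key lemma on the action of fixed points of one element on an invariant section. -/
theorem key (h : St q A K) {U Y : Subgroup X} (hU : U ≤ K) (hY : Y ≤ K) (hAU : A ≤ N[U])
    (hAY : A ≤ N[Y]) (hs : Group.IsSolvable U) (hc : (Nat.card Y).Coprime (Nat.card U))
    (hn : Y ≤ N[U]) {a b : X} (ha : a ∈ A) (h1 : a ≠ 1) (hb : b ∈ A) (hba : b ∉ zpowers a)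
    (hYa : Y ≤ C1[a]) (hcb : U ⊓ C1[b] ≤ C[Y]) : Y ≤ C[U] := by
  have hb1 : b ≠ 1 := fun e => hba (e ▸ one_mem _)
  set W := ⁅U, Y⁆ with hW
  by_cases hW1 : W = ⊥
  · exact cent_symm (le_cent_of_commutator_eq_bot hW1)
  exfalso
  have hWU : W ≤ U := commutator_le_of_norm_left hn
  have hsW : Group.IsSolvable W := isSolvable_of_le hs hWU
  have hYW : Y ≤ N[W] := le_norm_commutator_right U Y
  have hAW : A ≤ N[W] := le_normalizer_commutator hAU hAY
  have hWW : ⁅W, Y⁆ = W := coprime_commGid hn hc (Or.inr hs)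
  set D := ⁅W, W⁆ with hD
  have hDW : D < W := commutator_lt_of_isSolvable hsW hW1
  have hWD : W ≤ N[D] := le_normalizer_derived W
  have hYD : Y ≤ N[D] := le_normalizer_commutator hYW hYW
  have hAD : A ≤ N[D] := le_normalizer_commutator hAW hAW
  have hBA : zpowers b ≤ A := zpowers_le.2 hb
  have hV1 : W /ᵍ D ≠ ⊥ := quo_ne_bot hDW hWD
  have hVc : IsMulCommutative (W /ᵍ D) := quo_isMulCommutative_of_der_le le_rfl
  have hVY : ⁅W /ᵍ D, Y /ᵍ D⁆ = W /ᵍ D := by rw [← quo_commutator hWD hYD, hWW]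
  have hcYV : (Nat.card (Y /ᵍ D)).Coprime (Nat.card (W /ᵍ D)) :=
    coprime_quo D (cop_le hc le_rfl hWU)
  have hTI : W /ᵍ D ⊓ C[Y /ᵍ D] = ⊥ := by
    have := coprime_abel_cent_TI (quo_norms D hYW) hcYV hVc
    rwa [hVY] at this
  have hY1 : Y /ᵍ D ≠ ⊥ := fun e => hV1 (by rw [← hVY, e, commutator_bot_right])
  have hBc : (Nat.card (zpowers b /ᵍ D)).Prime := by
    rw [card_quo_of_disjoint (hBA.trans hAD)
      (inf_eq_bot_of_coprime' (cop_le h.cop hBA (hDW.le.trans (hWU.trans hU))).symm)]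
    exact h.card_zp hb hb1
  have hsB : Group.IsSolvable (zpowers b) := isSolvable_of_le h.solA hBA
  have hF := Frobenius_of_prime (quo_norms D (hBA.trans hAY)) hBc (by
    rw [← coprime_norm_quo_cent_of_coprime (hBA.trans hAY) (hBA.trans hAD)
      (cop_le h.cop hBA hY) (Or.inl hsB), centralizer_zpowers, h.two ha h1 hb hba hY hYa,
      bot_quo]) hY1
  refine Frobenius_cent_compl hF hVc (sup_le (quo_norms D hYW) (quo_norms D (hBA.trans hAW)))
    hcYV.symm (fun hh => hV1 ?_) ?_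
  · rw [← hTI]; exact (inf_eq_left.2 (cent_symm hh)).symm
  · rw [eq_bot_iff, ← hTI]
    refine le_inf inf_le_left ?_
    rw [← coprime_norm_quo_cent_of_coprime (hBA.trans hAW) (hBA.trans hAD)
      (cop_le h.cop hBA (hWU.trans hU)) (Or.inl hsB), centralizer_zpowers]
    exact quo_cents D ((inf_le_inf_right _ hWU).trans hcb)

/-- If `Y` acts non-trivially on `U`, some `C_Y(a)` does, and then no `C_U(b)` with `b ∉ ⟨a⟩` is
centralised by it. -/
theorem key' (h : St q A K) {U Y : Subgroup X} (hU : U ≤ K) (hY : Y ≤ K) (hAU : A ≤ N[U])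
    (hAY : A ≤ N[Y]) (hs : Group.IsSolvable U) (hc : (Nat.card Y).Coprime (Nat.card U))
    (hn : Y ≤ N[U]) {a : X} (ha : a ∈ A) (h1 : a ≠ 1) (hnc : ¬ Y ⊓ C1[a] ≤ C[U])
    {b : X} (hb : b ∈ A) (hba : b ∉ zpowers a) : ¬ U ⊓ C1[b] ≤ C[Y ⊓ C1[a]] := fun hh =>
  hnc (h.key hU (inf_le_left.trans hY) hAU (h.nc1 hAY ha) hs (cop_le hc inf_le_left le_rfl)
    (inf_le_left.trans hn) ha h1 hb hba inf_le_right hh)

theorem exists_nc (h : St q A K) {U Y : Subgroup X} (hY : Y ≤ K) (hAY : A ≤ N[Y])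
    (hnc : ¬ Y ≤ U) : ∃ a ∈ A, a ≠ 1 ∧ ¬ Y ⊓ C1[a] ≤ U := by
  by_contra hh
  push Not at hh
  exact hnc (h.gen hY hAY hh)

theorem hall_sup_fit (h : St q A K) {π : Set ℕ} {H Y : Subgroup X} (hH : H ≤ K) (hA : A ≤ N[H])
    (hs : Group.IsSolvable H) (hY : IsPiHallOf π Y H) : H ≤ N[fittingOf H ⊔ Y] := by
  obtain ⟨F, hF, h1, h2⟩ := (S3796.rel h.hq h.el h.card hA (h.copH hH) hs
    (fpf_mono h.fpf hH)).exists_of_two
  have hFn : F.map H.subtype ⊴ H := map_subtype_normalIn F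
  have hF1 : Group.IsNilpotent (F.map H.subtype) :=
    Group.nilpotent_of_mulEquiv (F.equivMapOfInjective H.subtype H.subtype_injective)
  have h3 : Group.IsNilpotent (H /ᵍ F.map H.subtype) :=
    Group.nilpotent_of_mulEquiv (quoEquiv hFn.norm F (subgroupOf_map_subtype' F).symm)
  have hn := le_normalizer_fittingOf_self H
  have h4 : Group.IsNilpotent (H /ᵍ fittingOf H) :=
    quo_isNilpotent_of_le hFn.norm hn (inf_le_left.trans (le_fittingOf hFn hF1)) h3
  exact le_norm_sup_of_quo hn ((hall_le hY).trans hn)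
    (hall_normalIn_of_isNilpotent h4 (quo_isPiHallOf hn hY)).norm

theorem npc (h : St q A K) {p : ℕ} (hp : p.Prime) {H Y : Subgroup X} (hH : H ≤ K)
    (hA : A ≤ N[H]) (hs : Group.IsSolvable H) (hY : IsPiHallOf {p}ᶜ Y H)
    (hc : Y ≤ C[O[{p}](H)]) : NormalPCompl p H := by
  have h1 := h.hall_sup_fit hH hA hs hY
  have h2 : fittingOf H ⊔ Y = O[{p}](H) ⊔ Y := by
    apply le_antisymm
    · exact sup_le ((fittingOf_le_pCoreOf_sup hp H).trans
        (sup_le_sup_left (piCoreOf_le_hall hY) _)) le_sup_right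
    · exact sup_le_sup_right (pCoreOf_le_fittingOf hp H) _
  rw [h2] at h1
  have h3 : O[{p}](H) ⊔ Y ≤ H := sup_le (piCoreOf_le _ _) (hall_le hY)
  refine normalPCompl_of_normal_hall hY (normalIn_of_normal_hall
    (hall_of_le hY le_sup_right h3)
    (normalIn_sup_right (le_normalizer_of_le_centralizer' hc)) ⟨h3, h1⟩)

theorem not_npc (h : St q A K) {p : ℕ} (hp : p.Prime) (hd : p ∣ Nat.card K) :
    ¬ NormalPCompl p K := by
  intro hn
  rcases h.simp _ (piCoreOf_normalIn {p}ᶜ K) (le_normalizer_piCoreOf h.norm) with h1 | h1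
  · have h2 := hn.hall
    rw [h1] at h2
    have h3 := isPi_compl_of_hall_bot h2
    rw [compl_compl] at h3
    exact h.nsol (isSolvable_of_isPGroup hp (isPGroup_of_isPi hp h3))
  · have h2 := isPi_piCoreOf {p}ᶜ K
    rw [h1] at h2
    exact (isPi_compl_singleton_iff hp).1 h2 hd

/-- For odd `p` the invariant Sylow subgroup meets all but one of the fixed-point subgroups. -/
theorem supp_odd (h : St q A K) {p : ℕ} [hp : Fact p.Prime] (hp2 : p ≠ 2) {P : Subgroup X}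
    (hP : IsSyl p P K) (hAP : A ≤ N[P]) (h1 : P ≠ ⊥) :
    ∃ a ∈ A, a ≠ 1 ∧ ∀ d ∈ A, d ∉ zpowers a → P ⊓ C1[d] ≠ ⊥ := by
  have hPp := syl_isPGroup hP
  set W := centerThompsonOf p P with hW
  have hWP : W ≤ P := H51.centerThompsonOf_le p P
  have hAW : A ≤ N[W] := hAP.trans (H51.normalizer_le_normalizer_centerThompsonOf p P)
  have hW1 : W ≠ ⊥ := H51.centerThompsonOf_ne_bot hPp h1
  have hs := h.solN (hWP.trans (hall_le hP)) hW1 hAW
    (isSolvable_of_isPGroup hp.out (hPp.to_le hWP))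
  have hAH : A ≤ N[K ⊓ N[W]] := le_normalizer_inf h.norm (le_normalizer_normalizer hAW)
  have hnn : ¬ NormalPCompl p (K ⊓ N[W]) := by
    intro hn
    apply h.not_npc hp.out (dvd_card_of_syl_ne_bot hP h1)
    obtain ⟨S, hS⟩ := exists_sylow_map hP
    rw [normalPCompl_iff_has, S0117.result hp2 S, ← normalPCompl_iff_has]
    have e : (N[centerThompsonOf p (S : Subgroup K)]).map K.subtype = K ⊓ N[W] := by
      rw [map_subtype_normalizer, H51.map_centerThompsonOf p _ K.subtype_injective, hS]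
    have h2 : NormalPCompl p ((K ⊓ N[W]).subgroupOf K) := by
      rw [normalPCompl_iff_has] at hn ⊢
      exact (H8.hasNormalPComplement_subgroupOf_iff inf_le_left).2 hn
    rwa [← e, subgroupOf_map_subtype'] at h2
  obtain ⟨Y, hY, hAY⟩ := coprime_hall_exists {p}ᶜ hAH (h.copH inf_le_left) hs
  have hnc : ¬ Y ≤ C[O[{p}](K ⊓ N[W])] := fun hh => hnn (h.npc hp.out inf_le_left hAH hs hY hh)
  have hYK : Y ≤ K := (hall_le hY).trans inf_le_left
  obtain ⟨a, ha, ha1, hna⟩ := h.exists_nc hYK hAY hnc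
  have hUK : O[{p}](K ⊓ N[W]) ≤ K := (piCoreOf_le _ _).trans inf_le_left
  have hAU : A ≤ N[O[{p}](K ⊓ N[W])] := le_normalizer_piCoreOf hAH
  refine ⟨a, ha, ha1, fun d hd hda e => ?_⟩
  refine h.key' hUK hYK hAU hAY (isSolvable_of_le hs (piCoreOf_le _ _))
    (isPi_coprime' (hall_isPi hY) (isPi_piCoreOf _ _))
    ((hall_le hY).trans (le_normalizer_piCoreOf_self _ _)) ha ha1 hna hd hda ?_
  refine le_trans ?_ bot_le
  rw [← e]
  exact inf_le_inf_right _ (h.le_syl hP hAP hUK (isPGroup_pCoreOf hp.out _) hAU)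

/-- An invariant Sylow subgroup is not centralised by an element of `A`. -/
theorem supp_two (h : St q A K) {r : ℕ} [hr : Fact r.Prime] {R : Subgroup X}
    (hR : IsSyl r R K) (hAR : A ≤ N[R]) (h1 : R ≠ ⊥) {b : X} (hb : b ∈ A) (hb1 : b ≠ 1) :
    ∃ d ∈ A, d ∉ zpowers b ∧ R ⊓ C1[d] ≠ ⊥ := by
  by_contra hcon
  push Not at hcon
  have hRK := hall_le hR
  have hRp := syl_isPGroup hR
  have hRb : R ≤ C1[b] := by
    refine h.gen hRK hAR fun d hd hd1 => ?_
    by_cases hdb : d ∈ zpowers b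
    · rw [h.c1_eq hb hb1 hdb hd1]; exact inf_le_right
    · rw [hcon d hd hdb]; exact bot_le
  have hsR := isSolvable_of_isPGroup hr.out hRp
  have hs := h.solN hRK h1 hAR hsR
  have hAH : A ≤ N[K ⊓ N[R]] := le_normalizer_inf h.norm (le_normalizer_normalizer hAR)
  obtain ⟨Y, hY, hAY⟩ := coprime_hall_exists {r}ᶜ hAH (h.copH inf_le_left) hs
  have hYK : Y ≤ K := (hall_le hY).trans inf_le_left
  have hRR : R ≤ C[R] := by
    have := h.comm hb hb1 hRK hRK
    rwa [inf_eq_left.2 hRb] at this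
  have hYR : Y ≤ C[R] := by
    by_contra hnc
    obtain ⟨a, ha, ha1, hna⟩ := h.exists_nc hYK hAY hnc
    have hab : a ∉ zpowers b := by
      intro hh
      have := h.comm hb hb1 hYK hRK
      rw [inf_eq_left.2 hRb, ← h.c1_eq hb hb1 hh ha1] at this
      exact hna this
    have h2 : a * b ∉ zpowers a := by
      intro hh
      have h3 : b ∈ zpowers a := (mul_mem_cancel_left (mem_zpowers a)).1 hh
      exact hab (h.zp_eq ha ha1 h3 hb1 ▸ mem_zpowers a)
    have h3 : a * b ∉ zpowers b := fun hh => hab ((mul_mem_cancel_right (mem_zpowers b)).1 hh)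
    refine h.key' hRK hYK hAR hAY hsR (isPi_coprime' (hall_isPi hY) (hall_isPi hR))
      ((hall_le hY).trans inf_le_right) ha ha1 hna (mul_mem ha hb) h2 ?_
    rw [hcon _ (mul_mem ha hb) h3]
    exact bot_le
  apply h.not_npc hr.out (dvd_card_of_syl_ne_bot hR h1)
  refine Burnside_normal_complement hR ?_
  rw [← hall_sup_hall_compl (hall_of_le hR (le_inf hRK le_normalizer) inf_le_left) hY]
  exact sup_le hRR hYR

end St

/-- Maximal `A`-invariant `π`-subgroups of `K`. -/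
structure Mx (π : Set ℕ) (A K M : Subgroup X) : Prop where
  le : M ≤ K
  inv : A ≤ N[M]
  pi : IsPiSubgroup π M
  max : ∀ L, L ≤ K → A ≤ N[L] → IsPiSubgroup π L → M ≤ L → L = M

theorem exists_mx {π : Set ℕ} {T : Subgroup X} (h1 : T ≤ K) (h2 : A ≤ N[T])
    (h3 : IsPiSubgroup π T) : ∃ M, Mx π A K M ∧ T ≤ M := by
  obtain ⟨M, hM, ⟨a, b, c⟩, d⟩ := exists_maximal_ge
    (fun L => L ≤ K ∧ A ≤ N[L] ∧ IsPiSubgroup π L) ⟨h1, h2, h3⟩
  exact ⟨M, ⟨a, b, c, fun L x y z w => d L ⟨x, y, z⟩ w⟩, hM⟩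

theorem Mx.symm {p r : ℕ} {M : Subgroup X} (h : Mx {p, r} A K M) : Mx {r, p} A K M :=
  Set.pair_comm p r ▸ h

theorem sol_pair {p r : ℕ} (hp : p.Prime) (hr : r.Prime) {M : Subgroup X}
    (h : IsPiSubgroup {p, r} M) : Group.IsSolvable M :=
  H1.isSolvable_of_two_primes hp hr fun s hs hd => isPi_piNat h s hs hd

theorem core_pair {p r : ℕ} (hne : p ≠ r) {M : Subgroup X}
    (h : IsPiSubgroup {p, r} M) : O[{p}ᶜ](M) = O[{r}](M) := by
  refine piCoreOf_congr fun s hs hd => ?_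
  have := isPi_piNat h s hs hd
  simp only [Set.mem_insert_iff, Set.mem_singleton_iff, Set.mem_compl_iff] at this ⊢
  constructor
  · tauto
  · rintro rfl e; exact hne e.symm

theorem pi_left {p r : ℕ} (hp : p.Prime) {U : Subgroup X} (h : IsPGroup p U) :
    IsPiSubgroup {p, r} U := isPi_of_isPGroup_of_mem hp h (by simp)

theorem pi_right {p r : ℕ} (hr : r.Prime) {U : Subgroup X} (h : IsPGroup r U) :
    IsPiSubgroup {p, r} U := isPi_of_isPGroup_of_mem hr h (by simp)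

namespace St

theorem b0 (h : St q A K) {π : Set ℕ} {M U T : Subgroup X} (hM : Mx π A K M) (hU : U ≤ K)
    (h1 : U ≠ ⊥) (hAU : A ≤ N[U]) (hs : Group.IsSolvable U) (hMU : M ≤ N[U]) (hT : T ≤ K)
    (hTU : T ≤ N[U]) (hπ : IsPiSubgroup π T) (hAT : A ≤ N[T]) : T ≤ M := by
  have hsH := h.solN hU h1 hAU hs
  have hAH : A ≤ N[K ⊓ N[U]] := le_normalizer_inf h.norm (le_normalizer_normalizer hAU)
  obtain ⟨M', h2, h3, h4⟩ := coprime_hall_subset hAH (h.copH inf_le_left) hsH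
    (le_inf hM.le hMU) hM.pi hM.inv
  rw [← hM.max M' ((hall_le h2).trans inf_le_left) h3 (hall_isPi h2) h4]
  exact h.le_hall inf_le_left hAH hsH h2 h3 (le_inf hT hTU) hπ hAT

variable {p r : ℕ} [hp : Fact p.Prime] [hr : Fact r.Prime]

theorem b1h (h : St q A K) (hne : p ≠ r) {M L U W : Subgroup X} (hM : Mx {p, r} A K M)
    (hL : Mx {p, r} A K L) (hU : U ⊴ M) (hW : W ⊴ M) (hUp : IsPGroup p U) (hWr : IsPGroup r W)
    (hAU : A ≤ N[U]) (hU1 : U ≠ ⊥) (hUL : U ≤ L) (hWL : W ≤ L) : W ≤ O[{r}](L) := by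
  have h1 : L ⊓ N[U] ≤ M := h.b0 hM (hU.le.trans hM.le) hU1 hAU
    (isSolvable_of_isPGroup hp.out hUp) hU.norm (inf_le_left.trans hL.le) inf_le_right
    (isPi_of_le hL.pi inf_le_left) (le_normalizer_inf hL.inv (le_normalizer_normalizer hAU))
  rw [← core_pair hne hL.pi]
  refine le_trans (le_piCoreOf (hW.of_le (le_inf hWL (hW.le.trans hU.norm)) h1)
    (isPi_compl_of_isPGroup hr.out hWr hne.symm)) ?_
  exact p'core_norm_pgroup (sol_pair hp.out hr.out hL.pi) hUL hUp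

theorem b1h' (h : St q A K) (hne : p ≠ r) {M L W : Subgroup X} (hM : Mx {p, r} A K M)
    (hL : Mx {p, r} A K L) (hW : W ⊴ M) (hWr : IsPGroup r W)
    (hAW : A ≤ N[W]) (hW1 : W ≠ ⊥) (hWL : W ≤ O[{r}](L)) : O[{p}](L) ≤ M :=
  h.b0 hM (hW.le.trans hM.le) hW1 hAW (isSolvable_of_isPGroup hr.out hWr) hW.norm
    ((piCoreOf_le _ _).trans hL.le)
    (le_normalizer_of_le_centralizer ((pCoreOf_le_centralizer_of_ne hne L).trans
      (centralizer_anti hWL)))
    (pi_left hp.out (isPGroup_pCoreOf hp.out L)) (le_normalizer_piCoreOf hL.inv)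

theorem b1 (h : St q A K) (hne : p ≠ r) {M L U W : Subgroup X} (hM : Mx {p, r} A K M)
    (hL : Mx {p, r} A K L) (hU : U ⊴ M) (hW : W ⊴ M) (hUp : IsPGroup p U) (hWr : IsPGroup r W)
    (hAU : A ≤ N[U]) (hAW : A ≤ N[W]) (hU1 : U ≠ ⊥) (hW1 : W ≠ ⊥) (hUL : U ≤ L) (hWL : W ≤ L) :
    U ≤ O[{p}](L) ∧ W ≤ O[{r}](L) ∧ O[{p}](L) ≤ M ∧ O[{r}](L) ≤ M := by
  have h1 := h.b1h hne hM hL hU hW hUp hWr hAU hU1 hUL hWL
  have h2 := h.b1h hne.symm hM.symm hL.symm hW hU hWr hUp hAW hW1 hWL hUL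
  exact ⟨h2, h1, h.b1h' hne hM hL hW hWr hAW hW1 h1,
    h.b1h' hne.symm hM.symm hL.symm hU hUp hAU hU1 h2⟩

theorem b2 (h : St q A K) (hne : p ≠ r) {M L U W : Subgroup X} (hM : Mx {p, r} A K M)
    (hL : Mx {p, r} A K L) (hU : U ⊴ M) (hW : W ⊴ M) (hUp : IsPGroup p U) (hWr : IsPGroup r W)
    (hAU : A ≤ N[U]) (hAW : A ≤ N[W]) (hU1 : U ≠ ⊥) (hW1 : W ≠ ⊥) (hUL : U ≤ L) (hWL : W ≤ L) :
    L = M := by
  obtain ⟨a1, a2, a3, a4⟩ := h.b1 hne hM hL hU hW hUp hWr hAU hAW hU1 hW1 hUL hWL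
  obtain ⟨b1, b2, b3, b4⟩ := h.b1 hne hL hM (piCoreOf_normalIn _ _) (piCoreOf_normalIn _ _)
    (isPGroup_pCoreOf hp.out L) (isPGroup_pCoreOf hr.out L) (le_normalizer_piCoreOf hL.inv)
    (le_normalizer_piCoreOf hL.inv) (ne_bot_mono hU1 a1) (ne_bot_mono hW1 a2) a3 a4
  have c0 := ne_bot_mono (ne_bot_mono hU1 a1) b1
  obtain ⟨c1, -, -, -⟩ := h.b1 hne hM hL (piCoreOf_normalIn _ _) (piCoreOf_normalIn _ _)
    (isPGroup_pCoreOf hp.out M) (isPGroup_pCoreOf hr.out M) (le_normalizer_piCoreOf hM.inv)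
    (le_normalizer_piCoreOf hM.inv) c0 (ne_bot_mono (ne_bot_mono hW1 a2) b2) b3 b4
  have e : O[{p}](L) = O[{p}](M) := le_antisymm b1 c1
  refine (hL.max M hM.le hM.inv hM.pi ?_).symm
  exact h.b0 hM ((piCoreOf_le _ _).trans hM.le) c0 (le_normalizer_piCoreOf hM.inv)
    (isSolvable_of_isPGroup hp.out (isPGroup_pCoreOf hp.out M)) (le_normalizer_piCoreOf_self _ _)
    hL.le (e ▸ le_normalizer_piCoreOf_self _ _) hL.pi hL.inv

theorem b3 (h : St q A K) (hne : p ≠ r) {M U W E T : Subgroup X} (hM : Mx {p, r} A K M)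
    (hU : U ⊴ M) (hW : W ⊴ M) (hUp : IsPGroup p U) (hWr : IsPGroup r W)
    (hAU : A ≤ N[U]) (hAW : A ≤ N[W]) (hU1 : U ≠ ⊥) (hW1 : W ≠ ⊥) (hE : E ≤ K) (hE1 : E ≠ ⊥)
    (hAE : A ≤ N[E]) (hs : Group.IsSolvable E) (hUE : U ≤ N[E]) (hWE : W ≤ N[E])
    (hT : T ≤ K) (hTE : T ≤ N[E]) (hπ : IsPiSubgroup {p, r} T) (hAT : A ≤ N[T]) : T ≤ M := by
  have hsH := h.solN hE hE1 hAE hs
  have hAH : A ≤ N[K ⊓ N[E]] := le_normalizer_inf h.norm (le_normalizer_normalizer hAE)
  obtain ⟨M', h2, h3, h4⟩ := coprime_hall_subset hAH (h.copH inf_le_left) hsH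
    (le_inf hT hTE) hπ hAT
  obtain ⟨L, hL, h5⟩ := exists_mx ((hall_le h2).trans inf_le_left) h3 (hall_isPi h2)
  rw [← h.b2 hne hM hL hU hW hUp hWr hAU hAW hU1 hW1
    ((h.le_hall inf_le_left hAH hsH h2 h3 (le_inf (hU.le.trans hM.le) hUE)
      (pi_left hp.out hUp) hAU).trans h5)
    ((h.le_hall inf_le_left hAH hsH h2 h3 (le_inf (hW.le.trans hM.le) hWE)
      (pi_right hr.out hWr) hAW).trans h5)]
  exact h4.trans h5

/-- A maximal invariant `{p,r}`-subgroup with both cores non-trivial contains the invariant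
Sylow subgroups. -/
theorem b4 (h : St q A K) (hne : p ≠ r) {M P : Subgroup X} (hM : Mx {p, r} A K M)
    (hP : IsSyl p P K) (hAP : A ≤ N[P]) (h1 : O[{p}](M) ≠ ⊥) (h2 : O[{r}](M) ≠ ⊥) : P ≤ M := by
  have hPK := hall_le hP
  have hPp := syl_isPGroup hP
  set U := O[{p}](M) with hU
  set W := Z[O[{r}](M)] with hW
  have hUM : U ⊴ M := piCoreOf_normalIn _ _
  have hWM : W ⊴ M := (piCoreOf_normalIn _ _).center
  have hUp : IsPGroup p U := isPGroup_pCoreOf hp.out M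
  have hWr : IsPGroup r W := (isPGroup_pCoreOf hr.out M).to_le inf_le_left
  have hAU : A ≤ N[U] := le_normalizer_piCoreOf hM.inv
  have hAW : A ≤ N[W] := (le_normalizer_piCoreOf hM.inv).trans (normalizer_le_normalizer_center _)
  have hW1 : W ≠ ⊥ := center_ne_bot_of_isPGroup hr.out (isPGroup_pCoreOf hr.out M) h2
  have hWK : W ≤ K := hWM.le.trans hM.le
  have hUW : U ≤ C[W] := (pCoreOf_le_centralizer_of_ne hne M).trans (centralizer_anti inf_le_left)
  have hWW : W ≤ C[W] := inf_le_right.trans (centralizer_anti inf_le_left)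
  have hsW : Group.IsSolvable W := isSolvable_of_isPGroup hr.out hWr
  have B : ∀ {E T : Subgroup X}, E ≤ K → E ≠ ⊥ → A ≤ N[E] → Group.IsSolvable E → U ≤ N[E] →
      W ≤ N[E] → T ≤ P → T ≤ N[E] → A ≤ N[T] → T ≤ M := fun a b c d e f g i j =>
    h.b3 hne hM hUM hWM hUp hWr hAU hAW h1 hW1 a b c d e f (g.trans hPK) i
      (pi_left hp.out (hPp.to_le g)) j
  set Q := P ⊓ M with hQ
  have hAQ : A ≤ N[Q] := le_normalizer_inf hAP hM.inv
  have hQK : Q ≤ K := inf_le_left.trans hPK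
  have hQp : IsPGroup p Q := hPp.to_le inf_le_left
  have hUQ : U ≤ Q := le_inf (h.le_syl hP hAP (hUM.le.trans hM.le) hUp hAU) hUM.le
  have hA1 : A ≤ N[P ⊓ N[Q]] := le_normalizer_inf hAP (le_normalizer_normalizer hAQ)
  suffices hs : P ⊓ N[Q] ≤ M from
    (eq_of_inf_normalizer_le (isNilpotent_of_isPGroup hp.out hPp) inf_le_left
      (le_inf inf_le_left hs)) ▸ (inf_le_right : Q ≤ M)
  by_cases hc : Q ≤ C[W]
  · exact B hQK (ne_bot_mono h1 hUQ) hAQ (isSolvable_of_isPGroup hp.out hQp)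
      (le_normalizer_of_le hUQ) (le_normalizer_of_le_centralizer' hc) inf_le_left inf_le_right hA1
  have C : ∀ a ∈ A, a ≠ 1 → ¬ Q ⊓ C1[a] ≤ C[W] → ∀ c ∈ A, c ∉ zpowers a → P ⊓ C1[c] ≤ M := by
    intro a ha ha1 hna c hc hca
    have hc1 : c ≠ 1 := fun e => hca (e ▸ one_mem _)
    have h3 := h.key' hWK hQK hAW hAQ hsW (coprime_pp hp.out hr.out hne hQp hWr)
      (inf_le_right.trans hWM.norm) ha ha1 hna hc hca
    refine B (E := W ⊓ C1[c]) (inf_le_left.trans hWK) (fun e => h3 (e ▸ bot_le)) (h.nc1 hAW hc)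
      (isSolvable_of_le hsW inf_le_left)
      (le_normalizer_of_le_centralizer (hUW.trans (centralizer_anti inf_le_left)))
      (le_normalizer_of_le_centralizer (hWW.trans (centralizer_anti inf_le_left))) inf_le_left
      (le_normalizer_of_le_centralizer (h.comm hc hc1 hPK hWK)) (h.nc1 hAP hc)
  obtain ⟨a, ha, ha1, hna⟩ := h.exists_nc hQK hAQ hc
  have D : P ⊓ C1[a] ≤ M → P ⊓ N[Q] ≤ M := fun hh => inf_le_left.trans (h.gen hPK hAP
    fun c hc hc1 => by
      by_cases hca : c ∈ zpowers a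
      · rwa [h.c1_eq ha ha1 hca hc1]
      · exact C a ha ha1 hna c hc hca)
  by_cases hall : ∀ c ∈ A, c ∉ zpowers a → Q ⊓ C1[c] ≤ C[W]
  swap
  · push Not at hall
    obtain ⟨c, hc, hca, hnc⟩ := hall
    have hc1 : c ≠ 1 := fun e => hca (e ▸ one_mem _)
    exact D (C c hc hc1 hnc a ha fun hh => hca (h.zp_eq hc hc1 hh ha1 ▸ mem_zpowers c))
  have hAZ : A ≤ N[Z[Q]] := hAQ.trans (normalizer_le_normalizer_center _)
  have hBA : zpowers a ≤ A := zpowers_le.2 ha
  have hAB : A ≤ N[zpowers a] := (normalIn_of_isMulCommutative h.el.1 hBA).norm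
  have hEZ : ⁅Z[Q], zpowers a⁆ ≤ Z[Q] := commutator_le_of_norm_left (hBA.trans hAZ)
  by_cases hE : ⁅Z[Q], zpowers a⁆ = ⊥
  · have h3 : Z[Q] ≤ C1[a] := centralizer_zpowers a ▸ le_cent_of_commutator_eq_bot hE
    have h4 : U ⊓ C[Q] ≤ Z[Q] := inf_le_inf_right _ hUQ
    refine D (B (E := U ⊓ C[Q]) (inf_le_left.trans (hUQ.trans hQK))
      (ne_bot_mono (inf_center_ne_bot_of_isNilpotent (isNilpotent_of_isPGroup hp.out hQp)
        ⟨hUQ, inf_le_right.trans hUM.norm⟩ h1) (inf_le_inf_left _ inf_le_right))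
      (le_normalizer_inf hAU (le_normalizer_centralizer hAQ))
      (isSolvable_of_isPGroup hp.out (hUp.to_le inf_le_left))
      (le_normalizer_of_le_centralizer' (inf_le_right.trans (centralizer_anti hUQ)))
      (le_normalizer_of_le_centralizer' (inf_le_left.trans hUW)) inf_le_left
      (le_normalizer_of_le_centralizer ((h.comm ha ha1 hPK hQK).trans
        (centralizer_anti (le_inf (inf_le_left.trans hUQ) (h4.trans h3))))) (h.nc1 hAP ha))
  have hEW : ⁅Z[Q], zpowers a⁆ ≤ C[W] := by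
    have hZc : Z[Q] ≤ C[Z[Q]] := inf_le_right.trans (centralizer_anti inf_le_left)
    have h3 : Z[Q] ≤ (Z[Q] ⊓ C[W]) ⊔ (Z[Q] ⊓ C1[a]) :=
      h.gen (inf_le_left.trans hQK) hAZ fun c hc hc1 => by
        by_cases hca : c ∈ zpowers a
        · rw [h.c1_eq ha ha1 hca hc1]; exact le_sup_right
        · exact le_sup_of_le_left (le_inf inf_le_left
            ((inf_le_inf_right _ inf_le_left).trans (hall c hc hca)))
    refine (commutator_mono h3 le_rfl).trans (le_trans (commutator_sup_left_le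
      le_normalizer (le_normalizer_of_le_centralizer ((inf_le_left.trans hZc).trans
        (centralizer_anti inf_le_left)))
      (commutator_le_of_norm_left (hBA.trans
        (le_normalizer_inf hAZ (le_normalizer_centralizer hAW)))) ?_) inf_le_right)
    rw [commutator_eq_bot_of_cent (inf_le_right.trans (centralizer_zpowers a).ge)]
    exact bot_le
  refine B (E := ⁅Z[Q], zpowers a⁆) (hEZ.trans (inf_le_left.trans hQK)) hE
    (le_normalizer_commutator hAZ hAB)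
    (isSolvable_of_isPGroup hp.out (hQp.to_le (hEZ.trans inf_le_left)))
    (le_normalizer_of_le_centralizer' (hEZ.trans (inf_le_right.trans (centralizer_anti hUQ))))
    (le_normalizer_of_le_centralizer' hEW) inf_le_left ?_ hA1
  refine h.gen (inf_le_left.trans hPK) hA1 fun c hc hc1 => ?_
  by_cases hca : c ∈ zpowers a
  · rw [h.c1_eq ha ha1 hca hc1]
    refine le_normalizer_commutator
      (inf_le_left.trans (inf_le_right.trans (normalizer_le_normalizer_center _)))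
      (le_normalizer_of_le_centralizer (inf_le_right.trans (centralizer_zpowers a).ge))
  · refine le_normalizer_of_le_centralizer' (hEZ.trans (inf_le_right.trans (centralizer_anti ?_)))
    exact le_inf (inf_le_left.trans inf_le_left)
      ((inf_le_inf_right _ inf_le_left).trans (C a ha ha1 hna c hc hca))

theorem b5 (h : St q A K) (hne : p ≠ r) {M P : Subgroup X} (hM : Mx {p, r} A K M)
    (hP : IsSyl p P K) (hAP : A ≤ N[P]) (h2 : O[{r}](M) = ⊥) : P ⊴ M := by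
  have hPK := hall_le hP
  have hPp := syl_isPGroup hP
  have hs := sol_pair hp.out hr.out hM.pi
  obtain ⟨Q, hQ, hAQ⟩ := coprime_syl_exists (p := p) hM.inv (h.copH hM.le) (Or.inl h.solA)
  have hQp := syl_isPGroup hQ
  have hF : fittingOf M ≤ Q := by
    rw [fittingOf_eq_pCoreOf hp.out (by rw [core_pair hne hM.pi, h2])]
    exact piCoreOf_le_hall hQ
  have hn := h.hall_sup_fit hM.le hM.inv hs hQ
  rw [sup_eq_right.2 hF] at hn
  have hQK := (hall_le hQ).trans hM.le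
  by_cases hQ1 : Q = ⊥
  · have h3 : M = ⊥ := (fittingOf_eq_bot_iff hs).1 (le_bot_iff.1 (hQ1 ▸ hF))
    rw [hM.max P hPK hAP (pi_left hp.out hPp) (h3 ▸ bot_le)]
    exact normalIn_refl M
  have h3 : P ⊓ N[Q] ≤ M := h.b0 hM hQK hQ1 hAQ (isSolvable_of_isPGroup hp.out hQp) hn
    (inf_le_left.trans hPK) inf_le_right (pi_left hp.out (hPp.to_le inf_le_left))
    (le_normalizer_inf hAP (le_normalizer_normalizer hAQ))
  have h4 : Q = P := eq_of_inf_normalizer_le (isNilpotent_of_isPGroup hp.out hPp)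
    (h.le_syl hP hAP hQK hQp hAQ)
    (le_of_normal_syl hQ ⟨hall_le hQ, hn⟩ h3 (hPp.to_le inf_le_left))
  exact h4 ▸ ⟨hall_le hQ, hn⟩

theorem b6a (h : St q A K) (hne : p ≠ r) {P R : Subgroup X} (hP : IsSyl p P K) (hAP : A ≤ N[P])
    (hR : IsSyl r R K) (hAR : A ≤ N[R]) (hno : ∀ M, Mx {p, r} A K M → P ≤ M → ¬ R ≤ M)
    {M : Subgroup X} (hM : Mx {p, r} A K M) :
    (O[{r}](M) = ⊥ ∧ P ⊴ M) ∨ (O[{p}](M) = ⊥ ∧ R ⊴ M) := by
  by_cases h1 : O[{r}](M) = ⊥
  · exact Or.inl ⟨h1, h.b5 hne hM hP hAP h1⟩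
  by_cases h2 : O[{p}](M) = ⊥
  · exact Or.inr ⟨h2, h.b5 hne.symm hM.symm hR hAR h2⟩
  exact absurd (h.b4 hne.symm hM.symm hR hAR h1 h2) (hno M hM (h.b4 hne hM hP hAP h2 h1))

theorem b6b (h : St q A K) (hne : p ≠ r) {P R : Subgroup X} (hP : IsSyl p P K) (hAP : A ≤ N[P])
    (hR : IsSyl r R K) (hAR : A ≤ N[R]) (hno : ∀ M, Mx {p, r} A K M → P ≤ M → ¬ R ≤ M)
    {d : X} (hd : d ∈ A) (hd1 : d ≠ 1) : R ⊓ C1[d] ≤ N[P] ∨ P ⊓ C1[d] ≤ N[R] := by
  obtain ⟨M, hM, h1⟩ := exists_mx (K := K) (π := {p, r}) (T := P ⊓ C1[d] ⊔ R ⊓ C1[d])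
    (sup_le (inf_le_left.trans (hall_le hP)) (inf_le_left.trans (hall_le hR)))
    (le_normalizer_sup (h.nc1 hAP hd) (h.nc1 hAR hd))
    (isPi_sup (pi_left hp.out ((syl_isPGroup hP).to_le inf_le_left))
      (pi_right hr.out ((syl_isPGroup hR).to_le inf_le_left))
      (Or.inl (le_normalizer_of_le_centralizer (h.comm hd hd1 (hall_le hP) (hall_le hR)))))
  rcases h.b6a hne hP hAP hR hAR hno hM with h2 | h2
  · exact Or.inl ((le_sup_right.trans h1).trans h2.2.norm)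
  · exact Or.inr ((le_sup_left.trans h1).trans h2.2.norm)

theorem b6c (h : St q A K) (hne : p ≠ r) {P R : Subgroup X} (hP : IsSyl p P K) (hAP : A ≤ N[P])
    (hR : IsSyl r R K) (hAR : A ≤ N[R]) (hno : ∀ M, Mx {p, r} A K M → P ≤ M → ¬ R ≤ M) :
    R ⊓ N[P] = ⊥ := by
  have hPK := hall_le hP
  have hPp := syl_isPGroup hP
  have hRK := hall_le hR
  have hRp := syl_isPGroup hR
  have hAY : A ≤ N[R ⊓ N[P]] := le_normalizer_inf hAR (le_normalizer_normalizer hAP)
  have hPR : P ⊓ R = ⊥ := inf_eq_bot_of_coprime' (coprime_pp hp.out hr.out hne hPp hRp)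
  obtain ⟨M, hM, h1⟩ := exists_mx (K := K) (π := {p, r}) (T := P ⊔ R ⊓ N[P])
    (sup_le hPK (inf_le_left.trans hRK)) (le_normalizer_sup hAP hAY)
    (isPi_sup (pi_left hp.out hPp) (pi_right hr.out (hRp.to_le inf_le_left))
      (Or.inr inf_le_right))
  have hnR := hno M hM (le_sup_left.trans h1)
  rcases h.b6a hne hP hAP hR hAR hno hM with ⟨h2, h3⟩ | h2
  swap
  · exact absurd h2.2.le hnR
  have hfaith : ∀ T, T ≤ R ⊓ N[P] → T ≤ C[P] → T = ⊥ := by
    intro T hT hc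
    have h4 := cent_pCoreOf_le hp.out (sol_pair hp.out hr.out hM.pi)
      (by rw [core_pair hne hM.pi, h2])
    rw [piCoreOf_eq_of_normal_hall (hall_of_le hP h3.le hM.le) h3] at h4
    rw [eq_bot_iff, ← hPR]
    exact le_inf ((le_inf (hT.trans (le_sup_right.trans h1)) hc).trans h4) (hT.trans inf_le_left)
  have step : ∀ b ∈ A, b ≠ 1 → R ⊓ N[P] ⊓ C1[b] ≠ ⊥ → ∀ d ∈ A, d ∉ zpowers b →
      R ⊓ C1[d] ≤ N[P] := by
    intro b hb hb1 hn d hd hdb
    have hd1 : d ≠ 1 := fun e => hdb (e ▸ one_mem _)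
    refine (h.b6b hne hP hAP hR hAR hno hd hd1).resolve_right fun hh => ?_
    refine h.key' hPK (inf_le_left.trans hRK) hAP hAY (isSolvable_of_isPGroup hp.out hPp)
      (coprime_pp hr.out hp.out hne.symm (hRp.to_le inf_le_left) hPp) inf_le_right hb hb1
      (fun e => hn (hfaith _ inf_le_left e)) hd hdb ?_
    refine le_cent_of_commutator_eq_bot (le_bot_iff.1 (hPR ▸ le_inf ?_ ?_))
    · exact (commutator_mono inf_le_left le_rfl).trans
        (commutator_le_of_norm_left (inf_le_left.trans inf_le_right))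
    · exact (commutator_mono le_rfl (inf_le_left.trans inf_le_left)).trans
        (commutator_le_of_norm_right hh)
  by_contra hcon
  obtain ⟨b, hb, hb1, hn⟩ := exists_cent1_ne_bot h.el.1 h.nc hAY
    (h.copH (inf_le_left.trans hRK)) hcon
  obtain ⟨d, hd, hdb, hn'⟩ := h.supp_two hR hAR (ne_bot_mono hcon inf_le_left) hb hb1
  have hd1 : d ≠ 1 := fun e => hdb (e ▸ one_mem _)
  have h4 : R ≤ N[P] := by
    refine h.gen hRK hAR fun e he he1 => ?_
    by_cases heb : e ∈ zpowers b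
    · refine step d hd hd1 (ne_bot_mono hn' (le_inf (le_inf inf_le_left
        (step b hb hb1 hn d hd hdb)) inf_le_right)) e he fun hed => hdb ?_
      rw [← h.zp_eq hb hb1 heb he1, h.zp_eq hd hd1 hed he1]
      exact mem_zpowers d
    · exact step b hb hb1 hn e he heb
  exact hnR ((le_inf le_rfl h4).trans (le_sup_right.trans h1))

theorem b6d (h : St q A K) (hne : p ≠ r) (hp2 : p ≠ 2) {P R : Subgroup X} (hP : IsSyl p P K)
    (hAP : A ≤ N[P]) (hR : IsSyl r R K) (hAR : A ≤ N[R]) :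
    ∃ M, Mx {p, r} A K M ∧ P ≤ M ∧ R ≤ M := by
  by_contra hcon
  push Not at hcon
  have h1 := h.b6c hne hP hAP hR hAR hcon
  have h2 := h.b6c hne.symm hR hAR hP hAP fun M hM a b => hcon M hM.symm b a
  have hP1 : P ≠ ⊥ := by
    rintro rfl
    obtain ⟨M, hM, h3⟩ := exists_mx (hall_le hR) hAR (pi_right (p := p) hr.out (syl_isPGroup hR))
    exact hcon M hM bot_le h3
  have hR1 : R ≠ ⊥ := by
    rintro rfl
    obtain ⟨M, hM, h3⟩ := exists_mx (hall_le hP) hAP (pi_left (r := r) hp.out (syl_isPGroup hP))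
    exact hcon M hM h3 bot_le
  obtain ⟨a, ha, ha1, h3⟩ := h.supp_odd hp2 hP hAP hP1
  obtain ⟨d, hd, hda, h4⟩ := h.supp_two hR hAR hR1 ha ha1
  have hd1 : d ≠ 1 := fun e => hda (e ▸ one_mem _)
  rcases h.b6b hne hP hAP hR hAR hcon hd hd1 with h5 | h5
  · exact h4 (le_bot_iff.1 (h1 ▸ le_inf inf_le_left h5))
  · exact h3 d hd hda (le_bot_iff.1 (h2 ▸ le_inf inf_le_left h5))

theorem b6 (h : St q A K) {P R : Subgroup X} (hP : IsSyl p P K)
    (hAP : A ≤ N[P]) (hR : IsSyl r R K) (hAR : A ≤ N[R]) (hne : p ≠ r) :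
    ∃ M, M ≤ K ∧ IsMul P R M := by
  have : ∃ M, Mx {p, r} A K M ∧ P ≤ M ∧ R ≤ M := by
    by_cases hp2 : p = 2
    · obtain ⟨M, h1, h2, h3⟩ := h.b6d hne.symm (fun e => hne (hp2.trans e.symm)) hR hAR hP hAP
      exact ⟨M, h1.symm, h3, h2⟩
    · exact h.b6d hne hp2 hP hAP hR hAR
  obtain ⟨M, hM, h1, h2⟩ := this
  refine ⟨M, hM.le, isMul_hall_compl (hall_of_le hP h1 hM.le)
    (hall_congr (hall_of_le hR h2 hM.le) fun s hs hd => ?_)⟩
  have := isPi_piNat hM.pi s hs hd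
  simp only [Set.mem_insert_iff, Set.mem_singleton_iff, Set.mem_compl_iff] at this ⊢
  constructor
  · rintro rfl e; exact hne e.symm
  · tauto

end St

theorem coe_mul_of_isMul {G : Type*} [Group G] {P R M : Subgroup G} (h : IsMul P R M) :
    (P : Set G) * (R : Set G) = M := by
  apply Set.Subset.antisymm
  · rintro _ ⟨a, ha, b, hb, rfl⟩
    exact mul_mem (h.1 ha) (h.2.1 hb)
  · intro m hm
    obtain ⟨a, ha, b, hb, rfl⟩ := h.2.2 m hm
    exact ⟨a, ha, b, hb, rfl⟩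

theorem St.false (h : St q A K) : False := by
  have h1 : ∀ p : Nat.Primes, ∃ S : Sylow (p : ℕ) K, IsSyl p ((S : Subgroup K).map K.subtype) K ∧
      A ≤ N[(S : Subgroup K).map K.subtype] := by
    intro p
    have : Fact (p : ℕ).Prime := ⟨p.2⟩
    obtain ⟨P, hP, hAP⟩ := coprime_syl_exists (p := p) h.norm h.cop (Or.inl h.solA)
    obtain ⟨S, rfl⟩ := exists_sylow_map hP
    exact ⟨S, hP, hAP⟩
  choose S hS hAS using h1
  refine h.nsol (S0021.result S fun p r => ?_)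
  by_cases hne : p = r
  · subst hne; rfl
  have : Fact (p : ℕ).Prime := ⟨p.2⟩
  have : Fact (r : ℕ).Prime := ⟨r.2⟩
  obtain ⟨M, hM, h2⟩ := h.b6 (hS p) (hAS p) (hS r) (hAS r) fun e => hne (Subtype.ext e)
  have h3 := h2.subgroupOf hM
  rw [subgroupOf_map_subtype', subgroupOf_map_subtype'] at h3
  exact (coe_mul_of_isMul h3).trans (coe_mul_of_isMul h3.symm).symm

theorem main {q : ℕ} (hq : q.Prime) (n : ℕ) : ∀ (X : Type u) [Group X] [Finite X]
    (A K : Subgroup X), Nat.card K = n → IsElementaryAbelian q A → Nat.card A = q * q →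
    A ≤ N[K] → (Nat.card A).Coprime (Nat.card K) →
    (∀ a ∈ A, a ≠ 1 → IsMulCommutative ↥(K ⊓ C1[a])) → Group.IsSolvable K := by
  induction n using Nat.strong_induction_on with | _ n IH => ?_
  intro X _ _ A K hn hA hcard hAK hc hab
  by_contra hns
  have hsub : ∀ H, H < K → A ≤ N[H] → Group.IsSolvable H := fun H hH hAH =>
    IH _ (hn ▸ card_lt_of_lt hH) X A H rfl hA hcard hAH (cop_le hc le_rfl hH.le)
      fun a ha h1 => isMulCommutative_of_le (hab a ha h1) (inf_le_inf_right _ hH.le)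
  have hsimp : ∀ U, U ⊴ K → A ≤ N[U] → U = ⊥ ∨ U = K := by
    intro U hU hAU
    by_contra hcon
    push Not at hcon
    refine hns (isSolvable_of_quo hU.norm (isSolvable_of_le
      (hsub U (lt_of_le_of_ne hU.le hcon.2) hAU) inf_le_left) ?_)
    refine IH _ (hn ▸ card_quo_lt hU hcon.1) _ (A /ᵍ U) _ rfl (quo_isElementaryAbelian U hA)
      (by rw [card_quo_of_disjoint hAU (inf_eq_bot_of_coprime' (cop_le hc le_rfl hU.le).symm),
        hcard]) (quo_norms U hAK) (coprime_quo U hc) fun y hy hy1 => ?_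
    obtain ⟨a, ha, haN, rfl⟩ := mem_quo.1 hy
    have ha1 : a ≠ 1 := fun e => hy1 (by rw [e, coset_one])
    have hBA : zpowers a ≤ A := zpowers_le.2 ha
    rw [← centralizer_zpowers, ← quo_zpowers haN, ← coprime_norm_quo_cent_of_coprime
      (hBA.trans hAK) (hBA.trans hAU) (cop_le hc hBA le_rfl)
      (Or.inl (isSolvable_of_isCyclic inferInstance)), centralizer_zpowers]
    exact quo_isMulCommutative U (hab a ha ha1)
  have hcent : K ≤ C[K ⊓ C[A]] :=
    coprime_abelian_gen_cent1 hA.1 (nc_of hq hA hcard) hAK hc fun a ha h1 =>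
      le_cent_of_comm (hab a ha h1) le_rfl
        (inf_le_inf_left _ (centralizer_le_centralizer_singleton ha))
  refine St.false (q := q) (A := A) (K := K) ⟨hq, hA, hcard, hAK, hc, hab, ?_, hsub, hsimp, hns⟩
  refine (hsimp _ ⟨inf_le_left, le_normalizer_of_le_centralizer hcent⟩
    (le_normalizer_of_le_centralizer' inf_le_right)).resolve_right fun e => hns ?_
  rw [e] at hcent
  exact isSolvable_of_isMulCommutative (le_centralizer_iff_isMulCommutative.1 hcent)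

end Cfsg.Agent.H94.AbCent
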