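/-
Project AH, pieces T5 and T7.
-/
import Cfsg.Agent.H53.AhDefs

set_option autoImplicit false

namespace Cfsg.Agent.H94.AH

open Cfsg.Agent.H53.AH Finset

universe u

section Sums

variable {G R : Type*} [Group G] [Fintype G] [CommRing R]

/-- the induced class function -/
def ind (χ : G → R) (h : G) : R := ∑ a, χ (a⁻¹ * h * a)

theorem ind_conj (χ : G → R) {x y : G} (h : IsConj x y) : ind χ y = ind χ x := by
  obtain ⟨g, rfl⟩ := isConj_iff.1 h
  refine (Fintype.sum_equiv (Equiv.mulLeft g) _ _ fun a => ?_).symm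
  rw [Equiv.coe_mulLeft]
  congr 1
  group

theorem sq_sum (χ : G → R) :
    ∑ h, ind χ h * ind χ h = ∑ a, ∑ b, ∑ h, χ (a⁻¹ * h * a) * χ (b⁻¹ * h * b) := by
  simp only [ind, sum_mul_sum]
  rw [sum_comm]
  exact sum_congr rfl fun a _ => sum_comm

theorem vanish [IsDomain R] (χ : G → R) (a b h0 : G) {l m : R} (hl : l * m ≠ 1)
    (h1 : ∀ h, χ (a⁻¹ * h0 * a * h) = l * χ h) (h2 : ∀ h, χ (b⁻¹ * h0 * b * h) = m * χ h) :
    ∑ h, χ (a⁻¹ * h * a) * χ (b⁻¹ * h * b) = 0 := by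
  have e : ∑ h, χ (a⁻¹ * h * a) * χ (b⁻¹ * h * b) =
      l * m * ∑ h, χ (a⁻¹ * h * a) * χ (b⁻¹ * h * b) := by
    rw [mul_sum]
    refine (Fintype.sum_equiv (Equiv.mulLeft h0) _ _ fun h => ?_).symm
    rw [Equiv.coe_mulLeft, show a⁻¹ * (h0 * h) * a = a⁻¹ * h0 * a * (a⁻¹ * h * a) by group,
      show b⁻¹ * (h0 * h) * b = b⁻¹ * h0 * b * (b⁻¹ * h * b) by group, h1, h2]
    ring
  exact (mul_eq_zero.1 (show (l * m - 1) * _ = 0 by linear_combination -e)).resolve_left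
    (sub_ne_zero.2 hl)

end Sums

section Blk

variable {G V : Type*} [Group G] [AddCommGroup V] [DistribMulAction G V] {v : V} {N : Subgroup G}

theorem fix_of {x y : G} (h : x • v = y • v) : (y⁻¹ * x) • v = v := by
  rw [mul_smul, h, inv_smul_smul]

theorem mem_of (B : Blk G v N) {x y : G} (h : x • v = y • v) (hy : y ∈ N) : x ∈ N := by
  simpa using mul_mem hy (B.le _ (fix_of h))

theorem act_of (B : Blk G v N) {x y : G} (h : x • v = y • v) {n : G} (hn : n ∈ N) :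
    x • n • v = y • n • v := by
  have := B.norm _ (fix_of h) n hn
  rwa [mul_smul, inv_smul_eq_iff] at this

theorem cj_smul {a h y : G} (e : h • a • v = a • y • v) : (a⁻¹ * h * a) • v = y • v := by
  rw [mul_smul, mul_smul, e, inv_smul_smul]

theorem pow_of (B : Blk G v N) {x y : G} (h : x • v = y • v) (hy : y ∈ N) (k : ℕ) :
    x ^ k • v = y ^ k • v := by
  induction k with
  | zero => rw [pow_zero, pow_zero]
  | succ k ih => rw [pow_succ', pow_succ', mul_smul, mul_smul, ih, act_of B h (pow_mem hy k)]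

/-- `h` is conjugate in `N` to an element sending `v` to `s` -/
def Sg (v : V) (N : Subgroup G) (s : V) (h : G) : Prop := h ∈ N ∧ ∃ n ∈ N, (n * h * n⁻¹) • v = s

theorem Sg.cj {s : V} {h m : G} (hm : m ∈ N) (k : Sg v N s h) : Sg v N s (m⁻¹ * h * m) := by
  obtain ⟨h1, n, hn, e⟩ := k
  exact ⟨mul_mem (mul_mem (inv_mem hm) h1) hm, n * m, mul_mem hn hm, by rw [← e]; congr 1; group⟩

theorem sg_cj {s : V} {h m : G} (hm : m ∈ N) : Sg v N s (m⁻¹ * h * m) ↔ Sg v N s h :=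
  ⟨fun k => by simpa [mul_assoc] using k.cj (inv_mem hm), fun k => k.cj hm⟩

theorem sg_one {s : V} {x h : G} (hx : x ∈ N) (hf : ∀ n ∈ N, x • n • v = n • v) :
    Sg v N s (x * h) ↔ Sg v N s h := by
  unfold Sg
  rw [N.mul_mem_cancel_left hx]
  refine and_congr_right fun hh => exists_congr fun n => and_congr_right fun hn => ?_
  rw [mul_assoc, mul_assoc, mul_smul, mul_smul, hf _ (mul_mem hh (inv_mem hn)), ← mul_smul,
    mul_assoc]

theorem sg_neg {s : V} {x h : G} (hx : x ∈ N) (hf : ∀ n ∈ N, x • n • v = -(n • v)) :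
    Sg v N s (x * h) ↔ Sg v N (-s) h := by
  unfold Sg
  rw [N.mul_mem_cancel_left hx]
  refine and_congr_right fun hh => exists_congr fun n => and_congr_right fun hn => ?_
  rw [mul_assoc, mul_assoc, mul_smul, mul_smul, hf _ (mul_mem hh (inv_mem hn)), smul_neg,
    ← mul_smul, mul_assoc, neg_eq_iff_eq_neg]

theorem Sg.pow (B : Blk G v N) {h y : G} (hy : y ∈ N) (k : Sg v N (y • v) h) (m : ℕ) :
    Sg v N (y ^ m • v) (h ^ m) := by
  obtain ⟨h1, n, hn, e⟩ := k
  exact ⟨pow_mem h1 m, n, hn, by rw [← conj_pow, pow_of B e hy]⟩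

open Classical in
/-- the sign function -/
noncomputable def eps (v : V) (N : Subgroup G) (s : V) (h : G) : ℤ :=
  if Sg v N s h then 1 else if Sg v N (-s) h then -1 else 0

theorem eps_congr {s : V} {h h' : G} (h1 : Sg v N s h' ↔ Sg v N s h)
    (h2 : Sg v N (-s) h' ↔ Sg v N (-s) h) : eps v N s h' = eps v N s h := by
  unfold eps
  rw [h1, h2]

theorem eps_neg {s : V} (ex : ∀ h, Sg v N s h → ¬ Sg v N (-s) h) {h h' : G}
    (h1 : Sg v N s h' ↔ Sg v N (-s) h) (h2 : Sg v N (-s) h' ↔ Sg v N s h) :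
    eps v N s h' = -eps v N s h := by
  unfold eps
  rw [h1, h2]
  by_cases a : Sg v N s h
  · simp [a, ex h a]
  · by_cases b : Sg v N (-s) h <;> simp [a, b]

end Blk

theorem t5 (hp : PairStmt.{u}) : T5Stmt.{u} := by
  rintro G V _ _ _ _ v N hR hD B ⟨τ, hτ, h0, c, hc, c0⟩
  classical
  have := Fintype.ofFinite G
  let ψ : AddChar (ZMod 3) ℂ := ZMod.stdAddChar
  let χ : G → ℂ := fun h => if h ∈ N then ψ (τ h) else 0
  have τ1 : τ 1 = 0 := h0 1 (one_smul _ _)
  have τi : ∀ h ∈ N, τ h⁻¹ = -τ h := fun h hh =>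
    eq_neg_of_add_eq_zero_left (by rw [← hτ _ (inv_mem hh) _ hh, inv_mul_cancel, τ1])
  have χm : ∀ x ∈ N, ∀ h, χ (x * h) = ψ (τ x) * χ h := fun x hx h => by
    simp only [χ, N.mul_mem_cancel_left hx]
    split_ifs with hh
    · rw [hτ x hx h hh, AddChar.map_add_eq_mul]
    · rw [mul_zero]
  have χi : ∀ h, χ h⁻¹ = starRingEnd ℂ (χ h) := fun h => by
    simp only [χ, inv_mem_iff]
    split_ifs with hh
    · rw [τi h hh, AddChar.map_neg_eq_conj]
    · rw [map_zero]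
  have real : ∀ h, ind χ h = starRingEnd ℂ (ind χ h) := fun h => by
    conv_lhs => rw [ind_conj χ (hR h⁻¹ h Subgroup.zpowers_inv)]
    rw [ind, ind, map_sum]
    exact sum_congr rfl fun a _ => by rw [← χi]; congr 1; group
  have ne1 : ∀ s t : ZMod 3, s + t ≠ 0 → ψ s * ψ t ≠ 1 := fun s t h e => h
    (ZMod.injective_stdAddChar (by rw [AddChar.map_add_eq_mul, AddChar.map_zero_eq_one]; exact e))
  have τe : ∀ x, x • v = (c * c) • v → x ∈ N ∧ τ x = τ c + τ c := fun x e => by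
    have h1 := B.le _ (fix_of e)
    refine ⟨mem_of B e (mul_mem hc hc), ?_⟩
    rw [← mul_inv_cancel_left (c * c) x, hτ _ (mul_mem hc hc) _ h1, h0 _ (fix_of e), hτ c hc c hc,
      add_zero]
  have zero : ∑ h, ind χ h * ind χ h = 0 := by
    rw [sq_sum]
    refine sum_eq_zero fun a _ => sum_eq_zero fun b _ => ?_
    by_cases hab : a⁻¹ * b ∈ N
    · have e1 : a⁻¹ * (a * c * a⁻¹) * a = c := by group
      have e2 : b⁻¹ * (a * c * a⁻¹) * b = (a⁻¹ * b)⁻¹ * c * (a⁻¹ * b) := by group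
      refine vanish χ a b (a * c * a⁻¹) (ne1 (τ c) (τ c) ?_) (fun h => by rw [e1, χm c hc])
        fun h => ?_
      · revert c0; generalize τ c = s; revert s; decide
      · rw [e2, χm _ (mul_mem (mul_mem (inv_mem hab) hc) hab), hτ _ (mul_mem (inv_mem hab) hc) _ hab,
          hτ _ (inv_mem hab) _ hc, τi _ hab, neg_add_cancel_comm]
    · obtain ⟨h, h1, h2⟩ := hp G V v N hD B a b hab c hc
      rw [← mul_smul c] at h1 h2
      obtain ⟨m1, t1⟩ := τe _ (cj_smul h1)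
      obtain ⟨m2, t2⟩ := τe _ (cj_smul h2)
      refine vanish χ a b h (ne1 _ _ ?_) (χm _ m1) (χm _ m2)
      rw [t1, t2]
      revert c0; generalize τ c = s; revert s; decide
  have z2 : ∑ h, Complex.normSq (ind χ h) = 0 := by
    have : ((∑ h, Complex.normSq (ind χ h) : ℝ) : ℂ) = 0 := by
      rw [← zero, Complex.ofReal_sum]
      exact sum_congr rfl fun h _ => by rw [← Complex.mul_conj, ← real]
    exact_mod_cast this
  have z3 := Complex.normSq_eq_zero.1
    ((sum_eq_zero_iff_of_nonneg fun h _ => Complex.normSq_nonneg _).1 z2 1 (mem_univ _))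
  simp [ind, χ, τ1] at z3

theorem t7 (hp : PairStmt.{u}) : T7Stmt.{u} := by
  rintro G V _ _ _ _ v N hR hD B ⟨c, hc, c4, cx, m, hm, cm⟩
  classical
  have := Fintype.ofFinite G
  have ex : ∀ h, Sg v N (c • v) h → ¬ Sg v N (-(c • v)) h := by
    rintro h ⟨-, n, hn, e⟩ ⟨-, k, hk, e'⟩
    refine cx (k * n⁻¹) (mul_mem hk (inv_mem hn)) ?_
    rw [← e', show k * h * k⁻¹ = k * n⁻¹ * (n * h * n⁻¹) * (k * n⁻¹)⁻¹ by group, mul_smul, mul_smul,
      mul_smul _ (k * n⁻¹)⁻¹, mul_smul (k * n⁻¹), act_of B e (inv_mem (mul_mem hk (inv_mem hn)))]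
  have p4 : ∀ j : ℕ, c ^ (4 + j) • v = -(c ^ j • v) := fun j => by
    rw [pow_add, mul_smul, c4 _ (pow_mem hc j)]
  have p8 : ∀ i j : ℕ, c ^ (8 * i + j) • v = c ^ j • v := fun i j => by
    induction i with
    | zero => rw [mul_zero, zero_add]
    | succ i ih => rw [show 8 * (i + 1) + j = 4 + (4 + (8 * i + j)) by ring, p4, p4, neg_neg, ih]
  have p5 : c ^ 5 • v = -(c • v) := by rw [p4 1, pow_one]
  obtain ⟨k, hk, kp, k5⟩ := Nat.forall_exists_prime_gt_and_modEq (Nat.card G) (q := 8) (a := 5)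
    (by norm_num) (by norm_num)
  have kc : (Nat.card G).Coprime k :=
    ((Nat.Prime.coprime_iff_not_dvd kp).2 fun h => (Nat.le_of_dvd Nat.card_pos h).not_gt hk).symm
  obtain ⟨i, rfl⟩ : ∃ i, k = 8 * i + 5 := ⟨k / 8, by have : k % 8 = 5 := k5; omega⟩
  set k := 8 * i + 5 with hk'
  have s1 : ∀ h, Sg v N (c • v) h → Sg v N (-(c • v)) (h ^ k) := fun h e => by
    have := e.pow B hc k
    rwa [p8, p5] at this
  have s2 : ∀ h, Sg v N (-(c • v)) h → Sg v N (c • v) (h ^ k) := fun h e => by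
    rw [← p5] at e
    have := e.pow B (pow_mem hc 5) k
    rwa [← pow_mul, show 5 * k = 8 * (5 * i + 3) + 1 by rw [hk']; ring, p8, pow_one] at this
  have s3 : ∀ h, Sg v N (c • v) (h ^ k) ∨ Sg v N (-(c • v)) (h ^ k) →
      Sg v N (c • v) h ∨ Sg v N (-(c • v)) h := fun h e => by
    have inj : Function.Injective fun g : G => g ^ k := (powCoprime kc).injective
    obtain ⟨g, hg, e'⟩ := ((Set.toFinite
      {h | Sg v N (c • v) h ∨ Sg v N (-(c • v)) h}).injOn_iff_bijOn_of_mapsTo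
      (f := fun g : G => g ^ k) (fun g hg => hg.symm.imp (s2 g) (s1 g))).1 inj.injOn |>.surjOn e
    exact inj e' ▸ hg
  have εk : ∀ h, eps v N (c • v) (h ^ k) = -eps v N (c • v) h := fun h =>
    eps_neg ex ⟨fun e => (s3 h (.inl e)).resolve_left fun e' => ex _ e (s1 h e'), s2 h⟩
      ⟨fun e => (s3 h (.inr e)).resolve_right fun e' => ex _ (s2 h e') e, s1 h⟩
  have E0 : ∀ h, ind (eps v N (c • v)) h = 0 := fun h => by
    have h1 := ind_conj (eps v N (c • v)) (hR h (h ^ k) (le_antisymm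
      (Subgroup.zpowers_le.2 (mem_zpowers_pow_iff.2
        (Nat.Coprime.coprime_dvd_right (orderOf_dvd_natCard h) kc.symm)))
      (Subgroup.zpowers_le.2 (Subgroup.npow_mem_zpowers h k))))
    have h2 : ind (eps v N (c • v)) (h ^ k) = -ind (eps v N (c • v)) h := by
      rw [ind, ind, ← sum_neg_distrib]
      exact sum_congr rfl fun a _ => by
        rw [← εk, show a⁻¹ * h * a = a⁻¹ * h * a⁻¹⁻¹ by rw [inv_inv], conj_pow, inv_inv]
    omega
  have zero := sq_sum (eps v N (c • v))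
  simp only [E0, mul_zero, sum_const_zero] at zero
  have nn : ∀ a b : G, 0 ≤ ∑ h, eps v N (c • v) (a⁻¹ * h * a) * eps v N (c • v) (b⁻¹ * h * b) :=
    fun a b => by
    by_cases hab : a⁻¹ * b ∈ N
    · refine sum_nonneg fun h _ => ?_
      rw [show b⁻¹ * h * b = (a⁻¹ * b)⁻¹ * (a⁻¹ * h * a) * (a⁻¹ * b) by group,
        eps_congr (sg_cj hab) (sg_cj hab)]
      exact mul_self_nonneg _
    obtain ⟨h1, a1, b1⟩ := hp G V v N hD B a b hab c hc
    obtain ⟨h2, a2, b2⟩ := hp G V v N hD B (a * m) b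
      (fun e => hab (by simpa [mul_assoc] using mul_mem hm e)) c hc
    rw [← mul_smul c, ← pow_two] at a1 b1 a2 b2
    have c2 := pow_mem hc 2
    have e1 := cj_smul a1
    have e2 := cj_smul a2
    have f1 := cj_smul b1
    have f2 := cj_smul b2
    have x1 := mem_of B e1 c2
    have y1 := mem_of B f1 c2
    have x2 : a⁻¹ * h2 * a ∈ N := by
      simpa [mul_assoc] using mul_mem (mul_mem hm (mem_of B e2 c2)) (inv_mem hm)
    have g2 : ∀ n ∈ N, (a⁻¹ * h2 * a) • n • v = -(c ^ 2 • n • v) := fun n hn => by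
      rw [show a⁻¹ * h2 * a = m * ((a * m)⁻¹ * h2 * (a * m)) * m⁻¹ by group, mul_smul,
        ← mul_smul m⁻¹, mul_smul, act_of B e2 (mul_mem (inv_mem hm) hn), mul_smul m⁻¹, ← mul_smul m,
        ← mul_smul _ m⁻¹, act_of B (cm.trans (p4 2).symm) hn, pow_add, mul_smul, ← mul_smul _ n,
        c4 _ (mul_mem c2 hn)]
    have xa : a⁻¹ * (h2 * h1⁻¹) * a = a⁻¹ * h2 * a * (a⁻¹ * h1 * a)⁻¹ := by group
    have xb : b⁻¹ * (h2 * h1⁻¹) * b = b⁻¹ * h2 * b * (b⁻¹ * h1 * b)⁻¹ := by group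
    have ga : ∀ n ∈ N, (a⁻¹ * (h2 * h1⁻¹) * a) • n • v = -(n • v) := fun n hn => by
      rw [xa, mul_smul, ← mul_smul _ n, g2 _ (mul_mem (inv_mem x1) hn),
        ← act_of B e1 (mul_mem (inv_mem x1) hn), mul_smul _ n, smul_inv_smul]
    have gb : ∀ n ∈ N, (b⁻¹ * (h2 * h1⁻¹) * b) • n • v = n • v := fun n hn => by
      rw [xb, mul_smul, ← mul_smul _ n, act_of B (f2.trans f1.symm) (mul_mem (inv_mem y1) hn),
        mul_smul _ n, smul_inv_smul]
    have ma : a⁻¹ * (h2 * h1⁻¹) * a ∈ N := xa ▸ mul_mem x2 (inv_mem x1)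
    have mb : b⁻¹ * (h2 * h1⁻¹) * b ∈ N := xb ▸ mul_mem (mem_of B f2 c2) (inv_mem y1)
    refine (vanish _ a b (h2 * h1⁻¹) (l := -1) (m := 1) (by norm_num) (fun h => ?_) fun h => ?_).ge
    · rw [neg_one_mul]
      exact eps_neg ex (sg_neg ma ga) (by rw [sg_neg ma ga, neg_neg])
    · rw [one_mul]
      exact eps_congr (sg_one mb gb) (sg_one mb gb)
  have z1 := (sum_eq_zero_iff_of_nonneg fun a _ => sum_nonneg fun b _ => nn a b).1 zero.symm 1
    (mem_univ _)
  have z2 := (sum_eq_zero_iff_of_nonneg fun b _ => nn 1 b).1 z1 1 (mem_univ _)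
  have z3 := (sum_eq_zero_iff_of_nonneg fun h _ => mul_self_nonneg _).1 z2 c (mem_univ _)
  have : Sg v N (c • v) c := ⟨hc, 1, one_mem _, by simp⟩
  simp [eps, this] at z3

end Cfsg.Agent.H94.AH
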