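import Mathlib
import Cfsg.Agent.H86.Alt3
import Cfsg.Agent.H33.MinDegree

/-! Permutation groups with quasisimple generalized Fitting subgroup that contain many double
transpositions. -/

set_option autoImplicit false

namespace Cfsg.Agent.H94.Alt2

open Subgroup Equiv Equiv.Perm H78 H86

variable {α : Type*} [Fintype α] [DecidableEq α] {H L : Subgroup (Perm α)}

structure Ctx (H L : Subgroup (Perm α)) : Prop where
  qs : IsQuasisimple L
  le : L ≤ H
  norm : H ≤ normalizer (L : Set (Perm α))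
  cen : H ⊓ centralizer (L : Set (Perm α)) ≤ L

/-- The Klein four group on `B` lies in `H`. -/
def V (H : Subgroup (Perm α)) (B : Finset α) : Prop :=
  B.card = 4 ∧ ∀ a ∈ B, ∀ b ∈ B, ∀ c ∈ B, ∀ d ∈ B, a ≠ b → a ≠ c → a ≠ d → b ≠ c → b ≠ d → c ≠ d →
    swap a b * swap c d ∈ H

omit [Fintype α] in
theorem V_of {a b c d : α} (hab : a ≠ b) (hac : a ≠ c) (had : a ≠ d) (hbc : b ≠ c) (hbd : b ≠ d)
    (hcd : c ≠ d) (h1 : swap a b * swap c d ∈ H) (h2 : swap a c * swap b d ∈ H) :
    V H {a, b, c, d} := by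
  have h3 : swap a d * swap b c ∈ H := by
    convert mul_mem h1 h2 using 1
    ext x; simp only [mul_apply, swap_apply_def]; grind
  have h4 : swap c d * swap a b ∈ H := by simpa using inv_mem h1
  have h5 : swap b d * swap a c ∈ H := by simpa using inv_mem h2
  have h6 : swap b c * swap a d ∈ H := by simpa using inv_mem h3
  refine ⟨by simp [*], fun x hx y hy z hz w hw e1 e2 e3 e4 e5 e6 => ?_⟩
  simp only [Finset.mem_insert, Finset.mem_singleton] at hx hy hz hw
  rcases hx with rfl | rfl | rfl | rfl <;> rcases hy with rfl | rfl | rfl | rfl <;>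
    (try contradiction) <;> rcases hz with rfl | rfl | rfl | rfl <;> (try contradiction) <;>
    rcases hw with rfl | rfl | rfl | rfl <;> (try contradiction) <;>
    first
      | simpa only [swap_comm] using h1
      | simpa only [swap_comm] using h2
      | simpa only [swap_comm] using h3
      | simpa only [swap_comm] using h4
      | simpa only [swap_comm] using h5
      | simpa only [swap_comm] using h6

omit [Fintype α] in
theorem V.image {B : Finset α} (hB : V H B) {g : Perm α} (hg : g ∈ H) : V H (B.image g) := by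
  refine ⟨by rw [Finset.card_image_of_injective _ g.injective, hB.1], ?_⟩
  simp only [Finset.forall_mem_image, ne_eq, g.injective.eq_iff]
  intro a ha b hb c hc d hd e1 e2 e3 e4 e5 e6
  have := mul_mem (mul_mem hg (hB.2 a ha b hb c hc d hd e1 e2 e3 e4 e5 e6)) (inv_mem hg)
  convert this using 1
  rw [swap_apply_apply, swap_apply_apply]; group

/-- The setwise stabilizer. -/
def stab (B : Finset α) : Subgroup (Perm α) where
  carrier := {g | ∀ x, g x ∈ B ↔ x ∈ B}
  one_mem' _ := Iff.rfl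
  mul_mem' {g h} hg hh x := (hg _).trans (hh x)
  inv_mem' {g} hg x := by simpa using (hg (g⁻¹ x)).symm

namespace Ctx

variable (c : Ctx H L)
include c

theorem le_of_conj {W : Subgroup (Perm α)} {z : Perm α} (hz : z ∈ H)
    (h1 : z ∉ centralizer (L : Set (Perm α))) (h2 : ∀ l ∈ L, l * z * l⁻¹ ∈ W) : L ≤ W := by
  let U : Subgroup (Perm α) :=
    { carrier := {g | g ∈ H ∧ ∀ l ∈ L, l * g * l⁻¹ ∈ W}
      one_mem' := ⟨one_mem _, fun l _ => by simp⟩
      mul_mem' := fun {g h} hg hh => ⟨mul_mem hg.1 hh.1, fun l hl => by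
        simpa [mul_assoc] using mul_mem (hg.2 l hl) (hh.2 l hl)⟩
      inv_mem' := fun {g} hg => ⟨inv_mem hg.1, fun l hl => by
        simpa [mul_assoc] using inv_mem (hg.2 l hl)⟩ }
  have h3 := (le_or_comm (U := U) c.qs (fun g hg => c.norm hg.1) fun m hm =>
    H10.mem_normalizer_of_conj_mem fun g hg => ⟨mul_mem (mul_mem (c.le hm) hg.1) (inv_mem (c.le hm)),
      fun l hl => by simpa [mul_assoc] using hg.2 _ (mul_mem hl hm)⟩).resolve_right
    fun e => h1 (e ⟨hz, h2⟩)
  exact fun l hl => by simpa using (h3 hl).2 1 (one_mem _)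

theorem fix {X : Finset α} (h4 : X.card ≤ 4) (hX : L ≤ stab X) : ∀ l ∈ L, ∀ x ∈ X, l x = x := by
  let φ : L →* Perm X :=
    { toFun := fun l => l.1.subtypePerm (hX l.2)
      map_one' := rfl
      map_mul' := fun _ _ => rfl }
  have := c.qs.1
  have := solvable_perm_of_le_four X (by simpa using h4)
  have h1 : Group.IsPerfect φ.range := Group.IsPerfect.range φ
  have h2 : Subsingleton φ.range := not_nontrivial_iff_subsingleton.mp fun _ =>
    Group.IsPerfect.not_isSolvable φ.range inferInstance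
  intro l hl x hx
  have h3 : φ ⟨l, hl⟩ = 1 := congrArg Subtype.val (h2.elim ⟨_, _, rfl⟩ 1)
  exact congrArg Subtype.val (Equiv.congr_fun h3 ⟨x, hx⟩)

theorem not_cent {z : Perm α} (hz : z ∈ H) (h1 : z ≠ 1) (h4 : z.support.card ≤ 4) :
    z ∉ centralizer (L : Set (Perm α)) := fun h => by
  have h2 := c.fix h4 (fun l hl x => by
    have := Equiv.congr_fun (mem_centralizer_iff.1 h l hl) x
    simp only [mul_apply] at this
    rw [mem_support, mem_support, ← this, l.injective.ne_iff]) z (c.cen ⟨hz, h⟩)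
  exact h1 (Equiv.ext fun x => by_contra fun e => e (h2 x (mem_support.2 e)))

theorem not_cent_dt {a b x y : α} (h : swap a b * swap x y ∈ H) (hab : a ≠ b) (hax : a ≠ x)
    (hay : a ≠ y) : swap a b * swap x y ∉ centralizer (L : Set (Perm α)) := by
  refine c.not_cent h (fun e => hab ?_) ((Finset.card_le_card (t := {a, b, x, y}) fun u hu => ?_).trans
    Finset.card_le_four)
  · have := Equiv.congr_fun e a
    simp only [mul_apply, swap_apply_def, one_apply] at this; grind
  · simp only [mem_support, mul_apply, swap_apply_def] at hu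
    simp only [Finset.mem_insert, Finset.mem_singleton]; grind

theorem not_le_stab {a b x y : α} (h : swap a b * swap x y ∈ H) (hab : a ≠ b) (hax : a ≠ x)
    (hay : a ≠ y) : ¬ L ≤ stab {a, b, x, y} := fun e => by
  have h1 := c.fix Finset.card_le_four e
  refine c.not_cent_dt h hab hax hay (mem_centralizer_iff.2 fun l hl => ?_)
  have h2 : l * (swap a b * swap x y) * l⁻¹ = swap (l a) (l b) * swap (l x) (l y) := by
    rw [swap_apply_apply, swap_apply_apply]; group
  rw [h1 l hl a (by simp), h1 l hl b (by simp), h1 l hl x (by simp), h1 l hl y (by simp)] at h2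
  exact mul_inv_eq_iff_eq_mul.1 h2

end Ctx

theorem sep {s : Perm α} (hs : ∀ x, s (s x) = x) (h3 : ∀ τ ∈ H, ¬ τ.IsThreeCycle)
    (hp : ∀ x y, s x ≠ x → s y ≠ y → y ≠ x → y ≠ s x → swap x (s x) * swap y (s y) ∈ H)
    {B : Finset α} (hB : V H B) :
    (∀ x, s x ∈ B ↔ x ∈ B) ∨ ∀ y, s y ≠ y → (s y ∈ B ↔ y ∉ B) := by
  by_contra! h
  obtain ⟨⟨x', hx'⟩, y', hy1, hy2⟩ := h
  obtain ⟨x, hx, hx2⟩ : ∃ x ∈ B, s x ∉ B := by
    rcases hx' with h | h
    · exact ⟨s x', h.1, by rw [hs]; exact h.2⟩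
    · exact ⟨x', h.2, h.1⟩
  have hx3 : s x ≠ x := fun e => hx2 (e.symm ▸ hx)
  have hy3 : y' ≠ x := by grind
  have hy4 : y' ≠ s x := by grind
  have ht := hp x y' hx3 hy1 hy3 hy4
  have hs1 := hs x
  have hs2 := hs y'
  rcases hy2 with h | h
  · obtain ⟨b, hb, hb'⟩ : ∃ b ∈ B, b ∉ ({x, y', s y'} : Finset α) :=
      Finset.exists_mem_notMem_of_card_lt_card (Finset.card_le_three.trans_lt (by rw [hB.1]; decide))
    simp only [Finset.mem_insert, Finset.mem_singleton, not_or] at hb'
    have h4 := hB.2 x hx b hb y' h.2 _ h.1 (by grind) (by grind) (by grind) (by grind) (by grind)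
      (by grind)
    refine h3 _ (mul_mem ht (inv_mem h4)) ?_
    have h5 : swap x (s x) * swap y' (s y') * (swap x b * swap y' (s y'))⁻¹ =
        swap x (s x) * swap x b := by
      rw [mul_inv_rev, swap_inv, swap_inv, mul_assoc, ← mul_assoc (swap y' _), swap_mul_self, one_mul]
    rw [h5]
    exact isThreeCycle_swap_mul_swap_same hx3.symm (by grind) (by grind)
  · obtain ⟨b, c, d, e1, e2, e3, e⟩ := Finset.card_eq_three.1
      (show (B.erase x).card = 3 by rw [Finset.card_erase_of_mem hx, hB.1])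
    have m : ∀ u, u ≠ x ∧ u ∈ B ↔ u = b ∨ u = c ∨ u = d := fun u => by
      rw [← Finset.mem_erase, e]; simp
    have hb := (m b).2 (by simp)
    have hc := (m c).2 (by simp)
    have hd := (m d).2 (by simp)
    have h4 := hB.2 x hx b hb.2 c hc.2 d hd.2 hb.1.symm hc.1.symm hd.1.symm e1 e2 e3
    refine h3 _ (mul_mem (mul_mem (mul_mem ht h4) (inv_mem ht)) (inv_mem h4))
      (H33.isThreeCycle_commutator (a := x) ?_ ?_ fun u hu => ?_)
    · simp only [mul_apply, swap_apply_def]; grind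
    · simp only [mul_apply, swap_apply_def]; grind
    · simp only [mul_apply, swap_apply_def]; grind

theorem exists_three (c : Ctx H L) {s : Perm α} (hs : ∀ x, s (s x) = x)
    (hf : ∀ x y, s x = x → s y = y → x = y)
    (hp : ∀ x y, s x ≠ x → s y ≠ y → y ≠ x → y ≠ s x → swap x (s x) * swap y (s y) ∈ H)
    {a b x y : α} (hB : V H {a, s a, b, s b}) (hC : V H {x, s x, y, s y})
    (ha : s a ≠ a) (hb : s b ≠ b) (hx : s x ≠ x) (hy : s y ≠ y)
    (hab : b ≠ a ∧ b ≠ s a) (hax : x ≠ a ∧ x ≠ s a) (hay : y ≠ a ∧ y ≠ s a)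
    (hbx : x ≠ b ∧ x ≠ s b) (hby : y ≠ b ∧ y ≠ s b) (hxy : y ≠ x ∧ y ≠ s x) :
    ∃ τ ∈ H, τ.IsThreeCycle := by
  by_contra! h3
  have hz := hp a b ha hb hab.1 hab.2
  have hsa := hs a
  have hsb := hs b
  have hsx := hs x
  have hsy := hs y
  have hz1 := c.not_cent_dt hz ha.symm hab.1.symm (by grind)
  have hz2 := c.not_le_stab hz ha.symm hab.1.symm (by grind)
  set z := swap a (s a) * swap b (s b) with hzd
  set B : Finset α := {a, s a, b, s b} with hBd
  have hz3 : ∀ u, z u = u ∨ z u = s u := fun u => by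
    simp only [hzd, mul_apply, swap_apply_def]
    clear * - hsa hsb hab ha hb; grind
  have hBs : ∀ u, s u ∈ B ↔ u ∈ B := fun u => by
    have := hs u
    simp only [hBd, Finset.mem_insert, Finset.mem_singleton]
    clear * - this hsa hsb; grind
  have him : ∀ (l : Perm α) (u : α), u ∈ B.image (l⁻¹ : Perm α) ↔ l u ∈ B := fun l u => by
    rw [Finset.mem_image]
    exact ⟨fun ⟨v, h1, h2⟩ => by simpa [← h2] using h1, fun h => ⟨_, h, by simp⟩⟩
  have hi : ∀ (l : Perm α) (u : α), l (l⁻¹ u) = u := fun l u => by simp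
  by_cases hA : ∀ D, V H D → ∀ u, s u ∈ D ↔ u ∈ D
  · refine hz2 (c.le_of_conj hz hz1 fun l hl u => ?_)
    have h1 := hA _ (hB.image (inv_mem (c.le hl))) (l⁻¹ u)
    rw [him, him] at h1
    rcases hz3 (l⁻¹ u) with e | e <;> simp only [mul_apply, e]
    · simp
    · simpa using h1
  push Not at hA
  obtain ⟨D, hD, hD'⟩ := hA
  have five : ∀ E, V H E → (∀ u, s u ≠ u → (s u ∈ E ↔ u ∉ E)) → ∀ u ∈ E,
      u ∈ B ∨ u ∈ ({x, s x, y, s y} : Finset α) := fun E hE h u hu => by
    by_contra! hn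
    simp only [hBd, Finset.mem_insert, Finset.mem_singleton, not_or] at hn
    have k : ∀ v, s v ≠ v → ∃ w ∈ E, w = v ∨ w = s v := fun v hv => by
      have := h v hv
      clear * - this; grind
    obtain ⟨a', m1, e1⟩ := k a ha
    obtain ⟨b', m2, e2⟩ := k b hb
    obtain ⟨x', m3, e3⟩ := k x hx
    obtain ⟨y', m4, e4⟩ := k y hy
    have h5 : ({u, a', b', x', y'} : Finset α) ⊆ E := by
      simp [Finset.insert_subset_iff, *]
    have h6 := Finset.card_le_card h5
    clear * - h6 hE e1 e2 e3 e4 hn hsa hsb hsx hsy hab hax hay hbx hby hxy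
    rw [Finset.card_insert_of_notMem (by simp; grind), Finset.card_insert_of_notMem (by simp; grind),
      Finset.card_insert_of_notMem (by simp; grind), Finset.card_pair (by grind), hE.1] at h6
    omega
  have hD2 := (sep hs h3 hp hD).resolve_left fun h => by
    obtain ⟨u, e | e⟩ := hD'
    · exact e.2 ((h u).1 e.1)
    · exact e.1 ((h u).2 e.2)
  have hY : ∀ u, s u ≠ u → u ∈ B ∨ u ∈ ({x, s x, y, s y} : Finset α) := fun u hu => by
    by_cases e : u ∈ D
    · exact five D hD hD2 u e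
    · have h1 := five D hD hD2 _ ((hD2 u hu).2 e)
      have := hs u
      rw [hBs] at h1
      simp only [Finset.mem_insert, Finset.mem_singleton] at h1 ⊢
      clear * - h1 this hsx hsy; grind
  have hV : ∀ E, V H E → ∀ u ∈ E, s u ≠ u := fun E hE u hu e => by
    rcases sep hs h3 hp hE with h | h
    · obtain ⟨p, q, r, e1, e2, e3, e4⟩ := Finset.card_eq_three.1
        (show (E.erase u).card = 3 by rw [Finset.card_erase_of_mem hu, hE.1])
      have m : ∀ v, v ≠ u ∧ v ∈ E ↔ v = p ∨ v = q ∨ v = r := fun v => by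
        rw [← Finset.mem_erase, e4]; simp
      have k : ∀ v, v = p ∨ v = q ∨ v = r → s v ≠ v ∧ (s v = p ∨ s v = q ∨ s v = r) := fun v hv => by
        have h1 := (m v).2 hv
        have := hs v
        exact ⟨fun e' => h1.1 (hf _ _ e' e), (m _).1 ⟨fun e' => h1.1 (by rw [← this, e', e]), (h v).2 h1.2⟩⟩
      have k1 := k p (by simp)
      have k2 := k q (by simp)
      have k3 := k r (by simp)
      have k4 := hs p
      have k5 := hs q
      have k6 := hs r
      clear * - k1 k2 k3 k4 k5 k6 e1 e2 e3; grind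
    · have h1 := five E hE h u hu
      simp only [hBd, Finset.mem_insert, Finset.mem_singleton] at h1
      clear * - h1 e hsa hsb hsx hsy ha hb hx hy; grind
  have hH : ∀ g ∈ H, ∀ u, s u ≠ u → s (g u) ≠ g u := fun g hg u hu =>
    (hY u hu).elim (fun h => hV _ (hB.image hg) _ (Finset.mem_image_of_mem _ h))
      fun h => hV _ (hC.image hg) _ (Finset.mem_image_of_mem _ h)
  have hsH : s ∈ H := by
    convert mul_mem hz (hp x y hx hy hxy.1 hxy.2) using 1
    ext u
    have h1 := hY u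
    simp only [hBd, Finset.mem_insert, Finset.mem_singleton] at h1
    simp only [hzd, mul_apply, swap_apply_def]
    clear * - h1 hsa hsb hsx hsy ha hb hx hy hab hax hay hbx hby hxy; grind
  by_cases hsL : s ∈ centralizer (L : Set (Perm α))
  · refine hz2 (c.le_of_conj hz hz1 fun l hl u => ?_)
    have h1 := Equiv.congr_fun (mem_centralizer_iff.1 hsL l hl) (l⁻¹ u)
    simp only [mul_apply, hi] at h1
    rcases hz3 (l⁻¹ u) with e | e <;> simp only [mul_apply, e]
    · simp
    · rw [h1, hBs]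
  let W : Subgroup (Perm α) :=
    { carrier := {g | g ∈ H ∧ ∀ u v, s u ≠ u → s v ≠ v → ((g u ∈ B ↔ g v ∈ B) ↔ (u ∈ B ↔ v ∈ B))}
      one_mem' := ⟨one_mem _, fun _ _ _ _ => Iff.rfl⟩
      mul_mem' := fun {g h} hg hh => ⟨mul_mem hg.1 hh.1, fun u v hu hv =>
        (hg.2 _ _ (hH h hh.1 u hu) (hH h hh.1 v hv)).trans (hh.2 u v hu hv)⟩
      inv_mem' := fun {g} hg => ⟨inv_mem hg.1, fun u v hu hv => by
        simpa using (hg.2 _ _ (hH _ (inv_mem hg.1) u hu) (hH _ (inv_mem hg.1) v hv)).symm⟩ }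
  have hW : L ≤ W := c.le_of_conj hsH hsL fun l hl =>
    ⟨mul_mem (mul_mem (c.le hl) hsH) (inv_mem (c.le hl)), fun u v hu hv => by
      have hl' := inv_mem (c.le hl)
      simp only [mul_apply]
      rcases sep hs h3 hp (hB.image hl') with h | h
      · have h1 := h (l⁻¹ u)
        have h2 := h (l⁻¹ v)
        simp only [him, hi] at h1 h2
        rw [h1, h2]
      · have h1 := h _ (hH _ hl' u hu)
        have h2 := h _ (hH _ hl' v hv)
        simp only [him, hi] at h1 h2
        rw [h1, h2, not_iff_not]⟩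
  refine hz2 (c.le_of_conj hz hz1 fun l hl u => ?_)
  rcases hz3 (l⁻¹ u) with e | e <;> simp only [mul_apply, e]
  · simp
  · by_cases e' : s (l⁻¹ u) = l⁻¹ u
    · rw [e', hi]
    · simpa using ((hW hl).2 (s (l⁻¹ u)) (l⁻¹ u) (by rw [hs]; exact Ne.symm e') e').2 (hBs _)

theorem exists_altOn (c : Ctx H L) (h : ∃ τ ∈ H, τ.IsThreeCycle) :
    ∃ X : Finset α, L = altOn X ∧ ∀ B, V H B → B ⊆ X := by
  obtain ⟨τ, h1, h2⟩ := h
  obtain ⟨X, h3, h4, h5⟩ := eq_altOn_of_c3 c.qs c.le c.norm c.cen h2 h1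
    (c.not_cent h1 h2.ne_one (by rw [h2.card_support]; decide))
  have hX : ∀ g ∈ H, ∀ u ∈ X, g u ∈ X := fun g hg u hu => by
    obtain ⟨v, hv, w, hw, e1, e2, e3⟩ := exists_two_ne (X := X) (by omega) u
    have h6 := mul_mem (mul_mem hg (c.le (h3 ▸ c3_mem_altOn hu hv hw e2.symm e1))) (inv_mem hg)
    rw [c3_conj] at h6
    have e4 := g.injective.ne e2.symm
    have e5 := g.injective.ne e3.symm
    exact h5 _ h6 (isThreeCycle_c3 e4 e5 (g.injective.ne e1))
      (mem_support.2 (by rw [c3_apply_fst e4 e5]; exact e4.symm))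
  refine ⟨X, h3, fun B hB => ?_⟩
  obtain ⟨a, b, x, y, e1, e2, e3, e4, e5, e6, rfl⟩ := Finset.card_eq_four.1 hB.1
  have v1 := hB.2 a (by simp) b (by simp) x (by simp) y (by simp) e1 e2 e3 e4 e5 e6
  have v2 := hB.2 a (by simp) x (by simp) b (by simp) y (by simp) e2 e1 e3 e4.symm e6 e5
  have h6 : ¬ Disjoint X {a, b, x, y} := fun e => c.not_cent_dt v1 e1 e2 e3
    (mem_centralizer_iff.2 fun l hl => (commute_of_mem_symOn e (altOn_le_symOn _ (h3 ▸ hl))
      (mul_mem (swap_mem_symOn (by simp) (by simp)) (swap_mem_symOn (by simp) (by simp)))).eq)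
  obtain ⟨u, h7, h8⟩ := Finset.not_disjoint_iff.1 h6
  have k1 := hX _ v1
  have k2 := hX _ v2
  have := k1 a
  have := k1 b
  have := k1 x
  have := k1 y
  have := k2 a
  have := k2 x
  simp only [mul_apply, swap_apply_def, Finset.mem_insert, Finset.mem_singleton,
    Finset.insert_subset_iff, Finset.singleton_subset_iff] at *
  grind

/-- A `2`-subgroup of the symmetric group. -/
def Q (n : ℕ) : Subgroup (Perm (Fin n)) where
  carrier := {g | (∀ x, (g x : ℕ) / 4 = x / 4) ∧
    ∀ x y, (g x : ℕ) / 2 = g y / 2 ↔ (x : ℕ) / 2 = y / 2}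
  one_mem' := ⟨fun _ => rfl, fun _ _ => Iff.rfl⟩
  mul_mem' {g h} hg hh := ⟨fun x => (hg.1 _).trans (hh.1 x), fun x y => (hg.2 _ _).trans (hh.2 x y)⟩
  inv_mem' {g} hg := ⟨fun x => by simpa using (hg.1 (g⁻¹ x)).symm, fun x y => by
    simpa using (hg.2 (g⁻¹ x) (g⁻¹ y)).symm⟩

theorem Q_two (n : ℕ) : IsPGroup 2 (Q n) := fun ⟨g, hg⟩ => ⟨2, Subtype.ext (Equiv.ext fun x => by
  have h1 : ∀ x, (g (g x) : ℕ) / 2 = x / 2 := fun x => by
    have := hg.1 x
    have := hg.1 (g x)
    have := hg.2 (g x) x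
    omega
  have h2 := h1 x
  have h3 := h1 (g (g x))
  have h4 : g (g (g (g x))) = g (g x) ↔ g (g x) = x := by
    rw [g.injective.eq_iff, g.injective.eq_iff]
  change g (g (g (g x))) = x
  simp only [Fin.ext_iff] at h4 ⊢
  omega)⟩

/-- The partner map. -/
def sf (n : ℕ) (x : Fin n) : Fin n :=
  if x % 2 = (0 : ℕ) then if h : x + 1 < n then ⟨x + 1, h⟩ else x else ⟨x - 1, by omega⟩

theorem sf_val {n : ℕ} (x : Fin n) :
    (sf n x : ℕ) = if x % 2 = (0 : ℕ) then if x + 1 < n then (x : ℕ) + 1 else x else x - 1 := by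
  unfold sf; split_ifs <;> rfl

theorem sf_invol (n : ℕ) : Function.Involutive (sf n) := fun x => Fin.ext (by
  have := x.2
  rw [sf_val, sf_val]; split_ifs <;> omega)

theorem main {n : ℕ} (hn : 8 ≤ n) {H L : Subgroup (Perm (Fin n))} (c : Ctx H L)
    (hQ : Q n ⊓ alternatingGroup (Fin n) ≤ H) : ∃ X : Finset (Fin n), L = altOn X ∧ n ≤ X.card + 3 := by
  let s := (sf_invol n).toPerm
  have hv : ∀ x, (s x : ℕ) = if x % 2 = (0 : ℕ) then if x + 1 < n then (x : ℕ) + 1 else x else x - 1 :=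
    sf_val
  have hp : ∀ x y, s x ≠ x → s y ≠ y → y ≠ x → y ≠ s x → swap x (s x) * swap y (s y) ∈ H :=
    fun x y h1 h2 h3 h4 => by
      have h5 : ∀ x u : Fin n, (swap x (s x) u : ℕ) / 2 = u / 2 := fun x u => by
        have := hv x
        rw [swap_apply_def]
        split_ifs at this ⊢ <;> omega
      have h6 : ∀ u : Fin n, ((swap x (s x) * swap y (s y)) u : ℕ) / 2 = u / 2 := fun u =>
        (h5 _ _).trans (h5 _ _)
      refine hQ ⟨⟨fun u => ?_, fun u v => by rw [h6, h6]⟩, by simp [h1.symm, h2.symm]⟩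
      have := h6 u
      omega
  have hV : ∀ a b : Fin n, (a : ℕ) % 4 = 0 → (b : ℕ) = a + 2 → b + 1 < n →
      V H {a, s a, b, s b} := fun a b h1 h2 h3 => by
    have h4 : (s a : ℕ) = a + 1 := by rw [hv]; split_ifs <;> omega
    have h5 : (s b : ℕ) = a + 3 := by rw [hv]; split_ifs <;> omega
    have e : ∀ {u v : Fin n}, (u : ℕ) ≠ v → u ≠ v := Fin.ne_of_val_ne
    refine V_of (e (by omega)) (e (by omega)) (e (by omega)) (e (by omega)) (e (by omega))
      (e (by omega)) (hp a b (e (by omega)) (e (by omega)) (e (by omega)) (e (by omega)))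
      (hQ ⟨?_, by simp [e (show (a : ℕ) ≠ b by omega), e (show (s a : ℕ) ≠ s b by omega)]⟩)
    have h6 : ∀ u : Fin n, ((swap a b * swap (s a) (s b)) u : ℕ) =
        if (u : ℕ) / 4 = a / 4 then if (u : ℕ) % 4 < 2 then (u : ℕ) + 2 else u - 2 else u := fun u => by
      simp only [mul_apply, swap_apply_def, Fin.ext_iff]
      split_ifs <;> omega
    refine ⟨fun u => ?_, fun u v => ?_⟩ <;> simp only [h6] <;> split_ifs <;> omega
  have h0 : ∀ i (h : i < n), i % 2 = 0 → i + 1 < n → (s ⟨i, h⟩ : ℕ) = i + 1 := fun i h h1 h2 => by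
    rw [hv]; simp [h1, h2]
  have k0 := h0 0 (by omega) rfl (by omega)
  have k2 := h0 2 (by omega) rfl (by omega)
  have k4 := h0 4 (by omega) rfl (by omega)
  have k6 := h0 6 (by omega) rfl (by omega)
  obtain ⟨X, h1, h2⟩ := exists_altOn c (exists_three c (s := s) (sf_invol n) (fun x y hx hy => by
      have h1 := hv x
      have h2 := hv y
      have := x.2
      have := y.2
      rw [hx] at h1
      rw [hy] at h2
      refine Fin.ext ?_
      split_ifs at h1 h2 <;> omega) hp
    (hV ⟨0, by omega⟩ ⟨2, by omega⟩ rfl rfl (by simp; omega))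
    (hV ⟨4, by omega⟩ ⟨6, by omega⟩ (by simp) rfl (by simp; omega))
    (by simp [Fin.ext_iff, k0]) (by simp [Fin.ext_iff, k2]) (by simp [Fin.ext_iff, k4])
    (by simp [Fin.ext_iff, k6]) (by simp [Fin.ext_iff, k0]) (by simp [Fin.ext_iff, k0])
    (by simp [Fin.ext_iff, k0]) (by simp [Fin.ext_iff, k2]) (by simp [Fin.ext_iff, k2])
    (by simp [Fin.ext_iff, k4]))
  refine ⟨X, h1, ?_⟩
  have h3 : Finset.range (4 * (n / 4)) ⊆ X.image Fin.val := fun i hi => by
    rw [Finset.mem_range] at hi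
    have h4 := h2 _ (hV ⟨4 * (i / 4), by omega⟩ ⟨4 * (i / 4) + 2, by omega⟩ (by simp) rfl
      (by simp; omega))
    refine Finset.mem_image.2 ⟨⟨i, by omega⟩, h4 ?_, rfl⟩
    have := h0 (4 * (i / 4)) (by omega) (by omega) (by omega)
    have := h0 (4 * (i / 4) + 2) (by omega) (by omega) (by omega)
    simp only [Finset.mem_insert, Finset.mem_singleton, Fin.ext_iff]
    omega
  have h4 := (Finset.card_le_card h3).trans Finset.card_image_le
  rw [Finset.card_range] at h4
  omega

end Cfsg.Agent.H94.Alt2
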