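import Cfsg.Agent.H73.AS1
import Cfsg.Agent.H94.Lift
import Cfsg.Agent.H78.Embed
import Cfsg.Agent.H4.Coprime
import Cfsg.Agent.H4.DerLen
import Cfsg.Agent.H3.Fitting
import Cfsg.Agent.H62.ElemAb
import Cfsg.Prelude.Def_LocalEven

/-! Alternating sections of groups in which the non-central `p`-elements have solvable
centralizers: reduction to a statement on modules. -/

set_option autoImplicit false

namespace Cfsg.Agent.H94.AsRed

open Subgroup Cfsg Cfsg.Agent.H73.AS
theorem solv_ext {M : Type*} [Group M] (N : Subgroup M) [N.Normal] (h1 : Group.IsSolvable N)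
    (h2 : Group.IsSolvable (M ⧸ N)) : Group.IsSolvable M :=
  Group.isSolvable_of_ker_le_range N.subtype (QuotientGroup.mk' N) (by simp)

theorem solv_cod {M Q : Type*} [Group M] [Group Q] {f : M →* Q} (hf : Function.Injective f)
    {C : Subgroup Q} (h : ∀ x, f x ∈ C) (hC : Group.IsSolvable C) : Group.IsSolvable M :=
  Group.isSolvable_of_isSolvable_injective (f := f.codRestrict C h)
    fun _ _ e => hf (congrArg Subtype.val e)

theorem normal_zp {M : Type*} [Group M] {z : M} (hz : z ∈ center M) : (zpowers z).Normal :=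
  ⟨fun a ha g => by rwa [mem_center_iff.1 (zpowers_le.2 hz ha) g, mul_inv_cancel_right]⟩

theorem solv_of_cent {M : Type*} [Group M] {L : Subgroup M} {x : M}
    (h : ∀ l ∈ L, l * x * l⁻¹ * x⁻¹ ∈ center M) (hC : Group.IsSolvable (centralizer ({x} : Set M))) :
    Group.IsSolvable L := by
  let φ : L →* center M := MonoidHom.mk' (fun l => ⟨_, h l l.2⟩) fun a b => Subtype.ext (by
    have := mem_center_iff.1 (h b b.2) (x * (a : M)⁻¹ * x⁻¹)
    change (a : M) * b * x * ((a : M) * b)⁻¹ * x⁻¹ = a * x * (a : M)⁻¹ * x⁻¹ * (b * x * (b : M)⁻¹ * x⁻¹)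
    calc _ = a * (b * x * (b : M)⁻¹ * x⁻¹ * (x * (a : M)⁻¹ * x⁻¹)) := by group
      _ = _ := by rw [← this]; group)
  have : Group.IsSolvable φ.ker := solv_cod (f := L.subtype.comp φ.ker.subtype)
    (L.subtype_injective.comp φ.ker.subtype_injective) (fun l =>
      mem_centralizer_singleton_iff.2 (by
        have := congrArg Subtype.val (MonoidHom.mem_ker.1 l.2)
        exact mul_inv_eq_iff_eq_mul.1 (mul_inv_eq_one.1 this))) hC
  have : Group.IsSolvable (center M) := Group.isSolvable_of_comm mul_comm'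
  exact Group.isSolvable_of_ker_le_range φ.ker.subtype φ (by rw [range_subtype])

theorem pull {H Q D : Type*} [Group H] [Group Q] [Group D] {π : H →* Q}
    (hπ : Function.Surjective π) {f : D →* Q} (hf : Function.Injective f) :
    ∃ (K : Subgroup H) (σ : K →* D), Function.Surjective σ ∧ ∀ k, f (σ k) = π k := by
  refine ⟨f.range.comap π, (MonoidHom.ofInjective hf).symm.toMonoidHom.comp
    ((π.comp (f.range.comap π).subtype).codRestrict f.range fun k => k.2), fun d => ?_,
    fun k => MonoidHom.apply_ofInjective_symm hf _⟩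
  obtain ⟨y, hy⟩ := hπ (f d)
  exact ⟨⟨y, d, hy.symm⟩, hf ((MonoidHom.apply_ofInjective_symm hf _).trans hy)⟩

variable {p : ℕ} [hp : Fact p.Prime]

section
variable {M D : Type*} [Group M] [Finite M] [Group D] {π : M →* D} (hπ : Function.Surjective π)
  {z : D} (hz : z ∈ center D) (ho : orderOf z = p) (hD : ¬ Group.IsSolvable D)
include hπ hz ho hD

theorem fratt : ∃ (T : Subgroup M) (x : M), IsPGroup p T ∧ x ∈ T ∧ π x = z ∧
    T ≤ (zpowers z).comap π ∧ ¬ p ∣ T.relIndex ((zpowers z).comap π) ∧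
    ¬ Group.IsSolvable (normalizer (T : Set M)) := by
  have hn : (zpowers z).Normal := normal_zp hz
  obtain ⟨x, hx, j, hj⟩ := exists_lift_prime_pow hπ z (k := 1) hp.out (by rw [ho, pow_one])
  set R := (zpowers z).comap π
  have hxR : x ∈ R := by rw [mem_comap, hx]; exact mem_zpowers z
  obtain ⟨T, hT⟩ := (IsPGroup.of_card (p := p) (G := zpowers (⟨x, hxR⟩ : R))
    (by rw [Nat.card_zpowers, orderOf_mk, hj])).exists_le_sylow
  refine ⟨(T : Subgroup R).map R.subtype, x, T.2.map _, ⟨_, hT (mem_zpowers _), rfl⟩, hx,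
    map_subtype_le _, ?_, fun h => hD ?_⟩
  · rw [relIndex, subgroupOf, comap_map_eq_self_of_injective R.subtype_injective]
    exact T.not_dvd_index
  · have h1 := T.normalizer_sup_eq_top
    have : Group.IsSolvable (D ⧸ zpowers z) := Group.isSolvable_of_surjective
      (f := ((QuotientGroup.mk' _).comp π).comp (normalizer _).subtype) fun q => by
        obtain ⟨d, rfl⟩ := QuotientGroup.mk'_surjective _ q
        obtain ⟨y, rfl⟩ := hπ d
        obtain ⟨a, ha, b, hb, rfl⟩ := mem_sup_of_normal_right.1 (h1 ▸ mem_top y)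
        refine ⟨⟨a, ha⟩, ?_⟩
        rw [map_mul, map_mul, QuotientGroup.mk'_apply _ (π b), (QuotientGroup.eq_one_iff (π b)).2 hb,
          mul_one]
        rfl
    exact solv_ext _ (Group.isSolvable_of_comm mul_comm') this

theorem caseA (hi : ¬ p ∣ (zpowers z).index) : ∃ x : M, π x = z ∧ (∃ k, orderOf x = p ^ k) ∧
    ¬ Group.IsSolvable (centralizer ({x} : Set M)) := by
  have hn : (zpowers z).Normal := normal_zp hz
  obtain ⟨T, x, hT, hx, hxz, hTR, h1, h2⟩ := fratt hπ hz ho hD
  set L := normalizer (T : Set M)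
  set R := (zpowers z).comap π
  have hTL : T ≤ L := le_normalizer
  have h3 : ¬ p ∣ (T.subgroupOf L).index := by
    change ¬ p ∣ T.relIndex L
    rw [← relIndex_mul_relIndex T (L ⊓ R) L (le_inf hTL hTR) inf_le_left, inf_relIndex_left,
      hp.out.dvd_mul, not_or]
    refine ⟨fun h => h1 (h.trans ?_), fun h => hi (h.trans ?_)⟩
    · exact ⟨_, (relIndex_mul_relIndex T (L ⊓ R) R (le_inf hTL hTR) inf_le_right).symm⟩
    · rw [← index_comap_of_surjective _ hπ]
      exact relIndex_dvd_index_of_normal R L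
  obtain ⟨n, hn'⟩ := hT.exists_card_eq
  have h4 : Nat.card (T.subgroupOf L) = p ^ n := by
    rw [← hn', Nat.card_congr (subgroupOfEquivOfLe hTL).toEquiv]
  have h5 : (p ^ n).Coprime (T.subgroupOf L).index :=
    (hp.out.coprime_iff_not_dvd.2 h3).pow_left n
  obtain ⟨B, hB⟩ := exists_right_complement'_of_coprime (N := T.subgroupOf L) (h4 ▸ h5)
  have hTs : Group.IsSolvable T := by
    have := hT.isNilpotent
    infer_instance
  have hB' : ¬ Group.IsSolvable B := fun h => h2 (by
    have : Group.IsSolvable (L ⧸ T.subgroupOf L) :=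
      Group.isSolvable_of_surjective (f := hB.symm.QuotientMulEquiv.symm.toMonoidHom)
        hB.symm.QuotientMulEquiv.symm.surjective
    exact solv_ext _ (Group.isSolvable_of_isSolvable_injective
      (f := (subgroupOfEquivOfLe hTL).toMonoidHom) (subgroupOfEquivOfLe hTL).injective) this)
  have hnm : ∀ a ∈ L, ∀ t ∈ T, a * t * a⁻¹ ∈ T := fun a ha t ht => (mem_normalizer_iff.1 ha t).1 ht
  obtain ⟨d, hd, h6⟩ := H4.exists_mul_mem_centralizer' (A := B.map L.subtype) (D := T ⊓ π.ker)
    (x := x) (fun a ha => mem_normalizer_fintype fun t ht =>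
      ⟨hnm a (map_subtype_le _ ha) t ht.1, (MonoidHom.normal_ker π).conj_mem t ht.2 a⟩) (by
      rw [card_map_of_injective L.subtype_injective, ← hB.symm.index_eq_card]
      exact (h5.coprime_dvd_left (hn' ▸ card_dvd_of_le inf_le_left)).symm)
    (Or.inr (Group.isSolvable_of_isSolvable_injective (inclusion_injective inf_le_left)))
    fun a ha => mem_inf.2 ⟨mul_mem (hnm a (map_subtype_le _ ha) x hx) (inv_mem hx), by
      simp [MonoidHom.mem_ker, hxz, mem_center_iff.1 hz (π a)]⟩
  obtain ⟨k, hk⟩ := IsPGroup.iff_orderOf.1 hT ⟨_, mul_mem hd.1 hx⟩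
  refine ⟨d * x, by rw [map_mul, hd.2, one_mul, hxz], ⟨k, by rwa [orderOf_mk] at hk⟩, fun h => hB' ?_⟩
  exact solv_cod (f := L.subtype.comp B.subtype) (L.subtype_injective.comp B.subtype_injective)
    (fun b => mem_centralizer_singleton_iff.2 (h6 _ ⟨b, b.2, rfl⟩)) h

theorem caseB (hc : ∀ y, π y = 1 → (∃ k, orderOf y = p ^ k) → y ∈ center M) :
    ∃ x : M, π x = z ∧ (∃ k, orderOf x = p ^ k) ∧
      ¬ Group.IsSolvable (centralizer ({x} : Set M)) := by
  obtain ⟨T, x, hT, hx, hxz, -, -, h2⟩ := fratt hπ hz ho hD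
  have a : ∀ y ∈ T, ∃ k, orderOf y = p ^ k := fun y hy => by
    obtain ⟨k, hk⟩ := IsPGroup.iff_orderOf.1 hT ⟨_, hy⟩
    exact ⟨k, by rwa [orderOf_mk] at hk⟩
  exact ⟨x, hxz, a x hx, fun h => h2 (solv_of_cent (fun l hl => hc _
    (by simp [hxz, mem_center_iff.1 hz (π l)])
    (a _ (mul_mem ((mem_normalizer_iff.1 hl x).1 hx) (inv_mem hx)))) h)⟩

end

theorem caseC {n : ℕ} (hm : ModStmt p n) {K : Type*} [Group K] [Finite K]
    {π : K →* alternatingGroup (Fin n)} (hπ : Function.Surjective π)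
    (hN : Group.IsNilpotent π.ker) {P : Subgroup K} [P.Normal] (hP : IsPGroup p P) (h1 : P ≠ ⊥) :
    ∃ w ∈ P, w ≠ 1 ∧ ¬ Group.IsSolvable (centralizer ({w} : Set K)) := by
  obtain ⟨V, hV, h2, h3, ⟨h4, h5⟩, h6⟩ := H4.exists_minimal_elementary_le hP h1
  have h7 := H3.le_centralizer_minimal_normal_of_isNilpotent hN h6
  obtain ⟨d, ι, ρ, a1, a2, a3, -, a5, -, a7⟩ := H62.exists_conjRep V h4 h5
  obtain ⟨ρ', hρ⟩ : ∃ ρ' : Representation (ZMod p) K (Fin d → ZMod p), ∀ g v, ρ' g v = ρ g v :=
    ⟨(LinearEquiv.automorphismGroup.toLinearMapMonoidHom).comp ρ, fun _ _ => rfl⟩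
  have hk : π.ker ≤ ρ'.ker := fun g hg => LinearMap.ext fun v => a2 (by
    rw [hρ, a7, ← h7 hg _ (a3 v), mul_inv_cancel_right]
    rfl)
  obtain ⟨σ, hσ⟩ : ∃ σ : Representation (ZMod p) (alternatingGroup (Fin n)) (Fin d → ZMod p),
      ∀ g, σ (π g) = ρ' g :=
    ⟨(QuotientGroup.lift π.ker ρ' hk).comp
      (QuotientGroup.quotientKerEquivOfSurjective π hπ).symm.toMonoidHom, fun g => by
      have : (QuotientGroup.quotientKerEquivOfSurjective π hπ).symm (π g) = g :=
        (MulEquiv.symm_apply_eq _).2 rfl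
      exact (congrArg (QuotientGroup.lift π.ker ρ' hk) this).trans rfl⟩
  obtain ⟨v, hv, L, hL, hLv⟩ := hm d (Nat.pos_of_ne_zero fun e => h2 (by
    rw [← card_eq_one, a1, e, pow_zero])) σ
  refine ⟨ι v, h3 (a3 v), fun e => hv (a2 (e.trans a5.symm)), fun h => hL ?_⟩
  have : Group.IsSolvable ((centralizer {ι v}).map π) :=
    Group.isSolvable_of_surjective (π.subgroupMap_surjective _)
  refine solv_cod L.subtype_injective (fun g => ?_) this
  obtain ⟨y, hy⟩ := hπ g
  refine ⟨y, mem_centralizer_singleton_iff.2 ?_, hy⟩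
  have := hLv _ g.2
  rw [← hy, hσ, hρ] at this
  rw [← mul_inv_eq_iff_eq_mul, ← a7, this]

theorem alt_emb (m : ℕ) : ∃ f : alternatingGroup (Fin m) × alternatingGroup (Fin 5) →*
    alternatingGroup (Fin (m + 5)), Function.Injective f := by
  refine ⟨(H78.altEmb finSumFinEquiv.toEmbedding).comp (((Equiv.Perm.sumCongrHom _ _).comp
    ((alternatingGroup _).subtype.prodMap (alternatingGroup _).subtype)).codRestrict _ fun g => ?_),
    (H78.altEmb_injective _).comp fun a b e => ?_⟩
  · simp [Equiv.Perm.mem_alternatingGroup.1 g.1.2, Equiv.Perm.mem_alternatingGroup.1 g.2.2]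
  · have := Equiv.Perm.sumCongrHom_injective (congrArg Subtype.val e)
    exact Prod.ext (Subtype.ext (congrArg Prod.fst this)) (Subtype.ext (congrArg Prod.snd this))

theorem not_solv_A5 : ¬ Group.IsSolvable (alternatingGroup (Fin 5)) := fun h => by
  have := IsSimpleGroup.comm_iff_isSolvable.2 h
  have h1 : center (alternatingGroup (Fin 5)) = ⊤ :=
    eq_top_iff.2 fun a _ => mem_center_iff.2 fun b => this b a
  rw [alternatingGroup.center_eq_bot (by simp)] at h1
  exact bot_ne_top h1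

theorem alt_data {m : ℕ} (h : p ∣ Nat.card (alternatingGroup (Fin m))) :
    ∃ (D : Type) (_ : Group D) (f : D →* alternatingGroup (Fin (m + 5))) (z : D),
      Function.Injective f ∧ z ∈ center D ∧ orderOf z = p ∧ ¬ Group.IsSolvable D ∧
        (zpowers z).index = 60 := by
  obtain ⟨c, hc⟩ := exists_prime_orderOf_dvd_card' p h
  obtain ⟨f, hf⟩ := alt_emb m
  have ho : orderOf ((⟨c, mem_zpowers c⟩, 1) : zpowers c × alternatingGroup (Fin 5)) = p := by
    rw [Prod.orderOf_mk, orderOf_mk, orderOf_one, Nat.lcm_one_right, hc]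
  refine ⟨zpowers c × alternatingGroup (Fin 5), inferInstance,
    f.comp ((zpowers c).subtype.prodMap (MonoidHom.id _)), (⟨c, mem_zpowers c⟩, 1),
    hf.comp ((zpowers c).subtype_injective.prodMap Function.injective_id),
    mem_center_iff.2 fun g => Prod.ext (mul_comm' _ _) (by simp), ho, fun h => not_solv_A5
      (Group.isSolvable_of_surjective (f := MonoidHom.snd (zpowers c) _) Prod.snd_surjective), ?_⟩
  have h1 := card_mul_index (zpowers ((⟨c, mem_zpowers c⟩, 1) : zpowers c × alternatingGroup (Fin 5)))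
  rw [Nat.card_zpowers, ho, Nat.card_prod, Nat.card_zpowers, hc, nat_card_alternatingGroup] at h1
  simpa [hp.out.ne_zero, Nat.factorial] using h1

theorem main {H : Type*} [Group H] [Finite H] {m : ℕ} {π : H →* alternatingGroup (Fin (m + 5))}
    (hπ : Function.Surjective π) (h : p ∣ Nat.card (alternatingGroup (Fin m)))
    (hm : ¬ p ∣ 60 ∨ ModStmt p (m + 5)) {G : Type*} [Group G] {ι : H →* G}
    (hι : Function.Injective ι) : ∃ x : G, x ∉ center G ∧ (∃ k, orderOf x = p ^ k) ∧
      ¬ Group.IsSolvable (centralizer ({x} : Set G)) := by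
  classical
  induction' hc : Nat.card H using Nat.strong_induction_on with c ih generalizing H
  obtain ⟨D, _, f, z, hf, hz, ho, hD, hi⟩ := alt_data h
  obtain ⟨K, σ, hσ, hK⟩ := pull hπ hf
  have up : ∀ x : H, ¬ Group.IsSolvable (centralizer ({x} : Set H)) →
      ¬ Group.IsSolvable (centralizer ({ι x} : Set G)) := fun x h1 h2 =>
    h1 (solv_cod (f := ι.comp (centralizer {x}).subtype) (hι.comp (subtype_injective _))
      (fun y => mem_centralizer_singleton_iff.2 (by
        have := congrArg ι (mem_centralizer_singleton_iff.1 y.2)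
        rwa [map_mul, map_mul] at this)) h2)
  have fin : (∃ x : K, σ x = z ∧ (∃ k, orderOf x = p ^ k) ∧
      ¬ Group.IsSolvable (centralizer ({x} : Set K))) → ∃ x : G, x ∉ center G ∧
      (∃ k, orderOf x = p ^ k) ∧ ¬ Group.IsSolvable (centralizer ({x} : Set G)) := by
    rintro ⟨x, h1, ⟨k, h2⟩, h3⟩
    refine ⟨ι x, fun h4 => ?_, ⟨k, by rw [orderOf_injective ι hι, orderOf_coe, h2]⟩,
      up x fun h4 => h3 (solv_cod (f := K.subtype.comp (centralizer {x}).subtype)
        (K.subtype_injective.comp (subtype_injective _)) (fun y => mem_centralizer_singleton_iff.2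
          (congrArg Subtype.val (mem_centralizer_singleton_iff.1 y.2))) h4)⟩
    have h5 : f z ∈ center (alternatingGroup (Fin (m + 5))) := mem_center_iff.2 fun g => by
      obtain ⟨y, rfl⟩ := hπ g
      rw [← h1, hK, ← map_mul, ← map_mul, hι (show ι (y * x) = ι (x * y) by
        rw [map_mul, map_mul, mem_center_iff.1 h4])]
    rw [alternatingGroup.center_eq_bot (by simp), mem_bot, map_eq_one_iff f hf] at h5
    rw [h5, orderOf_one] at ho
    exact hp.out.one_lt.ne ho
  rcases hm with hm' | hm'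
  · exact fin (caseA hσ hz ho hD (hi ▸ hm'))
  by_cases hΦ : π.ker ≤ frattini H
  swap
  · obtain ⟨U, hU, hU'⟩ : ∃ U : Subgroup H, IsCoatom U ∧ ¬ π.ker ≤ U := by
      by_contra! hh
      exact hΦ (le_iInf₂ hh)
    have h1 : U ⊔ π.ker = ⊤ := hU.2 _ (left_lt_sup.2 hU')
    refine ih _ (hc ▸ (card_le_card_group U).lt_of_ne fun e => hU.1 (eq_top_of_card_eq U e)) (π := π.comp U.subtype) (fun g => ?_)
      (ι := ι.comp U.subtype) (hι.comp U.subtype_injective) rfl
    obtain ⟨y, rfl⟩ := hπ g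
    obtain ⟨a, ha, b, hb, rfl⟩ := mem_sup_of_normal_right.1 (h1 ▸ mem_top y)
    exact ⟨⟨a, ha⟩, by rw [map_mul, hb, mul_one]; rfl⟩
  have hN : Group.IsNilpotent π.ker := by
    have := frattini_nilpotent (G := H)
    exact Group.nilpotent_of_mulEquiv (subgroupOfEquivOfLe hΦ)
  obtain ⟨S⟩ : Nonempty (Sylow p π.ker) := inferInstance
  have hS : (S : Subgroup π.ker).Normal := inferInstance
  have hS' := S.characteristic_of_normal hS
  set P := (S : Subgroup π.ker).map π.ker.subtype
  have hP : P.Normal := inferInstance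
  set Z := P ⊓ (center G).comap ι
  have hZ : Z ≤ center H := fun a ha => mem_center_iff.2 fun g =>
    hι (by rw [map_mul, map_mul, mem_center_iff.1 ha.2])
  have hZn : Z.Normal := ⟨fun a ha g => by rwa [mem_center_iff.1 (hZ ha) g, mul_inv_cancel_right]⟩
  by_cases hPZ : P ≤ Z
  · refine fin (caseB hσ hz ho hD fun y h1 ⟨k, h2⟩ => mem_center_iff.2 fun g => Subtype.ext
      (mem_center_iff.1 (hZ (hPZ ?_)) g))
    have h3 : (y : H) ∈ π.ker := by rw [MonoidHom.mem_ker, ← hK, h1, map_one]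
    obtain ⟨S', h4⟩ := (IsPGroup.of_card (p := p) (G := zpowers (⟨y, h3⟩ : π.ker)) (n := k)
      (by rw [Nat.card_zpowers, orderOf_mk, orderOf_coe, h2])).exists_le_sylow
    have := S.unique_of_normal hS
    exact ⟨⟨y, h3⟩, Subsingleton.elim S' S ▸ h4 (mem_zpowers _), rfl⟩
  have hZk : Z ≤ π.ker := inf_le_left.trans (map_subtype_le _)
  obtain ⟨w, ⟨w, hw, rfl⟩, h1, h2⟩ := caseC hm' (K := H ⧸ Z) (π := QuotientGroup.lift Z π hZk)
    (fun g => by
      obtain ⟨y, rfl⟩ := hπ g
      exact ⟨y, rfl⟩)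
    (by
      rw [QuotientGroup.ker_lift]
      exact Group.nilpotent_of_surjective _ ((QuotientGroup.mk' Z).subgroupMap_surjective _))
    (P := P.map (QuotientGroup.mk' Z)) ((S.2.map _).map _)
    (fun e => hPZ (by rwa [Subgroup.map_eq_bot_iff, QuotientGroup.ker_mk'] at e))
  obtain ⟨k, hk⟩ := IsPGroup.iff_orderOf.1 (S.2.map π.ker.subtype) ⟨w, hw⟩
  refine ⟨ι w, fun h3 => h1 ((QuotientGroup.eq_one_iff w).2 ⟨hw, h3⟩),
    ⟨k, by rwa [orderOf_mk, ← orderOf_injective ι hι] at hk⟩, up w fun h3 => h2 ?_⟩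
  have := solv_of_cent (L := (centralizer {QuotientGroup.mk' Z w}).comap (QuotientGroup.mk' Z))
    (fun l hl => hZ ((QuotientGroup.eq_one_iff _).1 (by
      have := mem_centralizer_singleton_iff.1 hl
      rw [← QuotientGroup.mk'_apply, map_mul, map_mul, map_mul, this, map_inv, map_inv]
      group))) h3
  exact Group.isSolvable_of_surjective
    ((QuotientGroup.mk' Z).subgroupComap_surjective_of_surjective _ (QuotientGroup.mk'_surjective Z))

theorem red (h2 : ModStmt 2 9) (h5 : ModStmt 5 10) {G : Type*} [Group G] [Finite G] (p : ℕ)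
    [hp : Fact p.Prime] (hp3 : p ≠ 3)
    (h : ∀ x : G, x ∉ Subgroup.center G → (∃ k : ℕ, orderOf x = p ^ k) →
      Group.IsSolvable (Subgroup.centralizer ({x} : Set G)))
    (d : ℕ) (_hd : 5 ≤ d) (hinv : Cfsg.Involves (alternatingGroup (Fin d)) G) :
    d ≤ p + 4 + (if p = 2 then 2 else 0) := by
  by_contra hlt
  obtain ⟨K, R, _, ⟨e⟩⟩ := hinv
  obtain ⟨m, h1, h3, h4⟩ : ∃ m, m + 5 ≤ d ∧ p ∣ Nat.card (alternatingGroup (Fin m)) ∧
      (¬ p ∣ 60 ∨ ModStmt p (m + 5)) := by
    by_cases hp2 : p = 2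
    · subst hp2
      exact ⟨4, by simp at hlt; omega, by rw [nat_card_alternatingGroup]; simp [Nat.factorial],
        Or.inr h2⟩
    have := hp.out.two_le
    refine ⟨p, by simp [hp2] at hlt; omega, ?_, ?_⟩
    · have : Nontrivial (Fin p) := Fin.nontrivial_iff_two_le.2 this
      refine ((Nat.coprime_primes hp.out Nat.prime_two).2 hp2).dvd_of_dvd_mul_left ?_
      rw [two_mul_nat_card_alternatingGroup, Nat.card_perm, Nat.card_fin]
      exact Nat.dvd_factorial hp.out.pos le_rfl
    · by_cases hp5 : p = 5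
      · subst hp5
        exact Or.inr h5
      · refine Or.inl fun h6 => ?_
        have h7 := (Nat.Prime.dvd_mul hp.out (m := 4 * 3) (n := 5)).1 h6
        rw [hp.out.dvd_mul, Nat.prime_dvd_prime_iff_eq hp.out Nat.prime_three,
          Nat.prime_dvd_prime_iff_eq hp.out Nat.prime_five] at h7
        rcases h7 with (h7 | h7) | h7
        · exact hp2 ((Nat.prime_dvd_prime_iff_eq hp.out Nat.prime_two).1
            (hp.out.dvd_of_dvd_pow (n := 2) h7))
        · exact hp3 h7
        · exact hp5 h7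
  obtain ⟨H, π, hπ, -⟩ := pull (π := e.toMonoidHom.comp (QuotientGroup.mk' _))
    (e.surjective.comp (QuotientGroup.mk'_surjective _))
    (H78.altEmb_injective (Fin.castLEEmb h1))
  obtain ⟨x, a1, a2, a3⟩ := main hπ h3 h4 (ι := K.subtype.comp H.subtype)
    (K.subtype_injective.comp H.subtype_injective)
  exact a3 (h x a1 a2)

end Cfsg.Agent.H94.AsRed
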