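import Mathlib
import Cfsg.Agent.H59.PrimeDeg

/-!
# Actions on subsets of prime size; partitions and linear spaces
-/

set_option autoImplicit false
set_option linter.unusedSectionVars false

namespace Cfsg.Agent.H94.Atk

open Subgroup MulAction

section Prime

variable {G Λ : Type*} [Group G] [Finite G] [MulAction G Λ] {p : ℕ} [hp : Fact p.Prime]

/-- `H` acts on the set `S` with `p` elements. -/
structure Act (H : Subgroup G) (S : Set Λ) (p : ℕ) : Prop where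
  card : S.ncard = p
  inv : ∀ h ∈ H, ∀ s ∈ S, h • s ∈ S

/-- Transitivity. -/
def Tr (H : Subgroup G) (S : Set Λ) : Prop := ∀ s ∈ S, ∀ s' ∈ S, ∃ h ∈ H, h • s = s'

/-- Double transitivity. -/
def Tr2 (H : Subgroup G) (S : Set Λ) : Prop :=
  ∀ a ∈ S, ∀ b ∈ S, ∀ c ∈ S, ∀ d ∈ S, a ≠ b → c ≠ d → ∃ h ∈ H, h • a = c ∧ h • b = d

/-- What we need from affine actions. -/
structure Aff (H : Subgroup G) (S : Set Λ) (p : ℕ) : Prop where
  two : ∀ g ∈ H, ∀ a ∈ S, ∀ b ∈ S, a ≠ b → g • a = a → g • b = b → ∀ s ∈ S, g • s = s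
  pw : ∀ g ∈ H, ∀ t ∈ H, g ^ p = 1 → t ^ p = 1 → (∃ s ∈ S, t • s ≠ s) →
    ∃ n : ℕ, ∀ s ∈ S, g • s = t ^ n • s

namespace Act

variable {H : Subgroup G} {S : Set Λ} (h : Act H S p)
include h

/-- The set as a sub-action. -/
def sub : SubMulAction H Λ := ⟨S, fun c _ hs => h.inv c c.2 _ hs⟩

theorem finite : S.Finite := Set.finite_of_ncard_ne_zero (by rw [h.card]; exact hp.out.ne_zero)

theorem mono {H' : Subgroup G} (hle : H' ≤ H) : Act H' S p := ⟨h.card, fun g hg => h.inv g (hle hg)⟩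

theorem card_sub : Nat.card h.sub = p := h.card

theorem pretr (ht : Tr H S) : IsPretransitive H h.sub := ⟨fun a b => by
  obtain ⟨g, hg, e⟩ := ht a a.2 b b.2
  exact ⟨⟨g, hg⟩, Subtype.ext e⟩⟩

theorem exists_ord (ht : Tr H S) : ∃ g ∈ H, orderOf g = p := by
  have := h.pretr ht
  obtain ⟨t, ht⟩ := H59.exists_orderOf_eq_prime_of_transitive (G := H) h.card_sub
  exact ⟨t, t.2, by rw [← ht]; exact (orderOf_coe t)⟩

theorem coord (ht : Tr H S) : ∃ (t : H) (e : ZMod p ≃ h.sub), ∀ x, t • e x = e (x + 1) := by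
  have := h.pretr ht
  have : Finite h.sub := h.finite
  let Γ := (toPermHom H h.sub).range
  have : IsPretransitive Γ h.sub := ⟨fun a b => by
    obtain ⟨g, hg⟩ := exists_smul_eq H a b
    exact ⟨⟨_, g, rfl⟩, hg⟩⟩
  obtain ⟨t, ht⟩ := H59.exists_orderOf_eq_prime_of_transitive (G := Γ) h.card_sub
  obtain ⟨e, he⟩ := H59.exists_coord_of_orderOf h.card_sub ht
  obtain ⟨_, t, rfl⟩ := t
  exact ⟨t, e, he⟩

theorem aff_of {e : ZMod p ≃ h.sub} (ha : ∀ g : H, H59.IsAff e g) : Aff H S p := by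
  have val : ∀ (g : H) (x y : ZMod p), g • e x = e y ↔ (g : G) • (e x : Λ) = e y := fun g x y =>
    ⟨fun e1 => congrArg Subtype.val e1, fun e1 => Subtype.ext e1⟩
  have slope : ∀ (g : H) (a b : ZMod p), (g : G) ^ p = 1 → (∀ x, g • e x = e (a * x + b)) → a = 1 :=
    fun g a b hg e1 => by
      rw [← ZMod.pow_card a, ← H59.slopeHom_eq e ha e1, ← map_pow, show g ^ p = 1 from Subtype.ext hg,
        map_one]
  refine ⟨fun g hg a ha' b hb hne h1 h2 s hs => ?_, fun g hg t ht g1 t1 ⟨s, hs, hts⟩ => ?_⟩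
  · obtain ⟨c, d, e1⟩ := ha ⟨g, hg⟩
    obtain ⟨x, hx⟩ := e.surjective ⟨a, ha'⟩
    obtain ⟨y, hy⟩ := e.surjective ⟨b, hb⟩
    obtain ⟨z, hz⟩ := e.surjective ⟨s, hs⟩
    have hxy : x ≠ y := fun e2 => hne (by rw [e2, hy] at hx; exact (congrArg Subtype.val hx).symm)
    have k1 : c * x + d = x := e.injective (by rw [← e1, val, hx]; exact h1)
    have k2 : c * y + d = y := e.injective (by rw [← e1, val, hy]; exact h2)
    have k3 : c = 1 := by
      have : (c - 1) * (x - y) = 0 := by linear_combination k1 - k2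
      exact sub_eq_zero.1 ((mul_eq_zero.1 this).resolve_right (sub_ne_zero.2 hxy))
    have k4 : d = 0 := by rw [k3] at k1; linear_combination k1
    have := e1 z
    rw [k3, k4, one_mul, add_zero, val, hz] at this
    exact this
  · obtain ⟨c, d, e1⟩ := ha ⟨g, hg⟩
    obtain ⟨c', d', e2⟩ := ha ⟨t, ht⟩
    obtain rfl := slope _ _ _ g1 e1
    obtain rfl := slope _ _ _ t1 e2
    have hd : d' ≠ 0 := fun e3 => hts (by
      obtain ⟨z, hz⟩ := e.surjective ⟨s, hs⟩
      have := e2 z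
      rw [e3, one_mul, add_zero, val, hz] at this
      exact this)
    have e3 : ∀ (n : ℕ) x, (⟨t, ht⟩ : H) ^ n • e x = e (x + n * d') := fun n => by
      induction n with
      | zero => simp
      | succ n ih => intro x; rw [pow_succ', mul_smul, ih, e2]; congr 1; push_cast; ring
    refine ⟨(d / d').val, fun s hs => ?_⟩
    obtain ⟨z, hz⟩ := e.surjective ⟨s, hs⟩
    have := (e1 z).trans (by rw [e3, ZMod.natCast_zmod_val, div_mul_cancel₀ _ hd, one_mul] :
      e (1 * z + d) = (⟨t, ht⟩ : H) ^ (d / d').val • e z)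
    rw [hz] at this
    exact congrArg Subtype.val this

/-- Burnside's theorem. -/
theorem dich (ht : Tr H S) : Aff H S p ∨ Tr2 H S := by
  have := h.pretr ht
  have : Finite h.sub := h.finite
  obtain ⟨t, e, he⟩ := h.coord ht
  refine (H59.isAff_or_two_pretransitive he).imp h.aff_of fun h2 a ha b hb c hc d hd h1 h3 => ?_
  rw [is_two_pretransitive_iff] at h2
  obtain ⟨g, g1, g2⟩ := @h2 ⟨a, ha⟩ ⟨b, hb⟩ ⟨c, hc⟩ ⟨d, hd⟩ (fun e => h1 (congrArg Subtype.val e))
    fun e => h3 (congrArg Subtype.val e)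
  exact ⟨g, g.2, congrArg Subtype.val g1, congrArg Subtype.val g2⟩

/-- An invariant reflexive transitive relation is trivial or everything. -/
theorem rel_all (ht : Tr H S) (R : Λ → Λ → Prop) (hr : ∀ a, R a a) (htr : ∀ a b c, R a b → R b c → R a c)
    (hi : ∀ g ∈ H, ∀ a ∈ S, ∀ b ∈ S, R a b → R (g • a) (g • b)) {a b : Λ} (ha : a ∈ S) (hb : b ∈ S)
    (hne : a ≠ b) (hab : R a b) {c : Λ} (hc : c ∈ S) : R a c := by
  obtain ⟨t, e, he⟩ := h.coord ht
  obtain ⟨x, hx⟩ := e.surjective ⟨a, ha⟩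
  obtain ⟨y, hy⟩ := e.surjective ⟨b, hb⟩
  obtain ⟨z, hz⟩ := e.surjective ⟨c, hc⟩
  have hxy : y - x ≠ 0 := sub_ne_zero.2 fun e2 => hne (by rw [← e2, hy] at hx; exact (congrArg Subtype.val hx).symm)
  have key : ∀ k : ℕ, R a (e (x + k * (y - x))) := fun k => by
    induction k with
    | zero => simpa [hx] using hr a
    | succ k ih =>
      refine htr _ _ _ ih ?_
      have := hi _ (t ^ (k * (y - x) : ZMod p).val).2 a ha b hb hab
      have e1 := congrArg Subtype.val (H59.pow_smul_coord he (k * (y - x) : ZMod p).val x)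
      have e2 := congrArg Subtype.val (H59.pow_smul_coord he (k * (y - x) : ZMod p).val y)
      rw [hx, ZMod.natCast_zmod_val] at e1
      rw [hy, ZMod.natCast_zmod_val] at e2
      rw [show x + ((k + 1 : ℕ) : ZMod p) * (y - x) = y + k * (y - x) by push_cast; ring, ← e1, ← e2]
      exact this
  have := key ((z - x) / (y - x)).val
  rwa [ZMod.natCast_zmod_val, div_mul_cancel₀ _ hxy, add_sub_cancel, hz] at this

/-- A normal subgroup is trivial or transitive. -/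
theorem tr_of_normal (ht : Tr H S) {N : Subgroup G} (hN : ∀ g ∈ H, ∀ n ∈ N, g * n * g⁻¹ ∈ N)
    (hNS : ∀ n ∈ N, ∀ s ∈ S, n • s ∈ S) {n : G} (hn : n ∈ N) {a : Λ} (ha : a ∈ S) (hm : n • a ≠ a) :
    Tr N S := by
  have key : ∀ c ∈ S, ∃ m ∈ N, m • a = c := fun c hc =>
    h.rel_all ht (fun a b => ∃ m ∈ N, m • a = b) (fun a => ⟨1, one_mem _, one_smul _ _⟩)
      (fun a b c ⟨m, hm, e⟩ ⟨m', hm', e'⟩ => ⟨m' * m, mul_mem hm' hm, by rw [mul_smul, e, e']⟩)
      (fun g hg a _ b _ ⟨m, hm, e⟩ => ⟨_, hN g hg m hm, by rw [mul_smul, mul_smul, inv_smul_smul, e]⟩)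
      ha (hNS n hn a ha) hm.symm ⟨n, hn, rfl⟩ hc
  intro s hs s' hs'
  obtain ⟨m, hm, rfl⟩ := key s hs
  obtain ⟨m', hm', rfl⟩ := key s' hs'
  exact ⟨m' * m⁻¹, mul_mem hm' (inv_mem hm), by rw [mul_smul, inv_smul_smul]⟩

/-- A `p`-element with a fixed point is trivial. -/
theorem pfix {g : G} (hg : g ∈ H) {k : ℕ} (hk : g ^ p ^ k = 1) {a : Λ} (ha : a ∈ S) (h1 : g • a = a)
    {s : Λ} (hs : s ∈ S) : g • s = s := by
  have : Finite h.sub := h.finite
  have hP : IsPGroup p (zpowers (⟨g, hg⟩ : H)) := by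
    rintro ⟨_, n, rfl⟩
    refine ⟨k, Subtype.ext ?_⟩
    change ((⟨g, hg⟩ : H) ^ n) ^ p ^ k = 1
    rw [← zpow_natCast, ← zpow_mul, mul_comm, zpow_mul, zpow_natCast,
      show (⟨g, hg⟩ : H) ^ p ^ k = 1 from Subtype.ext hk, one_zpow]
  have h2 := hP.card_modEq_card_fixedPoints h.sub
  rw [h.card_sub] at h2
  have ha' : (⟨a, ha⟩ : h.sub) ∈ fixedPoints (zpowers (⟨g, hg⟩ : H)) h.sub := by
    rintro ⟨_, n, rfl⟩
    exact (stabilizer H (⟨a, ha⟩ : h.sub)).zpow_mem (Subtype.ext h1) n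
  have h3 : 0 < Nat.card (fixedPoints (zpowers (⟨g, hg⟩ : H)) h.sub) := Nat.card_pos_iff.2 ⟨⟨⟨_, ha'⟩⟩, inferInstance⟩
  have h4 := Nat.le_of_dvd h3 (Nat.modEq_zero_iff_dvd.1 (h2.symm.trans (Nat.modEq_zero_iff_dvd.2 dvd_rfl)))
  have h5 : fixedPoints (zpowers (⟨g, hg⟩ : H)) h.sub = Set.univ :=
    Set.eq_of_subset_of_ncard_le (Set.subset_univ _) (by rw [Set.ncard_univ, h.card_sub]; exact h4)
  exact congrArg Subtype.val ((show (⟨s, hs⟩ : h.sub) ∈ fixedPoints (zpowers (⟨g, hg⟩ : H)) h.sub from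
    h5 ▸ Set.mem_univ _) ⟨_, mem_zpowers _⟩)

/-- An element of order `p` moving a point is transitive. -/
theorem tr_of_order {t : G} (ht : t ∈ H) (h1 : t ^ p = 1) {a : Λ} (ha : a ∈ S) (hm : t • a ≠ a)
    {b c : Λ} (hb : b ∈ S) (hc : c ∈ S) : ∃ n : ℕ, t ^ n • b = c := by
  have : Finite h.sub := h.finite
  obtain ⟨e, -, he⟩ := H59.exists_coord h.card_sub (t := (⟨t, ht⟩ : H)) (Subtype.ext h1) (a := ⟨a, ha⟩)
    fun e => hm (congrArg Subtype.val e)
  obtain ⟨y, hy⟩ := e.surjective ⟨b, hb⟩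
  obtain ⟨z, hz⟩ := e.surjective ⟨c, hc⟩
  have := H59.pow_smul_coord he (z - y).val y
  rw [ZMod.natCast_zmod_val, add_sub_cancel, hy, hz] at this
  exact ⟨_, congrArg Subtype.val this⟩

/-- A set normalised by a point stabiliser and fixing a second point is trivial. -/
theorem pd (ht : Tr H S) {D : Set G} (hD : ∀ d ∈ D, d ∈ H) {b c : Λ} (hb : b ∈ S) (hc : c ∈ S)
    (hne : b ≠ c) (h1 : ∀ d ∈ D, d • b = b) (h2 : ∀ d ∈ D, d • c = c)
    (hn : ∀ g ∈ H, g • b = b → ∀ d ∈ D, ∃ d' ∈ D, ∀ s ∈ S, (g⁻¹ * d * g) • s = d' • s)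
    {d : G} (hd : d ∈ D) {s : Λ} (hs : s ∈ S) : d • s = s := by
  rcases h.dich ht with ha | ha
  · exact ha.two d (hD d hd) b hb c hc hne (h1 d hd) (h2 d hd) s hs
  · by_cases e : b = s
    · exact e ▸ h1 d hd
    obtain ⟨g, hg, g1, rfl⟩ := ha b hb c hc b hb s hs hne e
    obtain ⟨d', hd', e'⟩ := hn g hg g1 d hd
    have := e' c hc
    rw [h2 d' hd', mul_smul, mul_smul, inv_smul_eq_iff] at this
    exact this

/-- Two commuting non-trivial normal subgroups force the affine case. -/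
theorem aff_of_comm (ht : Tr H S) {M N : Subgroup G} (hM : M ≤ H) (hN : N ≤ H)
    (nM : ∀ g ∈ H, ∀ n ∈ M, g * n * g⁻¹ ∈ M) (nN : ∀ g ∈ H, ∀ n ∈ N, g * n * g⁻¹ ∈ N)
    (mM : ∃ m ∈ M, ∃ a ∈ S, m • a ≠ a) (mN : ∃ m ∈ N, ∃ a ∈ S, m • a ≠ a)
    (hc : ∀ m ∈ M, ∀ n ∈ N, ∀ s ∈ S, m • n • s = n • m • s) : Aff H S p := by
  obtain ⟨m, hm, a, ha, e⟩ := mM
  have tM := h.tr_of_normal ht nM (h.mono hM).inv hm ha e
  obtain ⟨n, hn, b, hb, e'⟩ := mN
  have tN := h.tr_of_normal ht nN (h.mono hN).inv hn hb e'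
  obtain ⟨t, e, he⟩ : ∃ (t : H) (e : ZMod p ≃ h.sub), (t : G) ∈ M ∧ ∀ x, t • e x = e (x + 1) := by
    obtain ⟨t, e, he⟩ := (h.mono hM).coord tM
    exact ⟨⟨t, hM t.2⟩, e, t.2, fun x => Subtype.ext (congrArg Subtype.val (he x))⟩
  obtain ⟨htM, he⟩ := he
  have semi : ∀ m ∈ M, ∀ m' ∈ M, ∀ s ∈ S, m • s = m' • s → ∀ s' ∈ S, m • s' = m' • s' :=
    fun m hm m' hm' s hs e1 s' hs' => by
      obtain ⟨n, hn, rfl⟩ := tN s hs s' hs'
      rw [hc m hm n hn s hs, hc m' hm' n hn s hs, e1]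
  refine h.aff_of (e := e) fun g => ?_
  have hgt : (g : G) * t * (g : G)⁻¹ ∈ M := nM g g.2 t htM
  obtain ⟨z, hz⟩ := e.surjective ((⟨_, hM hgt⟩ : H) • e 0)
  have e1 := H59.pow_smul_coord he z.val 0
  rw [ZMod.natCast_zmod_val, zero_add, hz] at e1
  have e2 := semi _ hgt _ (M.pow_mem htM z.val) _ (e 0).2 (congrArg Subtype.val e1).symm
  have h1 : ∀ k : ℕ, g • e k = e (z * k + e.symm (g • e 0)) := fun k => by
    induction k with
    | zero => simp
    | succ k ih =>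
      have e3 := H59.pow_smul_coord he z.val (z * k + e.symm (g • e 0))
      rw [ZMod.natCast_zmod_val, ← ih] at e3
      rw [show z * ((k + 1 : ℕ) : ZMod p) + e.symm (g • e 0) = z * k + e.symm (g • e 0) + z by
        push_cast; ring, ← e3, Nat.cast_succ, ← he]
      apply Subtype.ext
      have := e2 _ (g • e k).2
      refine Eq.trans ?_ this
      change (g : G) • (t : G) • (e k : Λ) = ((g : G) * t * (g : G)⁻¹) • (g : G) • (e k : Λ)
      rw [mul_smul, mul_smul, inv_smul_smul]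
  exact ⟨z, e.symm (g • e 0), fun x => by rw [← ZMod.natCast_zmod_val x]; exact h1 _⟩

end Act

/-- An element of order `p` lies in every subgroup of index less than `p`. -/
theorem mem_of_index_lt {H : Subgroup G} (h : H.index < p) {s : G} (hs : s ^ p = 1) : s ∈ H := by
  have h1 : IsPGroup p (zpowers s) := by
    rintro ⟨_, n, rfl⟩
    refine ⟨1, Subtype.ext ?_⟩
    change (s ^ n) ^ p ^ 1 = 1
    rw [pow_one, ← zpow_natCast, ← zpow_mul, mul_comm, zpow_mul, zpow_natCast, hs, one_zpow]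
  obtain ⟨k, hk⟩ := h1.card_orbit ((1 : G) : G ⧸ H)
  have h2 : Nat.card (orbit (zpowers s) ((1 : G) : G ⧸ H)) ≤ H.index := Finite.card_subtype_le _
  have h3 : k = 0 := by
    by_contra e
    have := Nat.le_self_pow e p
    omega
  rw [h3, pow_zero, Nat.card_eq_one_iff_unique] at hk
  have := congrArg Subtype.val (hk.1.elim ⟨_, mem_orbit_self _⟩ ⟨_, mem_orbit _ (⟨s, mem_zpowers s⟩ : zpowers s)⟩)
  change ((1 : G) : G ⧸ H) = ((s * 1 : G) : G ⧸ H) at this
  simpa using QuotientGroup.eq.1 this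

end Prime

section Part

variable {Ω : Type*} [Finite Ω] {p : ℕ}

/-- For every point `x` a partition of the other points into sets of size `p`. -/
structure Part (p : ℕ) (Bl : Ω → Ω → Set Ω) : Prop where
  mem : ∀ x y, x ≠ y → y ∈ Bl x y
  nmem : ∀ x y, x ≠ y → x ∉ Bl x y
  card : ∀ x y, x ≠ y → (Bl x y).ncard = p
  eq : ∀ x y z, x ≠ y → z ∈ Bl x y → Bl x z = Bl x y

/-- The parts at `x`. -/
def parts (Bl : Ω → Ω → Set Ω) (x : Ω) : Set (Set Ω) := {B | ∃ y, x ≠ y ∧ Bl x y = B}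

namespace Part

variable {Bl Bl' : Ω → Ω → Set Ω} (h : Part p Bl)
include h

theorem ne {x y z : Ω} (hxy : x ≠ y) (hz : z ∈ Bl x y) : x ≠ z := fun e => h.nmem x y hxy (e ▸ hz)

theorem card_parts (hp : 0 < p) (hΩ : Nat.card Ω = p ^ 2 + 1) (x : Ω) : (parts Bl x).ncard = p := by
  classical
  have := Fintype.ofFinite Ω
  have h1 := Finset.card_eq_sum_card_fiberwise (f := Bl x) (s := Finset.univ.erase x)
    (t := (Set.toFinite (parts Bl x)).toFinset) fun y hy => by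
      simpa using ⟨y, (Finset.ne_of_mem_erase hy).symm, rfl⟩
  rw [Finset.card_erase_of_mem (Finset.mem_univ x), Finset.card_univ, ← Nat.card_eq_fintype_card, hΩ,
    Finset.sum_const_nat (m := p), ← Set.ncard_eq_toFinset_card] at h1
  · rw [Nat.add_sub_cancel, pow_two] at h1
    exact (Nat.eq_of_mul_eq_mul_right hp h1).symm
  · intro B hB
    obtain ⟨y, hy, rfl⟩ : B ∈ parts Bl x := by simpa using hB
    rw [← h.card x y hy, ← Set.ncard_coe_finset]
    congr 1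
    ext z
    simp only [Finset.coe_filter, Finset.mem_erase, Finset.mem_univ, and_true, Set.mem_ofPred]
    exact ⟨fun ⟨h1, h2⟩ => h2 ▸ h.mem x z h1.symm, fun hz => ⟨(h.ne hy hz).symm, h.eq x y z hy hz⟩⟩

theorem ins_eq (h' : Part p Bl') {x y : Ω} (hxy : x ≠ y) (hs : ∀ z ∈ Bl x y, z ≠ y → z ∈ Bl' y x) :
    insert x (Bl x y) = insert y (Bl' y x) := by
  refine Set.eq_of_subset_of_ncard_le ?_ ?_
  · rintro z (rfl | hz)
    · exact Or.inr (h'.mem _ _ hxy.symm)
    · by_cases e : z = y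
      exacts [Or.inl e, Or.inr (hs z hz e)]
  · rw [Set.ncard_insert_of_notMem (h.nmem x y hxy), Set.ncard_insert_of_notMem (h'.nmem y x hxy.symm),
      h.card x y hxy, h'.card y x hxy.symm]

theorem exists_other (hp : 2 ≤ p) {x y : Ω} (hxy : x ≠ y) : ∃ z ∈ Bl x y, z ≠ y := by
  by_contra hc
  push Not at hc
  have := Set.ncard_le_ncard (show Bl x y ⊆ {y} from hc)
  rw [h.card x y hxy, Set.ncard_singleton] at this
  omega

theorem exists_out (hp : 2 ≤ p) (hΩ : Nat.card Ω = p ^ 2 + 1) {x y : Ω} (hxy : x ≠ y) :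
    ∃ z, x ≠ z ∧ z ∉ Bl x y := by
  by_contra hc
  push Not at hc
  have := Set.ncard_le_ncard (show Set.univ ⊆ insert x (Bl x y) from fun z _ => by
    by_cases e : x = z
    exacts [Or.inl e.symm, Or.inr (hc z e)])
  rw [Set.ncard_insert_of_notMem (h.nmem x y hxy), h.card x y hxy, Set.ncard_univ, hΩ] at this
  nlinarith

/-- There is no linear space with `p² + 1` points and lines of size `p + 1`. -/
theorem not_sym (hp : 2 ≤ p) (hΩ : Nat.card Ω = p ^ 2 + 1) {x y : Ω} (hxy : x ≠ y)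
    (hs : ∀ x y, x ≠ y → ∀ z ∈ Bl x y, z ≠ y → z ∈ Bl y x) : False := by
  obtain ⟨c, hc, hc'⟩ := h.exists_out hp hΩ hxy
  have sym : ∀ a b, a ≠ b → insert a (Bl a b) = insert b (Bl b a) := fun a b hab => h.ins_eq h hab (hs a b hab)
  have line : ∀ a ∈ insert x (Bl x y), ∀ b ∈ insert x (Bl x y), a ≠ b →
      insert a (Bl a b) = insert x (Bl x y) := by
    have k : ∀ a ∈ insert x (Bl x y), ∃ d, a ≠ d ∧ insert a (Bl a d) = insert x (Bl x y) := by
      rintro a (rfl | ha)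
      · exact ⟨y, hxy, rfl⟩
      · exact ⟨x, (h.ne hxy ha).symm, by rw [← sym x a (h.ne hxy ha), h.eq x y a hxy ha]⟩
    intro a ha b hb hab
    obtain ⟨d, hd, e⟩ := k a ha
    rw [← e] at hb ⊢
    rw [h.eq a d b hd (hb.resolve_left hab.symm)]
  have hcn : c ∉ insert x (Bl x y) := fun e => e.elim (fun e => hc e.symm) hc'
  have hle := Set.ncard_le_ncard_of_injOn (s := insert x (Bl x y)) (t := parts Bl c) (Bl c)
    (fun a ha => ⟨a, fun e => hcn (e ▸ ha), rfl⟩) fun a ha b hb e => by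
      by_contra hab
      have h1 : c ≠ a := fun e => hcn (e ▸ ha)
      have h2 : c ≠ b := fun e => hcn (e ▸ hb)
      have h3 : b ∈ insert a (Bl a c) := by
        rw [← sym c a h1, e]; exact Or.inr (h.mem c b h2)
      have h4 := h.eq a c b h1.symm (h3.resolve_left fun e => hab e.symm)
      apply hcn
      rw [← line a ha b hb hab, h4]
      exact Or.inr (h.mem a c h1.symm)
  rw [Set.ncard_insert_of_notMem (h.nmem x y hxy), h.card x y hxy, h.card_parts (by omega) hΩ] at hle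
  omega

end Part

end Part

end Cfsg.Agent.H94.Atk
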