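import Mathlib
import Cfsg.Agent.H94.AtkA
import Cfsg.Agent.H56.ONanPSL

/-!
# Doubly transitive groups of degree `p² + 1` with imprimitive point stabiliser: the kernel on blocks
-/

set_option autoImplicit false
set_option linter.unusedSectionVars false

namespace Cfsg.Agent.H94.Atk

open Subgroup MulAction
open scoped Pointwise

/-- An invariant system of blocks for the point stabilisers. -/
structure Sys (G : Type*) {Ω : Type*} [Group G] [MulAction G Ω] (p : ℕ) (Bl : Ω → Ω → Set Ω) : Prop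
    extends Part p Bl where
  card_eq : Nat.card Ω = p ^ 2 + 1
  two : ∀ x y x' y' : Ω, x ≠ y → x' ≠ y' → ∃ g : G, g • x = x' ∧ g • y = y'
  smul : ∀ (g : G) (x y z : Ω), z ∈ Bl x y → g • z ∈ Bl (g • x) (g • y)

/-- The kernel of the action on the blocks at `x`. -/
def K (G : Type*) {Ω : Type*} [Group G] [MulAction G Ω] (Bl : Ω → Ω → Set Ω) (x : Ω) : Subgroup G :=
  stabilizer G x ⊓ ⨅ y, stabilizer G (Bl x y)

/-- The kernel is faithful on every block. -/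
def Fa (G : Type*) {Ω : Type*} [Group G] [MulAction G Ω] (Bl : Ω → Ω → Set Ω) : Prop :=
  ∀ x y, x ≠ y → ∀ k ∈ K G Bl x, (∀ z ∈ Bl x y, k • z = z) → k = 1

namespace Sys

variable {G Ω : Type*} [Group G] [Finite G] [MulAction G Ω] [FaithfulSMul G Ω] [Finite Ω] {p : ℕ}
  [hp : Fact p.Prime] {Bl : Ω → Ω → Set Ω} (h : Sys G p Bl)
include h

theorem smul_Bl (g : G) (x y : Ω) : g • Bl x y = Bl (g • x) (g • y) := by
  ext z
  rw [Set.mem_smul_set_iff_inv_smul_mem]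
  refine ⟨fun hz => by simpa using h.smul g _ _ _ hz, fun hz => by simpa using h.smul g⁻¹ _ _ _ hz⟩

theorem smul_Bl_eq {g : G} {x y : Ω} (hxy : x ≠ y) (h1 : g • x = x) (h2 : g • y ∈ Bl x y) :
    g • Bl x y = Bl x y := by
  rw [h.smul_Bl, h1, h.eq x y _ hxy h2]

theorem mem_K {g : G} {x : Ω} : g ∈ K G Bl x ↔ g • x = x ∧ ∀ y, x ≠ y → g • y ∈ Bl x y := by
  simp only [K, mem_inf, mem_stabilizer_iff, mem_iInf]
  refine and_congr_right fun h1 => ⟨fun h2 y hy => ?_, fun h2 y => ?_⟩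
  · rw [← h2 y]; exact Set.smul_mem_smul_set (h.mem x y hy)
  · by_cases e : x = y
    · rw [← e, h.smul_Bl, h1]
    · exact h.smul_Bl_eq e h1 (h2 y e)

theorem K_fix {g : G} {x : Ω} (hg : g ∈ K G Bl x) : g • x = x := (h.mem_K.1 hg).1

theorem conj_K (g : G) {k : G} {x : Ω} (hk : k ∈ K G Bl x) : g * k * g⁻¹ ∈ K G Bl (g • x) := by
  rw [h.mem_K] at hk ⊢
  refine ⟨by rw [mul_smul, mul_smul, inv_smul_smul, hk.1], fun y hy => ?_⟩
  have := h.smul g _ _ _ (hk.2 (g⁻¹ • y) fun e => hy (by rw [e, smul_inv_smul]))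
  rwa [smul_inv_smul, ← mul_smul, ← mul_smul] at this

theorem norm_K {g k : G} {x : Ω} (hg : g • x = x) (hk : k ∈ K G Bl x) : g * k * g⁻¹ ∈ K G Bl x := by
  have := h.conj_K g hk
  rwa [hg] at this

theorem norm_K' {g k : G} {x : Ω} (hg : g • x = x) (hk : k ∈ K G Bl x) : g⁻¹ * k * g ∈ K G Bl x := by
  have := h.norm_K (g := g⁻¹) (inv_smul_eq_iff.2 hg.symm) hk
  rwa [inv_inv] at this

theorem actK {x y : Ω} (hxy : x ≠ y) : Act (K G Bl x) (Bl x y) p :=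
  ⟨h.card x y hxy, fun k hk s hs => by
    rw [← h.eq x y s hxy hs]; exact (h.mem_K.1 hk).2 s (h.toPart.ne hxy hs)⟩

theorem actP (x : Ω) : Act (stabilizer G x) (parts Bl x) p :=
  ⟨h.toPart.card_parts hp.out.pos h.card_eq x, by
    rintro g hg _ ⟨y, hy, rfl⟩
    refine ⟨g • y, fun e => hy (smul_left_cancel g (hg.trans e)), ?_⟩
    rw [h.smul_Bl, show g • x = x from hg]⟩

theorem trP (x : Ω) : Tr (stabilizer G x) (parts Bl x) := by
  rintro _ ⟨y, hy, rfl⟩ _ ⟨z, hz, rfl⟩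
  obtain ⟨g, g1, g2⟩ := h.two x y x z hy hz
  exact ⟨g, g1, by rw [h.smul_Bl, g1, g2]⟩

theorem mem_K_of_parts {g : G} {x : Ω} (hg : g • x = x) (h2 : ∀ B ∈ parts Bl x, g • B = B) :
    g ∈ K G Bl x :=
  h.mem_K.2 ⟨hg, fun y hy => by rw [← h2 _ ⟨y, hy, rfl⟩]; exact Set.smul_mem_smul_set (h.mem x y hy)⟩

theorem K_parts {g : G} {x : Ω} (hg : g ∈ K G Bl x) {B : Set Ω} (hB : B ∈ parts Bl x) : g • B = B := by
  obtain ⟨y, hy, rfl⟩ := hB
  exact h.smul_Bl_eq hy (h.K_fix hg) ((h.mem_K.1 hg).2 y hy)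

/-- A `p`-element fixing `x` and a block lies in the kernel. -/
theorem pK {g : G} {k : ℕ} (hk : g ^ p ^ k = 1) {x y : Ω} (hxy : x ≠ y) (h1 : g • x = x)
    (h2 : g • y ∈ Bl x y) : g ∈ K G Bl x :=
  h.mem_K_of_parts h1 fun _ hB =>
    (h.actP x).pfix h1 hk (a := Bl x y) ⟨y, hxy, rfl⟩ (h.smul_Bl_eq hxy h1 h2) hB

theorem exists_ne (x : Ω) : ∃ y, x ≠ y := by
  have : Nontrivial Ω := Finite.one_lt_card_iff_nontrivial.1 (by
    rw [h.card_eq]; have := hp.out.pos; exact Nat.succ_lt_succ (by positivity))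
  obtain ⟨y, hy⟩ := _root_.exists_ne x
  exact ⟨y, hy.symm⟩

theorem card_stab {x y : Ω} (hxy : x ≠ y) :
    Nat.card (stabilizer G x) = p ^ 2 * Nat.card (stabilizer (stabilizer G x) y) := by
  have h1 : orbit (stabilizer G x) y = {x}ᶜ := by
    ext z
    refine ⟨?_, fun hz => ?_⟩
    · rintro ⟨g, rfl⟩ e
      exact hxy (smul_left_cancel (g : G) (g.2.trans e.symm))
    · obtain ⟨g, g1, g2⟩ := h.two x y x z hxy (Ne.symm hz)
      exact ⟨⟨g, g1⟩, g2⟩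
  rw [← (stabilizer (stabilizer G x) y).index_mul_card, index_stabilizer, h1, Set.ncard_compl, h.card_eq]
  simp

theorem card_G (x : Ω) : Nat.card G = (p ^ 2 + 1) * Nat.card (stabilizer G x) := by
  have h1 : orbit G x = Set.univ := by
    refine Set.eq_univ_of_forall fun z => ?_
    obtain ⟨y, hy⟩ := h.exists_ne x
    obtain ⟨w, hw⟩ := h.exists_ne z
    obtain ⟨g, g1, -⟩ := h.two x y z w hy hw
    exact ⟨g, g1⟩
  rw [← (stabilizer G x).index_mul_card, index_stabilizer, h1, Set.ncard_univ, h.card_eq]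

theorem exists_P (x : Ω) : ∃ P : Subgroup G, P ≤ stabilizer G x ∧ Nat.card P = p ^ 2 := by
  obtain ⟨y, hy⟩ := h.exists_ne x
  obtain ⟨P, hP⟩ := Sylow.exists_subgroup_card_pow_prime (G := stabilizer G x) p (n := 2)
    ⟨_, h.card_stab hy⟩
  exact ⟨P.map (stabilizer G x).subtype, map_subtype_le _, by rw [card_map_of_injective (subtype_injective _), hP]⟩

theorem exists_K (x : Ω) : ∃ k ∈ K G Bl x, k ≠ 1 := by
  obtain ⟨y, hy⟩ := h.exists_ne x
  obtain ⟨P, hP, hc⟩ := h.exists_P x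
  have : ¬ Function.Injective fun g : P =>
      (⟨(g : G) • Bl x y, (h.actP x).inv _ (hP g.2) _ ⟨y, hy, rfl⟩⟩ : parts Bl x) := fun hi => by
    have h1 := Nat.card_le_card_of_injective _ hi
    rw [hc, Nat.card_coe_set_eq, (h.actP x).card] at h1
    nlinarith [hp.out.two_le]
  obtain ⟨g, g', e, hne⟩ := Function.not_injective_iff.1 this
  have e1 : ((g⁻¹ * g' : P) : G) • Bl x y = Bl x y := by
    rw [coe_mul, coe_inv, mul_smul, inv_smul_eq_iff]; exact (congrArg Subtype.val e).symm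
  refine ⟨(g⁻¹ * g' : P), h.pK (k := 2) ?_ hy (hP (g⁻¹ * g').2) ?_, fun e2 => hne ?_⟩
  · rw [← hc, ← coe_pow, pow_card_eq_one', coe_one]
  · rw [← e1]; exact Set.smul_mem_smul_set (h.mem x y hy)
  · exact inv_mul_eq_one.1 (Subtype.ext e2)

theorem eq_one {k : G} {x : Ω} (h1 : k • x = x) (h2 : ∀ y, x ≠ y → k • y = y) : k = 1 :=
  eq_of_smul_eq_smul (α := Ω) fun y => by
    rw [one_smul]
    by_cases e : x = y
    exacts [e ▸ h1, h2 y e]

theorem trK {x y : Ω} (hxy : x ≠ y) : Tr (K G Bl x) (Bl x y) := by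
  obtain ⟨k, hk, hne⟩ := h.exists_K x
  obtain ⟨z, hz, hm⟩ : ∃ z, x ≠ z ∧ k • z ≠ z := by
    by_contra hc
    push Not at hc
    exact hne (h.eq_one (h.K_fix hk) hc)
  obtain ⟨g, g1, g2⟩ := h.two x z x y hz hxy
  have ha : Act (stabilizer G x ⊓ stabilizer G (Bl x y)) (Bl x y) p := ⟨h.card x y hxy, fun g hg s hs => by
    rw [← (show g • Bl x y = Bl x y from hg.2)]; exact Set.smul_mem_smul_set hs⟩
  refine ha.tr_of_normal (fun s hs s' hs' => ?_) (fun g hg n hn => h.norm_K hg.1 hn) (h.actK hxy).inv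
    (h.norm_K g1 hk) (h.mem x y hxy) ?_
  · obtain ⟨g, g1, g2⟩ := h.two x s x s' (h.toPart.ne hxy hs) (h.toPart.ne hxy hs')
    refine ⟨g, ⟨g1, ?_⟩, g2⟩
    change g • Bl x y = Bl x y
    rw [← h.eq x y s hxy hs, h.smul_Bl, g1, g2, h.eq x y s hxy hs, h.eq x y s' hxy hs']
  · rw [← g2, mul_smul, mul_smul, inv_smul_smul]
    exact fun e => hm (smul_left_cancel g e)

theorem norm_fix {x : Ω} {B : Set Ω} (hB : B ∈ parts Bl x) {g n : G} (hg : g ∈ K G Bl x)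
    (hn : n ∈ fixingSubgroup G B) : g * n * g⁻¹ ∈ fixingSubgroup G B := by
  rw [mem_fixingSubgroup_iff] at hn ⊢
  intro y hy
  rw [mul_smul, mul_smul, hn _ (by rw [← Set.mem_smul_set_iff_inv_smul_mem, h.K_parts hg hB]; exact hy),
    smul_inv_smul]

theorem moves (hF : ¬ Fa G Bl) {x : Ω} {B B' : Set Ω} (hB : B ∈ parts Bl x) (hB' : B' ∈ parts Bl x)
    (hne : B ≠ B') : ∃ k ∈ K G Bl x ⊓ fixingSubgroup G B, ∃ w ∈ B', k • w ≠ w := by
  by_contra hc
  push Not at hc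
  apply hF
  have key := fun C hC => (h.actP x).rel_all (h.trP x)
    (fun B B' => ∀ k ∈ K G Bl x, (∀ w ∈ B, k • w = w) → ∀ w ∈ B', k • w = w) (fun _ _ _ e => e)
    (fun _ _ _ e1 e2 k hk e => e2 k hk (e1 k hk e)) (fun g hg a _ b _ e k hk e1 => by
      rintro _ ⟨w, hw, rfl⟩
      have := e _ (h.norm_K' hg hk) (fun w hw => by
        rw [mul_smul, mul_smul, e1 _ (Set.smul_mem_smul_set hw), inv_smul_smul]) w hw
      rw [mul_smul, mul_smul, inv_smul_eq_iff] at this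
      exact this) hB hB' hne (fun k hk e => hc k ⟨hk, (mem_fixingSubgroup_iff G).2 e⟩) (c := C) hC
  obtain ⟨y, hy, rfl⟩ := hB
  intro x' y' hne' k hk e
  obtain ⟨g, rfl, rfl⟩ := h.two x y x' y' hy hne'
  have hk' := h.conj_K g⁻¹ hk
  rw [inv_smul_smul, inv_inv] at hk'
  have := h.eq_one (h.K_fix hk') fun z hz => key _ ⟨z, hz, rfl⟩ _ hk' (fun w hw => by
    rw [mul_smul, mul_smul, e _ (h.smul g _ _ _ hw), inv_smul_smul]) z (h.mem x z hz)
  rw [mul_assoc, inv_mul_eq_one] at this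
  exact mul_eq_right.1 this.symm

theorem not_aff (hF : ¬ Fa G Bl) (x : Ω) : ∃ y, x ≠ y ∧ ¬ Aff (K G Bl x) (Bl x y) p := by
  by_contra hc
  push Not at hc
  let S : Set G := {g | g ∈ K G Bl x ∧ g ^ p = 1}
  have hS : ∀ a ∈ S, ∀ b ∈ S, a * b = b * a := fun a ha b hb => by
    refine eq_of_smul_eq_smul (α := Ω) fun y => ?_
    rw [mul_smul, mul_smul]
    by_cases e : x = y
    · rw [← e, h.K_fix ha.1, h.K_fix hb.1, h.K_fix ha.1]
    have hy := h.mem x y e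
    have ia := (h.actK e).inv a ha.1 y hy
    by_cases e2 : ∃ s ∈ Bl x y, b • s ≠ s
    · obtain ⟨n, hn⟩ := (hc y e).pw a ha.1 b hb.1 ha.2 hb.2 e2
      rw [hn _ ((h.actK e).inv b hb.1 y hy), hn y hy, ← mul_smul, ← mul_smul, ← pow_succ, ← pow_succ']
    · push Not at e2
      rw [e2 y hy, e2 _ ia]
  obtain ⟨y, hy⟩ := h.exists_ne x
  obtain ⟨z, hz, hz'⟩ := h.toPart.exists_out hp.out.two_le h.card_eq hy
  obtain ⟨k, hk, w, hw, e⟩ := h.moves hF (B := Bl x y) (B' := Bl x z) ⟨y, hy, rfl⟩ ⟨z, hz, rfl⟩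
    fun e => hz' (e ▸ h.mem x z hz)
  have ha : Act (K G Bl x ⊓ fixingSubgroup G (Bl x y)) (Bl x z) p := (h.actK hz).mono inf_le_left
  obtain ⟨t, ht, ho⟩ := ha.exists_ord ((h.actK hz).tr_of_normal (h.trK hz)
    (fun g hg n hn => ⟨h.norm_K (h.K_fix hg) hn.1, h.norm_fix ⟨y, hy, rfl⟩ hg hn.2⟩) ha.inv hk hw e)
  obtain ⟨-, F, _, _, n, h3, -, -, -, hq⟩ := H56.onan h.two x (closure S)
    (fun n hn => h.K_fix ((closure_le (K G Bl x)).2 (fun g hg => hg.1) hn))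
    (fun g hg n hn => by
      have : (closure S).map (MulAut.conj g).toMonoidHom ≤ closure S := by
        rw [MonoidHom.map_closure]
        refine closure_mono ?_
        rintro _ ⟨s, hs, rfl⟩
        exact ⟨h.norm_K hg hs.1, by rw [← map_pow, hs.2, map_one]⟩
      exact this ⟨n, hn, rfl⟩)
    (fun a ha b hb => closure_induction₂ (p := fun a b _ _ => Commute a b)
      (fun a b ha hb => hS a ha b hb) (fun _ _ => Commute.one_left _)
      (fun _ _ => Commute.one_right _) (fun _ _ _ _ _ _ => Commute.mul_left) (fun _ _ _ _ _ _ => Commute.mul_right)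
      (fun _ _ _ _ => Commute.inv_left) (fun _ _ _ _ => Commute.inv_right) ha hb)
    ⟨t, subset_closure ⟨ht.1, ho ▸ pow_orderOf_eq_one t⟩, fun e => hp.out.ne_one (by rw [← ho, e, orderOf_one]),
      y, hy.symm, (mem_fixingSubgroup_iff G).1 ht.2 y (h.mem x y hy)⟩
  rw [h.card_eq] at hq
  obtain ⟨q, hq1⟩ : ∃ q, Fintype.card F = q + 1 := ⟨_, (Nat.succ_pred_eq_of_pos Fintype.card_pos).symm⟩
  have hq2 : 1 ≤ q := by have := Fintype.one_lt_card (α := F); omega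
  obtain ⟨m, rfl⟩ := Nat.exists_eq_add_of_le' h3
  rw [hq1, Nat.add_sub_cancel] at hq
  have h4 : (p ^ 2 + 1) * q + 1 = (q + 1) ^ (m + 3) := by
    rw [hq]; exact Nat.sub_add_cancel (Nat.one_le_pow _ _ q.succ_pos)
  have h5 : q + 1 ∣ p ^ 2 := by
    have : q + 1 ∣ p ^ 2 * q + (q + 1) := by
      rw [show p ^ 2 * q + (q + 1) = (p ^ 2 + 1) * q + 1 by ring, h4]; exact dvd_pow_self _ (by omega)
    exact (Nat.Coprime.dvd_mul_right (by simp)).1 ((Nat.dvd_add_left dvd_rfl).1 this)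
  have h6 : p ≤ q + 1 := by
    obtain ⟨i, hi, e⟩ := (Nat.dvd_prime_pow hp.out).1 h5
    rw [e]
    exact Nat.le_self_pow (by rintro rfl; simp at e; omega) p
  have h7 : (q + 1) ^ 3 ≤ (q + 1) ^ (m + 3) := Nat.pow_le_pow_right q.succ_pos (by omega)
  have h8 : p ^ 2 ≤ (q + 1) ^ 2 := Nat.pow_le_pow_left h6 2
  nlinarith

theorem exists_supp (hF : ¬ Fa G Bl) {x y : Ω} (hxy : x ≠ y) (hn : ¬ Aff (K G Bl x) (Bl x y) p)
    (T : Finset Ω) : ∃ k ∈ K G Bl x ⊓ ⨅ z ∈ T, ⨅ _ : x ≠ z ∧ z ∉ Bl x y, fixingSubgroup G (Bl x z),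
      ∃ a ∈ Bl x y, k • a ≠ a := by
  classical
  induction T using Finset.induction_on with
  | empty =>
    obtain ⟨z, hz, e⟩ := h.toPart.exists_other hp.out.two_le hxy
    obtain ⟨k, hk, e'⟩ := h.trK hxy y (h.mem x y hxy) z hz
    exact ⟨k, by simpa using hk, y, h.mem x y hxy, e' ▸ e⟩
  | insert z T _ ih =>
    by_cases hz : x ≠ z ∧ z ∉ Bl x y
    swap
    · simpa only [Finset.iInf_insert, iInf_neg hz, top_inf_eq] using ih
    by_contra hc
    push Not at hc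
    have nM : ∀ g ∈ K G Bl x, ∀ n ∈ K G Bl x ⊓ ⨅ z ∈ T, ⨅ _ : x ≠ z ∧ z ∉ Bl x y, fixingSubgroup G (Bl x z),
        g * n * g⁻¹ ∈ K G Bl x ⊓ ⨅ z ∈ T, ⨅ _ : x ≠ z ∧ z ∉ Bl x y, fixingSubgroup G (Bl x z) :=
      fun g hg n hn => ⟨h.norm_K (h.K_fix hg) hn.1, mem_iInf.2 fun w => mem_iInf.2 fun hw => mem_iInf.2 fun hw' =>
        h.norm_fix ⟨w, hw'.1, rfl⟩ hg (mem_iInf.1 (mem_iInf.1 (mem_iInf.1 hn.2 w) hw) hw')⟩
    have nN : ∀ g ∈ K G Bl x, ∀ n ∈ K G Bl x ⊓ fixingSubgroup G (Bl x z),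
        g * n * g⁻¹ ∈ K G Bl x ⊓ fixingSubgroup G (Bl x z) :=
      fun g hg n hn => ⟨h.norm_K (h.K_fix hg) hn.1, h.norm_fix ⟨z, hz.1, rfl⟩ hg hn.2⟩
    refine hn ((h.actK hxy).aff_of_comm (h.trK hxy) inf_le_left inf_le_left nM nN ih
      (h.moves hF ⟨z, hz.1, rfl⟩ ⟨y, hxy, rfl⟩ fun e => hz.2 (e ▸ h.mem x z hz.1)) fun m hm n hn s hs => ?_)
    have h1 := mul_mem (inv_mem hm) (nM n⁻¹ (inv_mem hn.1) m hm)
    have h2 := mul_mem (nN m⁻¹ (inv_mem hm.1) n⁻¹ (inv_mem hn)) hn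
    have := hc (m⁻¹ * (n⁻¹ * m * n⁻¹⁻¹)) ⟨h1.1, by
      rw [Finset.iInf_insert, iInf_pos hz]
      exact ⟨by convert h2.2 using 1; group, h1.2⟩⟩ s hs
    rw [inv_inv, mul_smul, mul_smul, mul_smul, inv_smul_eq_iff, inv_smul_eq_iff] at this
    exact this

/-- The kernel is faithful on each block. -/
theorem fa : Fa G Bl := by
  classical
  by_contra hF
  have := Fintype.ofFinite Ω
  obtain ⟨x⟩ : Nonempty Ω := (Nat.card_pos_iff.1 (by rw [h.card_eq]; omega)).1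
  obtain ⟨y, hxy, hn⟩ := h.not_aff hF x
  obtain ⟨k, hk, a, ha, e⟩ := h.exists_supp hF hxy hn Finset.univ
  have hA : Act (K G Bl x ⊓ fixingSubgroup G (Bl x y)ᶜ) (Bl x y) p := (h.actK hxy).mono inf_le_left
  have hk' : k ∈ K G Bl x ⊓ fixingSubgroup G (Bl x y)ᶜ := ⟨hk.1, (mem_fixingSubgroup_iff G).2 fun z hz => by
    by_cases e : x = z
    · exact e ▸ h.K_fix hk.1
    · exact (mem_fixingSubgroup_iff G).1 (mem_iInf.1 (mem_iInf.1 (mem_iInf.1 hk.2 z) (Finset.mem_univ z))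
        ⟨e, hz⟩) z (h.mem x z e)⟩
  have hT := (h.actK hxy).tr_of_normal (h.trK hxy) (N := K G Bl x ⊓ fixingSubgroup G (Bl x y)ᶜ)
    (fun g hg n hn => ⟨h.norm_K (h.K_fix hg) hn.1, by
    have h1 := (mem_fixingSubgroup_iff G).1 hn.2
    refine (mem_fixingSubgroup_iff G).2 fun z hz => ?_
    rw [mul_smul, mul_smul, h1 _ (fun e => hz (by simpa using (h.actK hxy).inv g hg _ e)), smul_inv_smul]⟩)
    hA.inv hk' ha e
  obtain ⟨t, ht, ho⟩ := hA.exists_ord hT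
  have t1 : t ^ p = 1 := ho ▸ pow_orderOf_eq_one t
  have t2 := (mem_fixingSubgroup_iff G).1 ht.2
  obtain ⟨b, hb, hm⟩ : ∃ b ∈ Bl x y, t • b ≠ b := by
    by_contra hc
    push Not at hc
    refine hp.out.ne_one ?_
    rw [← ho, h.eq_one (h.K_fix ht.1) fun z _ => (em _).elim (hc z) (t2 z), orderOf_one]
  have Q : ∀ z ∉ Bl x y, ∀ w ∈ Bl x y, Bl z w = Bl x y := fun z hz w hw => by
    by_cases e : z = x
    · rw [e, h.eq x y w hxy hw]
    have hzw : z ≠ w := fun e => hz (e ▸ hw)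
    have := h.pK (k := 1) (by rwa [pow_one]) e (t2 z hz) (by rw [h.K_fix ht.1]; exact h.mem z x e)
    refine (Set.eq_of_subset_of_ncard_le (fun c hc => ?_) (by rw [h.card z w hzw, h.card x y hxy])).symm
    obtain ⟨n, rfl⟩ := hA.tr_of_order ht t1 hb hm hw hc
    exact (h.mem_K.1 (pow_mem this n)).2 w hzw
  obtain ⟨y', hy', hne⟩ := h.toPart.exists_other hp.out.two_le hxy
  obtain ⟨g, g1, g2⟩ := h.two x y y y' hxy hne.symm
  obtain ⟨z, hz⟩ : ∃ z, z ∉ Bl x y ∪ Bl y y' := by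
    by_contra hc
    push Not at hc
    have := (Set.ncard_le_ncard (show Set.univ ⊆ _ from fun z _ => hc z)).trans (Set.ncard_union_le _ _)
    rw [Set.ncard_univ, h.card_eq, h.card x y hxy, h.card y y' hne.symm] at this
    nlinarith [hp.out.two_le]
  have e1 := Q z (fun e => hz (Or.inl e)) y' hy'
  have e2 := congrArg (g • ·) (Q (g⁻¹ • z) (fun e => hz (Or.inr (by simpa [g1, g2] using h.smul g _ _ _ e))) y
    (h.mem x y hxy))
  simp only [h.smul_Bl, smul_inv_smul, g1, g2] at e2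
  exact h.nmem y y' hne.symm (by rw [← e2, e1]; exact h.mem x y hxy)

end Sys

end Cfsg.Agent.H94.Atk
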