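import Mathlib

/-!
# A lemma on invariant subsets of a coset of a group of prime order (difference sets)
-/

set_option autoImplicit false
set_option linter.unusedSectionVars false

namespace Cfsg.Agent.H94.Atk

open Subgroup

variable {P : Type*} [CommGroup P] [Fintype P] [DecidableEq P]

/-- Convolution. -/
def cv (f g : P → ℤ) (z : P) : ℤ := ∑ w, f w * g (w⁻¹ * z)

/-- Convolution powers. -/
def pw (f : P → ℤ) : ℕ → P → ℤ
  | 0 => fun z => if z = 1 then 1 else 0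
  | n + 1 => cv (pw f n) f

/-- Evaluation at a character. -/
def ev {R : Type*} [CommRing R] (χ : P →* R) (f : P → ℤ) : R := ∑ z, (f z : R) * χ z

theorem ev_cv {R : Type*} [CommRing R] (χ : P →* R) (f g : P → ℤ) : ev χ (cv f g) = ev χ f * ev χ g := by
  simp only [ev, cv, Int.cast_sum, Int.cast_mul, Finset.sum_mul]
  rw [Finset.sum_comm]
  refine Finset.sum_congr rfl fun w _ => ?_
  rw [Finset.mul_sum, ← Equiv.sum_comp (Equiv.mulLeft w)]
  refine Finset.sum_congr rfl fun z _ => ?_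
  simp only [Equiv.coe_mulLeft, inv_mul_cancel_left, map_mul]
  ring

theorem ev_pw {R : Type*} [CommRing R] (χ : P →* R) (f : P → ℤ) : ∀ n, ev χ (pw f n) = ev χ f ^ n
  | 0 => by simp [ev, pw]
  | n + 1 => by rw [pw, ev_cv, ev_pw χ f n, pow_succ]

/-- Invariance under a permutation. -/
def Inv (κ : Equiv.Perm P) (f : P → ℤ) : Prop := ∀ x z, f ((κ x)⁻¹ * κ z) = f (x⁻¹ * z)

theorem cv_apply (f g : P → ℤ) (x z : P) : cv f g (x⁻¹ * z) = ∑ w, f (x⁻¹ * w) * g (w⁻¹ * z) := by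
  rw [cv, ← Equiv.sum_comp (Equiv.mulLeft x⁻¹)]
  refine Finset.sum_congr rfl fun w _ => ?_
  simp only [Equiv.coe_mulLeft, mul_inv_rev, inv_inv]
  rw [mul_assoc, mul_inv_cancel_left]

theorem Inv.cv {κ : Equiv.Perm P} {f g : P → ℤ} (hf : Inv κ f) (hg : Inv κ g) : Inv κ (cv f g) :=
  fun x z => by
    rw [cv_apply, cv_apply, ← Equiv.sum_comp κ]
    exact Finset.sum_congr rfl fun w _ => by rw [hf, hg]

theorem Inv.pw {κ : Equiv.Perm P} {f : P → ℤ} (hf : Inv κ f) : ∀ n, Inv κ (pw f n)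
  | 0 => fun x z => by simp [Atk.pw, inv_mul_eq_one]
  | n + 1 => (hf.pw n).cv hf

theorem cv_supp {A : Subgroup P} {f g : P → ℤ} {a b : P} (hf : ∀ z, f z ≠ 0 → a⁻¹ * z ∈ A)
    (hg : ∀ z, g z ≠ 0 → b⁻¹ * z ∈ A) (z : P) (h : cv f g z ≠ 0) : (a * b)⁻¹ * z ∈ A := by
  obtain ⟨w, -, hw⟩ := Finset.exists_ne_zero_of_sum_ne_zero h
  have := mul_mem (hf w (left_ne_zero_of_mul hw)) (hg _ (right_ne_zero_of_mul hw))
  rwa [show a⁻¹ * w * (b⁻¹ * (w⁻¹ * z)) = (a * b)⁻¹ * z by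
    rw [mul_inv, mul_left_comm b⁻¹, mul_assoc, mul_inv_cancel_left, mul_assoc]] at this

theorem pw_supp {A : Subgroup P} {f : P → ℤ} {a : P} (hf : ∀ z, f z ≠ 0 → a⁻¹ * z ∈ A) :
    ∀ n z, pw f n z ≠ 0 → (a ^ n)⁻¹ * z ∈ A
  | 0, z, h => by
    have : z = 1 := by by_contra e; simp [pw, e] at h
    simp [this]
  | n + 1, z, h => by rw [pow_succ]; exact cv_supp (pw_supp hf n) hf z h

open scoped Classical in
theorem shape {t : P} {𝒦 : Set (Equiv.Perm P)} (ht : t ≠ 1)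
    (h2 : ∀ a ∈ zpowers t, ∀ b ∈ zpowers t, a ≠ 1 → b ≠ 1 → ∃ κ ∈ 𝒦, κ 1 = 1 ∧ κ a = b)
    {g : P → ℤ} (hg : ∀ κ ∈ 𝒦, Inv κ g) (hs : ∀ z, g z ≠ 0 → z ∈ zpowers t) (z : P) :
    g z = (if z = 1 then g 1 - g t else 0) + if z ∈ zpowers t then g t else 0 := by
  by_cases h1 : z = 1
  · simp [h1]
  by_cases hz : z ∈ zpowers t
  · obtain ⟨κ, hκ, e1, e2⟩ := h2 t (mem_zpowers t) z hz ht h1
    have := hg κ hκ 1 t
    rw [e1, e2, inv_one, one_mul, one_mul] at this
    simp [h1, hz, this]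
  · simp only [h1, hz, if_false, add_zero]
    by_contra e
    exact hz (hs z e)

open scoped Classical in
theorem ev_shape {t : P} {g : P → ℤ} {c e : ℤ}
    (hg : ∀ z, g z = (if z = 1 then c else 0) + if z ∈ zpowers t then e else 0)
    (χ : P →* ℂ) (hχ : χ t ≠ 1) : ev χ g = c := by
  have hS : ∑ z, (if z ∈ zpowers t then χ z else 0) = 0 := by
    have h1 : ∑ z, (if z ∈ zpowers t then χ z else 0) = χ t * ∑ z, (if z ∈ zpowers t then χ z else 0) := by
      rw [Finset.mul_sum, ← Equiv.sum_comp (Equiv.mulLeft t)]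
      refine Finset.sum_congr rfl fun z _ => ?_
      simp [mul_mem_cancel_left (mem_zpowers t)]
    have h2 : (1 - χ t) * ∑ z, (if z ∈ zpowers t then χ z else 0) = 0 := by
      rw [sub_mul, one_mul, ← h1, sub_self]
    exact (mul_eq_zero.1 h2).resolve_left (sub_ne_zero.2 hχ.symm)
  have : ∀ z, (g z : ℂ) * χ z = (if z = 1 then (c : ℂ) else 0) + e * if z ∈ zpowers t then χ z else 0 := by
    intro z
    rw [hg]
    split_ifs with h1 h2 h2 <;> simp [h1]
  rw [ev, Finset.sum_congr rfl fun z _ => this z, Finset.sum_add_distrib, ← Finset.mul_sum, hS]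
  simp

theorem coeff_ev {p : ℕ} [Fact p.Prime] (g : P → ℤ) (z : P) :
    (ev (MonoidAlgebra.of (ZMod p) P) g).coeff z = (g z : ZMod p) := by
  have : ∀ w, (g w : MonoidAlgebra (ZMod p) P) * MonoidAlgebra.of (ZMod p) P w =
      MonoidAlgebra.single w (g w : ZMod p) := fun w => by
    rw [← zsmul_eq_mul, MonoidAlgebra.of_apply, MonoidAlgebra.smul_single, zsmul_eq_mul, mul_one]
  rw [ev, Finset.sum_congr rfl fun w _ => this w]
  simp [MonoidAlgebra.coeff_sum, Finsupp.single_apply]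

theorem cyc {p : ℕ} (hp : p.Prime) (hp2 : p ≠ 2) {t y : P} (ht : orderOf t = p) (hy : y ^ p ∈ zpowers t)
    (D : Finset P) (hD : ∀ d ∈ D, y⁻¹ * d ∈ zpowers t) (𝒦 : Set (Equiv.Perm P))
    (hinv : ∀ κ ∈ 𝒦, ∀ x z, (κ x)⁻¹ * κ z ∈ D ↔ x⁻¹ * z ∈ D)
    (h2 : ∀ a ∈ zpowers t, ∀ b ∈ zpowers t, a ≠ 1 → b ≠ 1 → ∃ κ ∈ 𝒦, κ 1 = 1 ∧ κ a = b) :
    ∃ u : Fin p, ∀ i j : Fin p, i ≠ u → j ≠ u → (y * t ^ i.val ∈ D ↔ y * t ^ j.val ∈ D) := by
  classical
  have := Fact.mk hp
  have ht1 : t ≠ 1 := fun e => hp.one_lt.ne' (by rw [← ht, e, orderOf_one])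
  have htp : t ^ p = 1 := by rw [← ht, pow_orderOf_eq_one]
  let f : P → ℤ := fun z => if z ∈ D then 1 else 0
  have hf : ∀ κ ∈ 𝒦, Inv κ f := fun κ hκ x z => by simp only [f, hinv κ hκ]
  have sf : ∀ z, f z ≠ 0 → y⁻¹ * z ∈ zpowers t := fun z h => hD z (by by_contra e; simp [f, e] at h)
  have sh := shape ht1 h2 (fun κ hκ => (hf κ hκ).pw p) fun z h => by
    simpa using mul_mem hy (pw_supp sf p z h)
  have inj : Function.Injective fun i : Fin p => y * t ^ i.val := fun i j e => by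
    have := pow_injOn_Iio_orderOf (x := t) (by rw [ht]; exact i.2) (by rw [ht]; exact j.2)
      (mul_left_cancel e)
    exact Fin.ext this
  have rng : ∀ z, y⁻¹ * z ∈ zpowers t → ∃ i : Fin p, y * t ^ i.val = z := fun z hz => by
    obtain ⟨n, hn⟩ := (mem_powers_iff_mem_zpowers.2 hz : _ ∈ Submonoid.powers t)
    refine ⟨⟨n % p, Nat.mod_lt _ hp.pos⟩, ?_⟩
    change y * t ^ (n % p) = z
    rw [← ht, pow_mod_orderOf]
    simp only at hn
    rw [hn, mul_inv_cancel_left]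
  have sumf : ∀ {R : Type} [CommRing R] (F : P → R), ∑ z, (f z : R) * F z =
      ∑ i : Fin p, (f (y * t ^ i.val) : R) * F (y * t ^ i.val) := fun F =>
    (Fintype.sum_of_injective _ inj _ _ (fun z hz => by
      have : f z = 0 := by by_contra e; exact hz (rng z (sf z e))
      rw [this, Int.cast_zero, zero_mul]) fun _ => rfl).symm
  have fin : ∀ i j : Fin p, f (y * t ^ i.val) = f (y * t ^ j.val) → (y * t ^ i.val ∈ D ↔ y * t ^ j.val ∈ D) :=
    fun i j e => by
      by_cases h1 : y * t ^ i.val ∈ D <;> by_cases h3 : y * t ^ j.val ∈ D <;> simp_all [f]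
  by_cases hy1 : y ^ p = 1
  · obtain ⟨χ₀, hχ₀⟩ := CommGroup.exists_apply_ne_one_of_hasEnoughRootsOfUnity P ℂ ht1
    let χ : P →* ℂ := (Units.coeHom ℂ).comp χ₀
    let χ' : P →* ℂ := χ.comp invMonoidHom
    have hχ : χ t ≠ 1 := fun e => hχ₀ (Units.ext e)
    have hχ' : χ' t ≠ 1 := fun e => hχ (by
      have : χ t⁻¹ * χ t = 1 := by rw [← map_mul, inv_mul_cancel, map_one]
      rwa [show χ t⁻¹ = 1 from e, one_mul] at this)
    have hζ : IsPrimitiveRoot (χ t) p := by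
      have h1 : χ t ^ p = 1 := by rw [← map_pow, ← ht, pow_orderOf_eq_one, map_one]
      have := IsPrimitiveRoot.orderOf (χ t)
      rwa [orderOf_eq_prime h1 hχ] at this
    have e1 : ev χ f ^ p = ((pw f p 1 - pw f p t : ℤ) : ℂ) := by rw [← ev_pw, ev_shape sh χ hχ]
    have e2 : ev χ' f ^ p = ((pw f p 1 - pw f p t : ℤ) : ℂ) := by rw [← ev_pw, ev_shape sh χ' hχ']
    let f' : P → ℤ := fun z => f z⁻¹
    have hf' : ∀ κ ∈ 𝒦, Inv κ f' := fun κ hκ x z => by
      simp only [f', mul_inv_rev, inv_inv]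
      exact hf κ hκ z x
    have sf' : ∀ z, f' z ≠ 0 → y⁻¹⁻¹ * z ∈ zpowers t := fun z h => by
      have := inv_mem (sf _ h)
      rwa [mul_inv, inv_inv z] at this
    have sh' := shape ht1 h2 (fun κ hκ => (hf κ hκ).cv (hf' κ hκ)) fun z h => by
      simpa using cv_supp sf sf' z h
    have e3 : ev χ f * ev χ' f = ((cv f f' 1 - cv f f' t : ℤ) : ℂ) := by
      rw [← ev_shape sh' χ hχ, ev_cv]
      congr 1
      rw [ev, ev, ← Equiv.sum_comp (Equiv.inv P)]
      exact Finset.sum_congr rfl fun z _ => by simp [f', χ']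
    generalize pw f p 1 - pw f p t = c at e1 e2
    generalize cv f f' 1 - cv f f' t = n at e3
    obtain ⟨v, -, hv⟩ := hζ.eq_pow_of_pow_eq_one (show χ y ^ p = 1 by rw [← map_pow, hy1, map_one])
    have e4 : ev χ f = χ t ^ v * ∑ i : Fin p, ((f (y * t ^ i.val) : ℚ) : ℂ) * χ t ^ i.val := by
      rw [ev, sumf, Finset.mul_sum]
      exact Finset.sum_congr rfl fun i _ => by rw [map_mul, map_pow, ← hv]; push_cast; ring
    have hz0 : χ t ≠ 0 := hζ.ne_zero hp.ne_zero
    have key : ∃ (ρ : ℚ) (w : ℕ), ev χ f * χ t ^ w = ρ := by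
      by_cases h0 : ev χ f = 0
      · exact ⟨0, 0, by simp [h0]⟩
      have h0' : ev χ' f ≠ 0 := fun e => h0 (by
        rw [e, zero_pow hp.ne_zero] at e2
        rw [← e2] at e1
        exact pow_eq_zero_iff hp.ne_zero |>.1 e1)
      obtain ⟨s, -, hs⟩ := hζ.eq_pow_of_pow_eq_one (show (ev χ' f / ev χ f) ^ p = 1 by
        rw [div_pow, e1, e2, div_self (by rw [← e1]; exact pow_ne_zero _ h0)])
      obtain ⟨m, hm⟩ := hp.odd_of_ne_two hp2
      have h1 : (ev χ f * χ t ^ (s * (m + 1))) ^ 2 = n := by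
        rw [← e3, mul_pow, ← pow_mul, show s * (m + 1) * 2 = p * s + s by rw [hm]; ring, pow_add, pow_mul,
          hζ.pow_eq_one, one_pow, one_mul, hs]
        field_simp
      have h3 : (ev χ f * χ t ^ (s * (m + 1))) ^ p = c := by
        rw [mul_pow, e1, ← pow_mul, mul_comm _ p, pow_mul, hζ.pow_eq_one, one_pow, mul_one]
      have hn : (n : ℂ) ≠ 0 := by rw [← e3]; exact mul_ne_zero h0 h0'
      refine ⟨c / n ^ m, s * (m + 1), ?_⟩
      rw [hm, pow_succ, pow_mul, h1] at h3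
      push_cast
      rw [← h3]
      field_simp
    obtain ⟨ρ, w, hw⟩ := key
    let u : Fin p := ⟨((p - 1) * (v + w)) % p, Nat.mod_lt _ hp.pos⟩
    have hu : χ t ^ (v + w) * χ t ^ u.val = 1 := by
      have : χ t ^ u.val = χ t ^ ((p - 1) * (v + w)) := by
        conv_rhs => rw [← Nat.mod_add_div ((p - 1) * (v + w)) p, pow_add, pow_mul, hζ.pow_eq_one,
          one_pow, mul_one]
      rw [this, ← pow_add, show v + w + (p - 1) * (v + w) = p * (v + w) by
        obtain ⟨k, rfl⟩ := Nat.exists_eq_succ_of_ne_zero hp.ne_zero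
        simp; ring, pow_mul, hζ.pow_eq_one, one_pow]
    have e5 : ∑ i : Fin p, (((f (y * t ^ i.val) : ℚ) - if i = u then ρ else 0 : ℚ) : ℂ) * χ t ^ i.val = 0 := by
      have h1 : ∀ i : Fin p, (((f (y * t ^ i.val) : ℚ) - if i = u then ρ else 0 : ℚ) : ℂ) * χ t ^ i.val =
          ((f (y * t ^ i.val) : ℚ) : ℂ) * χ t ^ i.val - if i = u then (ρ : ℂ) * χ t ^ u.val else 0 :=
        fun i => by split_ifs with h <;> simp [h, sub_mul]
      rw [Finset.sum_congr rfl fun i _ => h1 i, Finset.sum_sub_distrib, Finset.sum_ite_eq', if_pos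
        (Finset.mem_univ _), ← hw, e4, sub_eq_zero]
      linear_combination (-∑ i : Fin p, ((f (y * t ^ i.val) : ℚ) : ℂ) * χ t ^ i.val) * hu
    refine ⟨u, fun i j hi hj => fin i j ?_⟩
    have := (hζ.sum_eq_zero_iff_forall_eq hp _).1 e5 i j
    simp only [hi, hj, if_false, sub_zero] at this
    exact_mod_cast this
  · -- reduction modulo `p`
    have : CharP (MonoidAlgebra (ZMod p) P) p :=
      charP_of_injective_algebraMap (algebraMap (ZMod p) (MonoidAlgebra (ZMod p) P)).injective p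
    have e1 : ev (MonoidAlgebra.of (ZMod p) P) f = ∑ d ∈ D, MonoidAlgebra.of (ZMod p) P d := by
      simp [ev, f]
    have e2 : ∀ z, ((pw f p z : ℤ) : ZMod p) = if z = y ^ p then (D.card : ZMod p) else 0 := fun z => by
      rw [← coeff_ev, ev_pw, e1, sum_pow_char]
      have : ∀ d ∈ D, MonoidAlgebra.of (ZMod p) P d ^ p = MonoidAlgebra.single (y ^ p) 1 := fun d hd => by
        obtain ⟨i, rfl⟩ := rng d (hD d hd)
        rw [← map_pow, mul_pow, ← pow_mul, mul_comm i.val, pow_mul, htp, one_pow, mul_one]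
        rfl
      rw [Finset.sum_congr rfl this]
      simp [Finsupp.single_apply, eq_comm]
    -- a third element of `⟨t⟩`
    have hyy : (y ^ p)⁻¹ ≠ y ^ p := fun e => hy1 (by
      have h1 : (y ^ p) ^ 2 = 1 := by rw [pow_two]; nth_rewrite 1 [← e]; exact inv_mul_cancel _
      have h3 : (y ^ p) ^ p = 1 := by
        obtain ⟨k, hk⟩ := hy
        simp only at hk
        rw [← hk, ← zpow_natCast, ← zpow_mul, mul_comm, zpow_mul, zpow_natCast, ← ht, pow_orderOf_eq_one,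
          one_zpow]
      have := pow_gcd_eq_one.2 ⟨h1, h3⟩
      rwa [(Nat.coprime_primes Nat.prime_two hp).2 hp2.symm, pow_one] at this)
    have s1 := sh (y ^ p)
    have s2 := sh (y ^ p)⁻¹
    rw [if_neg hy1, if_pos hy, zero_add] at s1
    rw [if_neg (fun e => hy1 (inv_eq_one.1 e)), if_pos (inv_mem hy), zero_add, ← s1] at s2
    have h0 : (D.card : ZMod p) = 0 := by
      have a1 := e2 (y ^ p)
      have a2 := e2 (y ^ p)⁻¹
      rw [if_pos rfl] at a1
      rw [if_neg hyy, s2] at a2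
      rw [← a1, a2]
    have hsub : D ⊆ Finset.univ.image fun i : Fin p => y * t ^ i.val := fun d hd => by
      obtain ⟨i, hi⟩ := rng d (hD d hd)
      exact Finset.mem_image.2 ⟨i, Finset.mem_univ _, hi⟩
    have hc : (Finset.univ.image fun i : Fin p => y * t ^ i.val).card = p := by
      rw [Finset.card_image_of_injective _ inj, Finset.card_univ, Fintype.card_fin]
    refine ⟨⟨0, hp.pos⟩, fun i j _ _ => ?_⟩
    by_cases hD0 : D.card = 0
    · simp [Finset.card_eq_zero.1 hD0]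
    · have := Nat.le_of_dvd (Nat.pos_of_ne_zero hD0) ((ZMod.natCast_eq_zero_iff _ _).1 h0)
      rw [Finset.eq_of_subset_of_card_le hsub (hc.symm ▸ this)]
      simp

end Cfsg.Agent.H94.Atk
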