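import Mathlib
import Cfsg.Agent.H94.AtkB
import Cfsg.Agent.H94.AtkCyc

/-!
# The kernel on blocks has a unique subgroup of order `p`
-/

set_option autoImplicit false
set_option linter.unusedSectionVars false

namespace Cfsg.Agent.H94.Atk

open Subgroup MulAction
open scoped Pointwise

theorem Part.sym2 {Ω : Type*} [Finite Ω] {p : ℕ} {Bl : Ω → Ω → Set Ω} (h : Part p Bl) (hp : 2 ≤ p)
    (hΩ : Nat.card Ω = p ^ 2 + 1) {x y : Ω} (hxy : x ≠ y)
    (hs : ∀ x y z, x ≠ y → z ∈ Bl x y → z ≠ y → x ∈ Bl z y) : False :=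
  h.not_sym hp hΩ hxy fun x y hxy z hz hne => by
    have h1 := hs x z y (h.ne hxy hz) (by rw [h.eq x y z hxy hz]; exact h.mem x y hxy) hne.symm
    rw [h.eq y z x hne.symm h1]
    exact h.mem y z hne.symm

/-- The fixed points of the stabiliser of `y` in the kernel at `x`. -/
def Row (G : Type*) {Ω : Type*} [Group G] [MulAction G Ω] (Bl : Ω → Ω → Set Ω) (x y : Ω) : Set Ω :=
  {z | x ≠ z ∧ ∀ k ∈ K G Bl x, k • y = y → k • z = z}

/-- The kernels are not regular on the blocks. -/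
def NR (G : Type*) {Ω : Type*} [Group G] [MulAction G Ω] (Bl : Ω → Ω → Set Ω) : Prop :=
  ∀ x y, x ≠ y → ∃ k ∈ K G Bl x, k • y = y ∧ k ≠ 1

/-- Rows meet all blocks. -/
def ER (G : Type*) {Ω : Type*} [Group G] [MulAction G Ω] (Bl : Ω → Ω → Set Ω) : Prop :=
  ∀ x y z, x ≠ y → x ≠ z → ∃ w ∈ Bl x z, w ∈ Row G Bl x y

/-- The kernel at `x` has a unique subgroup of order `p`. -/
def Un (G : Type*) {Ω : Type*} [Group G] [MulAction G Ω] (p : ℕ) (Bl : Ω → Ω → Set Ω) (x : Ω) : Prop :=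
  ∀ s ∈ K G Bl x, ∀ t ∈ K G Bl x, s ^ p = 1 → t ^ p = 1 → t ≠ 1 → s ∈ zpowers t

namespace Sys

variable {G Ω : Type*} [Group G] [Finite G] [MulAction G Ω] [FaithfulSMul G Ω] [Finite Ω] {p : ℕ}
  [hp : Fact p.Prime] {Bl : Ω → Ω → Set Ω} (h : Sys G p Bl)
include h

theorem pdK {x y z : Ω} (hxy : x ≠ y) (hz : z ∈ Bl x y) (hne : y ≠ z) {D : Set G}
    (hD : ∀ d ∈ D, d ∈ K G Bl x) (h1 : ∀ d ∈ D, d • y = y) (h2 : ∀ d ∈ D, d • z = z)
    (hn : ∀ g ∈ K G Bl x, g • y = y → ∀ d ∈ D, g⁻¹ * d * g ∈ D) {d : G} (hd : d ∈ D) : d = 1 :=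
  h.fa x y hxy d (hD d hd) fun _ hs => (h.actK hxy).pd (h.trK hxy) hD (h.mem x y hxy) hz hne h1 h2
    (fun g hg e d hd => ⟨_, hn g hg e d hd, fun _ _ => rfl⟩) hd hs

theorem fix_conj {g d : G} {y : Ω} (h1 : g • y = y) (h2 : d • y = y) : (g⁻¹ * d * g) • y = y := by
  rw [mul_smul, mul_smul, h1, h2, inv_smul_eq_iff, h1]

theorem row_uniq (hN : NR G Bl) {x y z : Ω} (hxy : x ≠ y) (hz : z ∈ Bl x y) (hr : z ∈ Row G Bl x y) :
    y = z := by
  by_contra hne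
  obtain ⟨k, hk, e, hk1⟩ := hN x y hxy
  exact hk1 (h.pdK hxy hz hne (D := {k | k ∈ K G Bl x ∧ k • y = y}) (fun _ hd => hd.1) (fun _ hd => hd.2)
    (fun d hd => hr.2 d hd.1 hd.2)
    (fun g hg e d hd => ⟨mul_mem (mul_mem (inv_mem hg) hd.1) hg, h.fix_conj e hd.2⟩) ⟨hk, e⟩)

theorem row_symm (hN : NR G Bl) (hE : ER G Bl) {x y z : Ω} (hxy : x ≠ y) (hr : z ∈ Row G Bl x y) :
    y ∈ Row G Bl x z := by
  obtain ⟨w, hw, hw'⟩ := hE x z y hr.1 hxy
  rwa [h.row_uniq hN hxy hw ⟨hw'.1, fun k hk e => hw'.2 k hk (hr.2 k hk e)⟩]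

theorem rowPart (hN : NR G Bl) (hE : ER G Bl) : Part p (Row G Bl) := by
  have eq : ∀ x y z, x ≠ y → z ∈ Row G Bl x y → Row G Bl x z = Row G Bl x y := fun x y z hxy hz =>
    Set.ext fun w => and_congr_right fun _ => ⟨fun e k hk e' => e k hk (hz.2 k hk e'),
      fun e k hk e' => e k hk ((h.row_symm hN hE hxy hz).2 k hk e')⟩
  refine ⟨fun x y e => ⟨e, fun _ _ e => e⟩, fun x y _ e => e.1 rfl, fun x y hxy => ?_, eq⟩
  rw [← (h.actP x).card, ← Set.InjOn.ncard_image (f := Bl x) fun w hw w' hw' e =>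
    h.row_uniq hN hw.1 (e ▸ h.mem x w' hw'.1) (eq x y w hxy hw ▸ hw')]
  congr 1
  ext B
  refine ⟨fun ⟨w, hw, e⟩ => ⟨w, hw.1, e⟩, fun ⟨z, hz, e⟩ => ?_⟩
  obtain ⟨w, hw, hw'⟩ := hE x y z hxy hz
  exact ⟨w, hw', e ▸ h.eq x z w hz hw⟩

theorem un_conj {x : Ω} (hU : Un G p Bl x) (y : Ω) : Un G p Bl y := by
  obtain ⟨x', hx⟩ := h.exists_ne x
  obtain ⟨y', hy⟩ := h.exists_ne y
  obtain ⟨g, rfl, -⟩ := h.two y y' x x' hy hx
  intro s hs t ht s1 t1 t2
  obtain ⟨n, hn⟩ := hU _ (h.conj_K g hs) _ (h.conj_K g ht) (by rw [conj_pow, s1]; group)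
    (by rw [conj_pow, t1]; group) (by simpa using t2)
  exact ⟨n, by simpa [conj_zpow] using hn⟩

theorem moves' {x y : Ω} (hxy : x ≠ y) {t : G} (ht : t ∈ K G Bl x) {k : ℕ} (t1 : t ^ p ^ k = 1) (t2 : t ≠ 1) :
    t • y ≠ y := fun e =>
  t2 (h.fa x y hxy t ht fun _ hs => (h.actK hxy).pfix ht t1 (h.mem x y hxy) e hs)

theorem er_of_tr2 (hp2 : p ≠ 2) (hT : ∀ x y, x ≠ y → Tr2 (K G Bl x) (Bl x y)) : ER G Bl := by
  classical
  intro x β γ hβ hγ
  obtain ⟨P, hP, hc⟩ := h.exists_P x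
  let _ : CommGroup P := { (inferInstance : Group P) with
    mul_comm := (IsPGroup.isMulCommutative_of_card_eq_prime_sq hc).is_comm.comm }
  have := Fintype.ofFinite P
  have pP : ∀ g : P, (g : G) ^ p ^ 2 = 1 := fun g => by rw [← hc, ← coe_pow, pow_card_eq_one', coe_one]
  have inK : ∀ g : P, (g : G) • β ∈ Bl x β → (g : G) ∈ K G Bl x := fun g e => h.pK (pP g) hβ (hP g.2) e
  have semi : ∀ g g' : P, (g : G) • β = (g' : G) • β → g = g' := fun g g' e => by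
    have e1 : ((g⁻¹ * g' : P) : G) • β = β := by rw [coe_mul, coe_inv, mul_smul, inv_smul_eq_iff, e]
    by_contra hne
    exact h.moves' hβ (inK _ (by rw [e1]; exact h.mem x β hβ)) (pP _)
      (fun e2 => hne (inv_mul_eq_one.1 (Subtype.ext e2))) e1
  have nx : ∀ g : G, g • x = x → ∀ z, x ≠ z → x ≠ g • z := fun g hg z hz e =>
    hz (smul_left_cancel g (hg.trans e))
  have sur : ∀ z, x ≠ z → ∃ g : P, (g : G) • β = z := fun z hz => by
    have hb := (Nat.bijective_iff_injective_and_card (fun g : P =>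
      (⟨(g : G) • β, (nx g (hP g.2) β hβ).symm⟩ : ({x}ᶜ : Set Ω)))).2
      ⟨fun g g' e => semi g g' (congrArg Subtype.val e), by
        rw [hc, Nat.card_coe_set_eq, Set.ncard_compl, h.card_eq]; simp⟩
    obtain ⟨g, hg⟩ := hb.2 ⟨z, hz.symm⟩
    exact ⟨g, congrArg Subtype.val hg⟩
  obtain ⟨β', hβ', hne⟩ := h.toPart.exists_other hp.out.two_le hβ
  obtain ⟨t, ht⟩ := sur β' (h.toPart.ne hβ hβ')
  have tK := inK t (ht ▸ hβ')
  have zK : ∀ a ∈ zpowers t, (a : G) ∈ K G Bl x := by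
    rintro _ ⟨n, rfl⟩; exact zpow_mem tK n
  have tO : orderOf t = p := by
    have h1 : Nat.card (zpowers t) ≤ Nat.card (Bl x β) := Nat.card_le_card_of_injective
      (fun a : zpowers t => (⟨((a : P) : G) • β, (h.mem_K.1 (zK a a.2)).2 β hβ⟩ : Bl x β))
      fun a b e => Subtype.ext (semi _ _ (congrArg Subtype.val e))
    rw [Nat.card_zpowers, Nat.card_coe_set_eq, h.card x β hβ] at h1
    obtain ⟨i, hi, e⟩ := (Nat.dvd_prime_pow hp.out).1 (hc ▸ orderOf_dvd_natCard t)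
    interval_cases i
    · rw [pow_zero, orderOf_eq_one_iff] at e
      exact (hne (by rw [← ht, e]; exact one_smul _ _)).elim
    · rw [e, pow_one]
    · nlinarith [hp.out.two_le]
  have t1 : (t : G) ^ p = 1 := by rw [← coe_pow, ← tO, pow_orderOf_eq_one, coe_one]
  have trt : ∀ z, x ≠ z → ∀ w ∈ Bl x z, ∃ n : ℕ, (t : G) ^ n • z = w := fun z hz w hw =>
    (h.actK hz).tr_of_order tK t1 (h.mem x z hz) (h.moves' hz tK (pP t) fun e =>
      hne (by rw [← ht, e]; exact one_smul _ _)) (h.mem x z hz) hw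
  have inT : ∀ a b : P, (b : G) • β ∈ Bl x ((a : G) • β) → a⁻¹ * b ∈ zpowers t := fun a b e => by
    have e1 := h.smul (a : G)⁻¹ _ _ _ e
    rw [inv_smul_smul, inv_smul_eq_iff.2 (show (a : G) • x = x from hP a.2).symm] at e1
    obtain ⟨n, hn⟩ := trt β hβ _ e1
    rw [← semi (t ^ n) (a⁻¹ * b) (by rw [coe_pow, hn, coe_mul, coe_inv, mul_smul])]
    exact npow_mem_zpowers t n
  obtain ⟨y, rfl⟩ := sur γ hγ
  let O : Ω → Prop := fun w => ∃ k ∈ K G Bl x, k • β = β ∧ k • (y : G) • β = w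
  have Oi : ∀ k ∈ K G Bl x, k • β = β → ∀ w, O (k • w) ↔ O w := by
    have k1 : ∀ k ∈ K G Bl x, k • β = β → ∀ w, O w → O (k • w) := fun k hk e w ⟨k', hk', e1, e2⟩ =>
      ⟨k * k', mul_mem hk hk', by rw [mul_smul, e1, e], by rw [mul_smul, e2]⟩
    exact fun k hk e w => ⟨fun ho => by simpa using k1 k⁻¹ (inv_mem hk) (inv_smul_eq_iff.2 e.symm) _ ho,
      k1 k hk e w⟩
  obtain ⟨u, hu⟩ := cyc hp.out hp2 tO (y := y) (by
      have : (zpowers t).index = p := by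
        have := (zpowers t).index_mul_card
        rw [Nat.card_zpowers, tO, hc, pow_two] at this
        exact Nat.eq_of_mul_eq_mul_right hp.out.pos this
      rw [← this]
      exact pow_index_mem _ y)
    (Finset.univ.filter fun d : P => O ((d : G) • β))
    (fun d hd => by
      obtain ⟨k, hk, -, e⟩ := (Finset.mem_filter.1 hd).2
      exact inT y d (e ▸ (h.mem_K.1 hk).2 _ hγ))
    {κ | ∃ k ∈ K G Bl x, ∀ g : P, (κ g : G) • β = k • (g : G) • β}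
    (fun κ ⟨k, hk, e⟩ a z => by
      simp only [Finset.mem_filter, Finset.mem_univ, true_and]
      have h1 := zK _ (inT a (κ a) (by rw [e]; exact (h.mem_K.1 hk).2 _ (nx a (hP a.2) β hβ)))
      have h2 := mul_mem (inv_mem h1) (h.norm_K' (hP a.2) hk)
      rw [← Oi _ h2 (by simp [mul_smul, ← e]) (((a⁻¹ * z : P) : G) • β)]
      simp [mul_smul, ← e])
    (fun a ha b hb a1 b1 => by
      obtain ⟨k, hk, k1, k2⟩ := hT x β hβ β (h.mem x β hβ) _ ((h.mem_K.1 (zK a ha)).2 β hβ) β (h.mem x β hβ) _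
        ((h.mem_K.1 (zK b hb)).2 β hβ) (fun e => a1 (semi _ _ (by rw [← e]; simp)))
        (fun e => b1 (semi _ _ (by rw [← e]; simp)))
      choose κ hκ using fun g : P => sur (k • (g : G) • β) (nx k (h.K_fix hk) _ (nx g (hP g.2) β hβ))
      have hi : Function.Injective κ := fun g g' e =>
        semi _ _ (smul_left_cancel k (by rw [← hκ, ← hκ, e]))
      exact ⟨Equiv.ofBijective κ (Finite.injective_iff_bijective.1 hi), ⟨k, hk, hκ⟩,
        semi _ _ ((hκ 1).trans (by simpa using k1)), semi _ _ ((hκ a).trans k2)⟩)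
  simp only [Finset.mem_filter, Finset.mem_univ, true_and] at hu
  have idx : ∀ w ∈ Bl x ((y : G) • β), ∃ i : Fin p, ((y * t ^ i.val : P) : G) • β = w := fun w hw => by
    obtain ⟨n, rfl⟩ := trt _ hγ w hw
    refine ⟨⟨n % p, Nat.mod_lt _ hp.out.pos⟩, ?_⟩
    have e : t ^ (n % p) = t ^ n := by rw [← tO, pow_mod_orderOf]
    rw [mul_comm, e, coe_mul, coe_pow, mul_smul]
  have hw : ((y * t ^ u.val : P) : G) • β ∈ Bl x ((y : G) • β) := by
    rw [mul_comm, coe_mul, mul_smul]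
    exact (h.mem_K.1 (zK _ (npow_mem_zpowers t _))).2 _ hγ
  refine ⟨_, hw, h.toPart.ne hγ hw, fun k hk e => ?_⟩
  by_contra hm
  obtain ⟨j, hj⟩ := idx _ ((h.actK hγ).inv k hk _ hw)
  have ju : j ≠ u := fun e => hm (by rw [← hj, e])
  have all : ∀ w ∈ Bl x ((y : G) • β), O w ↔ O (((y * t ^ u.val : P) : G) • β) := fun w hw => by
    obtain ⟨i, rfl⟩ := idx w hw
    by_cases e' : i = u
    · rw [e']
    · rw [hu i j e' ju, hj, Oi k hk e]
  have all' : ∀ w ∈ Bl x ((y : G) • β), O w := fun w hw =>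
    (all w hw).2 ((all _ (h.mem x _ hγ)).1 ⟨1, one_mem _, one_smul _ _, one_smul _ _⟩)
  obtain ⟨s, hs, so⟩ := ((h.actK hγ).mono (H' := K G Bl x ⊓ stabilizer G β) inf_le_left).exists_ord
    fun w hw w' hw' => by
      obtain ⟨k, hk, k1, rfl⟩ := all' w hw
      obtain ⟨k', hk', k2, rfl⟩ := all' w' hw'
      exact ⟨k' * k⁻¹, mul_mem ⟨hk', k2⟩ (inv_mem ⟨hk, k1⟩), by rw [mul_smul, inv_smul_smul]⟩
  exact h.moves' hβ hs.1 (k := 1) (by rw [pow_one, ← so, pow_orderOf_eq_one])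
    (fun e => hp.out.ne_one (by rw [← so, e, orderOf_one])) hs.2

theorem fix_two (hp2 : p = 2) {x y : Ω} (hxy : x ≠ y) {g : G} (h1 : g • x = x) (h2 : g • y = y)
    {z : Ω} (hz : z ∈ Bl x y) : g • z = z := by
  by_cases e : z = y
  · rw [e, h2]
  have h3 := h.smul g _ _ _ hz
  rw [h1, h2] at h3
  have h4 : (Bl x y \ {y}).ncard ≤ 1 := by
    rw [Set.ncard_sdiff_singleton_of_mem (h.mem x y hxy), h.card x y hxy, hp2]
  exact (Set.ncard_le_one_iff (Set.toFinite _)).1 h4 ⟨h3, fun e' => e (smul_left_cancel g (e'.trans h2.symm))⟩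
    ⟨hz, e⟩

theorem inf_triv (hN : NR G Bl) (hE : ER G Bl) {x y : Ω} (hxy : x ≠ y) {d : G} (h1 : d ∈ K G Bl x)
    (h2 : d ∈ K G Bl y) : d = 1 := by
  obtain ⟨b, a, hab, z, hz, hz1, hz2⟩ : ∃ b a, b ≠ a ∧ ∃ z ∈ Row G Bl b a, z ≠ a ∧ z ∉ Row G Bl a b := by
    by_contra hc
    push Not at hc
    exact (h.rowPart hN hE).not_sym hp.out.two_le h.card_eq hxy hc
  obtain ⟨w, hw, hw'⟩ := hE a b z hab.symm hz1.symm
  obtain ⟨g, rfl, rfl⟩ := h.two x y a b hxy hab.symm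
  have := h.pdK hw'.1 (z := z) (by rw [h.eq _ z w hz1.symm hw]; exact h.mem _ z hz1.symm)
    (fun e => hz2 (e ▸ hw')) (D := {d | d ∈ K G Bl (g • x) ∧ d ∈ K G Bl (g • y)}) (fun _ hd => hd.1)
    (fun d hd => hw'.2 d hd.1 (h.K_fix hd.2)) (fun d hd => hz.2 d hd.2 (h.K_fix hd.1))
    (fun k hk e d hd => ⟨h.norm_K' (h.K_fix hk) hd.1,
      h.norm_K' ((h.row_symm hN hE hab.symm hw').2 k hk e) hd.2⟩) ⟨h.conj_K g h1, h.conj_K g h2⟩
  simpa using this

theorem un_of_card {x y : Ω} (hxy : x ≠ y) (hc : Nat.card (stabilizer (K G Bl x) y) < p) : Un G p Bl x := by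
  intro s hs t ht s1 t1 t2
  have h1 : orbit (K G Bl x) y = Bl x y := Set.ext fun z => ⟨fun ⟨k, e⟩ => e ▸ (h.mem_K.1 k.2).2 y hxy,
    fun hz => by
      obtain ⟨k, hk, e⟩ := h.trK hxy y (h.mem x y hxy) z hz
      exact ⟨⟨k, hk⟩, e⟩⟩
  have h2 := (stabilizer (K G Bl x) y).index_mul_card
  have h3 := (zpowers (⟨t, ht⟩ : K G Bl x)).index_mul_card
  rw [index_stabilizer, h1, h.card x y hxy] at h2
  rw [Nat.card_zpowers, orderOf_eq_prime (p := p) (Subtype.ext t1) fun e => t2 (congrArg Subtype.val e), ← h2,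
    mul_comm] at h3
  obtain ⟨n, hn⟩ := mem_of_index_lt (p := p) (H := zpowers (⟨t, ht⟩ : K G Bl x)) (s := ⟨s, hs⟩)
    (by rwa [Nat.eq_of_mul_eq_mul_left hp.out.pos h3]) (Subtype.ext s1)
  exact ⟨n, congrArg Subtype.val hn⟩

theorem un (x₀ : Ω) : Un G p Bl x₀ := by
  by_cases hT : ∀ x y, x ≠ y → Tr2 (K G Bl x) (Bl x y)
  swap
  · push Not at hT
    obtain ⟨x, y, hxy, hT⟩ := hT
    have hA := ((h.actK hxy).dich (h.trK hxy)).resolve_right hT
    refine h.un_conj (x := x) (fun s hs t ht s1 t1 t2 => ?_) x₀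
    obtain ⟨n, hn⟩ := hA.pw s hs t ht s1 t1 ⟨y, h.mem x y hxy, h.moves' hxy ht (k := 1) (by rwa [pow_one]) t2⟩
    rw [inv_mul_eq_one.1 (h.fa x y hxy (s⁻¹ * t ^ n) (mul_mem (inv_mem hs) (pow_mem ht n)) fun z hz => by
      rw [mul_smul, ← hn z hz, inv_smul_smul])]
    exact npow_mem_zpowers t n
  by_cases hN : NR G Bl
  swap
  · unfold NR at hN
    push Not at hN
    obtain ⟨x, y, hxy, hN⟩ := hN
    refine h.un_conj (h.un_of_card hxy ?_) x₀
    rw [(eq_bot_iff_forall _).2 fun (k : K G Bl x) (hk : k ∈ stabilizer (K G Bl x) y) =>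
      Subtype.ext (hN k k.2 hk), card_bot]
    exact hp.out.one_lt
  obtain ⟨y₀, h₀⟩ := h.exists_ne x₀
  have hp2 : p ≠ 2 := fun e => by
    obtain ⟨k, hk, k1, k2⟩ := hN x₀ y₀ h₀
    exact k2 (h.fa _ _ h₀ k hk fun z hz => h.fix_two e h₀ (h.K_fix hk) k1 hz)
  have hE := h.er_of_tr2 hp2 hT
  have hR := h.rowPart hN hE
  obtain ⟨x, y, hxy, z, hz, hz1, hz2⟩ : ∃ x y, x ≠ y ∧ ∃ z ∈ Bl x y, z ≠ y ∧ z ∉ Row G Bl y x := by
    by_contra hc
    push Not at hc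
    refine h.toPart.sym2 hp.out.two_le h.card_eq h₀ fun x y z hxy hz hne => ?_
    have e1 := h.toPart.ins_eq hR hxy (hc x y hxy)
    have e2 := h.toPart.ins_eq hR hne (hc z y hne)
    rw [hR.eq y x z hxy.symm (hc x y hxy z hz hne), ← e1] at e2
    exact (show x ∈ insert z (Bl z y) from e2 ▸ Or.inl rfl).resolve_left (h.toPart.ne hxy hz)
  obtain ⟨w, hw, hw'⟩ := hE y x z hxy.symm hz1.symm
  have C2 : ∀ d ∈ K G Bl y, d • x = x → (∀ v ∈ Bl x y, d • v = v) → d = 1 := fun d d1 d2 d3 =>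
    h.pdK hw'.1 (z := z) (by rw [h.eq _ z w hz1.symm hw]; exact h.mem _ z hz1.symm)
      (fun e => hz2 (e ▸ hw')) (D := {d | d ∈ K G Bl y ∧ d • x = x ∧ ∀ v ∈ Bl x y, d • v = v})
      (fun _ hd => hd.1) (fun d hd => hw'.2 d hd.1 hd.2.1) (fun d hd => hd.2.2 z hz)
      (fun k hk e d hd => by
        have k1 := (h.row_symm hN hE hxy.symm hw').2 k hk e
        refine ⟨h.norm_K' (h.K_fix hk) hd.1, h.fix_conj k1 hd.2.1, fun v hv => ?_⟩
        have := h.smul k _ _ _ hv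
        rw [k1, h.K_fix hk] at this
        rw [mul_smul, mul_smul, hd.2.2 _ this, inv_smul_smul]) ⟨d1, d2, d3⟩
  refine h.un_conj (h.un_of_card hxy.symm ?_) x₀
  have semi : ∀ d ∈ K G Bl y, d • x = x → d • z = z → d = 1 := fun d d1 d2 d3 => C2 d d1 d2 fun v hv => by
    by_cases e : y = v
    · rw [← e, h.K_fix d1]
    obtain ⟨r, hr, r1, rfl⟩ := hT x y hxy y (h.mem x y hxy) z hz y (h.mem x y hxy) v hv hz1.symm e
    have := h.inf_triv hN hE hxy (d := d⁻¹ * r⁻¹ * d * r) (mul_mem (h.norm_K' d2 (inv_mem hr)) hr)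
      (by rw [mul_assoc, mul_assoc, ← mul_assoc r⁻¹]; exact mul_mem (inv_mem d1) (h.norm_K' r1 d1))
    rw [← mul_smul, show d * r = r * d * (d⁻¹ * r⁻¹ * d * r) by group, this, mul_one, mul_smul, d3]
  have := Nat.card_le_card_of_injective (fun d : stabilizer (K G Bl y) x =>
    (⟨((d : K G Bl y) : G) • z, by
      have := h.smul ((d : K G Bl y) : G) _ _ _ hz
      rwa [show ((d : K G Bl y) : G) • x = x from d.2, h.K_fix d.1.2] at this,
      fun e => hz1 (smul_left_cancel _ (e.trans (h.K_fix d.1.2).symm))⟩ : ↥(Bl x y \ {y})))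
    fun d d' e => Subtype.ext (Subtype.ext (inv_mul_eq_one.1 (semi _ (d⁻¹ * d').1.2 (d⁻¹ * d').2 (by
      rw [mul_smul, inv_smul_eq_iff]
      exact (congrArg Subtype.val e).symm))))
  rw [Nat.card_coe_set_eq, Set.ncard_sdiff_singleton_of_mem (h.mem x y hxy), h.card x y hxy] at this
  have := hp.out.pos
  omega

end Sys

end Cfsg.Agent.H94.Atk
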