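import Mathlib
import Cfsg.Agent.H94.AtkC

/-!
# Doubly transitive groups of degree `p² + 1` with imprimitive point stabiliser: the end of the proof
-/

set_option autoImplicit false
set_option linter.unusedSectionVars false

namespace Cfsg.Agent.H94.Atk

open Subgroup MulAction
open scoped Pointwise

/-- Centralising the elements of order `p` of the kernel. -/
def Cen {G Ω : Type*} [Group G] [MulAction G Ω] (p : ℕ) (Bl : Ω → Ω → Set Ω) (x : Ω) (g : G) : Prop :=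
  ∀ s ∈ K G Bl x, s ^ p = 1 → g * s = s * g

namespace Sys

variable {G Ω : Type*} [Group G] [Finite G] [MulAction G Ω] [FaithfulSMul G Ω] [Finite Ω] {p : ℕ}
  [hp : Fact p.Prime] {Bl : Ω → Ω → Set Ω} (h : Sys G p Bl)
include h

theorem exists_t (x : Ω) : ∃ t ∈ K G Bl x, t ^ p = 1 ∧ t ≠ 1 := by
  obtain ⟨y, hy⟩ := h.exists_ne x
  obtain ⟨t, ht, e⟩ := (h.actK hy).exists_ord (h.trK hy)
  exact ⟨t, ht, e ▸ pow_orderOf_eq_one t, fun e' => hp.out.ne_one (by rw [← e, e', orderOf_one])⟩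

theorem trA {x y z : Ω} (hxy : x ≠ y) (hz : z ∈ Bl x y) : ∃ s ∈ K G Bl x, s ^ p = 1 ∧ s • y = z := by
  obtain ⟨t, ht, t1, t2⟩ := h.exists_t x
  obtain ⟨n, hn⟩ := (h.actK hxy).tr_of_order ht t1 (h.mem x y hxy)
    (h.moves' hxy ht (k := 1) (by rwa [pow_one]) t2) (h.mem x y hxy) hz
  exact ⟨_, pow_mem ht n, by rw [← pow_mul, mul_comm, pow_mul, t1, one_pow], hn⟩

theorem cen_of {x : Ω} {g t : G} (ht : t ∈ K G Bl x) (t1 : t ^ p = 1) (t2 : t ≠ 1) (hc : g * t = t * g) :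
    Cen p Bl x g := fun s hs s1 => by
  obtain ⟨n, rfl⟩ := h.un x s hs t ht s1 t1 t2
  exact (show Commute g t from hc).zpow_right n

theorem commA {x : Ω} {s t : G} (hs : s ∈ K G Bl x) (s1 : s ^ p = 1) (ht : t ∈ K G Bl x) (t1 : t ^ p = 1) :
    Commute s t := by
  by_cases e : t = 1
  · rw [e]; exact Commute.one_right _
  · exact (h.cen_of ht t1 e rfl s hs s1).symm

theorem cen_conj (g : G) {x : Ω} {l : G} (hl : Cen p Bl x l) : Cen p Bl (g • x) (g * l * g⁻¹) :=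
  fun s hs s1 => by
    have h1 := h.conj_K g⁻¹ hs
    rw [inv_smul_smul] at h1
    have := hl _ h1 (by rw [conj_pow, s1]; group)
    rw [show g * l * g⁻¹ * s = g * (l * (g⁻¹ * s * g⁻¹⁻¹)) * g⁻¹ by group, this]
    group

theorem cen_fix {x y z : Ω} (hxy : x ≠ y) {l : G} (hl : Cen p Bl x l) (h1 : l • y = y) (hz : z ∈ Bl x y) :
    l • z = z := by
  obtain ⟨s, hs, s1, rfl⟩ := h.trA hxy hz
  rw [← mul_smul, hl s hs s1, mul_smul, h1]

theorem cen_comm {x : Ω} {g g' : G} (h1 : g • x = x) (h2 : g' • x = x) :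
    Cen p Bl x (g⁻¹ * (g' * g * g'⁻¹)) := by
  obtain ⟨t, ht, t1, t2⟩ := h.exists_t x
  obtain ⟨a, ha⟩ := h.un x _ (h.norm_K h1 ht) t ht (by rw [conj_pow, t1]; group) t1 t2
  obtain ⟨b, hb⟩ := h.un x _ (h.norm_K h2 ht) t ht (by rw [conj_pow, t1]; group) t1 t2
  have h3 := h.conj_K g' ht
  rw [h2] at h3
  refine h.cen_of h3 (by rw [conj_pow, t1]; group) (by simpa using t2) ?_
  have e : g' * (g * t * g⁻¹) * g'⁻¹ = g * (g' * t * g'⁻¹) * g⁻¹ := by
    change t ^ a = _ at ha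
    change t ^ b = _ at hb
    rw [← ha, ← hb, ← conj_zpow, ← conj_zpow, ← ha, ← hb, ← zpow_mul, ← zpow_mul, mul_comm]
  rw [show g⁻¹ * (g' * g * g'⁻¹) * (g' * t * g'⁻¹) = g⁻¹ * (g' * (g * t * g⁻¹) * g'⁻¹) * (g' * g * g'⁻¹) by
    group, e]
  group

theorem pdP {x y z : Ω} (hxy : x ≠ y) (hxz : x ≠ z) (hz : z ∉ Bl x y) {D : Set G}
    (h0 : ∀ d ∈ D, d • x = x) (h1 : ∀ d ∈ D, d • y = y) (h2 : ∀ d ∈ D, d • z = z)
    (hn : ∀ g : G, g • x = x → g • y = y → ∀ d ∈ D, g⁻¹ * d * g ∈ D) {d : G} (hd : d ∈ D) :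
    d ∈ K G Bl x := by
  refine h.mem_K_of_parts (h0 d hd) fun B hB => (h.actP x).pd (h.trP x) h0 (b := Bl x y) (c := Bl x z)
    ⟨y, hxy, rfl⟩ ⟨z, hxz, rfl⟩ (fun e => hz (e ▸ h.mem x z hxz))
    (fun d hd => by rw [h.smul_Bl, h0 d hd, h1 d hd]) (fun d hd => by rw [h.smul_Bl, h0 d hd, h2 d hd])
    (fun g hg e d hd => ?_) hd hB
  obtain ⟨a, ha, e'⟩ := h.trK hxy y (h.mem x y hxy) (g • y) (e ▸ Set.smul_mem_smul_set (h.mem x y hxy))
  have k1 : (a⁻¹ * g) • x = x := mul_mem (inv_mem (show a ∈ stabilizer G x from h.K_fix ha)) hg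
  refine ⟨_, hn (a⁻¹ * g) k1 (by rw [mul_smul, ← e', inv_smul_smul]) d hd, fun C hC => ?_⟩
  have k2 := (h.actP x).inv _ k1 C hC
  rw [show g⁻¹ * d * g = (a⁻¹ * g)⁻¹ * a⁻¹ * d * a * (a⁻¹ * g) by group]
  simp only [mul_smul _ (a⁻¹ * g), mul_smul _ a, mul_smul _ d, mul_smul _ a⁻¹]
  rw [h.K_parts ha k2, h.K_parts (inv_mem ha) ((h.actP x).inv _ (h0 d hd) _ k2)]

theorem cen_le {x y : Ω} (hxy : x ≠ y) {l : G} (hl : Cen p Bl x l) (h0 : l • x = x) (h1 : l • y = y) :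
    l ∈ K G Bl y := by
  obtain ⟨z, hz, hz1, hz2⟩ : ∃ z ∈ Bl x y, z ≠ y ∧ z ∉ Bl y x := by
    by_contra hc
    push Not at hc
    refine h.toPart.not_sym hp.out.two_le h.card_eq hxy fun a b hab z hz hne => ?_
    obtain ⟨g, rfl, rfl⟩ := h.two x y a b hxy hab
    simpa using h.smul g _ _ _ (hc (g⁻¹ • z) (by simpa using h.smul g⁻¹ _ _ _ hz)
      fun e => hne (by rw [← e, smul_inv_smul]))
  refine h.pdP hxy.symm hz1.symm hz2 (D := {l | Cen p Bl x l ∧ l • x = x ∧ l • y = y}) (fun _ hd => hd.2.2)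
    (fun _ hd => hd.2.1) (fun d hd => h.cen_fix hxy hd.1 hd.2.2 hz) (fun g g1 g2 d hd => ?_) ⟨hl, h0, h1⟩
  have := h.cen_conj g⁻¹ hd.1
  rw [inv_smul_eq_iff.2 g2.symm, inv_inv] at this
  exact ⟨this, h.fix_conj g2 hd.2.1, h.fix_conj g1 hd.2.2⟩

theorem cen_triv {x y : Ω} (hxy : x ≠ y) {l : G} (hl : Cen p Bl x l) (h0 : l • x = x) (h1 : l • y = y) :
    l = 1 := by
  obtain ⟨z, hz, hne⟩ := h.toPart.exists_other hp.out.two_le hxy
  have h2 := h.cen_fix hxy hl h1 hz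
  have ky := h.cen_le hxy hl h0 h1
  obtain ⟨g, g1, g2⟩ := h.two y x y z hxy.symm hne.symm
  have e := inv_mul_eq_one.1 (h.fa y z hne.symm _ (mul_mem (inv_mem ky) (h.norm_K g1 ky)) fun v hv =>
    h.cen_fix hne.symm (h.cen_comm h1 g1) (by
      rw [mul_smul, inv_smul_eq_iff, h2, ← g2, mul_smul, mul_smul, inv_smul_smul, h0]) hv)
  have := h.cen_conj g hl
  rw [← e, g2] at this
  exact h.fa z y hne l (h.cen_le (h.toPart.ne hxy hz) hl h0 h2) fun v hv => h.cen_fix hne this h1 hv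

theorem commH {x y : Ω} (hxy : x ≠ y) {g g' : G} (h1 : g • x = x) (h2 : g • y = y) (h3 : g' • x = x)
    (h4 : g' • y = y) : g' * g = g * g' := by
  have k : ∀ v : Ω, g • v = v → g' • v = v → (g⁻¹ * (g' * g * g'⁻¹)) • v = v := fun v e e' => by
    rw [mul_smul, mul_smul, mul_smul, inv_smul_eq_iff.2 e'.symm, e, e', inv_smul_eq_iff.2 e.symm]
  have := inv_mul_eq_one.1 (h.cen_triv hxy (h.cen_comm h1 h3) (k x h1 h3) (k y h2 h4))
  exact mul_inv_eq_iff_eq_mul.1 this.symm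

theorem eq_one_of_comm {x y : Ω} (hxy : x ≠ y) {g s : G} (g0 : g ≠ 1) (h1 : g • x = x) (h2 : g • y = y)
    (hs : s ∈ K G Bl x) (s1 : s ^ p = 1) (hc : g * s = s * g) : s = 1 :=
  by_contra fun e => g0 (h.cen_triv hxy (h.cen_of hs s1 e hc) h1 h2)

theorem blk {x y z : Ω} (hxy : x ≠ y) (hz : z ∈ Bl x y) (hne : z ≠ y) {g : G} (h0 : g • x = x)
    (h1 : g • y = y) (h2 : g • z = z) : g = 1 := by
  by_contra g0
  obtain ⟨s, hs, s1, rfl⟩ := h.trA hxy hz
  have h3 := h.norm_K h0 hs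
  have h4 : (g * s * g⁻¹) ^ p = 1 := by rw [conj_pow, s1]; group
  have h5 : s⁻¹ * (g * s * g⁻¹) = 1 := by_contra fun e => h.moves' hxy (mul_mem (inv_mem hs) h3) (k := 1)
    (by rw [pow_one, (h.commA hs s1 h3 h4).inv_left.mul_pow, h4, inv_pow, s1, inv_one, one_mul]) e
    (by rw [mul_smul, mul_smul, mul_smul, inv_smul_eq_iff.2 h1.symm, h2, inv_smul_smul])
  apply hne
  rw [h.eq_one_of_comm hxy g0 h0 h1 hs s1 (mul_inv_eq_iff_eq_mul.1 (inv_mul_eq_one.1 h5).symm), one_smul]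

theorem three {x y z : Ω} (hxy : x ≠ y) (hxz : x ≠ z) (hne : z ≠ y) {g : G} (h0 : g • x = x)
    (h1 : g • y = y) (h2 : g • z = z) : g ∈ K G Bl x := by
  by_cases hz : z ∈ Bl x y
  · rw [h.blk hxy hz hne h0 h1 h2]; exact one_mem _
  refine h.pdP hxy hxz hz (D := {g}) (fun _ e => e ▸ h0) (fun _ e => e ▸ h1) (fun _ e => e ▸ h2)
    (fun a a1 a2 d e => ?_) rfl
  rw [show d = g from e, mul_assoc, ← h.commH hxy h0 h1 a1 a2, inv_mul_cancel_left]
  rfl

theorem reg {x y : Ω} (hxy : x ≠ y) {k : G} (hk : k ∈ K G Bl x) (h1 : k • y = y) : k = 1 := by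
  by_contra k0
  have hN : NR G Bl := fun a b hab => by
    obtain ⟨g, rfl, rfl⟩ := h.two x y a b hxy hab
    exact ⟨_, h.conj_K g hk, by rw [mul_smul, mul_smul, inv_smul_smul, h1], by simpa using k0⟩
  have hE : ER G Bl := fun x y z hxy hxz => by
    obtain ⟨k, hk, h1, k0⟩ := hN x y hxy
    have h0 := h.K_fix hk
    let A := {s : G // s ∈ K G Bl x ∧ s ^ p = 1}
    have hi : Function.Injective fun s : A => (⟨(s : G)⁻¹ * (k * s * k⁻¹), mul_mem (inv_mem s.2.1)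
        (h.norm_K h0 s.2.1), by
          have h4 : (k * s * k⁻¹) ^ p = 1 := by rw [conj_pow, s.2.2]; group
          rw [(h.commA s.2.1 s.2.2 (h.norm_K h0 s.2.1) h4).inv_left.mul_pow, h4, inv_pow, s.2.2, inv_one,
            one_mul]⟩ : A) := fun s s' e => by
      have e1 : (s : G)⁻¹ * (k * s * k⁻¹) = (s' : G)⁻¹ * (k * s' * k⁻¹) := congrArg Subtype.val e
      refine Subtype.ext (mul_inv_eq_one.1 (h.eq_one_of_comm hxy k0 h0 h1 (mul_mem s.2.1 (inv_mem s'.2.1)) ?_ ?_))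
      · rw [(h.commA s.2.1 s.2.2 s'.2.1 s'.2.2).inv_right.mul_pow, s.2.2, inv_pow, s'.2.2, inv_one, one_mul]
      · rw [show k * (s * (s' : G)⁻¹) = s * ((s : G)⁻¹ * (k * s * k⁻¹)) * k * (s' : G)⁻¹ by group, e1]
        group
    obtain ⟨a, ha, a1, a2⟩ := h.trA (h.toPart.ne hxz ((h.mem_K.1 hk).2 z hxz)) (z := z)
      (by rw [h.eq x z _ hxz ((h.mem_K.1 hk).2 z hxz)]; exact h.mem x z hxz)
    obtain ⟨s, hs⟩ := (Finite.injective_iff_surjective.1 hi) ⟨a, ha, a1⟩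
    have e1 : (s : G)⁻¹ * (k * s * k⁻¹) = a := congrArg Subtype.val hs
    rw [← e1, mul_smul, mul_smul, inv_smul_smul, inv_smul_eq_iff, mul_smul] at a2
    have hw := (h.mem_K.1 s.2.1).2 z hxz
    have hxw := h.toPart.ne hxz hw
    refine ⟨_, hw, hxw, fun k' hk' e => by_contra fun hne => k0 (h.blk hxw ((h.mem_K.1 hk').2 _ hxw) hne h0 a2 ?_)⟩
    rw [← mul_smul, ← h.commH hxy h0 h1 (h.K_fix hk') e, mul_smul, a2]
  obtain ⟨w, hw, hne⟩ := (h.rowPart hN hE).exists_other hp.out.two_le hxy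
  exact k0 (h.inf_triv hN hE hxy hk (h.three hxy.symm hne.symm hw.1.symm h1 (h.K_fix hk) (hw.2 k hk h1)))

theorem zass {x y z : Ω} (hxy : x ≠ y) (hxz : x ≠ z) (hne : z ≠ y) {g : G} (h0 : g • x = x)
    (h1 : g • y = y) (h2 : g • z = z) : g = 1 :=
  h.reg hxy (h.three hxy hxz hne h0 h1 h2) h1

theorem card_twenty (hp2 : p = 2) : Nat.card G = 20 := by
  obtain ⟨x⟩ : Nonempty Ω := (Nat.card_pos_iff.1 (by rw [h.card_eq]; omega)).1
  obtain ⟨y, hxy⟩ := h.exists_ne x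
  obtain ⟨z, hz, hne⟩ := h.toPart.exists_other hp.out.two_le hxy
  rw [h.card_G x, h.card_stab hxy, (eq_bot_iff_forall _).2
    fun (g : stabilizer G x) (hg : g ∈ stabilizer (stabilizer G x) y) =>
      Subtype.ext (h.blk hxy hz hne g.2 hg (h.fix_two hp2 hxy g.2 hg hz)), card_bot, hp2]
  rfl

theorem inv_uniq {x y : Ω} (hxy : x ≠ y) {i j : G} (i0 : i ≠ 1) (i2 : i * i = 1) (i3 : i • x = x)
    (i4 : i • y = y) (j0 : j ≠ 1) (j2 : j * j = 1) (j3 : j • x = x) (j4 : j • y = y) : i = j := by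
  obtain ⟨t, ht, t1, t2⟩ := h.exists_t x
  have key : ∀ i : G, i ≠ 1 → i * i = 1 → i • x = x → i • y = y → t * (i * t * i⁻¹) = 1 := fun i i0 i2 i3 i4 => by
    have h3 := h.norm_K i3 ht
    have h4 : (i * t * i⁻¹) ^ p = 1 := by rw [conj_pow, t1]; group
    have h5 := h.commA ht t1 h3 h4
    refine h.eq_one_of_comm hxy i0 i3 i4 (mul_mem ht h3) (by rw [h5.mul_pow, t1, h4, one_mul]) ?_
    conv_rhs => rw [h5.eq]
    rw [inv_eq_of_mul_eq_one_right i2, show i * t * i * t * i = i * (t * (i * t * i)) by group]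
  have e : i * t * i⁻¹ = j * t * j⁻¹ := mul_left_cancel ((key i i0 i2 i3 i4).trans (key j j0 j2 j3 j4).symm)
  have k : ∀ v : Ω, i • v = v → j • v = v → (j⁻¹ * i) • v = v := fun v e e' => by
    rw [mul_smul, e, inv_smul_eq_iff, e']
  refine (inv_mul_eq_one.1 (h.cen_triv hxy (h.cen_of ht t1 t2 ?_) (k x i3 j3) (k y i4 j4))).symm
  rw [show j⁻¹ * i * t = j⁻¹ * (i * t * i⁻¹) * i by group, e]
  group

theorem no_inv (hp2 : p ≠ 2) {x y : Ω} (hxy : x ≠ y) {i : G} (i0 : i ≠ 1) (i2 : i * i = 1) (i3 : i • x = x)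
    (i4 : i • y = y) : False := by
  classical
  have := Fintype.ofFinite Ω
  have key : ∀ z, x ≠ z → z ≠ y → ∃ j : G, j ≠ 1 ∧ j • z = z ∧ j • x = y ∧ j • y = x := fun z hx hy => by
    have hz : z ≠ i • z := fun e => i0 (h.zass hxy hx hy i3 i4 e.symm)
    obtain ⟨g, g1, g2⟩ := h.two x y z (i • z) hxy hz
    have j0 : g * i * g⁻¹ ≠ 1 := by simpa using i0
    have j2 : g * i * g⁻¹ * (g * i * g⁻¹) = 1 := by rw [conj_mul, i2]; group
    have j3 : (g * i * g⁻¹) • z = z := by rw [← g1, mul_smul, mul_smul, inv_smul_smul, i3]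
    have j4 : (g * i * g⁻¹) • i • z = i • z := by rw [← g2, mul_smul, mul_smul, inv_smul_smul, i4]
    generalize g * i * g⁻¹ = j at j0 j2 j3 j4
    have ii : i⁻¹ = i := inv_eq_of_mul_eq_one_right i2
    have e := h.inv_uniq hz j0 j2 j3 j4 (j := i * j * i⁻¹) (by simpa using j0) (by rw [conj_mul, j2]; group)
      (by rw [ii, mul_smul, mul_smul, j4, ← mul_smul, i2, one_smul])
      (by rw [mul_smul, mul_smul, inv_smul_smul, j3])
    have c : ∀ v : Ω, i • v = v → j • v = x ∨ j • v = y := fun v hv => by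
      by_contra hc
      push Not at hc
      refine i0 (h.zass hxy hc.1.symm hc.2 i3 i4 ?_)
      rw [← mul_smul, mul_inv_eq_iff_eq_mul.1 e.symm, mul_smul, hv]
    have m : ∀ v : Ω, i • v = v → v ≠ z → j • v ≠ v := fun v hv hne e' =>
      j0 (h.zass hz hne.symm (fun e2 => hne (smul_left_cancel i (hv.trans e2))) j3 j4 e')
    exact ⟨j, j0, j3, (c x i3).resolve_left (m x i3 hx), (c y i4).resolve_right (m y i4 hy.symm)⟩
  choose! j j0 j1 j2 j3 using key
  obtain ⟨σ, s1, s2⟩ := h.two x y y x hxy hxy.symm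
  obtain ⟨w, hw, hne⟩ := h.toPart.exists_other hp.out.two_le hxy
  have hc := Finset.card_le_mul_card_image_of_maps_to (f := fun z => (σ * j z) • w)
    (s := (Finset.univ.erase x).erase y) (t := (Set.toFinite (Bl x y)).toFinset) (fun z hz => by
      simp only [Finset.mem_erase] at hz
      have := h.smul (σ * j z) _ _ _ hw
      rw [mul_smul, mul_smul, j2 z hz.2.1.symm hz.1, j3 z hz.2.1.symm hz.1, s1, s2] at this
      simpa using this) 2 fun b _ => by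
    by_contra hc
    obtain ⟨u, hu, v, hv, z, hz, h1, h2, h3⟩ := Finset.two_lt_card.1 (not_le.1 hc)
    simp only [Finset.mem_filter, Finset.mem_erase] at hu hv hz
    have k : ∀ v, v ≠ y → v ≠ x → (σ * j v) • w = b → j v = j u := fun v v1 v2 e =>
      (inv_mul_eq_one.1 (h.blk hxy hw hne
        (by rw [mul_smul, inv_smul_eq_iff, j2 v v2.symm v1, j2 u hu.1.2.1.symm hu.1.1])
        (by rw [mul_smul, inv_smul_eq_iff, j3 v v2.symm v1, j3 u hu.1.2.1.symm hu.1.1])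
        (by
          rw [mul_smul, inv_smul_eq_iff]
          exact smul_left_cancel σ (by rw [← mul_smul, ← mul_smul σ, e, hu.2])))).symm
    exact j0 u hu.1.2.1.symm hu.1.1 (h.zass h1 h2 h3.symm (j1 u hu.1.2.1.symm hu.1.1)
      (k v hv.1.1 hv.1.2.1 hv.2 ▸ j1 v hv.1.2.1.symm hv.1.1) (k z hz.1.1 hz.1.2.1 hz.2 ▸ j1 z hz.1.2.1.symm hz.1.1))
  rw [Finset.card_erase_of_mem (by simpa using hxy.symm), Finset.card_erase_of_mem (Finset.mem_univ _),
    Finset.card_univ, ← Nat.card_eq_fintype_card, h.card_eq, ← Set.ncard_eq_toFinset_card, h.card x y hxy] at hc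
  have : 3 ≤ p := by have := hp.out.two_le; omega
  have : 3 * p ≤ p ^ 2 := by nlinarith
  omega

theorem eq_two : p = 2 := by
  classical
  by_contra hp2
  have := Fintype.ofFinite Ω
  have := Fact.mk Nat.prime_two
  obtain ⟨m, hm⟩ := hp.out.odd_of_ne_two hp2
  obtain ⟨x⟩ : Nonempty Ω := (Nat.card_pos_iff.1 (by rw [h.card_eq]; omega)).1
  obtain ⟨y, hxy⟩ := h.exists_ne x
  obtain ⟨t, ht, t1, t2⟩ := h.exists_t x
  let N := (Equiv.Perm.sign.comp (toPermHom G Ω)).ker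
  have tN : t ∈ N := by
    have := congrArg (Equiv.Perm.sign.comp (toPermHom G Ω)) t1
    rwa [map_pow, map_one, hm, pow_succ, pow_mul, Int.units_sq, one_pow, one_mul] at this
  have h1 : orbit N x = Set.univ := Set.eq_univ_of_forall fun z => by
    by_cases e : x = z
    · exact e ▸ mem_orbit_self x
    obtain ⟨g, g1, g2⟩ := h.two y (t • y) x z (h.moves' hxy ht (k := 1) (by rwa [pow_one]) t2).symm e
    exact ⟨⟨_, (MonoidHom.normal_ker _).conj_mem t tN g⟩, by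
      change (g * t * g⁻¹) • x = z
      rw [← g1, mul_smul, mul_smul, inv_smul_smul, g2]⟩
  have h2 := (stabilizer N x).index_mul_card
  rw [index_stabilizer, h1, Set.ncard_univ, h.card_eq] at h2
  obtain ⟨i, hi⟩ := exists_prime_orderOf_dvd_card' (G := N) 2 (by
    rw [← h2]; exact Dvd.dvd.mul_right ⟨2 * m ^ 2 + 2 * m + 1, by rw [hm]; ring⟩ _)
  have i0 : (i : G) ≠ 1 := fun e => by rw [show i = 1 from Subtype.ext e, orderOf_one] at hi; omega
  have i2 : (i : G) * i = 1 := by rw [← pow_two, ← coe_pow, ← hi, pow_orderOf_eq_one, coe_one]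
  have h3 := Equiv.Perm.sign_of_pow_two_eq_one (σ := toPermHom G Ω i) (by rw [← map_pow, pow_two, i2, map_one])
  have h4 := Equiv.Perm.card_fixedPoints_modEq (α := Ω) (f := ⇑(toPermHom G Ω i)) (p := 2) (n := 1) (by
    have : ∀ f : Function.End Ω, f * f = 1 → f ^ 2 ^ 1 = 1 := fun f hf => by rw [pow_one, pow_two, hf]
    refine this _ (funext fun v => ?_)
    change (i : G) • (i : G) • v = v
    rw [← mul_smul, i2, one_smul])
  have h5 : Fintype.card (Function.fixedPoints (toPermHom G Ω i)) ≤ 1 :=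
    Fintype.card_le_one_iff.2 fun a b => Subtype.ext (by_contra fun e => h.no_inv hp2 e i0 i2 a.2 b.2)
  have h6 : Fintype.card Ω = 2 * (2 * (m ^ 2 + m) + 1) := by
    rw [← Nat.card_eq_fintype_card, h.card_eq, hm]; ring
  have h7 : Fintype.card (Function.fixedPoints (toPermHom G Ω i)) = 0 := by
    unfold Nat.ModEq at h4
    omega
  rw [h7, h6, Nat.sub_zero, Nat.mul_div_cancel_left _ two_pos, pow_succ, pow_mul,
    show Equiv.Perm.sign (toPermHom G Ω i) = 1 from i.2] at h3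
  simp at h3

end Sys

theorem main {G Ω : Type*} [Group G] [Finite G] [Fintype Ω] [MulAction G Ω] [FaithfulSMul G Ω] (p : ℕ)
    (hp : p.Prime) (hΩ : Fintype.card Ω = p ^ 2 + 1) (h2 : IsMultiplyPretransitive G Ω 2) (a : Ω)
    (hn : ¬ IsPreprimitive (stabilizer G a) (SubMulAction.ofStabilizer G a)) : p = 2 ∧ Nat.card G = 20 := by
  have := Fact.mk hp
  rw [is_two_pretransitive_iff] at h2
  have tr : IsPretransitive (stabilizer G a) (SubMulAction.ofStabilizer G a) := ⟨fun x y => by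
    obtain ⟨g, g1, g2⟩ := h2 (show a ≠ x from Ne.symm x.2) (show a ≠ y from Ne.symm y.2)
    exact ⟨⟨g, g1⟩, Subtype.ext g2⟩⟩
  obtain ⟨B, hB, hB'⟩ : ∃ B : Set (SubMulAction.ofStabilizer G a), IsBlock (stabilizer G a) B ∧
      ¬ IsTrivialBlock B := by
    by_contra hc
    push Not at hc
    exact hn { isTrivialBlock_of_isBlock := fun hB => hc _ hB }
  rw [IsTrivialBlock, not_or, Set.not_subsingleton_iff] at hB'
  have hc : Nat.card (SubMulAction.ofStabilizer G a) = p ^ 2 := by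
    change ({a}ᶜ : Set Ω).ncard = _
    rw [Set.ncard_compl, Nat.card_eq_fintype_card, hΩ]
    simp
  have hcB : B.ncard = p := by
    obtain ⟨i, hi, e⟩ := (Nat.dvd_prime_pow hp).1 (hc ▸ hB.ncard_dvd_card hB'.1.nonempty)
    interval_cases i
    · have := (Set.one_lt_ncard_iff_nontrivial).2 hB'.1
      rw [e, pow_zero] at this
      exact (lt_irrefl _ this).elim
    · rw [e, pow_one]
    · exact (hB'.2 (Set.eq_of_subset_of_ncard_le (Set.subset_univ _) (by rw [Set.ncard_univ, hc, e]))).elim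
  let C : Set Ω := Subtype.val '' B
  have hC : ∀ g : G, g • a = a → ∀ y ∈ C, g • y ∈ C → ∀ z ∈ C, g • z ∈ C := by
    rintro g hg _ ⟨y, hy, rfl⟩ ⟨y', hy', e⟩ _ ⟨z, hz, rfl⟩
    have := isBlock_iff_smul_eq_of_mem.1 hB (g := ⟨g, hg⟩) hy
      (by rw [show (⟨g, hg⟩ : stabilizer G a) • y = y' from Subtype.ext e.symm]; exact hy')
    exact ⟨(⟨g, hg⟩ : stabilizer G a) • z, this ▸ Set.smul_mem_smul_set hz, rfl⟩
  obtain ⟨b, hb⟩ := hB'.1.nonempty
  let Bl : Ω → Ω → Set Ω := fun x y => {z | ∃ g : G, g • a = x ∧ g⁻¹ • y ∈ C ∧ g⁻¹ • z ∈ C}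
  have key : ∀ (g : G) y, g⁻¹ • y ∈ C → Bl (g • a) y = g • C := fun g y hy => by
    ext z
    rw [Set.mem_smul_set_iff_inv_smul_mem]
    refine ⟨fun ⟨g', e, h1, h3⟩ => ?_, fun hz => ⟨g, rfl, hy, hz⟩⟩
    simpa [mul_smul] using hC (g⁻¹ * g') (by rw [mul_smul, e, inv_smul_smul]) _ h1 (by simpa [mul_smul] using hy) _ h3
  have ex : ∀ x y, x ≠ y → ∃ g : G, g • a = x ∧ g⁻¹ • y ∈ C := fun x y hxy => by
    obtain ⟨g, g1, g2⟩ := h2 (show a ≠ b from Ne.symm b.2) hxy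
    exact ⟨g, g1, by rw [← g2, inv_smul_smul]; exact ⟨b, hb, rfl⟩⟩
  have hS : Sys G p Bl :=
    { mem := fun x y hxy => by
        obtain ⟨g, g1, g2⟩ := ex x y hxy
        exact ⟨g, g1, g2, g2⟩
      nmem := by
        rintro _ y _ ⟨g, rfl, -, c, -, e⟩
        exact c.2 (e.trans (inv_smul_smul g a))
      card := fun x y hxy => by
        obtain ⟨g, rfl, g2⟩ := ex x y hxy
        rw [key g y g2, Set.ncard_smul_set, Set.ncard_image_of_injective _ Subtype.val_injective, hcB]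
      eq := by
        rintro _ y z _ ⟨g, rfl, g1, g2⟩
        rw [key g y g1, key g z g2]
      card_eq := by rw [Nat.card_eq_fintype_card, hΩ]
      two := fun _ _ _ _ => h2
      smul := fun g x y z ⟨g', e, g1, g2⟩ =>
        ⟨g * g', by rw [mul_smul, e], by simpa [mul_smul] using g1, by simpa [mul_smul] using g2⟩ }
  exact ⟨hS.eq_two, hS.card_twenty hS.eq_two⟩

end Cfsg.Agent.H94.Atk
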