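import Cfsg.Agent.H94.BcDefs
import Cfsg.Agent.H69.SecRank
import Cfsg.Agent.H2.Sec

/-! Basic facts on the property `Met`. -/

set_option autoImplicit false

namespace Cfsg.Agent.H94.Bc

open Subgroup Cfsg

universe u

variable {G H : Type*} [Group G] [Group H]

theorem Met.of_injective (h : Met G) (f : H →* G) (hf : Function.Injective f) : Met H := by
  refine ⟨fun p hp h2 K hK => ?_, fun K hK => ?_⟩
  · exact H71.isMetacyclic_of_injective (h.odd p hp h2 (K.map f) (hK.map f))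
      (K.equivMapOfInjective f hf).toMonoidHom (K.equivMapOfInjective f hf).injective
  · obtain ⟨N, h1, h2, h3⟩ := h.two (K.map f) (hK.map f)
    refine ⟨N.comap f ⊓ K, inf_le_right, ?_, ?_⟩
    · rw [inf_relIndex_right, relIndex_comap]; exact h2
    · exact H71.isMetacyclic_of_injective h3
        ((f.subgroupComap N).comp (inclusion inf_le_left)) fun a b e =>
          Subtype.ext (hf (congrArg Subtype.val e))

theorem Met.subgroup (h : Met G) (K : Subgroup G) : Met K :=
  h.of_injective K.subtype K.subtype_injective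

theorem Met.equiv (h : Met G) (e : G ≃* H) : Met H :=
  h.of_injective e.symm.toMonoidHom e.symm.injective

/-- A subgroup of odd prime power exponent `e` has order dividing `e ^ 2`. -/
theorem Met.card_odd [Finite G] (h : Met G) {p : ℕ} (hp : p.Prime) (h2 : p ≠ 2) {k : ℕ}
    {K : Subgroup G} (hK : ∀ x ∈ K, x ^ p ^ k = 1) : Nat.card K ∣ (p ^ k) ^ 2 :=
  H90.card_dvd_sq_of_metacyclic (h.odd p hp h2 K fun x => ⟨k, Subtype.ext (hK x x.2)⟩)
    fun x => Subtype.ext (hK x x.2)

/-- A subgroup of exponent `2 ^ k` has order at most `2 * (2 ^ k) ^ 2`. -/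
theorem Met.card_two [Finite G] (h : Met G) {k : ℕ} {K : Subgroup G}
    (hK : ∀ x ∈ K, x ^ 2 ^ k = 1) : Nat.card K ≤ 2 * (2 ^ k) ^ 2 := by
  obtain ⟨N, h1, h2, h3⟩ := h.two K fun x => ⟨k, Subtype.ext (hK x x.2)⟩
  have h4 := Nat.le_of_dvd (by positivity) (H90.card_dvd_sq_of_metacyclic h3 (e := 2 ^ k)
    fun x => Subtype.ext (hK x (h1 x.2)))
  have h5 := (N.subgroupOf K).card_mul_index
  rw [Nat.card_congr (subgroupOfEquivOfLe h1).toEquiv] at h5
  rw [← h5, mul_comm]
  exact Nat.mul_le_mul h2 h4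

theorem Met.secLE [Finite G] (h : Met G) : H69.SecLE 16 G := by
  have : Fact (Nat.Prime 2) := ⟨Nat.prime_two⟩
  obtain ⟨S⟩ : Nonempty (Sylow 2 G) := inferInstance
  refine H69.secLE_of_sectional (k := 4) (H2.Sec.sectional (H2.Sec.of_sylow S fun K N hN => ?_))
  obtain ⟨M, h1, h2, h3⟩ := ((h.subgroup S).subgroup K).two ⊤ ((S.2.to_subgroup K).to_subgroup ⊤)
  have := H2.normal_of_sq hN
  have h4 : N.relIndex M ∣ 2 ^ 2 := H90.card_dvd_sq_of_metacyclic (G := M ⧸ N.subgroupOf M)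
    (H71.isMetacyclic_of_surjective h3 _ (QuotientGroup.mk'_surjective _)) fun x => by
      obtain ⟨x, rfl⟩ := QuotientGroup.mk_surjective x
      rw [← QuotientGroup.mk_pow, QuotientGroup.eq_one_iff, sq]
      exact hN x
  have h5 := Nat.le_of_dvd (by norm_num) h4
  rw [relIndex_top_right] at h2
  have h6 := relIndex_mul_index (inf_le_right : N ⊓ M ≤ M)
  rw [inf_relIndex_right] at h6
  have h7 := Nat.le_of_dvd (Nat.pos_of_ne_zero index_ne_zero_of_finite)
    (index_dvd_of_le (inf_le_left : N ⊓ M ≤ N))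
  nlinarith

theorem met (hH : HupStmt.{u}) (hS : SylStmt.{u}) : MetStmt.{u} := by
  intro G _ _ A B hF
  have key : ∀ (p : ℕ) [Fact p.Prime] (K : Subgroup G), IsPGroup p K → ∃ (P : Sylow p G)
      (x y : (P : Subgroup G)), H9.Bic.Bi x y ∧ K ≤ P := fun p _ K hK => by
    obtain ⟨P, x, -, y, -, hx, hy, h⟩ := hS G A B hF p
    obtain ⟨Q, hQ⟩ := hK.exists_le_sylow
    have hb : H9.Bic.Bi (⟨x, hx⟩ : (P : Subgroup G)) ⟨y, hy⟩ := fun g => by
      obtain ⟨i, j, e⟩ := h g g.2
      exact ⟨i, j, Subtype.ext e⟩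
    exact ⟨Q, _, _, hb.map (f := (P.equiv Q).toMonoidHom) (P.equiv Q).surjective, hQ⟩
  refine ⟨fun p hp h2 K hK => ?_, fun K hK => ?_⟩
  · have : Fact p.Prime := ⟨hp⟩
    obtain ⟨P, x, y, h, hle⟩ := key p K hK
    exact H71.isMetacyclic_of_le (hH P p hp h2 P.2 x y h) hle
  · have : Fact (Nat.Prime 2) := ⟨Nat.prime_two⟩
    obtain ⟨P, x, y, h, hle⟩ := key 2 K hK
    by_cases hm : IsMetacyclic (P : Subgroup G)
    · exact ⟨K, le_rfl, by simp, H71.isMetacyclic_of_le hm hle⟩
    obtain ⟨M, hM, hx⟩ := (eq_top_or_exists_le_coatom (zpowers x)).resolve_left fun e =>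
      hm (H71.isMetacyclic_iff.2 ⟨x, x, e ▸ inferInstance, by rw [e, sup_idem]⟩)
    have hi := H8.index_eq_of_coatom_of_isPGroup P.2 hM
    have h1 := h.meta_of_mem P.2 hm hi (hx (mem_zpowers x))
    refine ⟨M.map (P : Subgroup G).subtype ⊓ K, inf_le_right, ?_,
      H71.isMetacyclic_of_le (H71.isMetacyclic_map h1 _) inf_le_left⟩
    rw [inf_relIndex_right]
    refine (relIndex_le_of_le_right hle ?_).trans ?_ <;>
      rw [relIndex, subgroupOf, comap_map_eq_self_of_injective (subtype_injective _), hi]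
    omega

end Cfsg.Agent.H94.Bc
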