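/-
Definitions for S3252 (products of a cyclic group and a Z-group).
Paper proof: stubs/notes/h94_bc.md.
-/
import Cfsg.Statements.S3252
import Cfsg.Agent.H9.GHList
import Cfsg.Agent.H9.Bicyc

set_option autoImplicit false

namespace Cfsg.Agent.H94.Bc

open Subgroup Cfsg
open scoped MatrixGroups

universe u

/-- `G = AB` with `A` cyclic and `B` a Z-group. -/
structure Fac {G : Type*} [Group G] (A B : Subgroup G) : Prop where
  cyc : IsCyclic A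
  zg : IsZGroup B
  mul : ∀ g : G, ∃ a ∈ A, ∃ b ∈ B, g = a * b

/-- The `p`-subgroups are metacyclic for odd `p`, and the 2-subgroups have a metacyclic subgroup of
index at most two. -/
structure Met (G : Type*) [Group G] : Prop where
  odd : ∀ p : ℕ, p.Prime → p ≠ 2 → ∀ K : Subgroup G, IsPGroup p K → IsMetacyclic K
  two : ∀ K : Subgroup G, IsPGroup 2 K → ∃ N : Subgroup G, N ≤ K ∧ N.relIndex K ≤ 2 ∧ IsMetacyclic N

/-- `S` is a normal subgroup with trivial centralizer. -/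
structure Soc {G : Type*} [Group G] (S : Subgroup G) : Prop where
  nor : S.Normal
  cent : centralizer (S : Set G) = ⊥

/-- Piece HUP (Huppert). -/
def HupStmt : Prop :=
  ∀ (G : Type u) [Group G] [Finite G] (p : ℕ), p.Prime → p ≠ 2 → IsPGroup p G → ∀ x y : G,
    H9.Bic.Bi x y → IsMetacyclic G

/-- Piece SYL: the Sylow subgroups are products of two cyclic groups. -/
def SylStmt : Prop :=
  ∀ (G : Type u) [Group G] [Finite G] (A B : Subgroup G), Fac A B → ∀ (p : ℕ) [Fact p.Prime],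
    ∃ P : Sylow p G, ∃ x ∈ A, ∃ y ∈ B, x ∈ P ∧ y ∈ P ∧ ∀ g ∈ P, ∃ i j : ℤ, g = x ^ i * y ^ j

/-- Piece ZG. -/
def ZgStmt : Prop :=
  ∀ (B : Type u) [Group B] [Finite B], IsZGroup B → ∀ p r : ℕ, p.Prime → r.Prime → p < r →
    p ∣ Nat.card B → r ∣ Nat.card B →
    ∃ a y : B, orderOf a = p ∧ orderOf y = r ∧ a * y * a⁻¹ ∈ zpowers y

/-- Piece MET. -/
def MetStmt : Prop :=
  ∀ (G : Type u) [Group G] [Finite G] (A B : Subgroup G), Fac A B → Met G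

/-- Piece LIE: groups of Lie type of odd characteristic. -/
def LieStmt : Prop :=
  (∀ (m : ℕ) (F : Type) [Field F] [Fintype F], 3 ≤ m → Odd (Fintype.card F) → ¬ Met PSL(m, F)) ∧
  (∀ (m : ℕ) (F : Type) [Field F] [Fintype F] (q : ℕ), 3 ≤ m → Fintype.card F = q ^ 2 → Odd q →
    ¬ Met (Cfsg.PSU m F q)) ∧
  (∀ (F : Type) [Field F] [Fintype F], Odd (Fintype.card F) → ¬ Met (Cfsg.PSp 2 F)) ∧
  (∀ (F : Type) [Field F] [Fintype F], Odd (Fintype.card F) →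
    ¬ Met ↥(Cfsg.Lie.chevG2.group F)) ∧
  (∀ (F : Type) [Field F] [Fintype F] (r : ℕ), Odd r → Fintype.card F = r ^ 3 →
    ¬ Met ↥(Cfsg.Lie.twistedD4 F r)) ∧
  (∀ (F : Type) [Field F] [Fintype F] (p f : ℕ), p.Prime → p ≠ 2 → 3 ≤ f →
    Fintype.card F = p ^ f → ¬ Met PSL(2, F))

/-- Piece SPOR: sporadic groups, alternating groups, small groups of characteristic two. -/
def SporStmt : Prop :=
  ∀ (G : Type u) [Group G] [Finite G], Met G →
    ¬ Cfsg.Spor.IsoM12 G ∧ ¬ Cfsg.Spor.IsoM22 G ∧ ¬ Cfsg.Spor.IsoM23 G ∧ ¬ Cfsg.Spor.IsoJ2 G ∧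
    ¬ Cfsg.Spor.IsoJ3 G ∧ ¬ Cfsg.Spor.IsoMcL G ∧ ¬ Cfsg.Spor.IsoLy G ∧
    (∀ n : ℕ, 8 ≤ n → ¬ Nonempty (G ≃* alternatingGroup (Fin n))) ∧
    (∀ (F : Type) [Field F] [Fintype F], Fintype.card F = 16 →
      ¬ Nonempty (G ≃* PSL(2, F)) ∧ ¬ Nonempty (G ≃* Cfsg.PSU 3 F 4)) ∧
    (∀ (F : Type) [Field F] [Fintype F], Fintype.card F = 4 → ¬ Nonempty (G ≃* PSL(3, F))) ∧
    (∀ (F : Type) [Field F] [Fintype F], Fintype.card F = 8 →
      ¬ Nonempty (G ≃* ↥(Cfsg.Lie.Sz F 4)))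

/-- Piece SMALL: the socles `A₇`, `M₁₁`, `J₁`, `L₂(8)`. -/
def SmallStmt : Prop :=
  ∀ (G : Type u) [Group G] [Finite G] (A B S : Subgroup G), Fac A B → Soc S →
    ¬ Nonempty (S ≃* alternatingGroup (Fin 7)) ∧ ¬ Cfsg.Spor.IsoM11 S ∧ ¬ Cfsg.Spor.IsoJ1 S ∧
    ∀ (F : Type) [Field F] [Fintype F], Fintype.card F = 8 → ¬ Nonempty (S ≃* PSL(2, F))

/-- Piece SQ: the socle `L₂(p²)`. -/
def SqStmt : Prop :=
  ∀ (G : Type u) [Group G] [Finite G] (A B S : Subgroup G), Fac A B → Soc S →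
    ∀ (F : Type) [Field F] [Fintype F] (p : ℕ), p.Prime → p ≠ 2 → Fintype.card F = p ^ 2 →
    ¬ Nonempty (S ≃* PSL(2, F))

/-- Piece PR: the socle `L₂(p)`. -/
def PrStmt : Prop :=
  ∀ (G : Type u) [Group G] [Finite G] (A B S : Subgroup G), Fac A B → Soc S →
    ∀ (F : Type) [Field F] [Fintype F], (Fintype.card F).Prime → 5 ≤ Fintype.card F →
    Nonempty (S ≃* PSL(2, F)) → Nonempty (G ≃* GL (Fin 2) F ⧸ center (GL (Fin 2) F))

end Cfsg.Agent.H94.Bc
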