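import Cfsg.Agent.H94.BcDefs

/-! Huppert: a product of two cyclic `p`-groups is metacyclic for odd `p`. -/

set_option autoImplicit false

namespace Cfsg.Agent.H94.Bc

open Subgroup Cfsg Cfsg.Agent.H9 Cfsg.Agent.H9.Bic
open scoped commutatorElement

universe u

variable {G : Type*} [Group G] {p : ℕ}

theorem mul_pow_cent {x y c : G} (hc : c ∈ center G) (h : y * x = c * (x * y)) (n : ℕ) :
    (x * y) ^ n = c ^ n.choose 2 * (x ^ n * y ^ n) := by
  have cc : ∀ g, Commute g c := fun g => mem_center_iff.1 hc g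
  have k : ∀ m : ℕ, y ^ m * x = c ^ m * (x * y ^ m) := fun m => by
    induction m with
    | zero => simp
    | succ m ih =>
      rw [pow_succ', mul_assoc, ih, ← mul_assoc, ((cc y).pow_right m).eq, mul_assoc,
        ← mul_assoc y, h, pow_succ c]
      simp only [mul_assoc]
  induction n with
  | zero => simp
  | succ n ih =>
    rw [pow_succ, ih, Nat.choose_succ_succ' n 1, Nat.choose_one_right, add_comm n, pow_add, pow_succ x,
      pow_succ y]
    calc c ^ n.choose 2 * (x ^ n * y ^ n) * (x * y)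
        = c ^ n.choose 2 * (x ^ n * (y ^ n * x) * y) := by simp only [mul_assoc]
      _ = _ := by
        rw [k, ← mul_assoc (x ^ n), ((cc (x ^ n)).pow_right n).eq]
        simp only [mul_assoc]

theorem mem_of_not_dvd (hp : p.Prime) (hG : IsPGroup p G) {N : Subgroup G} {x : G} {s : ℤ}
    (hs : ¬ (p : ℤ) ∣ s) (h : x ^ s ∈ N) : x ∈ N := by
  obtain ⟨k, hk⟩ := hG x
  have hc : IsCoprime s ((p : ℤ) ^ k) :=
    (((Nat.prime_iff_prime_int.1 hp).coprime_iff_not_dvd.2 hs).symm).pow_right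
  obtain ⟨a, b, hab⟩ := hc
  have e : x = (x ^ s) ^ a := by
    have h1 : x ^ ((p : ℤ) ^ k) = 1 := by exact_mod_cast hk
    calc x = x ^ (s * a + p ^ k * b) := by rw [mul_comm s, mul_comm _ b, hab, zpow_one]
      _ = (x ^ s) ^ a := by rw [zpow_add, zpow_mul, zpow_mul, h1, one_zpow, mul_one]
  exact e ▸ zpow_mem h a

theorem exists_p_pow (hp : p.Prime) {i j : ℤ} (h : ¬ (i = 0 ∧ j = 0)) :
    ∃ (e : ℕ) (s t : ℤ), i = s * p ^ e ∧ j = t * p ^ e ∧ (¬ (p : ℤ) ∣ s ∨ ¬ (p : ℤ) ∣ t) := by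
  have h0 : 0 < Int.gcd i j := Nat.pos_of_ne_zero fun e => h (Int.gcd_eq_zero_iff.1 e)
  obtain ⟨i', j', h1, h2, h3⟩ := Int.exists_gcd_one h0
  obtain ⟨e, m, hm, hd⟩ := Nat.exists_eq_pow_mul_and_not_dvd h0.ne' p hp.ne_one
  have hm' : ¬ (p : ℤ) ∣ m := by exact_mod_cast hm
  have pp := Nat.prime_iff_prime_int.1 hp
  refine ⟨e, i' * m, j' * m, ?_, ?_, ?_⟩
  · rw [h2, hd]; push_cast; ring
  · rw [h3, hd]; push_cast; ring
  · by_contra hc
    push Not at hc
    have := Int.dvd_coe_gcd ((pp.dvd_or_dvd hc.1).resolve_right hm')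
      ((pp.dvd_or_dvd hc.2).resolve_right hm')
    rw [h1] at this
    exact hp.one_lt.ne' (Nat.dvd_one.1 (by exact_mod_cast this))

theorem hup_base (hp : p.Prime) (h2 : p ≠ 2) (hG : IsPGroup p G) {x y c : G} (h : Bi x y)
    (hc : c ∈ center G) (ho : orderOf c = p) (hle : _root_.commutator G ≤ zpowers c) :
    IsMetacyclic G := by
  have c2 : c ^ p = 1 := ho ▸ pow_orderOf_eq_one c
  have kw : ∀ a b : G, ⁅a, b⁆ ∈ center G ∧ ⁅a, b⁆ ^ p = 1 := fun a b => by
    obtain ⟨k, hk⟩ := hle (commutator_mem_commutator (mem_top a) (mem_top b))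
    rw [← hk]
    exact ⟨zpow_mem hc k, by
      show (c ^ k) ^ p = 1
      rw [← zpow_natCast, ← zpow_mul, mul_comm, zpow_mul, zpow_natCast, c2, one_zpow]⟩
  have k1 : ∀ (a b : G) (e : ℕ), (a * b) ^ p ^ e = a ^ p ^ e * b ^ p ^ e := fun a b e => by
    rw [mul_pow_cent (kw b a).1 (by rw [commutatorElement_def]; group)]
    rcases e with _ | e
    · simp
    obtain ⟨m, hm⟩ : p ∣ (p ^ (e + 1)).choose 2 := by
      obtain ⟨k, hk⟩ := (hp.odd_of_ne_two h2).pow (n := e + 1)
      rw [Nat.choose_two_right, hk, Nat.add_sub_cancel, mul_left_comm, Nat.mul_div_cancel_left _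
        two_pos, ← hk]
      exact (dvd_pow_self p (Nat.succ_ne_zero e)).mul_right k
    rw [hm, pow_mul, (kw b a).2, one_pow, one_mul]
  obtain ⟨i, j, hij⟩ := h c
  obtain ⟨e, s, t, rfl, rfl, hst⟩ := exists_p_pow hp (i := i) (j := j) (by
    rintro ⟨rfl, rfl⟩
    rw [zpow_zero, zpow_zero, mul_one] at hij
    rw [hij, orderOf_one] at ho
    exact hp.one_lt.ne ho)
  have h3 : _root_.commutator G ≤ zpowers (x ^ s * y ^ t) := hle.trans (zpowers_le.2
    ⟨(p ^ e : ℕ), by
      show _ ^ ((p ^ e : ℕ) : ℤ) = c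
      rw [zpow_natCast, k1, hij, zpow_mul, zpow_mul]
      norm_cast⟩)
  rcases hst with hs | ht
  · refine meta_of_commutator_le (b := y) h3 (h.eq_top (mem_of_not_dvd hp hG hs ?_)
      (mem_sup_right (mem_zpowers y)))
    exact (mul_mem_cancel_right (mem_sup_right (zpow_mem (mem_zpowers y) t))).1
      (mem_sup_left (mem_zpowers _))
  · refine meta_of_commutator_le (b := x) h3 (h.eq_top (mem_sup_right (mem_zpowers x))
      (mem_of_not_dvd hp hG ht ?_))
    exact (mul_mem_cancel_left (mem_sup_right (zpow_mem (mem_zpowers x) s))).1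
      (mem_sup_left (mem_zpowers _))

theorem hup_lift [Finite G] (hp : p.Prime) (hG : IsPGroup p G) {c : G} (hc : c ∈ center G)
    (ho : orderOf c = p) (hcm : c ∈ _root_.commutator G)
    (hle : ¬ _root_.commutator G ≤ zpowers c) [(zpowers c).Normal]
    (hm : IsMetacyclic (G ⧸ zpowers c)) : IsMetacyclic G := by
  obtain ⟨a, b, hn, ht⟩ := H71.isMetacyclic_iff.1 hm
  obtain ⟨a, rfl⟩ := QuotientGroup.mk'_surjective _ a
  obtain ⟨b, rfl⟩ := QuotientGroup.mk'_surjective _ b
  have c2 : c ^ p = 1 := ho ▸ pow_orderOf_eq_one c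
  have cc : ∀ g, Commute g c := fun g => mem_center_iff.1 hc g
  have h1 : zpowers a ⊔ zpowers b ⊔ zpowers c = ⊤ := by
    rw [← MonoidHom.map_zpowers, ← MonoidHom.map_zpowers, ← Subgroup.map_sup] at ht
    have := congrArg (comap (QuotientGroup.mk' (zpowers c))) ht
    rwa [comap_map_eq, QuotientGroup.ker_mk', comap_top] at this
  have h3 : closure ({a, b, c} : Set G) = ⊤ := eq_top_iff.2 (h1 ▸ sup_le (sup_le
    (zpowers_le.2 (subset_closure (by simp))) (zpowers_le.2 (subset_closure (by simp))))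
    (zpowers_le.2 (subset_closure (by simp))))
  obtain ⟨k, m, hd⟩ : ∃ k m : ℤ, ⁅b, a⁆ = a ^ k * c ^ m := by
    obtain ⟨k, hk⟩ := mul_mem (hn.conj_mem _ (mem_zpowers _) (QuotientGroup.mk' _ b))
      (inv_mem (mem_zpowers _))
    have h4 : (a ^ k)⁻¹ * ⁅b, a⁆ ∈ zpowers c := by
      rw [← QuotientGroup.eq]
      simpa [commutatorElement_def] using hk
    obtain ⟨m, hm⟩ := h4
    exact ⟨k, m, by rw [show c ^ m = _ from hm, mul_inv_cancel_left]⟩
  set d := ⁅b, a⁆ with hd'
  have ad : Commute a d := hd ▸ ((Commute.refl a).zpow_right k).mul_right ((cc a).zpow_right m)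
  have hb : b * a * b⁻¹ = d * a := by rw [hd', commutatorElement_def]; group
  haveI : (zpowers d).Normal := normal_zpowers_of_closure_eq_top h3 (by
    rintro g (rfl | rfl | rfl)
    · rw [ad.eq, mul_inv_cancel_right]; exact mem_zpowers d
    · have : g * d * g⁻¹ = d ^ k * d := by
        conv_lhs => rw [hd, ← conj_mul, ← conj_zpow, hb, ad.symm.mul_zpow, ((cc g).zpow_right m).eq,
          mul_inv_cancel_right, mul_assoc, ← hd]
      rw [this]; exact mul_mem (zpow_mem (mem_zpowers d) k) (mem_zpowers d)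
    · rw [← (cc d).eq, mul_inv_cancel_right]; exact mem_zpowers d)
  have h5 : _root_.commutator G ≤ zpowers d := commutator_le_of_closure_eq_top h3 (by
    have k1 : ∀ g, ⁅g, c⁆ ∈ zpowers d := fun g => by
      rw [(cc g).commutator_eq]; exact one_mem _
    have k2 : ∀ g, ⁅c, g⁆ ∈ zpowers d := fun g => by
      rw [(cc g).symm.commutator_eq]; exact one_mem _
    have k3 : ∀ g, ⁅g, g⁆ ∈ zpowers d := fun g => by
      rw [commutatorElement_self]; exact one_mem _
    rintro g (rfl | rfl | rfl) g' (rfl | rfl | rfl)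
    any_goals first | exact k1 _ | exact k2 _ | exact k3 _
    · rw [← commutatorElement_inv]; exact inv_mem (mem_zpowers d)
    · exact mem_zpowers d)
  obtain ⟨j, hj⟩ := h5 hcm
  have hj' : d ^ j = c := hj
  obtain ⟨j, rfl⟩ : (p : ℤ) ∣ j := by_contra fun k =>
    hle (h5.trans (zpowers_le.2 (mem_of_not_dvd hp hG k (hj' ▸ mem_zpowers c))))
  have h6 : c ∈ zpowers a := by
    have : d ^ p = (a ^ k) ^ p := by
      rw [hd, ((cc (a ^ k)).zpow_right m).mul_pow, ← zpow_natCast (c ^ m), ← zpow_mul, mul_comm m,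
        zpow_mul, zpow_natCast, c2, one_zpow, mul_one]
    rw [← hj', zpow_mul, zpow_natCast, this]
    exact zpow_mem (pow_mem (zpow_mem (mem_zpowers a) k) p) j
  refine meta_of_commutator_le (a := a) (b := b) (h5.trans (zpowers_le.2 (hd ▸ mul_mem
    (zpow_mem (mem_zpowers a) k) (zpow_mem h6 m)))) ?_
  rwa [sup_eq_left.2 ((zpowers_le.2 h6).trans le_sup_left)] at h1

theorem hup : HupStmt.{u} := by
  intro G _ _ p hp h2 hG x y h
  have : Fact p.Prime := ⟨hp⟩
  induction hn : Nat.card G using Nat.strong_induction_on generalizing G with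
  | _ n ih =>
  subst hn
  by_cases h0 : _root_.commutator G = ⊥
  · exact meta_of_commutator_le (a := x) (b := y) (h0 ▸ bot_le)
      (h.eq_top (mem_sup_left (mem_zpowers x)) (mem_sup_right (mem_zpowers y)))
  obtain ⟨c, hcm, hc, ho⟩ := H7.exists_mem_center_orderOf hG h0
  by_cases hle : _root_.commutator G ≤ zpowers c
  · exact hup_base hp h2 hG h hc ho hle
  haveI := normal_zpowers_of_mem_center hc
  refine hup_lift hp hG hc ho hcm hle (ih _ ?_ (G ⧸ zpowers c) (hG.to_quotient _) _ _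
    (h.map (QuotientGroup.mk'_surjective (zpowers c))) rfl)
  rw [card_eq_card_quotient_mul_card_subgroup (zpowers c), Nat.card_zpowers, ho]
  exact lt_mul_of_one_lt_right Nat.card_pos hp.one_lt

end Cfsg.Agent.H94.Bc
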