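import Cfsg.Agent.H94.BcDefs
import Cfsg.Agent.H1.Card
import Cfsg.Agent.H11.GroupUtil

/-! Sylow subgroups of a product of a cyclic group and a Z-group. -/

set_option autoImplicit false

namespace Cfsg.Agent.H94.Bc

open Subgroup Cfsg
open scoped Pointwise

universe u

variable {G : Type*} [Group G]

theorem exists_gen [Finite G] {B : Subgroup G} {p : ℕ} [Fact p.Prime] (Q : Sylow p B)
    (h : IsCyclic (Q : Subgroup B)) : ∃ y ∈ B, (Q : Subgroup B).map B.subtype = zpowers y ∧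
      Nat.card (zpowers y) = p ^ (Nat.card B).factorization p := by
  obtain ⟨y, hy⟩ := ((Q : Subgroup B).isCyclic_iff_exists_zpowers_eq_top).1 h
  have e : (Q : Subgroup B).map B.subtype = zpowers (y : G) := by
    rw [← hy, MonoidHom.map_zpowers]; rfl
  exact ⟨y, y.2, e, by rw [← e, card_map_of_injective B.subtype_injective, Q.card_eq_multiplicity]⟩

theorem syl : SylStmt.{u} := by
  intro G _ _ A B h p hp
  have := h.cyc
  have := h.zg
  obtain ⟨P0⟩ : Nonempty (Sylow p A) := inferInstance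
  obtain ⟨Q0⟩ : Nonempty (Sylow p B) := inferInstance
  obtain ⟨P, hP⟩ := (P0.2.map A.subtype).exists_le_sylow
  obtain ⟨Q, hQ⟩ := (Q0.2.map B.subtype).exists_le_sylow
  obtain ⟨g, hg⟩ := MulAction.exists_smul_eq G P Q
  obtain ⟨b, hb, a, ha, rfl⟩ := H1.factorization_symm h.mul g
  obtain ⟨x, hx, e1, c1⟩ := exists_gen ((⟨a, ha⟩ : A) • P0) inferInstance
  obtain ⟨y, hy, e2, c2⟩ := exists_gen ((⟨b, hb⟩ : B)⁻¹ • Q0) inferInstance
  have hR : a • P = b⁻¹ • Q := by rw [← hg, smul_smul, inv_mul_cancel_left]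
  have l1 : zpowers x ≤ (a • P : Sylow p G) := by
    rw [← e1]
    rintro _ ⟨_, ⟨z, hz, rfl⟩, rfl⟩
    exact ⟨z, hP ⟨z, hz, rfl⟩, rfl⟩
  have l2 : zpowers y ≤ (a • P : Sylow p G) := by
    rw [← e2, hR]
    rintro _ ⟨_, ⟨z, hz, rfl⟩, rfl⟩
    exact ⟨z, hQ ⟨z, hz, rfl⟩, rfl⟩
  have key := H1.coe_eq_mul_of_card l1 l2 (by
    obtain ⟨k, hk⟩ := ((a • P).2.to_le ((inf_le_left (b := zpowers y)).trans l1)).exists_card_eq
    have h1 := card_dvd_of_le (inf_le_inf (zpowers_le.2 hx) (zpowers_le.2 hy))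
    rw [hk, hp.out.pow_dvd_iff_le_factorization Nat.card_pos.ne'] at h1
    have h2 := congrArg (fun n => n.factorization p) (H1.card_mul_card_inf_of_factorization h.mul)
    simp only [Nat.factorization_mul Nat.card_pos.ne' Nat.card_pos.ne', Finsupp.add_apply] at h2
    rw [hk, c1, c2, (a • P).card_eq_multiplicity, ← pow_add, ← pow_add]
    exact Nat.pow_le_pow_right hp.out.pos (by omega))
  refine ⟨a • P, x, hx, y, hy, l1 (mem_zpowers x), l2 (mem_zpowers y), fun g hg => ?_⟩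
  obtain ⟨_, ⟨i, rfl⟩, _, ⟨j, rfl⟩, e⟩ := key.le hg
  exact ⟨i, j, e.symm⟩

/-- An element of prime order `p` normalizing a group of prime order `r`. -/
theorem comm_of_norm [Finite G] {p r : ℕ} (hp : p.Prime) (hr : r.Prime) {a y : G}
    (ha : orderOf a = p) (hy : orderOf y = r) (h : a * y * a⁻¹ ∈ zpowers y) (hd : ¬ p ∣ r - 1) :
    a * y = y * a := by
  have hn : a ∈ normalizer (zpowers y : Set G) := mem_normalizer_fintype (by
    rintro _ ⟨k, rfl⟩
    show a * y ^ k * a⁻¹ ∈ zpowers y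
    rw [← conj_zpow]
    exact zpow_mem h k)
  have h1 := orderOf_dvd_natCard ((zpowers y).normalizerMonoidHom ⟨a, hn⟩)
  rw [IsCyclic.card_mulAut, Nat.card_zpowers, hy, Nat.totient_prime hr] at h1
  have h2 := orderOf_map_dvd (zpowers y).normalizerMonoidHom ⟨a, hn⟩
  rw [orderOf_mk, ha] at h2
  have h3 := orderOf_eq_one_iff.1 (((Nat.dvd_prime hp).1 h2).resolve_right fun e => hd (e ▸ h1))
  have h4 := congrArg Subtype.val (DFunLike.congr_fun h3 ⟨y, mem_zpowers y⟩)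
  exact mul_inv_eq_iff_eq_mul.1 h4

theorem exists_pair [Finite G] {p r : ℕ} {g : G} (h1 : p ∣ orderOf g) (h2 : r ∣ orderOf g) :
    ∃ a y : G, orderOf a = p ∧ orderOf y = r ∧ a * y = y * a :=
  ⟨_, _, orderOf_pow_orderOf_div (orderOf_pos g).ne' h1,
    orderOf_pow_orderOf_div (orderOf_pos g).ne' h2, (Commute.pow_pow_self g _ _).eq⟩

theorem zg : ZgStmt.{u} := by
  intro B _ _ hB p r hp hr hpr h1 h2
  have := Fact.mk hp
  have := Fact.mk hr
  have := IsZGroup.isCyclic_commutator B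
  have nor : ∀ y ∈ _root_.commutator B, ∀ a : B, a * y * a⁻¹ ∈ zpowers y := fun y hy a =>
    H11.mem_zpowers_of_orderOf_dvd (_root_.commutator B) (Normal.conj_mem inferInstance y hy a) hy
      (orderOf_dvd_of_pow_eq_one (by rw [conj_pow, pow_orderOf_eq_one]; group))
  have fin : (∃ a y : B, orderOf a = p ∧ orderOf y = r ∧ a * y = y * a) →
      ∃ a y : B, orderOf a = p ∧ orderOf y = r ∧ a * y * a⁻¹ ∈ zpowers y := by
    rintro ⟨a, y, k1, k2, k3⟩
    exact ⟨a, y, k1, k2, by rw [k3, mul_inv_cancel_right]; exact mem_zpowers y⟩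
  by_cases d2 : r ∣ Nat.card (_root_.commutator B)
  · obtain ⟨y, hy⟩ := exists_prime_orderOf_dvd_card' r d2
    obtain ⟨a, ha⟩ := exists_prime_orderOf_dvd_card' p h1
    exact ⟨a, y, ha, (orderOf_coe y).trans hy, nor y y.2 a⟩
  by_cases d1 : p ∣ Nat.card (_root_.commutator B)
  · obtain ⟨a, ha⟩ := exists_prime_orderOf_dvd_card' p d1
    obtain ⟨y, hy⟩ := exists_prime_orderOf_dvd_card' r h2
    refine fin ⟨a, y, (orderOf_coe a).trans ha, hy, (comm_of_norm hr hp hy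
      ((orderOf_coe a).trans ha) (nor a a.2 y) fun k => ?_).symm⟩
    have := Nat.le_of_dvd (by have := hp.two_le; omega) k
    omega
  rw [card_eq_card_quotient_mul_card_subgroup (_root_.commutator B)] at h1 h2
  obtain ⟨g, hg⟩ := IsCyclic.exists_ofOrder_eq_natCard (α := Abelianization B)
  obtain ⟨g, rfl⟩ := QuotientGroup.mk'_surjective (_root_.commutator B) g
  have h3 : Nat.card (B ⧸ _root_.commutator B) ∣ orderOf g :=
    (show _ = Nat.card (B ⧸ _root_.commutator B) from hg) ▸ orderOf_map_dvd _ g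
  exact fin (exists_pair (((hp.dvd_mul.1 h1).resolve_right d1).trans h3)
    (((hr.dvd_mul.1 h2).resolve_right d2).trans h3))

namespace Fac

variable {G : Type u} [Group G] [Finite G] {A B : Subgroup G}

omit [Finite G] in
theorem dvd_or (h : Fac A B) {p : ℕ} (hp : p.Prime) (hd : p ∣ Nat.card G) :
    p ∣ Nat.card A ∨ p ∣ Nat.card B :=
  hp.dvd_mul.1 (H1.card_mul_card_inf_of_factorization h.mul ▸ hd.mul_right _)

/-- A noncyclic `p`-subgroup forces `p` to divide both factors. -/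
theorem dvd_and (h : Fac A B) {p : ℕ} (hp : p.Prime) {K : Subgroup G} (hK : IsPGroup p K)
    (hc : ¬ IsCyclic K) : p ∣ Nat.card A ∧ p ∣ Nat.card B := by
  have := Fact.mk hp
  obtain ⟨P, x, hx, y, hy, xP, yP, hP⟩ := syl G A B h p
  obtain ⟨Q, hQ⟩ := hK.exists_le_sylow
  have k1 : ∀ z : G, ¬ (P : Subgroup G) ≤ zpowers z := fun z hz => by
    have := isCyclic_of_le hz
    have := (P.equiv Q).isCyclic.1 this
    exact hc (isCyclic_of_le hQ)
  have k2 : ∀ (C : Subgroup G), ∀ z ∈ C, z ∈ P → ¬ p ∣ Nat.card C → z = 1 := fun C z h1 h2 h3 => by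
    obtain ⟨k, hk⟩ := P.2 ⟨z, h2⟩
    have h4 := orderOf_dvd_of_pow_eq_one (congrArg Subtype.val hk : z ^ p ^ k = 1)
    exact orderOf_eq_one_iff.1 (Nat.eq_one_of_dvd_coprimes
      ((hp.coprime_iff_not_dvd.2 h3).pow_left k) h4 (C.orderOf_dvd_natCard h1))
  refine ⟨by_contra fun k => k1 y fun g hg => ?_, by_contra fun k => k1 x fun g hg => ?_⟩ <;>
    obtain ⟨i, j, rfl⟩ := hP g hg
  · rw [k2 A x hx xP k, one_zpow, one_mul]; exact ⟨j, rfl⟩
  · rw [k2 B y hy yP k, one_zpow, mul_one]; exact ⟨i, rfl⟩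

/-- The same for a subgroup of exponent `p` and order above `p`. -/
theorem dvd_and' (h : Fac A B) {p : ℕ} (hp : p.Prime) {K : Subgroup G} (hK : ∀ x ∈ K, x ^ p = 1)
    (hc : p < Nat.card K) : p ∣ Nat.card A ∧ p ∣ Nat.card B :=
  h.dvd_and hp (K := K) (fun x => ⟨1, Subtype.ext (by simpa using hK x x.2)⟩) fun _ =>
    (Nat.le_of_dvd hp.pos (H90.card_dvd_of_isCyclic_of_pow fun x =>
      Subtype.ext (hK x x.2))).not_gt hc

theorem exists_order (h : Fac A B) {n : ℕ} (hd : n ∣ Nat.card A) : ∃ g : G, orderOf g = n := by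
  have := h.cyc
  obtain ⟨g, hg⟩ := IsCyclic.exists_ofOrder_eq_natCard (α := A)
  rw [← hg, ← orderOf_coe] at hd
  exact ⟨_, orderOf_pow_orderOf_div (orderOf_pos _).ne' hd⟩

theorem exists_norm (h : Fac A B) {p r : ℕ} (hp : p.Prime) (hr : r.Prime) (hpr : p < r)
    (h1 : p ∣ Nat.card B) (h2 : r ∣ Nat.card B) :
    ∃ a y : G, orderOf a = p ∧ orderOf y = r ∧ a * y * a⁻¹ ∈ zpowers y := by
  obtain ⟨a, y, k1, k2, k, hk⟩ := Bc.zg B h.zg p r hp hr hpr h1 h2
  exact ⟨a, y, (orderOf_coe a).trans k1, (orderOf_coe y).trans k2, k, congrArg Subtype.val hk⟩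

/-- Two primes dividing `|B|` give an element of order `p r` unless `p ∣ r - 1`. -/
theorem exists_order_mul (h : Fac A B) {p r : ℕ} (hp : p.Prime) (hr : r.Prime) (hpr : p < r)
    (h1 : p ∣ Nat.card B) (h2 : r ∣ Nat.card B) (hd : ¬ p ∣ r - 1) :
    ∃ g : G, orderOf g = p * r := by
  obtain ⟨a, y, k1, k2, k3⟩ := h.exists_norm hp hr hpr h1 h2
  exact ⟨a * y, by
    rw [(show Commute a y from comm_of_norm hp hr k1 k2 k3 hd).orderOf_mul_eq_mul_orderOf_of_coprime
      (by rw [k1, k2]; exact (Nat.coprime_primes hp hr).2 hpr.ne), k1, k2]⟩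

end Fac

end Cfsg.Agent.H94.Bc
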