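import Mathlib
import Cfsg.Agent.H31.SU3

/-!
Binary coset actions of `SU₃(q)`, `q` even, with a stabiliser of even order.
-/

set_option autoImplicit false

namespace Cfsg.Agent.H94.U3

open Cfsg.Agent.H31

variable {F : Type*} [Field F] {σ : F →+* F}

/-- The ambient linear group. -/
abbrev A (F : Type*) [Field F] := (Fin 3 → F) ≃ₗ[F] (Fin 3 → F)

/-- The diagonal elements. -/
noncomputable def dg (σ : F →+* F) (c : Fˣ) : A F := diag3 σ c c.ne_zero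

lemma ext3 {g g' : A F} (h : ∀ a b c, g ![a, b, c] = g' ![a, b, c]) : g = g' :=
  LinearEquiv.ext fun v => by rw [vec3_eta v]; exact h _ _ _

lemma dg_vec (c : Fˣ) (a b d : F) :
    dg σ c ![a, b, d] = ![c * a, σ c / c * b, (σ c)⁻¹ * d] := diag3_vec _ _ _ _

lemma dg_mem (h : IsInvol σ) (c : Fˣ) : dg σ c ∈ sisom (hyp3 σ) := diag3_mem_sisom h _

lemma σ_ne (c : Fˣ) : σ c ≠ 0 := (map_ne_zero σ).2 c.ne_zero

lemma dg_mul (c d : Fˣ) : dg σ c * dg σ d = dg σ (c * d) := ext3 fun x y z => by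
  have := σ_ne (σ := σ) c
  have := σ_ne (σ := σ) d
  simp only [LinearEquiv.mul_apply, dg_vec, vec3_inj, Units.val_mul, map_mul]
  refine ⟨by ring, by field_simp, by field_simp⟩

lemma dg_one : dg σ 1 = 1 := ext3 fun x y z => by simp [dg_vec]

lemma dg_inv (c : Fˣ) : (dg σ c)⁻¹ = dg σ c⁻¹ :=
  inv_eq_of_mul_eq_one_right (by rw [dg_mul, mul_inv_cancel, dg_one])

lemma dg_pow (c : Fˣ) (n : ℕ) : dg σ c ^ n = dg σ (c ^ n) := by
  induction n with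
  | zero => simp [dg_one]
  | succ n ih => rw [pow_succ, ih, dg_mul, pow_succ]

/-- The subgroup `v⁻¹ H v`. -/
def cj (v : A F) (H : Subgroup (A F)) : Subgroup (A F) := H.comap (MulAut.conj v).toMonoidHom

lemma mem_cj {v g : A F} {H : Subgroup (A F)} : g ∈ cj v H ↔ v * g * v⁻¹ ∈ H := Iff.rfl

/-- `g` fixes the line spanned by `v`. -/
def FixL (g : A F) (v : Fin 3 → F) : Prop := ∃ c : F, g v = c • v

lemma FixL.of_conj {f x : A F} {v : Fin 3 → F} (h : FixL (x⁻¹ * f * x) v) : FixL f (x v) := by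
  obtain ⟨c, hc⟩ := h
  refine ⟨c, ?_⟩
  rw [← map_smul, ← hc]
  simp

/-- Consequences of binarity. -/
structure BinP (σ : F →+* F) (H : Subgroup (A F)) : Prop where
  le : H ≤ sisom (hyp3 σ)
  four : ∀ x0 ∈ sisom (hyp3 σ), ∀ x1 ∈ sisom (hyp3 σ), ∀ x2 ∈ sisom (hyp3 σ),
    ∀ x3 ∈ sisom (hyp3 σ), ∀ s t : A F,
    x0⁻¹ * s * x0 ∈ H → x1⁻¹ * s * x1 ∈ H → x2⁻¹ * t * x2 ∈ H → x3⁻¹ * (s⁻¹ * t) * x3 ∈ H →
    ∃ f, x0⁻¹ * f * x0 ∈ H ∧ x1⁻¹ * f * x1 ∈ H ∧ x2⁻¹ * f * x2 ∈ H ∧ x3⁻¹ * (s⁻¹ * f) * x3 ∈ H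

variable {H : Subgroup (A F)}

lemma cj_le (hH : H ≤ sisom (hyp3 σ)) {v : A F} (hv : v ∈ sisom (hyp3 σ)) :
    cj v H ≤ sisom (hyp3 σ) := fun g hg => by
  simpa [mul_assoc] using mul_mem (mul_mem (inv_mem hv) (hH hg)) hv

lemma BinP.cj (h : BinP σ H) {v : A F} (hv : v ∈ sisom (hyp3 σ)) : BinP σ (cj v H) where
  le := cj_le h.le hv
  four := by
    intro x0 h0 x1 h1 x2 h2 x3 h3 s t a0 a1 a2 a3
    rw [mem_cj] at a0 a1 a2 a3
    obtain ⟨f, b0, b1, b2, b3⟩ := h.four _ (mul_mem h0 (inv_mem hv)) _ (mul_mem h1 (inv_mem hv))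
      _ (mul_mem h2 (inv_mem hv)) _ (mul_mem h3 (inv_mem hv)) s t
      (by convert a0 using 1; group) (by convert a1 using 1; group)
      (by convert a2 using 1; group) (by convert a3 using 1; group)
    refine ⟨f, ?_, ?_, ?_, ?_⟩ <;> rw [mem_cj]
    · convert b0 using 1; group
    · convert b1 using 1; group
    · convert b2 using 1; group
    · convert b3 using 1; group

lemma exists_u_dg (h : IsInvol σ) {g : A F} (hg : g ∈ sisom (hyp3 σ)) (h0 : FixL g ![1, 0, 0]) :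
    ∃ (x y : F) (k : Fˣ), y + σ y + x * σ x = 0 ∧ g = uni3 σ x y * dg σ k := by
  obtain ⟨c, hc⟩ := h0
  have hc0 : c ≠ 0 := by
    rintro rfl
    rw [zero_smul, g.map_eq_zero_iff] at hc
    simpa using congrFun hc 0
  obtain ⟨x, y, hxy, e⟩ := exists_uni3_of_fix h (mul_mem hg (dg_mem h (Units.mk0 c hc0)⁻¹)) (by
    rw [LinearEquiv.mul_apply, dg_vec]
    simp only [mul_zero, mul_one]
    rw [show (![((Units.mk0 c hc0)⁻¹ : Fˣ), 0, 0] : Fin 3 → F) = c⁻¹ • ![1, 0, 0] by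
      simp, map_smul, hc, smul_smul, inv_mul_cancel₀ hc0, one_smul])
  exact ⟨x, y, Units.mk0 c hc0, hxy, by rw [← e, ← dg_inv]; group⟩

variable [CharP F 2]

lemma u_vec (x y a b c : F) :
    uni3 σ x y ![a, b, c] = ![a + σ x * b + y * c, b + x * c, c] := by
  rw [uni3_vec, CharTwo.sub_eq_add]

lemma w_vec (a b c : F) : weyl3 F ![a, b, c] = ![c, b, a] := by
  rw [weyl3_vec, CharTwo.neg_eq]

lemma u_mul (x y x' y' : F) :
    uni3 σ x y * uni3 σ x' y' = uni3 σ (x + x') (y + y' + σ x * x') := by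
  rw [uni3_mul, CharTwo.sub_eq_add]

lemma u_inv (x y : F) : (uni3 σ x y)⁻¹ = uni3 σ x (y + σ x * x) :=
  inv_eq_of_mul_eq_one_right (by
    rw [u_mul, ← uni3_zero (σ := σ)]; congr 1 <;> grind)

lemma w_mul_w : weyl3 F * weyl3 F = 1 := ext3 fun x y z => by
  simp [w_vec]

lemma w_inv : (weyl3 F)⁻¹ = weyl3 F := inv_eq_of_mul_eq_one_right w_mul_w

lemma dg_conj_u (h : IsInvol σ) (c : Fˣ) (x y : F) :
    dg σ c * uni3 σ x y * (dg σ c)⁻¹ = uni3 σ (σ c ^ 2 / c * x) (c * σ c * y) := by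
  rw [mul_inv_eq_iff_eq_mul]
  refine ext3 fun a b d => ?_
  have := σ_ne (σ := σ) c
  simp only [LinearEquiv.mul_apply, dg_vec, u_vec, vec3_inj, map_mul, map_div₀, map_pow, h.invol]
  refine ⟨by field_simp, by field_simp, trivial⟩

lemma w_dg_w (h : IsInvol σ) (c : Fˣ) :
    weyl3 F * dg σ c * weyl3 F = dg σ (Units.map σ.toMonoidHom c)⁻¹ := ext3 fun a b d => by
  have := σ_ne (σ := σ) c
  simp [dg_vec, w_vec, h.invol]
  left
  field_simp

lemma u_conj_z (x y b : F) : uni3 σ x y * uni3 σ 0 b * (uni3 σ x y)⁻¹ = uni3 σ 0 b := by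
  rw [mul_inv_eq_iff_eq_mul, u_mul, u_mul]
  congr 1 <;> simp [add_comm]

lemma fix_iff {y : F} : y + σ y + 0 * σ 0 = 0 ↔ σ y = y := by
  constructor <;> intro h <;> grind

/-- `H` contains the group of transvections with centre `e₀`. -/
def HasZ (σ : F →+* F) (H : Subgroup (A F)) : Prop := ∀ y, σ y = y → uni3 σ 0 y ∈ H

lemma HasZ.cj (h : HasZ σ H) (x y : F) : HasZ σ (cj (uni3 σ x y) H) := fun b hb => by
  rw [mem_cj, u_conj_z]; exact h b hb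

lemma HasZ.w_mem (h : HasZ σ H) (h' : HasZ σ (U3.cj (weyl3 F) H)) : weyl3 F ∈ H := by
  have h1 := h 1 (map_one _)
  have h2 := h' 1 (map_one _)
  rw [mem_cj, w_inv] at h2
  convert mul_mem (mul_mem h1 h2) h1 using 1
  refine ext3 fun a b d => ?_
  simp only [LinearEquiv.mul_apply, w_vec, u_vec, vec3_inj, map_zero]
  grind

lemma HasZ.dg_mem (h : HasZ σ H) (h' : HasZ σ (U3.cj (weyl3 F) H)) {k : Fˣ} (hk : σ k = k) :
    dg σ k ∈ H := by
  have h1 := h k hk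
  have h2 := h' (k : F)⁻¹ (by rw [map_inv₀, hk])
  rw [mem_cj, w_inv] at h2
  convert mul_mem (mul_mem (mul_mem h1 h2) h1) (h.w_mem h') using 1
  refine ext3 fun a b d => ?_
  have := k.ne_zero
  simp only [LinearEquiv.mul_apply, w_vec, u_vec, dg_vec, vec3_inj, map_zero, hk]
  grind

lemma HasZ.u_mem (h : HasZ σ H) {x y y' : F} (hy : y + σ y + x * σ x = 0)
    (hy' : y' + σ y' + x * σ x = 0) (hu : uni3 σ x y ∈ H) : uni3 σ x y' ∈ H := by
  have := mul_mem (h (y' + y) (by rw [map_add]; grind)) hu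
  rw [u_mul] at this
  convert this using 2 <;> grind

lemma valid_of_mem {x y : F} (h : IsInvol σ) (hu : uni3 σ x y ∈ sisom (hyp3 σ)) :
    y + σ y + x * σ x = 0 := by
  have := hu.1 ![0, 0, 1] ![0, 0, 1]
  simp only [u_vec, hyp3_vec, map_add, map_mul, map_zero, map_one, h.invol] at this
  grind

lemma HasZ.cj_w (hσ : IsInvol σ) (hH : H ≤ sisom (hyp3 σ)) (h : HasZ σ H) {g : A F} (hg : g ∈ H)
    {c x y : F} (hxy : y + σ y + x * σ x = 0) (e : g ![1, 0, 0] = c • ![y, x, 1]) :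
    HasZ σ (U3.cj (weyl3 F) (U3.cj (uni3 σ x y) H)) := by
  intro b hb
  obtain ⟨x', y', k, -, e'⟩ := exists_u_dg hσ (g := weyl3 F * (uni3 σ x y)⁻¹ * g)
    (mul_mem (mul_mem weyl3_mem_sisom (inv_mem (uni3_mem_sisom hσ hxy))) (hH hg)) ⟨c, by
      simp only [LinearEquiv.mul_apply, e, map_smul, u_inv, u_vec, w_vec]
      congr 1
      rw [vec3_inj]
      grind⟩
  have hk := σ_ne (σ := σ) k
  have h1 := mul_mem (mul_mem hg (h (b / (k * σ k)) (by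
    rw [map_div₀, map_mul, hσ.invol, hb, mul_comm]))) (inv_mem hg)
  have e2 : g = uni3 σ x y * weyl3 F * uni3 σ x' y' * dg σ k := by
    rw [mul_assoc, ← e', mul_assoc, ← mul_assoc (weyl3 F), ← mul_assoc (weyl3 F), w_mul_w]; group
  have e3 := dg_conj_u hσ k 0 (b / (k * σ k))
  rw [mul_zero, mul_div_cancel₀ _ (mul_ne_zero k.ne_zero hk)] at e3
  rw [mem_cj, mem_cj, ← u_conj_z x' y' b, ← e3]
  convert h1 using 1
  rw [e2]; group

lemma HasZ.u_mem_of (hσ : IsInvol σ) (hb : ∃ b, σ b = b ∧ b ≠ 0 ∧ b ≠ 1)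
    (hH : H ≤ sisom (hyp3 σ)) (h : HasZ σ H) (h' : HasZ σ (U3.cj (weyl3 F) H)) {g : A F}
    (hg : g ∈ H) {c x y : F} (hxy : y + σ y + x * σ x = 0) (e : g ![1, 0, 0] = c • ![y, x, 1])
    {a y' : F} (ha : σ a = a) (hy' : y' + σ y' + a * x * σ (a * x) = 0) :
    uni3 σ (a * x) y' ∈ H := by
  by_cases ha0 : a = 0
  · subst ha0
    rw [zero_mul] at hy' ⊢
    exact h _ (fix_iff.1 hy')
  obtain ⟨b, hb, hb0, hb1⟩ := hb
  have hb1' : 1 + b ≠ 0 := by grind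
  have h1 := (h.cj x y).dg_mem (h.cj_w hσ hH hg hxy e) (k := Units.mk0 b hb0) hb
  have h2 := h.dg_mem h' (k := Units.mk0 b hb0) hb
  have h3 := h.dg_mem h' (k := Units.mk0 (a / (1 + b)) (div_ne_zero ha0 hb1'))
    (by simp [ha, hb])
  have h4 := mul_mem (mul_mem h3 (mul_mem (mem_cj.1 h1) (inv_mem h2))) (inv_mem h3)
  rw [mul_assoc (uni3 σ x y), mul_assoc (uni3 σ x y), u_inv, dg_conj_u hσ, u_mul,
    dg_conj_u hσ] at h4
  refine h.u_mem ?_ hy' (by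
    convert h4 using 2
    simp only [Units.val_mk0, map_div₀, map_add, map_one, ha, hb]
    field_simp)
  convert valid_of_mem hσ (hH h4) using 3 <;>
  · simp only [Units.val_mk0, map_div₀, map_add, map_one, ha, hb]
    field_simp

omit [CharP F 2] in
lemma fixL_e1 {g : A F} (hg : g ∈ sisom (hyp3 σ)) (h0 : g ![1, 0, 0] 1 = 0)
    (h2 : g ![0, 0, 1] 1 = 0) : FixL g ![0, 1, 0] := by
  have a0 := (inv_mem hg).1 ![0, 1, 0] (g ![1, 0, 0])
  have a2 := (inv_mem hg).1 ![0, 1, 0] (g ![0, 0, 1])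
  rw [LinearEquiv.coe_inv, LinearEquiv.symm_apply_apply, hyp3_apply, hyp3_apply] at a0 a2
  simp [h0, h2] at a0 a2
  have e : g.symm ![0, 1, 0] = (g.symm ![0, 1, 0] 1) • ![0, 1, 0] := by
    rw [vec3_eta (g.symm _), smul_vec3, a0, a2]; simp
  generalize g.symm ![0, 1, 0] 1 = c at e
  rw [LinearEquiv.symm_apply_eq, map_smul] at e
  have hc : c ≠ 0 := by
    rintro rfl
    simpa using congrFun e 1
  exact ⟨c⁻¹, by rw [eq_inv_smul_iff₀ hc, ← e]⟩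

lemma HasZ.le [Finite F] (hσ : IsInvol σ) (hb : ∃ b, σ b = b ∧ b ≠ 0 ∧ b ≠ 1)
    (hH : H ≤ sisom (hyp3 σ)) (h : HasZ σ H) (h' : HasZ σ (U3.cj (weyl3 F) H)) {g : A F}
    (hg : g ∈ H) (hne : ¬ FixL g ![0, 1, 0]) : sisom (hyp3 σ) ≤ H := by
  have hw := h.w_mem h'
  obtain ⟨g, hg, hne⟩ : ∃ g ∈ H, g ![1, 0, 0] 1 ≠ 0 := by
    by_contra! hcon
    refine hne (fixL_e1 (hH hg) (hcon g hg) ?_)
    have := hcon _ (mul_mem hg hw)
    rwa [LinearEquiv.mul_apply, w_vec] at this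
  rcases isotropic3_cases (σ := σ) (v := g ![1, 0, 0]) (by rw [(hH hg).1, hyp3_vec]; simp) with
    ⟨c, e⟩ | ⟨c, x, y, hc, hxy, e⟩
  · exact absurd (by rw [e]; rfl) hne
  have hx : x ≠ 0 := by
    rintro rfl
    exact hne (by rw [e]; simp)
  have hx' : σ x ≠ 0 := (map_ne_zero σ).2 hx
  have hy : y + σ y ≠ 0 := by grind
  have hy0 : y ≠ 0 := by rintro rfl; simp at hy
  have hy0' : σ y ≠ 0 := (map_ne_zero σ).2 hy0
  have h1 : uni3 σ x y ∈ H := by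
    simpa using h.u_mem_of hσ hb hH h' hg hxy e (a := 1) (y' := y) (map_one _) (by simpa using hxy)
  refine sisom_hyp3_le hσ hw fun z y' hz => ?_
  set α := (z * y / x + σ (z * y / x)) / (y + σ y) with hα
  have hα' : σ α = α := by
    rw [hα, map_div₀, hσ.trace_fixed, hσ.trace_fixed]
  have hβ : σ (z * y / x + α * y) = z * y / x + α * y := by
    have : α * (y + σ y) = z * y / x + σ (z * y / x) := div_mul_cancel₀ _ hy
    rw [map_add, map_mul σ α, hα']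
    grind
  obtain ⟨y1, hy1⟩ := hσ.exists_trace_eq (hσ.norm_fixed (α * x))
  obtain ⟨y2, hy2⟩ := hσ.exists_trace_eq (hσ.norm_fixed ((z * y / x + α * y) * (x / y)))
  have h2 := h.u_mem_of hσ hb hH h' hg hxy e hα' (y' := y1) (by grind)
  have h3 := h.u_mem_of hσ hb hH h' (mul_mem (mul_mem hw h1) hw) (c := y) (x := x / y) (y := y⁻¹)
    (by simp only [map_inv₀, map_div₀]; field_simp; grind)
    (by simp only [LinearEquiv.mul_apply, w_vec, u_vec, smul_vec3, vec3_inj]; field_simp; simp)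
    hβ (y' := y2) (by grind)
  have h4 := mul_mem h2 h3
  rw [u_mul] at h4
  have e2 : α * x + (z * y / x + α * y) * (x / y) = z := by field_simp; grind
  rw [e2] at h4
  exact h.u_mem (valid_of_mem hσ (hH h4)) hz h4

lemma HasZ.mem_of_fix (hσ : IsInvol σ) (h : HasZ σ H) (h' : HasZ σ (U3.cj (weyl3 F) H)) {m : A F}
    (hm : m ∈ sisom (hyp3 σ)) (h0 : FixL m ![1, 0, 0]) (h1 : m ![0, 1, 0] = ![0, 1, 0]) :
    m ∈ H := by
  obtain ⟨x, y, k, hxy, rfl⟩ := exists_u_dg hσ hm h0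
  simp only [LinearEquiv.mul_apply, dg_vec, u_vec, vec3_inj, mul_zero, mul_one, add_zero,
    zero_add] at h1
  have hk : σ k = k := (div_eq_one_iff_eq k.ne_zero).1 h1.2.1
  have hx : x = 0 := by simpa [h1.2.1] using h1.1
  subst hx
  exact mul_mem (h _ (fix_iff.1 hxy)) (h.dg_mem h' hk)

lemma BinP.not_fix_e1 (hσ : IsInvol σ) (hb : ∃ b, σ b = b ∧ b ≠ 0 ∧ b ≠ 1) (hH : BinP σ H)
    (h : HasZ σ H) (h' : HasZ σ (U3.cj (weyl3 F) H)) (hfix : ∀ g ∈ H, FixL g ![0, 1, 0]) :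
    False := by
  obtain ⟨b, hb, hb0, hb1⟩ := hb
  have hb1' : b + 1 ≠ 0 := by grind
  obtain ⟨y1, hy1⟩ := hσ.exists_trace_eq (hσ.norm_fixed 1)
  obtain ⟨y2, hy2⟩ := hσ.exists_trace_eq (hσ.norm_fixed b)
  have g1 : uni3 σ 1 y1 ∈ sisom (hyp3 σ) := uni3_mem_sisom hσ (by grind)
  have g2 : uni3 σ b y2 ∈ sisom (hyp3 σ) := uni3_mem_sisom hσ (by grind)
  set k : Fˣ := Units.mk0 ((b + 1) / b) (div_ne_zero hb1' hb0) with hk
  have hk' : σ k = k := by simp [hk, hb]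
  have hk'' : σ (k⁻¹ : Fˣ) = (k⁻¹ : Fˣ) := by simp [hk']
  have hs := h.dg_mem h' hk'
  obtain ⟨f, f0, -, f2, f3⟩ := hH.four 1 (one_mem _) 1 (one_mem _) _ g1 _ g2 (dg σ k)
    (uni3 σ 1 y1 * dg σ k⁻¹ * (uni3 σ 1 y1)⁻¹) (by simpa using hs) (by simpa using hs)
    (by simpa [mul_assoc] using h.dg_mem h' hk'') (by
      refine h.mem_of_fix hσ h' (mul_mem (mul_mem (inv_mem g2) (mul_mem (inv_mem (dg_mem hσ _))
        (mul_mem (mul_mem g1 (dg_mem hσ _)) (inv_mem g1)))) g2) ⟨(k⁻¹ : Fˣ) * (k⁻¹ : Fˣ), ?_⟩ ?_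
      · simp [dg_inv, u_inv, u_vec, dg_vec]
      · simp only [LinearEquiv.mul_apply, dg_inv, u_inv, u_vec, dg_vec, vec3_inj, hk'', hb, map_one]
        simp only [hk, Units.val_inv_eq_inv_val, Units.val_mk0]
        grind)
  rw [inv_one, one_mul, mul_one] at f0
  obtain ⟨α, a0⟩ := hfix _ f0
  obtain ⟨β, a2⟩ := (hfix _ f2).of_conj
  obtain ⟨γ, a3⟩ := (hfix _ f3).of_conj
  have e1 := (hH.le f0).1 ![0, 1, 0] ![0, 1, 0]
  have e2 := (hH.le f0).1 ![0, 1, 0] (uni3 σ 1 y1 ![0, 1, 0])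
  rw [a0] at e1
  rw [a0, a2] at e2
  simp only [u_vec, smul_vec3, hyp3_vec, map_one, map_zero, mul_zero, mul_one, add_zero,
    zero_add] at e1 e2 a2
  have e3 : uni3 σ b y2 ![0, 1, 0] = b • ![1, 1, 0] + (b + 1) • ![0, 1, 0] := by
    simp only [u_vec, smul_vec3, hb]
    ext i; fin_cases i <;> simp
    grind
  have e4 : f (uni3 σ b y2 ![0, 1, 0]) = ![α * b, α, 0] := by
    rw [e3, map_add, map_smul, map_smul, a2, a0]
    ext i; fin_cases i <;> simp <;> grind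
  rw [LinearEquiv.mul_apply, e4, dg_inv] at a3
  simp only [u_vec, dg_vec, smul_vec3, vec3_inj, hk'', hb] at a3
  simp only [hk, Units.val_inv_eq_inv_val, Units.val_mk0] at a3
  grind

lemma BinP.le_B [Finite F] (hσ : IsInvol σ) (hb : ∃ b, σ b = b ∧ b ≠ 0 ∧ b ≠ 1) (hH : BinP σ H)
    (hne : ¬ sisom (hyp3 σ) ≤ H) (h : HasZ σ H) {g : A F} (hg : g ∈ H) : FixL g ![1, 0, 0] := by
  rcases isotropic3_cases (σ := σ) (v := g ![1, 0, 0])
    (by rw [(hH.le hg).1, hyp3_vec]; simp) with ⟨c, e⟩ | ⟨c, x, y, hc, hxy, e⟩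
  · exact ⟨c, by rw [e]; simp⟩
  exfalso
  have hv := uni3_mem_sisom hσ hxy
  have h' := h.cj_w hσ hH.le hg hxy e
  refine (hH.cj hv).not_fix_e1 hσ hb (h.cj x y) h' fun g' hg' => ?_
  by_contra hcon
  refine hne fun m hm => ?_
  have := (h.cj x y).le hσ hb (hH.cj hv).le h' hg' hcon (mul_mem (mul_mem (inv_mem hv) hm) hv)
  simpa [mem_cj, mul_assoc] using this

lemma HasZ.exists_cj_dg (hσ : IsInvol σ) (h : HasZ σ H) {x y : F} {c : Fˣ}
    (hxy : y + σ y + x * σ x = 0) (hs : uni3 σ x y * dg σ c ∈ H) (hc : σ c ^ 2 / c ≠ 1) :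
    ∃ x0 y0, y0 + σ y0 + x0 * σ x0 = 0 ∧ dg σ c ∈ U3.cj (uni3 σ x0 y0) H := by
  have hc' : 1 + σ c ^ 2 / c ≠ 0 := by grind
  obtain ⟨y0, hy0⟩ := hσ.exists_trace_eq (hσ.norm_fixed (x / (1 + σ c ^ 2 / c)))
  have hv : y0 + σ y0 + x / (1 + σ c ^ 2 / c) * σ (x / (1 + σ c ^ 2 / c)) = 0 := by grind
  refine ⟨_, y0, hv, ?_⟩
  obtain ⟨y', e⟩ : ∃ y', uni3 σ (x / (1 + σ c ^ 2 / c)) y0 * dg σ c *
      (uni3 σ (x / (1 + σ c ^ 2 / c)) y0)⁻¹ * (dg σ c)⁻¹ = uni3 σ x y' := by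
    rw [mul_assoc (uni3 σ _ y0), mul_assoc (uni3 σ _ y0), u_inv, dg_conj_u hσ, u_mul]
    rw [show x / (1 + σ c ^ 2 / c) + σ c ^ 2 / c * (x / (1 + σ c ^ 2 / c)) = x by
      rw [← one_add_mul, mul_div_cancel₀ _ hc']]
    exact ⟨_, rfl⟩
  have hv' := uni3_mem_sisom hσ hv
  have hy' : y' + σ y' + x * σ x = 0 := valid_of_mem hσ (e ▸ mul_mem (mul_mem (mul_mem hv'
    (U3.dg_mem hσ c)) (inv_mem hv')) (inv_mem (U3.dg_mem hσ c)))
  rw [mem_cj, mul_inv_eq_iff_eq_mul.1 e]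
  have := mul_mem (h (y' + y) (by rw [map_add]; grind)) hs
  rw [← mul_assoc, u_mul] at this
  convert this using 3 <;> grind

lemma w_dg_w_mem [Finite F] (hσ : IsInvol σ) {c : Fˣ} (hc : dg σ c ∈ H) :
    (weyl3 F)⁻¹ * dg σ c * weyl3 F ∈ H := by
  have := Fintype.ofFinite F
  obtain ⟨q, -, hq⟩ := hσ.exists_q
  rw [w_inv, w_dg_w hσ, ← dg_inv, show Units.map σ.toMonoidHom c = c ^ q from
    Units.ext (by simp [hq]), ← dg_pow]
  exact inv_mem (pow_mem hc q)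

omit [CharP F 2] in
lemma cj_B (hB : ∀ g ∈ H, FixL g ![1, 0, 0]) (x y : F) :
    ∀ g ∈ cj (uni3 σ x y) H, FixL g ![1, 0, 0] := fun g hg => by
  have h1 : FixL ((uni3 σ x y)⁻¹⁻¹ * g * (uni3 σ x y)⁻¹) ![1, 0, 0] := hB _ (mem_cj.1 hg)
  have h2 := h1.of_conj
  rwa [show (uni3 σ x y)⁻¹ ![1, 0, 0] = ![1, 0, 0] by
    rw [LinearEquiv.coe_inv, LinearEquiv.symm_apply_eq, uni3_vec]; simp] at h2

lemma BinP.norm_dg [Finite F] (hσ : IsInvol σ) (hH : BinP σ H) (h : HasZ σ H)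
    (hB : ∀ g ∈ H, FixL g ![1, 0, 0]) {c : Fˣ} (hc : dg σ c ∈ H) : c * σ c = 1 := by
  by_contra hN
  have hc' := σ_ne (σ := σ) c
  have hc0 := c.ne_zero
  set y := (c * σ c + 1) / (c * σ c) with hy
  have hy' : σ y = y := by
    rw [hy, map_div₀, map_add, hσ.norm_fixed, map_one]
  have g1 : uni3 σ 0 1 ∈ sisom (hyp3 σ) := uni3_mem_sisom hσ (fix_iff.2 (map_one _))
  have g2 : uni3 σ 0 y ∈ sisom (hyp3 σ) := uni3_mem_sisom hσ (fix_iff.2 hy')
  have h1 := h 1 (map_one _)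
  obtain ⟨f, f0, f1, f2, f3⟩ := hH.four 1 (one_mem _) _ weyl3_mem_sisom
    _ (mul_mem g1 weyl3_mem_sisom) _ (mul_mem g2 weyl3_mem_sisom) (dg σ c)
    (uni3 σ 0 1 * dg σ (c * c) * (uni3 σ 0 1)⁻¹) (by simpa using hc) (w_dg_w_mem hσ hc)
    (by
      convert w_dg_w_mem hσ (c := c * c) (by rw [← dg_mul]; exact mul_mem hc hc) using 1
      group)
    (by
      convert w_dg_w_mem hσ hc using 1
      have e : (uni3 σ 0 y)⁻¹ * ((dg σ c)⁻¹ * (uni3 σ 0 1 * dg σ (c * c) * (uni3 σ 0 1)⁻¹)) *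
          uni3 σ 0 y = dg σ c := ext3 fun a b d => by
        simp only [LinearEquiv.mul_apply, dg_inv, u_inv, u_vec, dg_vec, vec3_inj, map_zero,
          Units.val_inv_eq_inv_val, Units.val_mul, map_mul, map_inv₀, hy]
        refine ⟨?_, ?_, ?_⟩ <;> field_simp <;> grind only
      nth_rewrite 2 [← e]; group)
  rw [inv_one, one_mul, mul_one] at f0
  obtain ⟨α, a0⟩ := hB _ f0
  obtain ⟨β, a1⟩ := (hB _ f1).of_conj
  obtain ⟨γ, a2⟩ := (hB _ f2).of_conj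
  obtain ⟨δ, a3⟩ := (hB _ f3).of_conj
  simp only [LinearEquiv.mul_apply, w_vec, u_vec, mul_zero, mul_one, add_zero, zero_add] at a1 a2 a3
  have e : ∀ a : F, f ![a, 0, 1] = ![a * α, 0, β] := fun a => by
    rw [show (![a, 0, 1] : Fin 3 → F) = a • ![1, 0, 0] + ![0, 0, 1] by
      ext i; fin_cases i <;> simp, map_add, map_smul, a0, a1]
    ext i; fin_cases i <;> simp
  have hβ : β ≠ 0 := by
    rintro rfl
    rw [zero_smul, f.map_eq_zero_iff] at a1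
    simpa using congrFun a1 2
  rw [e] at a2 a3
  simp only [dg_inv, dg_vec, smul_vec3, vec3_inj, Units.val_inv_eq_inv_val, map_inv₀, hy] at a2 a3
  grind

lemma BinP.cube_dg [Finite F] (hσ : IsInvol σ) (hH : BinP σ H)
    (hB : ∀ g ∈ H, FixL g ![1, 0, 0]) {c : Fˣ} (hc : dg σ c ∈ H) (hN : c * σ c = 1) :
    (c : F) ^ 3 = 1 := by
  have hc0 := c.ne_zero
  have hc' : σ c = (c : F)⁻¹ := eq_inv_of_mul_eq_one_right hN
  obtain ⟨y, hy⟩ := hσ.exists_trace_eq (map_one σ)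
  have hy' : σ y = y + 1 := by grind
  have hy0 : y ≠ 0 := by rintro rfl; simp at hy
  have g1 : uni3 σ 1 y ∈ sisom (hyp3 σ) := uni3_mem_sisom hσ (by rw [map_one]; grind)
  have g2 : uni3 σ 1 (y + 1) ∈ sisom (hyp3 σ) :=
    uni3_mem_sisom hσ (by rw [map_add, map_one]; grind)
  obtain ⟨f, f0, f1, f2, f3⟩ := hH.four 1 (one_mem _) _ weyl3_mem_sisom
    _ (mul_mem (mul_mem g1 weyl3_mem_sisom) g1) _ (mul_mem (mul_mem g2 weyl3_mem_sisom) g1)
    (dg σ c)⁻¹ (uni3 σ 1 y * weyl3 F * uni3 σ 1 y * dg σ c *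
      (uni3 σ 1 y * weyl3 F * uni3 σ 1 y)⁻¹) (by simpa using hc)
    (by simpa [mul_assoc] using inv_mem (w_dg_w_mem hσ hc))
    (by simpa [mul_assoc] using hc)
    (by
      convert inv_mem hc using 1
      refine ext3 fun a b d => ?_
      simp only [mul_inv_rev, inv_inv, LinearEquiv.mul_apply, dg_inv, u_inv, w_inv, u_vec, w_vec,
        dg_vec, vec3_inj, Units.val_inv_eq_inv_val, map_inv₀, hc', map_one]
      grind)
  rw [inv_one, one_mul, mul_one] at f0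
  obtain ⟨x', y', k, -, rfl⟩ := exists_u_dg hσ (hH.le f0) (hB _ f0)
  obtain ⟨β, a1⟩ := (hB _ f1).of_conj
  obtain ⟨γ, a2⟩ := (hB _ f2).of_conj
  obtain ⟨δ, a3⟩ := (hB _ f3).of_conj
  have hk := σ_ne (σ := σ) k
  have hk0 := k.ne_zero
  simp only [LinearEquiv.mul_apply, w_vec, u_vec, dg_vec, inv_inv, smul_vec3, vec3_inj, hc',
    map_one] at a1 a2 a3
  grind

lemma exists_norm_one (hσ : IsInvol σ) (hb : ∃ b, σ b = b ∧ b ≠ 0 ∧ b ≠ 1) :
    ∃ c : F, c * σ c = 1 ∧ c ^ 3 ≠ 1 := by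
  obtain ⟨b, hb, hb0, hb1⟩ := hb
  obtain ⟨z, hz⟩ := hσ.ne_id
  by_contra! hcon
  have key : ∀ a, σ a = a → z ^ 2 + z * σ z + σ z ^ 2 + a * (z + σ z) + a ^ 2 = 0 := fun a ha => by
    have h1 : z + a ≠ 0 := fun h => hz (by
      have : z = a := by grind
      rw [this, ha])
    have h2 : σ z + a ≠ 0 := by rw [← ha, ← map_add]; exact (map_ne_zero σ).2 h1
    have := hcon ((z + a) / (σ z + a)) (by
      rw [map_div₀, map_add, map_add, hσ.invol, ha]; field_simp)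
    grind
  have := key 0 (map_zero _)
  have := key 1 (map_one _)
  have := key b hb
  grind

lemma BinP.x_eq_zero (hσ : IsInvol σ) (hb : ∃ b, σ b = b ∧ b ≠ 0 ∧ b ≠ 1) (hH : BinP σ H)
    (h : HasZ σ H) (hS : ∀ g ∈ H, ∃ (x y : F) (c : Fˣ), g = uni3 σ x y * dg σ c ∧
      σ c = (c : F) ^ 2 ∧ (c : F) ^ 3 = 1) {x y : F} (hu : uni3 σ x y ∈ H) : x = 0 := by
  by_contra hx
  have hB : ∀ g ∈ H, FixL g ![1, 0, 0] := fun g hg => by
    obtain ⟨x, y, c, rfl, -⟩ := hS g hg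
    exact ⟨c, by simp [dg_vec, u_vec]⟩
  have hxy := valid_of_mem hσ (hH.le hu)
  have hx' : σ x ≠ 0 := (map_ne_zero σ).2 hx
  have hy : y ≠ 0 := by rintro rfl; grind
  have hy' : σ y ≠ 0 := (map_ne_zero σ).2 hy
  obtain ⟨c, hc, hc3⟩ := exists_norm_one hσ hb
  have hc0 : c ≠ 0 := by rintro rfl; simp at hc
  have hc' : σ c = c⁻¹ := eq_inv_of_mul_eq_one_right hc
  have hT : c ^ 3 + σ (c ^ 3) ≠ 0 := by rw [map_pow, hc']; grind
  obtain ⟨ρ, hρ, hρ0, hρ1⟩ : ∃ ρ : F, σ ρ = ρ ∧ ρ ≠ 0 ∧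
      ρ * (c ^ 3 + σ (c ^ 3)) * (x * σ x) = y * σ y := by
    refine ⟨y * σ y / (x * σ x) / (c ^ 3 + σ (c ^ 3)), ?_,
      div_ne_zero (div_ne_zero (mul_ne_zero hy hy') (mul_ne_zero hx hx')) hT, by field_simp⟩
    rw [map_div₀, map_div₀, hσ.norm_fixed, hσ.norm_fixed, hσ.trace_fixed]
  rw [map_pow, hc'] at hρ1
  field_simp at hρ1
  have key : ∀ (k : Fˣ) (y' : F), uni3 σ (σ k ^ 2 / k * x) y' ∈ sisom (hyp3 σ) →
      (dg σ k)⁻¹ * uni3 σ (σ k ^ 2 / k * x) y' * dg σ k ∈ H := fun k y' hy' => by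
    have hk := σ_ne (σ := σ) k
    have e := dg_conj_u hσ k x (y' / (k * σ k))
    rw [mul_div_cancel₀ _ (mul_ne_zero k.ne_zero hk)] at e
    have e2 : (dg σ k)⁻¹ * uni3 σ (σ k ^ 2 / k * x) y' * dg σ k = uni3 σ x (y' / (k * σ k)) := by
      rw [← e]; group
    rw [e2]
    exact h.u_mem hxy (valid_of_mem hσ (e2 ▸ mul_mem (mul_mem (inv_mem (dg_mem hσ k)) hy')
      (dg_mem hσ k))) hu
  set k1 : Fˣ := Units.mk0 (c / ρ) (div_ne_zero hc0 hρ0) with hk1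
  set k3 : Fˣ := Units.mk0 (c⁻¹ / ρ) (div_ne_zero (inv_ne_zero hc0) hρ0) with hk3
  have e1 : σ k1 ^ 2 / k1 * x = x / (ρ * c ^ 3) := by
    simp only [hk1, Units.val_mk0, map_div₀, hc', hρ]; field_simp
  have e3 : σ k3 ^ 2 / k3 * x = c ^ 3 / ρ * x := by
    simp only [hk3, Units.val_mk0, map_div₀, map_inv₀, hc', hρ]; field_simp
  have g1 : uni3 σ (x / (ρ * c ^ 3)) (σ y / ρ ^ 2) ∈ sisom (hyp3 σ) := uni3_mem_sisom hσ (by
    simp only [map_div₀, map_mul, map_pow, hc', hρ, hσ.invol]; field_simp; grind only)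
  have g3 : uni3 σ (c ^ 3 / ρ * x) (σ y / ρ ^ 2) ∈ sisom (hyp3 σ) := uni3_mem_sisom hσ (by
    simp only [map_div₀, map_mul, map_pow, hc', hρ, hσ.invol]; field_simp; grind only)
  have g0 : uni3 σ (y / σ x) (ρ * c ^ 3) ∈ sisom (hyp3 σ) := uni3_mem_sisom hσ (by
    simp only [map_div₀, map_mul, map_pow, hc', hρ, hσ.invol]; field_simp
    linear_combination hρ1 + c ^ 3 * y * σ y * (CharTwo.two_eq_zero (R := F)))
  have a1 := inv_mem (key k1 _ (e1 ▸ g1))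
  have a3 := key k3 _ (e3 ▸ g3)
  rw [e1] at a1
  rw [e3] at a3
  obtain ⟨f, -, f1, f2, f3⟩ := hH.four _ (mul_mem weyl3_mem_sisom (dg_mem hσ k1))
    _ (mul_mem weyl3_mem_sisom (dg_mem hσ k1))
    1 (one_mem _) _ (mul_mem (mul_mem g0 weyl3_mem_sisom) (dg_mem hσ k3))
    (weyl3 F * uni3 σ (x / (ρ * c ^ 3)) (σ y / ρ ^ 2) * (weyl3 F)⁻¹)⁻¹ (uni3 σ x y)
    (by convert a1 using 1; group) (by convert a1 using 1; group) (by simpa using hu) (by
      have e : (uni3 σ (y / σ x) (ρ * c ^ 3) * weyl3 F)⁻¹ *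
          (weyl3 F * uni3 σ (x / (ρ * c ^ 3)) (σ y / ρ ^ 2) * (weyl3 F)⁻¹ * uni3 σ x y) *
          (uni3 σ (y / σ x) (ρ * c ^ 3) * weyl3 F) = uni3 σ (c ^ 3 / ρ * x) (σ y / ρ ^ 2) := by
        refine ext3 fun a b d => ?_
        simp only [mul_inv_rev, LinearEquiv.mul_apply, u_inv, w_inv, u_vec, w_vec,
          vec3_inj, map_div₀, map_mul, map_pow, hc', hρ, hσ.invol]
        clear key hS hB hb a1 a3 e1 e3 g0 g1 g3 hk1 hk3 k1 k3 hT hc3 hc hc'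
        refine ⟨?_, ?_, ?_⟩ <;> field_simp <;> clear hx hx' hy hy' hc0 hρ0 <;> grind only
      convert a3 using 1
      rw [← e]; group)
  rw [inv_one, one_mul, mul_one] at f2
  obtain ⟨x', y', k, rfl, hk, hk'⟩ := hS _ f2
  obtain ⟨β, b1⟩ := (hB _ f1).of_conj
  obtain ⟨δ, b3⟩ := (hB _ f3).of_conj
  have hk0 := k.ne_zero
  have := σ_ne (σ := σ) k1
  have := k1.ne_zero
  have := k3.ne_zero
  simp only [LinearEquiv.mul_apply, w_vec, u_vec, dg_vec, inv_inv, w_inv, smul_vec3, vec3_inj,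
    hk] at b1 b3
  have hx0 : x' = 0 := by simpa using b1.2.1
  have hy0 : y' = 0 := by simpa using b1.1
  subst hx0 hy0
  obtain ⟨b3, b4, -⟩ := b3
  simp only [map_zero, mul_zero, zero_mul, add_zero, zero_add, mul_one] at b3 b4
  have hδ : δ = k := (mul_right_cancel₀ (by simp [hρ0, hc0]) b3).symm
  rw [hδ] at b4
  field_simp at b4
  exact hx (by simpa [hx'] using b4)

theorem BinP.sq_scalar [Finite F] (hσ : IsInvol σ) (hb : ∃ b, σ b = b ∧ b ≠ 0 ∧ b ≠ 1)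
    (hH : BinP σ H) (hne : ¬ sisom (hyp3 σ) ≤ H) (h : HasZ σ H) {g : A F} (hg : g ∈ H) :
    ∃ c : F, ∀ v, (g * g) v = c • v := by
  have hB : ∀ g ∈ H, FixL g ![1, 0, 0] := fun g hg => hH.le_B hσ hb hne h hg
  have hS : ∀ g ∈ H, ∃ (x y : F) (c : Fˣ), g = uni3 σ x y * dg σ c ∧
      σ c = (c : F) ^ 2 ∧ (c : F) ^ 3 = 1 := fun g hg => by
    obtain ⟨x, y, c, hxy, rfl⟩ := exists_u_dg hσ (hH.le hg) (hB g hg)
    refine ⟨x, y, c, rfl, ?_⟩
    have hc0 := c.ne_zero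
    by_cases hc : σ c ^ 2 / c = 1
    · have h1 : σ c ^ 2 = c := (div_eq_one_iff_eq hc0).1 hc
      have h2 := congrArg σ h1
      rw [map_pow, hσ.invol] at h2
      refine ⟨h2.symm, ?_⟩
      rw [← h2] at h1
      exact mul_left_cancel₀ hc0 (by linear_combination h1)
    · obtain ⟨x0, y0, hv, hc'⟩ := h.exists_cj_dg hσ hxy hg hc
      have hH' := hH.cj (uni3_mem_sisom hσ hv)
      have h1 := hH'.norm_dg hσ (h.cj x0 y0) (cj_B hB x0 y0) hc'
      have h2 := hH'.cube_dg hσ (cj_B hB x0 y0) hc' h1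
      exact ⟨mul_left_cancel₀ hc0 (by linear_combination h1 - h2), h2⟩
  have hd : ∀ c : Fˣ, σ c = (c : F) ^ 2 → (c : F) ^ 3 = 1 → ∀ v, dg σ c v = (c : F) • v :=
    fun c h1 h2 v => by
      have hc0 := c.ne_zero
      rw [vec3_eta v, dg_vec, smul_vec3, vec3_inj, h1]
      refine ⟨rfl, by field_simp, ?_⟩
      rw [inv_eq_of_mul_eq_one_right (b := (c : F)) (by linear_combination h2)]
  obtain ⟨x, y, c, rfl, h1, h2⟩ := hS g hg
  have hxy := valid_of_mem hσ (x := x) (y := y) (by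
    simpa using mul_mem (hH.le hg) (inv_mem (dg_mem hσ c)))
  have h3 : (uni3 σ x y * dg σ c) ^ 3 = uni3 σ x y ^ 3 := LinearEquiv.ext fun v => by
    simp only [pow_three, LinearEquiv.mul_apply, hd c h1 h2, map_smul, smul_smul]
    rw [← pow_three', h2, one_smul]
  have h4 := pow_mem hg 3
  rw [h3, pow_three, u_mul, u_mul, CharTwo.add_self_eq_zero, add_zero] at h4
  have hx := hH.x_eq_zero hσ hb h hS h4
  subst hx
  refine ⟨c * c, fun v => ?_⟩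
  simp only [LinearEquiv.mul_apply, hd c h1 h2, map_smul, smul_smul]
  rw [← LinearEquiv.mul_apply, u_mul, CharTwo.add_self_eq_zero, CharTwo.add_self_eq_zero,
    mul_zero, add_zero, uni3_zero]
  rfl

lemma exists_conj_invol [Finite F] (hσ : IsInvol σ) {g : A F} (hg : g ∈ sisom (hyp3 σ))
    (h1 : g ≠ 1) (h2 : g * g = 1) : ∃ k ∈ sisom (hyp3 σ), g = k * uni3 σ 0 1 * k⁻¹ := by
  obtain ⟨x, hx⟩ : ∃ x, g x ≠ x := by
    by_contra! h
    exact h1 (LinearEquiv.ext h)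
  have hgg : g (g x) = x := by rw [← LinearEquiv.mul_apply, h2]; rfl
  have hv : g (g x - x) = g x - x := by
    rw [map_sub, hgg]
    ext i
    simp only [Pi.sub_apply, CharTwo.sub_eq_add, add_comm]
  obtain ⟨k, hk, e⟩ := exists_map_e0 hσ (K := sisom (hyp3 σ)) weyl3_mem_sisom
    (fun x y h => uni3_mem_sisom hσ h) (v := g x - x) (by
      have e1 := hg.1 x x
      have e2 := hg.1 (g x) x
      rw [hgg] at e2
      simp only [map_sub, LinearMap.sub_apply, e1, e2]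
      grind) (sub_ne_zero.2 hx)
  obtain ⟨a, y, hay, e'⟩ := exists_uni3_of_fix hσ (mul_mem (mul_mem (inv_mem hk) hg) hk) (by
    rw [LinearEquiv.mul_apply, LinearEquiv.mul_apply, e, hv, ← e]; simp)
  have e2 : uni3 σ a y * uni3 σ a y = 1 := by
    rw [← e']
    calc _ = k⁻¹ * (g * g) * k := by group
      _ = 1 := by rw [h2]; group
  have ha : a = 0 := by
    have := congrArg (fun f : A F => f ![0, 0, 1] 0) e2
    simp only [u_mul, u_vec, CharTwo.add_self_eq_zero] at this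
    simpa using this
  subst ha
  have hy : y ≠ 0 := by
    rintro rfl
    rw [uni3_zero] at e'
    exact h1 (by
      calc g = k * (k⁻¹ * g * k) * k⁻¹ := by group
        _ = 1 := by rw [e']; group)
  obtain ⟨c, hc⟩ := hσ.exists_norm_eq (fix_iff.1 hay)
  have hc0 : c ≠ 0 := by rintro rfl; exact hy (by simpa using hc.symm)
  refine ⟨k * dg σ (Units.mk0 c hc0), mul_mem hk (dg_mem hσ _), ?_⟩
  have e3 := dg_conj_u hσ (Units.mk0 c hc0) 0 1
  rw [mul_zero, mul_one, Units.val_mk0, hc, ← e'] at e3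
  calc g = k * (k⁻¹ * g * k) * k⁻¹ := by group
    _ = _ := by rw [← e3]; group

end Cfsg.Agent.H94.U3
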