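import Cfsg.Agent.H50.E72Defs

/-!
# The alternating group of degree 13 fixes a vector in the module of dimension 56
-/

set_option autoImplicit false

namespace Cfsg.Agent.H94.E72A13

open Cfsg.Agent.H50.E72 Module Multiplicative

theorem act_mul {n : Type} [Fintype n] [DecidableEq n] (π : G0 →* Matrix n n (ZMod 2)) (a b : G0)
    (v : n → K) : act π (a * b) v = act π a (act π b v) := by rw [map_mul]; rfl

theorem a13b (fr : FrobStmt) : A13bStmt := by
  intro π x y s g h h4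
  generalize hc : x (ofAdd ![1, 0, 0, 0]) = c at h4 ⊢
  generalize hd : x (ofAdd ![0, 1, 0, 0]) = d at h4 ⊢
  have mW : ∀ v, v ∈ Fix π {c, d} ↔ act π c v = v ∧ act π d v = v := fun v => by simp [mem_Fix]
  have cm : ∀ k, Commute k c → Commute k d → ∀ v ∈ Fix π {c, d}, act π k v ∈ Fix π {c, d} :=
    fun k k1 k2 v hv => by
      rw [mW] at hv ⊢
      rw [← act_mul, ← act_mul, ← k1.eq, ← k2.eq, act_mul, act_mul, hv.1, hv.2]
      exact ⟨rfl, rfl⟩
  have hy := cm y (hc ▸ h.y1) (hd ▸ h.y2)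
  have p2 : ∀ η, Fix π {c, d} ⊓ eig π y η ≠ ⊥ → Fix π {c, d} ⊓ eig π y (η ^ 2) ≠ ⊥ := fun η => by
    have e : ∀ η : Fin 3 → K, η 0 = 1 → η 1 = 1 →
        ⨅ i, eig π (![c, d, y] i) (η i) = Fix π {c, d} ⊓ eig π y (η 2) := fun η e0 e1 => by
      ext v
      simp [mW, Fin.forall_fin_succ, mem_eig, e0, e1, and_assoc]
    have := fr _ π _ ![c, d, y] ![1, 1, η]
    rw [e _ rfl rfl, e (fun i => ![1, 1, η] i ^ 2) (one_pow 2) (one_pow 2)] at this
    rw [Ne, Ne, ← Submodule.finrank_eq_zero, ← Submodule.finrank_eq_zero]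
    exact fun k k' => k (this.trans k')
  have p6 : ∀ η, Fix π {c, d} ⊓ eig π y η ≠ ⊥ → Fix π {c, d} ⊓ eig π y (η ^ 6) ≠ ⊥ := fun η k => by
    obtain ⟨v, ⟨h1, h2⟩, v0⟩ := Submodule.exists_mem_ne_zero_of_ne_bot k
    have e1 : c * s = s * d := by rw [← hc, ← hd, ← h.s2]; group
    have e2 : d * s = s * c := by rw [← hc, ← hd, ← h.s1]; group
    have e3 : y * s = s * y ^ 6 := by
      rw [eq_inv_of_mul_eq_one_left ((pow_succ y 6).symm.trans h.y7)]
      calc y * s = (s * y * s⁻¹)⁻¹ * s := by rw [h.sy, inv_inv]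
        _ = _ := by group
    refine (Submodule.ne_bot_iff _).2 ⟨act π s v, ⟨(mW _).2 ?_, (mem_eig π).2 ?_⟩, fun k => v0 ?_⟩
    · rw [← act_mul, ← act_mul, e1, e2, act_mul, act_mul, ((mW v).1 h1).1, ((mW v).1 h1).2]
      exact ⟨rfl, rfl⟩
    · rw [← act_mul, e3, act_mul, map_pow, Module.End.HasEigenvector.pow_apply ⟨h2, v0⟩, map_smul]
    · have := congrArg (act π s⁻¹) k
      rwa [← act_mul, inv_mul_cancel, map_one, map_zero] at this
  have y1 : ∀ v ∈ Fix π {c, d}, act π y v = v := by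
    by_contra! k
    obtain ⟨v, hv, k⟩ := k
    have iv : ∀ u ∈ (Fix π {c, d}).map (act π y - 1), act π y u ∈ (Fix π {c, d}).map (act π y - 1) := by
      rintro _ ⟨u, hu, rfl⟩
      exact ⟨_, hy u hu, by simp⟩
    have : Nontrivial ((Fix π {c, d}).map (act π y - 1)) := Submodule.nontrivial_iff_ne_bot.2
      ((Submodule.ne_bot_iff _).2 ⟨_, ⟨v, hv, rfl⟩, sub_ne_zero.2 k⟩)
    obtain ⟨η, hη⟩ := Module.End.exists_eigenvalue ((act π y).restrict iv)
    obtain ⟨⟨_, u, hu, rfl⟩, e⟩ := hη.exists_hasEigenvector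
    have u1 : (act π y).HasEigenvector η ((act π y - 1) u) :=
      ⟨(mem_eig π).2 (congrArg Subtype.val e.apply_eq_smul), fun k => e.2 (Subtype.ext k)⟩
    have e1 : ∑ i ∈ Finset.range 7, η ^ i = 0 := by
      have := congrArg (fun f => f u) (geom_sum_mul (act π y) 7)
      simp only [← map_pow, h.y7, map_one, sub_self, Module.End.mul_apply, LinearMap.sum_apply,
        LinearMap.zero_apply] at this
      simp only [map_pow, u1.pow_apply, ← Finset.sum_smul] at this
      exact (smul_eq_zero.1 this).resolve_right u1.2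
    have e7 : η ^ 7 = 1 := by rw [← sub_eq_zero, ← geom_sum_mul, e1, zero_mul]
    have o7 : orderOf η = 7 := by
      have : Fact (Nat.Prime 7) := ⟨by norm_num⟩
      refine orderOf_eq_prime e7 ?_
      rintro rfl
      simp only [one_pow, Finset.sum_const, Finset.card_range, nsmul_one] at e1
      exact absurd ((CharP.cast_eq_zero_iff K 2 7).1 e1) (by norm_num)
    have q1 : Fix π {c, d} ⊓ eig π y η ≠ ⊥ :=
      (Submodule.ne_bot_iff _).2 ⟨_, ⟨sub_mem (hy u hu) hu, u1.1⟩, u1.2⟩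
    have q : ∀ i : Fin 5, Fix π {c, d} ⊓ eig π y (η ^ (i.val + 1)) ≠ ⊥ := fun i => by
      fin_cases i
      · simpa using q1
      · exact p2 _ q1
      · exact (show ((η ^ 2) ^ 2) ^ 6 = η ^ 3 by
          rw [show ((η ^ 2) ^ 2) ^ 6 = (η ^ 7) ^ 3 * η ^ 3 by ring, e7]; ring) ▸ p6 _ (p2 _ (p2 _ q1))
      · exact (show (η ^ 2) ^ 2 = η ^ 4 by ring) ▸ p2 _ (p2 _ q1)
      · exact (show (η ^ 2) ^ 6 = η ^ 5 by
          rw [show (η ^ 2) ^ 6 = η ^ 7 * η ^ 5 by ring, e7]; ring) ▸ p6 _ (p2 _ q1)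
    choose w hw w0 using fun i => Submodule.exists_mem_ne_zero_of_ne_bot (q i)
    have li := Module.End.eigenvectors_linearIndependent' (act π y) (fun i : Fin 5 => η ^ (i.val + 1))
      (fun i j e => Fin.ext (by
        have := pow_injOn_Iio_orderOf (x := η) (show i.val + 1 < _ by omega)
          (show j.val + 1 < _ by omega) e
        omega)) w fun i => ⟨(hw i).2, w0 i⟩
    have := (LinearIndependent.of_comp (v := fun i => (⟨w i, (hw i).1⟩ : Fix π {c, d}))
      (Fix π {c, d}).subtype li).fintype_card_le_finrank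
    rw [h4] at this
    simp at this
  obtain ⟨j, e⟩ := h.c3
  intro v hv
  have k : ∀ v ∈ Fix π {c, d}, act π (y ^ j) v = v := fun v hv => by
    clear e
    induction j with
    | zero => simp
    | succ j ih => rw [pow_succ, act_mul, y1 v hv, ih]
  rw [mem_eig, one_smul, e, act_mul, act_mul, act_mul,
    k _ (cm _ (hc ▸ h.g1).inv_left (hd ▸ h.g2).inv_left v hv), ← act_mul π g, mul_inv_cancel, map_one]
  exact y1 v hv

theorem a13 (ha : A13aStmt) (hb : A13bStmt) (e1 : EmbA1Stmt) (e2 : EmbA2Stmt) (sc : ScottStmt)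
    (p13 : P13Stmt) (kit : KitStmt) : A13Stmt := by
  intro π hπ φ inj
  obtain ⟨x, y, s, g, h, x4, x2⟩ := e1
  obtain ⟨a, a1, a2, a3⟩ := e2 _ x4
  have h' : CA (φ.comp x) (φ y) (φ s) (φ g) :=
    ⟨inj.comp h.inj, fun e e' k => φ.map_isConj (h.cls e e' k), by rw [← map_pow, h.y7, map_one],
      h.y1.map φ, h.y2.map φ, h.g1.map φ, h.g2.map φ, by simpa using congrArg φ h.s1,
      by simpa using congrArg φ h.s2, by simpa using congrArg φ h.sy,
      h.c3.imp fun j k => by simpa using congrArg φ k⟩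
  rcases ha π hπ _ h'.inj h'.cls with k | ⟨k, k'⟩
  · have c : IsConj a (x (ofAdd ![1, 1, 0, 0])) :=
      alternatingGroup.isConj_of (Equiv.Perm.isConj_iff_cycleType_eq.2 (a1.trans x2.symm))
        (by rw [← Equiv.Perm.sum_cycleType, a1]; simp)
    have c1 : fx π (φ a) = fx π (φ.comp x (ofAdd ![1, 1, 0, 0])) :=
      (kit _ π).1 _ _ 1 (φ.map_isConj c)
    have e0 : Fix π ∅ = ⊤ := eq_top_iff.2 fun v _ => (mem_Fix π).2 fun _ k => k.elim
    obtain ⟨m, hm⟩ := p13 _ π ∅ (φ a * φ.comp x (ofAdd ![1, 1, 1, 1]))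
      (by simpa using congrArg φ a2) fun _ _ => e0 ▸ Submodule.mem_top
    rw [e0, top_inf_eq, finrank_top, Module.finrank_fin_fun] at hm
    obtain ⟨v, v0, hv⟩ := sc π hπ (φ a) (φ.comp x (ofAdd ![1, 1, 1, 1])) (by
      change 56 = fx π _ + _ at hm
      omega)
    refine ⟨v, v0, ?_⟩
    rintro _ ⟨t, rfl⟩
    have : t ∈ Subgroup.closure {a, x (ofAdd ![1, 1, 1, 1])} := a3 ▸ Subgroup.mem_top t
    induction this using Subgroup.closure_induction with
    | mem t ht => exact hv _ (ht.imp (congrArg φ) (congrArg φ))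
    | one => simp
    | mul t u _ _ i j => rw [map_mul, act_mul, j, i]
    | inv t _ i => rw [← i, ← act_mul, ← map_mul, inv_mul_cancel, i]; simp
  · refine absurd k' (not_lt.2 (k.ge.trans (Submodule.finrank_mono fun v hv => (mem_Fix π).2 ?_)))
    rintro t (rfl | rfl | rfl)
    · exact (mem_Fix π).1 hv _ (.inl rfl)
    · exact (mem_Fix π).1 hv _ (.inr rfl)
    · simpa using (mem_eig π).1 (hb π _ _ _ _ h' k hv)

end Cfsg.Agent.H94.E72A13
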