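import Cfsg.Agent.H6.E82Defs

/-! Project E82, piece TAU: the invariant form. -/

set_option autoImplicit false

namespace Cfsg.Agent.H94.E82Tau

open Equiv Cfsg.Lie H37 H40 H34 H29 Module H82 H50.SL2S Finset Cfsg.Agent.H6.E82
open scoped Matrix MatrixGroups

theorem kap_symm (rf : RfStmt) (a b : V) : kap a b = kap b a := by
  rw [kap_apply, kap_apply]
  refine congrArg₂ (· + ·) ?_ ?_
  · refine Fintype.sum_bijective _ C8.R.neg_involutive.bijective _ _ fun r => ?_
    rw [show ng (ng r) = r from C8.R.neg_neg r, mul_comm]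
  · rw [sum_comm]
    refine sum_congr rfl fun i _ => sum_congr rfl fun j _ => ?_
    rw [rf.2.2.2.2.1 j i, mul_comm (a _)]

theorem kap_ee (c : BrcStmt) (r : Rt) (b : V) : kap (ee r) b = b (Sum.inr (ng r)) := by
  rw [kap_apply]
  simp only [c.2.2.2.2.1, c.2.2.2.2.2.1, zero_mul, sum_const_zero, add_zero, ite_mul, one_mul,
    sum_ite_eq', mem_univ, if_true]

theorem ind (c : BrcStmt) (P : V → Prop) (h0 : ∀ h ∈ Cart, P h) (h1 : ∀ r, P (ee r))
    (ha : ∀ a b, P a → P b → P (a + b)) (hs : ∀ (k : K) a, P a → P (k • a)) (v : V) : P v := by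
  obtain ⟨h, hh, -, e⟩ := c.2.2.2.2.2.2.2.2.2.1 v
  rw [e]
  refine ha _ _ (h0 h hh) (sum_induction _ P ha (h0 0 Cart.zero_mem) fun r _ => hs _ _ (h1 r))

/-- the trilinear form -/
noncomputable def S (a b d : V) : K := kap (br a b) d

def Tr (r s t : Rt) : Prop := C8.R.rc r + C8.R.rc s + C8.R.rc t = 0

theorem tr_iff (rf : RfStmt) (r s t : Rt) :
    Tr r s t ↔ pr r s = -1 ∧ ng (C8.R.τ r s) = t := by
  constructor
  · intro h
    have e : C8.R.rc (ng t) = C8.R.rc r + C8.R.rc s := by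
      rw [C8.R.rc_neg]; exact (eq_neg_of_add_eq_zero_left h).symm
    have p := rf.2.2.2.2.2.1 r s _ e
    refine ⟨p, C8.R.neg_eq_iff.2 (C8.R.rc_inj ?_)⟩
    rw [C8.R.rc_τ, show C8.R.pair r s = -1 from p, e, neg_one_smul, sub_neg_eq_add, add_comm]
  · rintro ⟨p, rfl⟩
    rw [Tr, C8.R.rc_neg, C8.R.rc_τ, show C8.R.pair r s = -1 from p, neg_one_smul, sub_neg_eq_add]
    abel

section
variable (rf : RfStmt) (b : BrbStmt) (c : BrcStmt)

include b in
theorem S_swap (x y d : V) : S x y d = S y x d := by rw [S, S, b.2.1]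

include b in
theorem S_hh {h h' : V} (hh : h ∈ Cart) (hh' : h' ∈ Cart) (d : V) : S h h' d = 0 := by
  rw [S, b.2.2.1 h hh h' hh', map_zero, LinearMap.zero_apply]

include b c in
theorem S_he {h : V} (hh : h ∈ Cart) (r : Rt) (d : V) :
    S h (ee r) d = ev r h * d (Sum.inr (ng r)) := by
  rw [S, b.2.2.2.1 h hh r, map_smul, LinearMap.smul_apply, kap_ee c, smul_eq_mul]

include rf b c in
theorem S_eeh {h : V} (hh : h ∈ Cart) (r s : Rt) :
    S (ee r) (ee s) h = if s = ng r then ev r h else 0 := by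
  split_ifs with e
  · rw [e, S, b.2.2.2.2.1, kap_symm rf, c.2.2.2.2.2.2.2.2.2.2.2.2.2.1]
  · rcases rf.1 r s with p | p | p
    · exact absurd p e
    · rw [S, b.2.2.2.2.2.1 r s p, kap_ee c, hh]
    · rw [S, b.2.2.2.2.2.2.1 r s p, map_zero, LinearMap.zero_apply]

open Classical in
include rf b c in
theorem S_eee (r s t : Rt) : S (ee r) (ee s) (ee t) = if Tr r s t then 1 else 0 := by
  rw [tr_iff rf]
  rcases rf.1 r s with p | p | p
  · have q : pr r s = -2 := by rw [p]; exact (C8.R.pair_neg_right r r).trans (by rw [C8.R.pair_self])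
    rw [if_neg (fun h => by omega), p, S, b.2.2.2.2.1, kap_symm rf,
      c.2.2.2.2.2.2.2.2.2.2.2.2.2.1, c.2.2.2.2.2.2.1]
  · rw [S, b.2.2.2.2.2.1 r s p, kap_ee c, c.2.2.2.2.1]
    simp only [p, true_and]
  · rw [if_neg (fun h => by omega), S, b.2.2.2.2.2.2.1 r s p, map_zero, LinearMap.zero_apply]

include b c in
theorem S_hee {h : V} (hh : h ∈ Cart) (r s : Rt) :
    S h (ee r) (ee s) = if s = ng r then ev r h else 0 := by
  rw [S_he b c hh, c.2.2.2.2.1]
  by_cases e : s = ng r
  · rw [if_pos e, if_pos e.symm, mul_one]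
  · rw [if_neg e, if_neg (Ne.symm e), mul_zero]

include c in
theorem ite_symm (h : V) (r s : Rt) :
    (if s = ng r then ev r h else 0) = if r = ng s then ev s h else 0 := by
  by_cases e : s = ng r
  · rw [if_pos e, e, if_pos (C8.R.neg_neg r).symm, c.2.2.2.2.2.2.2.1]
  · rw [if_neg e, if_neg]
    rintro rfl
    exact e (C8.R.neg_neg s).symm

include rf b c in
theorem S_cyc (x y z : V) : S x y z = S y z x := by
  have A1 : ∀ x x' y z, S (x + x') y z = S x y z + S x' y z := fun _ _ _ _ => by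
    simp only [S, map_add, LinearMap.add_apply]
  have A2 : ∀ x y y' z, S x (y + y') z = S x y z + S x y' z := fun _ _ _ _ => by
    simp only [S, map_add, LinearMap.add_apply]
  have A3 : ∀ x y z z', S x y (z + z') = S x y z + S x y z' := fun _ _ _ _ => by
    simp only [S, map_add]
  have M1 : ∀ (k : K) x y z, S (k • x) y z = k • S x y z := fun _ _ _ _ => by
    simp only [S, map_smul, LinearMap.smul_apply]
  have M2 : ∀ (k : K) x y z, S x (k • y) z = k • S x y z := fun _ _ _ _ => by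
    simp only [S, map_smul, LinearMap.smul_apply]
  have M3 : ∀ (k : K) x y z, S x y (k • z) = k • S x y z := fun _ _ _ _ => by
    simp only [S, map_smul]
  have iz : ∀ x y, (∀ h ∈ Cart, S x y h = S y h x) → (∀ r, S x y (ee r) = S y (ee r) x) →
      ∀ z, S x y z = S y z x := fun x y h0 h1 =>
    ind c (fun z => S x y z = S y z x) h0 h1 (fun _ _ p q => by rw [A3, A2, p, q])
      fun _ _ p => by rw [M3, M2, p]
  have iy : ∀ x, (∀ h ∈ Cart, ∀ z, S x h z = S h z x) → (∀ r z, S x (ee r) z = S (ee r) z x) →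
      ∀ y z, S x y z = S y z x := fun x h0 h1 =>
    ind c (fun y => ∀ z, S x y z = S y z x) h0 h1 (fun _ _ p q z => by rw [A2, A1, p, q])
      fun _ _ p z => by rw [M2, M1, p]
  revert x y z
  refine ind c (fun x => ∀ y z, S x y z = S y z x) (fun h hh => ?_) (fun r => ?_)
    (fun _ _ p q y z => by rw [A1, A3, p, q]) fun _ _ p y z => by rw [M1, M3, p]
  · refine iy h (fun h' hh' => iz _ _ (fun h'' hh'' => ?_) fun t => ?_)
      fun s => iz _ _ (fun h'' hh'' => ?_) fun t => ?_
    · rw [S_hh b hh hh', S_hh b hh' hh'']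
    · rw [S_hh b hh hh', S_he b c hh', hh, mul_zero]
    · rw [S_he b c hh, hh'', mul_zero, S_swap b, S_he b c hh'', hh, mul_zero]
    · rw [S_hee b c hh, S_eeh rf b c hh]
  · refine iy _ (fun h' hh' => iz _ _ (fun h'' hh'' => ?_) fun t => ?_)
      fun s => iz _ _ (fun h'' hh'' => ?_) fun t => ?_
    · rw [S_swap b, S_he b c hh', hh'', mul_zero, S_hh b hh' hh'']
    · rw [S_swap b, S_hee b c hh', S_hee b c hh', ite_symm c]
    · rw [S_eeh rf b c hh'', S_swap b, S_hee b c hh'', ite_symm c]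
    · rw [S_eee rf b c, S_eee rf b c]
      have e : Tr r s t ↔ Tr s t r := by rw [Tr, Tr, add_assoc, add_comm]
      by_cases q : Tr r s t
      · rw [if_pos q, if_pos (e.1 q)]
      · rw [if_neg q, if_neg (mt e.2 q)]

end

theorem tau (rf : RfStmt) (b : BrbStmt) (c : BrcStmt) : TauStmt := by
  refine ⟨kap_symm rf, fun x y z => ?_, fun a ha => ?_, kap_ee c⟩
  · rw [kap_symm rf x]
    exact S_cyc rf b c x y z
  · refine rf.2.2.2.2.2.2.2.2.2.2.1 a (fun r => ?_) fun j => ?_
    · have := ha (ee (ng r))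
      rwa [kap_symm rf, kap_ee c, show ng (ng r) = r from C8.R.neg_neg r] at this
    · rw [← c.2.2.2.2.2.2.2.2.2.2.2.2.2.1]
      exact ha _

end Cfsg.Agent.H94.E82Tau
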