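import Cfsg.Agent.H98.GbH

/-! Project GB, piece REG: orthogonality on the `e`-regular classes. -/

set_option autoImplicit false

namespace Cfsg.Agent.H94.GbReg

open Cfsg Finset Cfsg.Agent.H19 Cfsg.Agent.H98.GB

variable {N e : ℕ}

theorem orth {n : ℕ} (hN : n ≤ N) {S T : Finset ℕ} (hS : S ∈ Lam N n) (hT : T ∈ Lam N n) :
    ∑ μ ∈ Par n, (chiS N S μ : ℂ) * ((chiS N T μ : ℂ) / zM μ) = if S = T then 1 else 0 := by
  have h := sum_typ (α := Fin n) fun μ => (chiS N S μ : ℂ) * (chiS N T μ : ℂ)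
  have h1 := classInner_symChi (α := Fin n) (N := N) (S := S) (T := T) (by simpa using hN)
    (by simpa using hS) (by simpa using hT)
  rw [H11.classInner_def] at h1
  simp only [conj_symChi] at h1
  simp only [symChi_apply] at h1
  rw [Fintype.card_fin] at h
  simp only [← mul_div_assoc]
  rw [← h, ← h1]

theorem proj {n : ℕ} (hN : n ≤ N) (c : Fin e → ℕ) {T : Finset ℕ} (hT : T ∈ Lam N n)
    (μ : Multiset ℕ) : ∑ ν ∈ Par n, (KX N n c μ ν : ℂ) * ((chiS N T ν : ℂ) / zM ν) =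
      if cnt e T = c then (chiS N T μ : ℂ) else 0 := by
  simp only [KX, Int.cast_sum, Int.cast_mul, sum_mul, mul_assoc]
  rw [sum_comm]
  simp only [← mul_sum]
  rw [sum_congr rfl fun U hU => by rw [orth hN (mem_XS.1 hU).1 hT]]
  simp only [mul_ite, mul_one, mul_zero, sum_ite_eq', mem_XS, hT, true_and]

theorem KX_zero {n : ℕ} (hN : n ≤ N) (c : Fin e → ℕ) {μ ν : Multiset ℕ} (hμ : μ ∈ Par n)
    (hμ' : μ ∉ ParReg e n) (hν : ν ∈ ParReg e n) : KX N n c μ ν = 0 := by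
  rw [ParReg, mem_filter] at hμ' hν
  push Not at hμ'
  obtain ⟨r, hr, hd⟩ := hμ' hμ
  exact KX_eq_zero c (mem_Par.1 hμ).1 ((mem_Par.1 hν.1).1.trans_le hN) ((mem_Par.1 hμ).2 r hr) hd hr
    fun h => hν.2 r h hd

theorem base {n : ℕ} (hN : n ≤ N) {T T' : Finset ℕ} (hT : T ∈ Lam N n) (hT' : T' ∈ Lam N n)
    (hc : cnt e T ≠ cnt e T') :
    ∑ μ ∈ ParReg e n, (chiS N T' μ : ℂ) * ((chiS N T μ : ℂ) / zM μ) = 0 := by
  have sub : ParReg e n ⊆ Par n := filter_subset _ _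
  have h1 : ∀ μ ∈ ParReg e n, (chiS N T' μ : ℂ) =
      ∑ ν ∈ ParReg e n, (KX N n (cnt e T') μ ν : ℂ) * ((chiS N T' ν : ℂ) / zM ν) := fun μ hμ => by
    rw [sum_subset sub fun ν h h' => by rw [KX_comm, KX_zero hN _ h h' hμ]; simp,
      proj hN _ hT', if_pos rfl]
  rw [sum_congr rfl fun μ hμ => by rw [h1 μ hμ, sum_mul], sum_comm]
  refine sum_eq_zero fun ν hν => ?_
  rw [sum_subset sub fun μ h h' => by rw [KX_zero hN _ h h' hν]; simp]
  have h2 := proj hN (cnt e T') hT ν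
  rw [if_neg hc] at h2
  rw [← mul_zero ((chiS N T' ν : ℂ) / zM ν), ← h2, mul_sum]
  refine sum_congr rfl fun μ _ => ?_
  rw [KX_comm]
  ring

theorem lin (P : Finset (Multiset ℕ)) (w : Multiset ℕ → ℂ) (c : Fin e → ℕ)
    (h : ∀ T : Finset ℕ, #T = N → wtS T ≤ N → cnt e T = c → ∑ μ ∈ P, (chiS N T μ : ℂ) * w μ = 0)
    (ν : Multiset ℕ) (hν : ∀ r ∈ ν, 0 < r ∧ e ∣ r) :
    ∀ S : Finset ℕ, #S = N → wtS S ≤ N → cnt e S = c →
      ∑ μ ∈ P, (chiS N S (ν + μ) : ℂ) * w μ = 0 := by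
  induction ν using Multiset.induction_on with
  | empty => simpa using h
  | cons r ν ih =>
    intro S h1 h2 h3
    obtain ⟨r0, rd⟩ := hν r (Multiset.mem_cons_self _ _)
    simp only [Multiset.cons_add, chiS_cons h1 r0, Int.cast_sum, Int.cast_mul, sum_mul, mul_assoc]
    rw [sum_comm]
    refine sum_eq_zero fun x hx => ?_
    obtain ⟨hx, hr, hy⟩ := mem_filter.1 hx
    rw [← mul_sum, ih (fun s hs => hν s (Multiset.mem_cons_of_mem hs)) _
      ((card_move hx hy).trans h1) ?_ ((cnt_move hx hr hy rd).trans h3), mul_zero]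
    have h4 := sum_move hx hy
    rw [sum_eq_wtS, sum_eq_wtS S, card_move hx hy] at h4
    omega

theorem chi_zero {T : Finset ℕ} (h : #T = N) {j : ℕ} (hj : wtS T ≠ j) {μ : Multiset ℕ}
    (hμ : μ ∈ ParReg e j) : chiS N T μ = 0 := by
  refine chiS_eq_zero h ?_
  rw [sum_eq_wtS, h, (mem_Par.1 (mem_filter.1 hμ).1).1]
  omega

theorem reg : REGStmt := by
  intro N e _ S S' hS hS' wS wS' hc ν ν' hν hν' j
  simp only [Int.cast_mul, mul_div_assoc]
  refine lin _ _ _ (fun T hT wT cT => ?_) ν hν S hS wS rfl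
  have key := lin (ParReg e j) (fun μ => (chiS N T μ : ℂ) / zM μ) _ (fun T' hT' _ cT' => ?_)
    ν' hν' S' hS' wS' rfl
  · rw [← key]
    exact sum_congr rfl fun μ _ => by ring
  · by_cases h1 : wtS T = j
    · by_cases h2 : wtS T' = j
      · exact base (h1 ▸ wT) (mem_Lam'.2 ⟨hT, h1⟩) (mem_Lam'.2 ⟨hT', h2⟩) (by rw [cT, cT']; exact hc)
      · exact sum_eq_zero fun μ hμ => by rw [chi_zero hT' h2 hμ]; simp
    · exact sum_eq_zero fun μ hμ => by rw [chi_zero hT h1 hμ]; simp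

end Cfsg.Agent.H94.GbReg
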