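import Cfsg.Agent.H98.GbL

/-! Project GB, piece SUM. -/

set_option autoImplicit false

namespace Cfsg.Agent.H94.GbSum

open Cfsg Finset Cfsg.Agent.H98.GB
open scoped MatrixGroups

universe u

theorem exists_ne_zero {G : Type u} [Group G] {p : ℕ} {W : Set (G → ℂ)} (h : rk p W ≠ 0) :
    ∃ f ∈ W, f ≠ 0 := by
  by_contra hn
  push Not at hn
  refine h ?_
  rw [rk, Submodule.span_eq_bot.2, finrank_bot]
  rintro _ ⟨f, hf, rfl⟩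
  rw [hn f hf]
  funext g
  simp [pRegularPart]

theorem lm_preg {G : Type u} [Group G] (p : ℕ) (l : G →* ℂˣ) (f : G → ℂ) :
    lm l (pRegularPart p f) = pRegularPart p (lm l f) := by
  funext g
  simp only [lm, pRegularPart]
  split_ifs <;> simp

section
variable {F : Type u} [Field F] [Fintype F] [DecidableEq F] {C : Ctx F}

theorem q_mul {c : C.L} (h : C.qL * c = c) (x : C.L) : C.qL * (x * c) = x * c := by
  rw [mul_left_comm, h]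

theorem mul_eq_smul (x c : C.L) : x * c = x.val • c := by
  rw [nsmul_eq_mul, ZMod.natCast_zmod_val]

theorem twL_zero (L : C.Lab) (Λ : C.Lb) : C.twL 0 Λ = Λ := by
  funext φ
  rw [Ctx.twL, neg_zero, L.tw_zero]

theorem twL_mul (L : C.Lab) {c : C.L} (h : C.qL * c = c) {Λ : C.Lb} (hΛ : C.twL c Λ = Λ)
    (x : C.L) : C.twL (x * c) Λ = Λ := by
  rw [mul_eq_smul]
  induction x.val with
  | zero => rw [zero_smul, twL_zero L]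
  | succ k ih =>
    rw [succ_nsmul, ← L.twL_twL _ _ _ (by rw [nsmul_eq_mul]; exact q_mul h _) h, hΛ, ih]

theorem cl_symm {Λ Λ' : C.Lb} (h : C.Cl Λ Λ') : C.Cl Λ' Λ :=
  fun Γ hΓ => ⟨(h Γ hΓ).1.symm, (h Γ hΓ).2.symm⟩

theorem cl_trans {Λ Λ' Λ'' : C.Lb} (h : C.Cl Λ Λ') (h' : C.Cl Λ' Λ'') : C.Cl Λ Λ'' :=
  fun Γ hΓ => ⟨(h Γ hΓ).1.trans (h' Γ hΓ).1, (h Γ hΓ).2.trans (h' Γ hΓ).2⟩

theorem sm_eq (L : C.Lab) {Λ Λ' : C.Lb} (h : C.Cl Λ Λ') (Γ : C.Φ) : C.sm Λ Γ = C.sm Λ' Γ := by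
  by_cases hΓ : C.Reg Γ
  · exact (h Γ hΓ).1
  · have e : (univ.filter fun φ => C.lp φ = Γ) = ∅ :=
      filter_eq_empty_iff.2 fun φ _ e => hΓ (e ▸ L.reg_lp φ)
    rw [Ctx.sm, Ctx.sm, e, sum_empty, sum_empty]

end

theorem count {α L : Type*} [AddCommGroup L] [DecidableEq L] (A : Finset α) (A' Z : Finset L)
    (r : α → ℕ) (f : L → ℕ) (c : α → L) (π : L → L) (hc : Set.InjOn c A)
    (h : ∀ a ∈ A, r a ≠ 0 → π (c a) ∈ A' ∧ c a - π (c a) ∈ Z ∧ r a ≤ f (π (c a))) :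
    ∑ a ∈ A, r a ≤ #Z * ∑ x ∈ A', f x := by
  let A0 := A.filter fun a => r a ≠ 0
  let m : α → L × L := fun a => (π (c a), c a - π (c a))
  have k : ∀ a ∈ A0, m a ∈ A' ×ˢ Z ∧ r a ≤ f (m a).1 := fun a ha => by
    obtain ⟨h1, h2⟩ := mem_filter.1 ha
    have h3 := h a h1 h2
    exact ⟨mem_product.2 ⟨h3.1, h3.2.1⟩, h3.2.2⟩
  have inj : Set.InjOn m A0 := fun a h a' h' e => by
    have e1 : π (c a) = π (c a') := congrArg Prod.fst e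
    have e2 : c a - π (c a) = c a' - π (c a') := congrArg Prod.snd e
    rw [e1, sub_left_inj] at e2
    exact hc (mem_filter.1 h).1 (mem_filter.1 h').1 e2
  calc ∑ a ∈ A, r a = ∑ a ∈ A0, r a := (sum_filter_ne_zero A).symm
    _ ≤ ∑ a ∈ A0, f (m a).1 := sum_le_sum fun a h => (k a h).2
    _ = ∑ y ∈ A0.image m, f y.1 := (sum_image (f := fun y => f y.1) inj).symm
    _ ≤ ∑ y ∈ A' ×ˢ Z, f y.1 := sum_le_sum_of_subset (image_subset_iff.2 fun a h => (k a h).1)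
    _ = #Z * ∑ x ∈ A', f x := by
      rw [sum_product, mul_sum]
      simp only [sum_const, smul_eq_mul]

section
variable {F : Type u} [Field F] [Fintype F] [DecidableEq F] (C : Ctx F) {n : ℕ} (hn : n ≤ C.n0)
include hn

theorem fixed (h2 : CL2Stmt.{u}) (L : C.Lab) (hI : IRRStmt.{u}) (hT : TWISTStmt.{u}) {Λ0 : C.Lb}
    {c : C.L} (hc : C.qL * c = c) (hr : rk C.p (VS (dl (C.eta c) n) (C.XC n (C.cls Λ0))) ≠ 0) :
    ∃ Λ, C.Cl Λ0 Λ ∧ C.twL c Λ = Λ := by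
  obtain ⟨f, hf, f0⟩ := exists_ne_zero hr
  obtain ⟨χ, ⟨Λ, hΛ, lΛ, eχ⟩, hχ⟩ := h2 _ _ _ f hf f0
  obtain ⟨-, -, -, t3⟩ := hT F C c hc
  rw [eχ, t3] at hχ
  exact ⟨Λ, hΛ, ((hI F C n hn Λ lΛ).2.2 _ (L.lab_tw c n Λ hc lΛ) hχ.symm).symm⟩

theorem bound (ha : CL1aStmt.{u}) (hb : CL1bStmt.{u}) (L : C.Lab) (hE : ETAStmt.{u})
    (hT : TWISTStmt.{u}) (hK : BLKStmt.{u}) (hB : BASStmt.{u}) (n0 : 0 < n) {Λ0 : C.Lb} {c : C.L}
    (hc : C.qL * c = c) (c0 : C.Cl Λ0 (C.twL (C.uu * c) Λ0)) :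
    rk C.p (VS (dl (C.eta c) n) (C.XC n (C.cls Λ0))) ≤ C.fixB n Λ0 (C.uu * c) := by
  obtain ⟨-, -, e3, -, e5, -⟩ := hE F C
  have cl := (hK F C n hn).2.1 Λ0
  have qc := q_mul hc C.uu
  have uc : C.uu * (C.uu * c) = C.uu * c := by rw [← mul_assoc, L.uu_idem]
  refine (ha _ C.p C.M C.hM _ _ cl).trans ?_
  have fin : {Λ | C.IsLab n Λ ∧ C.Bas Λ ∧ Λ ∈ C.cls Λ0}.Finite := (L.fin n).subset fun _ h => h.1
  obtain ⟨-, -, -, t3'⟩ := hT F C _ qc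
  obtain ⟨J, hJ⟩ := fin.exists_finset_coe
  have mJ : ∀ Λ, Λ ∈ J ↔ C.IsLab n Λ ∧ C.Bas Λ ∧ C.Cl Λ0 Λ := fun Λ => Set.ext_iff.1 hJ Λ
  have h3 := hb _ C.p C.M C.hM (dl (C.eta (C.uu * c)) n)
    (by rw [e5 _ n qc n0]; exact (L.uu_iff _).1 uc) _ cl C.Lb J
    (fun Λ => pRegularPart C.p (C.sC Λ n)) (C.twL (C.uu * c))
    (by rw [hJ]; exact (hB F C n hn _ cl).1)
    (by rw [hJ]; exact (hB F C n hn _ cl).2) fun Λ1 h1 => by
      rw [mJ] at h1 ⊢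
      exact ⟨⟨L.lab_tw _ n _ qc h1.1, L.bas_tw _ _ qc uc h1.2.1,
        cl_trans c0 (L.cl_tw _ _ _ qc uc h1.2.2)⟩, by rw [lm_preg, t3']⟩
  have h4 : {Λ1 | Λ1 ∈ J ∧ C.twL (C.uu * c) Λ1 = Λ1}.ncard = C.fixB n Λ0 (C.uu * c) := by
    simp only [Ctx.fixB, mJ, and_assoc]
  rw [← h4, ← h3]
  refine Set.ncard_le_ncard (fun j hj => ⟨hj.1, funext fun g => ?_⟩) (Set.toFinite _)
  by_cases hg : g ∈ (dl (C.eta c) n).ker
  · rw [lm, mul_eq_smul, e3 c _ hc, dl_pow, MonoidHom.pow_apply, MonoidHom.mem_ker.1 hg]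
    simp
  · rw [lm, hj.2 g hg, mul_zero]

end

theorem sum (ha : CL1aStmt.{u}) (hb : CL1bStmt.{u}) (h2 : CL2Stmt.{u}) (hL : LABStmt.{u})
    (hE : ETAStmt.{u}) (hI : IRRStmt.{u}) (hT : TWISTStmt.{u}) (hK : BLKStmt.{u})
    (hB : BASStmt.{u}) (hD : DIVStmt.{u}) : SUMStmt.{u} := by
  intro F _ _ _ C n hn n0 Λ0 l0 b0 A hA
  have L := hL F C
  obtain ⟨-, -, -, e4, -, e6⟩ := hE F C
  obtain ⟨i, Pi, Pm⟩ : ∃ i, (C.p ^ i ∣ Fintype.card F - 1 ∧ ∀ Γ, C.p ^ i * C.dg Γ ∣ C.sm Λ0 Γ) ∧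
      ∀ j, (C.p ^ j ∣ Fintype.card F - 1 ∧ ∀ Γ, C.p ^ j * C.dg Γ ∣ C.sm Λ0 Γ) → j ≤ i := by
    classical
    let P : ℕ → Prop := fun i => C.p ^ i ∣ Fintype.card F - 1 ∧ ∀ Γ, C.p ^ i * C.dg Γ ∣ C.sm Λ0 Γ
    have q1 : 0 < Fintype.card F - 1 := Nat.sub_pos_of_lt Fintype.one_lt_card
    have P0 : P 0 := ⟨by simp, hD F C 0 0 Λ0 (mul_zero _) (by simp) (twL_zero L _)⟩
    exact ⟨_, Nat.findGreatest_spec (P := P) (Nat.zero_le (Fintype.card F - 1)) P0, fun j hj =>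
      Nat.le_findGreatest ((Nat.lt_pow_self C.hp.one_lt).le.trans (Nat.le_of_dvd q1 hj.1)) hj⟩
  refine ⟨i, Pi.1, Pi.2, ?_⟩
  have key : ∀ c, C.qL * c = c → rk C.p (VS (dl (C.eta c) n) (C.XC n (C.cls Λ0))) ≠ 0 →
      C.uu * c ∈ C.A' Λ0 ∧ C.p ^ i • (c - C.uu * c) = 0 ∧
      rk C.p (VS (dl (C.eta c) n) (C.XC n (C.cls Λ0))) ≤ C.fixB n Λ0 (C.uu * c) := by
    intro c hc hr
    obtain ⟨Λ, hΛ, fx⟩ := fixed C hn h2 L hI hT hc hr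
    have qc := q_mul hc C.uu
    have uc : C.uu * (C.uu * c) = C.uu * c := by rw [← mul_assoc, L.uu_idem]
    have c0 : C.Cl Λ0 (C.twL (C.uu * c) Λ0) := by
      have := L.cl_tw _ _ _ qc uc hΛ
      rw [twL_mul L hc fx] at this
      exact cl_trans hΛ (cl_symm this)
    refine ⟨?_, ?_, bound C hn ha hb L hE hT hK hB n0 hc c0⟩
    · simp only [Ctx.A', mem_filter]
      exact ⟨mem_univ _, qc, uc, c0⟩
    · obtain ⟨j, hj⟩ := L.uu_p c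
      have e : c - C.uu * c = (1 - C.uu) * c := by ring
      have qp : C.qL * (c - C.uu * c) = c - C.uu * c := by rw [e]; exact q_mul hc _
      have Pj := Pm j ⟨hj ▸ addOrderOf_dvd_of_nsmul_eq_zero (e4 _ qp), fun Γ => by
        rw [sm_eq L hΛ]
        exact hD F C _ j Λ qp hj (by rw [e]; exact twL_mul L hc fx _) Γ⟩
      rw [← addOrderOf_dvd_iff_nsmul_eq_zero, hj]
      exact pow_dvd_pow _ Pj
  choose! c hc using fun a (h : a ∈ A) => (e6 n n0 a ((hA a).1 h)).exists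
  refine (count A (C.A' Λ0) (univ.filter fun x => C.p ^ i • x = 0) _ (C.fixB n Λ0) c (C.uu * ·)
    (fun a h a' h' e => ?_) fun a h hr => ?_).trans
    (Nat.mul_le_mul_right _ (IsAddCyclic.card_nsmul_eq_zero_le (pow_pos C.hp.pos i)))
  · rw [(hc a h).2, (hc a' h').2, e]
  · have h3 := key (c a) (hc a h).1 (by rw [← (hc a h).2]; exact hr)
    rw [← (hc a h).2] at h3
    exact ⟨h3.1, mem_filter.2 ⟨mem_univ _, h3.2.1⟩, h3.2.2⟩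

end Cfsg.Agent.H94.GbSum
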