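import Cfsg.Agent.H50.L81Defs

/-! Project L81, piece LINE. -/

set_option autoImplicit false

namespace Cfsg.Agent.H94.L81Lin

open Equiv Cfsg.Lie H37 H40 H34 H29 Module H82 H50.SL2S Finset H50.E83 Cfsg.Agent.H50.L81
open H42.Fv (al cp Sum2 Clo Pos Supp Ph sg frV)

noncomputable def cb (k : ℕ) (a : K × K × K) : K × K × K :=
  (a.1 ^ 3 ^ k, a.2.1 ^ 3 ^ k, a.2.2 ^ 3 ^ k)

noncomputable def cu (a : K × K × K) : K × K × K := (a.1 ^ 3, a.2.1 ^ 3, a.2.2 ^ 3)

theorem cb_succ (k : ℕ) (a : K × K × K) : cb (k + 1) a = cu (cb k a) := by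
  simp only [cb, cu, pow_succ, pow_mul]

theorem cu_eq_zero {a : K × K × K} (h : cu a = 0) : a = 0 := by
  simp only [cu, Prod.ext_iff, Prod.fst_zero, Prod.snd_zero, pow_eq_zero_iff three_ne_zero] at h
  exact Prod.ext h.1 (Prod.ext h.2.1 h.2.2)

theorem cu_lin (s t : K) (x y : K × K × K) :
    cu (s • x + t • y) = s ^ 3 • cu x + t ^ 3 • cu y := by
  simp only [cu, Prod.fst_add, Prod.snd_add, Prod.smul_fst, Prod.smul_snd, smul_eq_mul,
    add_pow_char, mul_pow, Prod.smul_mk, Prod.mk_add_mk]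

theorem cb_ne {a : K × K × K} (h : a ≠ 0) (k : ℕ) : cb k a ≠ 0 := by
  induction k with
  | zero => simpa [cb] using h
  | succ k ih => rw [cb_succ]; exact fun e => ih (cu_eq_zero e)

noncomputable def svL (i : Fin 4) : (K × K × K) →ₗ[K] V where
  toFun := H50.L81.sv i
  map_add' x y := by simp only [H50.L81.sv, Prod.fst_add, Prod.snd_add, add_smul]; abel
  map_smul' c x := by
    simp only [H50.L81.sv, Prod.smul_fst, Prod.smul_snd, smul_eq_mul, RingHom.id_apply, smul_add, mul_smul]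

theorem lin (hz : ZelStmt) (hg : GwaStmt) : LinStmt := by
  intro ζ t hζ ht n b hn hb hf
  let D : Fin 4 → K × K × K → Prop := fun i x => act b (H50.L81.sv i x) = H50.L81.sv i x
  have step : ∀ i x, D i x → D (i + 1) (cu x) := fun i x h => by
    have := hz.2.2.2 n b (H50.L81.sv i x)
    rwa [hb, h, hn] at this
  have cyc : ∀ P : Fin 4 → Prop, (∀ i, P i → P (i + 1)) → ∀ i j, P i → P j := fun P h i j hi => by
    rcases (by decide : ∀ i j : Fin 4, j = i ∨ j = i + 1 ∨ j = i + 1 + 1 ∨ j = i + 1 + 1 + 1) i j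
      with e | e | e | e <;> rw [e]
    exacts [hi, h _ hi, h _ (h _ hi), h _ (h _ (h _ hi))]
  have dep : ∀ i x y, D i x → D i y → x ≠ 0 → ∃ c : K, y = c • x := by
    intro i x y hx hy x0
    by_contra hc
    push Not at hc
    have hi := LinearIndependent.pair_iff.1 ((LinearIndependent.pair_iff' (K := K) x0).2
      fun c => (hc c).symm)
    choose X Y hX hY hI using fun j => cyc (fun i => ∃ x y, D i x ∧ D i y ∧
      ∀ s t : K, s • x + t • y = 0 → s = 0 ∧ t = 0) (fun i ⟨x, y, h1, h2, h3⟩ =>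
        ⟨cu x, cu y, step i x h1, step i y h2, fun s t h => by
          obtain ⟨s, rfl⟩ := IsAlgClosed.exists_pow_nat_eq s three_pos
          obtain ⟨t, rfl⟩ := IsAlgClosed.exists_pow_nat_eq t three_pos
          rw [← cu_lin] at h
          obtain ⟨rfl, rfl⟩ := h3 s t (cu_eq_zero h)
          simp⟩) i j ⟨x, y, hx, hy, hi⟩
    have z0 : Zc 0 := ⟨Cart.zero_mem, fun i => by simp [al]⟩
    have mem : ∀ i x, D i x → svL i x ∈ Fix {t, b} := fun i x h => mem_Fix.2 fun g hg' => by
      rcases hg' with rfl | rfl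
      · refine ((hg.2.2 ζ g hζ ht).2 _).2 ⟨0, Pi.single i x, z0, ?_⟩
        rw [zero_add, sum_eq_single i (fun j _ hj => by
          rw [Pi.single_eq_of_ne hj]; exact (svL j).map_zero) (by simp), Pi.single_eq_same]
        rfl
      · exact h
    let Φ : (Fin 4 → K × K) →ₗ[K] V := ∑ i, (svL i).comp
      (((LinearMap.fst K K K).smulRight (X i) + (LinearMap.snd K K K).smulRight (Y i)).comp
        (LinearMap.proj i))
    have hΦ : ∀ c, Φ c = ∑ i, svL i ((c i).1 • X i + (c i).2 • Y i) := fun c => by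
      simp only [Φ, LinearMap.sum_apply]
      rfl
    have inj : Function.Injective (Φ.codRestrict (Fix {t, b}) fun c => by
        rw [hΦ]
        refine Submodule.sum_mem _ fun i _ => ?_
        rw [map_add, map_smul, map_smul]
        exact Submodule.add_mem _ (Submodule.smul_mem _ _ (mem i _ (hX i)))
          (Submodule.smul_mem _ _ (mem i _ (hY i)))) := by
      rw [injective_iff_map_eq_zero]
      intro c hc
      have h1 : Φ c = 0 := congrArg Subtype.val hc
      rw [hΦ] at h1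
      have h2 := (hg.2.1 0 (fun i => (c i).1 • X i + (c i).2 • Y i) z0 (by rw [zero_add]; exact h1)).2
      funext i
      exact Prod.ext (hI i _ _ (h2 i)).1 (hI i _ _ (h2 i)).2
    have h8 := (LinearMap.finrank_le_finrank_of_injective inj).trans hf
    simp [Module.finrank_pi_fintype] at h8
  by_cases h : ∃ a, D 0 a ∧ a ≠ 0
  · obtain ⟨a, ha, a0⟩ := h
    have hk : ∀ k : ℕ, D (Fin.ofNat 4 k) (cb k a) := fun k => by
      induction k with
      | zero => simpa [cb] using ha
      | succ k ih =>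
        rw [cb_succ, show Fin.ofNat 4 (k + 1) = Fin.ofNat 4 k + 1 from
          Fin.ext (by simp [Fin.val_add])]
        exact step _ _ ih
    refine ⟨a, dep 0 a (cb 4 a) ha (hk 4) a0, fun i x hx => dep i (cb i a) x ?_ hx (cb_ne a0 _)⟩
    have := hk i
    rwa [Fin.ofNat_val_eq_self] at this
  · refine ⟨0, ⟨0, by simp⟩, fun i x hx => ⟨0, ?_⟩⟩
    rw [zero_smul]
    by_contra x0
    exact h (cyc (fun i => ∃ a, D i a ∧ a ≠ 0) (fun i ⟨a, h1, h2⟩ =>
      ⟨cu a, step i a h1, fun e => h2 (cu_eq_zero e)⟩) i 0 ⟨x, hx, x0⟩)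

end Cfsg.Agent.H94.L81Lin
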