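import Mathlib
import Cfsg.Prelude.Def_HallClasses
import Cfsg.Agent.H1.Subnormal
import Cfsg.Agent.H8.SylowIn

/-! Pronormal subgroups (helper94). -/

set_option autoImplicit false

open scoped Pointwise

namespace Cfsg.Agent.H94

open Subgroup H1

variable {G : Type*} [Group G]

theorem isPronormal_iff {H : Subgroup G} :
    IsPronormal H ↔ ∀ g : G, ∃ x ∈ H ⊔ MulAut.conj g • H, MulAut.conj g • H = MulAut.conj x • H :=
  Iff.rfl

theorem map_conj_smul' {G' : Type*} [Group G'] (f : G →* G') (H : Subgroup G) (g : G) :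
    (MulAut.conj g • H).map f = MulAut.conj (f g) • H.map f := by
  ext x
  simp only [mem_map, mem_conj_smul_iff]
  constructor
  · rintro ⟨y, hy, rfl⟩
    exact ⟨_, hy, by simp⟩
  · rintro ⟨y, hy, h⟩
    refine ⟨g * y * g⁻¹, by simpa [mul_assoc] using hy, ?_⟩
    simp [h, mul_assoc]

theorem IsPronormal.map {G' : Type*} [Group G'] {f : G →* G'} (hf : Function.Surjective f)
    {H : Subgroup G} (h : IsPronormal H) : IsPronormal (H.map f) := by
  rw [isPronormal_iff] at h ⊢
  intro g
  obtain ⟨g, rfl⟩ := hf g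
  obtain ⟨x, hx, hx'⟩ := h g
  refine ⟨f x, ?_, ?_⟩
  · rw [← map_conj_smul', ← Subgroup.map_sup]
    exact mem_map_of_mem f hx
  · rw [← map_conj_smul', ← map_conj_smul', hx']

theorem IsPronormal.of_map {G' : Type*} [Group G'] {f : G →* G'} {H : Subgroup G}
    (hker : f.ker ≤ H) (h : IsPronormal (H.map f)) : IsPronormal H := by
  rw [isPronormal_iff] at h ⊢
  intro g
  obtain ⟨x, hx, hx'⟩ := h (f g)
  rw [← map_conj_smul', ← Subgroup.map_sup] at hx
  obtain ⟨x, hx, rfl⟩ := hx
  refine ⟨x, hx, ?_⟩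
  rw [← map_conj_smul', ← map_conj_smul'] at hx'
  have hk : ∀ y : G, f.ker ≤ MulAut.conj y • H := fun y z hz => by
    rw [mem_conj_smul_iff]
    exact hker (by simpa using (MonoidHom.normal_ker f).conj_mem z hz y⁻¹)
  have := congrArg (comap f) hx'
  rwa [comap_map_eq, comap_map_eq, sup_eq_left.2 (hk _), sup_eq_left.2 (hk _)] at this

theorem isPronormal_subgroupOf_iff {H L : Subgroup G} (hHL : H ≤ L) :
    IsPronormal (H.subgroupOf L) ↔
      ∀ g ∈ L, ∃ x ∈ H ⊔ MulAut.conj g • H, MulAut.conj g • H = MulAut.conj x • H := by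
  have hinj := map_injective L.subtype_injective
  have key : ∀ g : L, (MulAut.conj g • H.subgroupOf L).map L.subtype = MulAut.conj (g : G) • H := by
    intro g
    rw [map_conj_smul', map_subgroupOf_eq_of_le hHL]
    rfl
  have key2 : ∀ g : L, (H.subgroupOf L ⊔ MulAut.conj g • H.subgroupOf L).map L.subtype =
      H ⊔ MulAut.conj (g : G) • H := by
    intro g
    rw [Subgroup.map_sup, key, map_subgroupOf_eq_of_le hHL]
  rw [isPronormal_iff]
  constructor
  · intro h g hg
    obtain ⟨x, hx, hx'⟩ := h ⟨g, hg⟩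
    refine ⟨x, ?_, ?_⟩
    · rw [← key2 ⟨g, hg⟩]
      exact mem_map_of_mem _ hx
    · rw [← key ⟨g, hg⟩, hx', key]
  · intro h g
    obtain ⟨x, hx, hx'⟩ := h g g.2
    rw [← key2] at hx
    obtain ⟨x, hx, rfl⟩ := hx
    refine ⟨x, hx, hinj ?_⟩
    rw [key, key]
    exact hx'

theorem IsPronormal.subgroupOf {H L : Subgroup G} (h : IsPronormal H) (hHL : H ≤ L) :
    IsPronormal (H.subgroupOf L) :=
  (isPronormal_subgroupOf_iff hHL).2 fun g _ => h g

theorem IsPronormal.conj_smul {H : Subgroup G} (h : IsPronormal H) (g : G) :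
    IsPronormal (MulAut.conj g • H) :=
  IsPronormal.map (f := (MulAut.conj g).toMonoidHom) (MulAut.conj g).surjective h

theorem inv_mul_mem_normalizer {H : Subgroup G} {x g : G}
    (h : MulAut.conj g • H = MulAut.conj x • H) : x⁻¹ * g ∈ normalizer (H : Set G) := by
  rw [mem_normalizer_iff_conj_smul, ← conj_smul_conj_smul, h, conj_smul_conj_smul]
  simp

theorem conj_mul_smul_of_mem_normalizer {H : Subgroup G} (x : G) {n : G}
    (hn : n ∈ normalizer (H : Set G)) : MulAut.conj (x * n) • H = MulAut.conj x • H := by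
  rw [← conj_smul_conj_smul, mem_normalizer_iff_conj_smul.1 hn]

end Cfsg.Agent.H94
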