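import Cfsg.Agent.H79.R3Defs

/-!
Two orbits on points and on lines and three on point-line flags give a fixed subspace.
-/

set_option autoImplicit false

namespace Cfsg.Agent.H94.R3Ca

open Cfsg Module Cfsg.Agent.H79.R3
open scoped Pointwise

universe u

theorem ca (cov : CovStmt.{u}) (zb : ZbStmt.{u}) : CaStmt.{u} := by
  intro F V _ _ _ _ _ K hn ⟨c1, s1, o1⟩ ⟨c2, s2, o2⟩ ⟨c, _, o⟩
  have fd : FiniteDimensional F V := Module.Finite.of_finite
  have fS : Finite (Submodule F V) := Finite.of_injective _ SetLike.coe_injective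
  have b0 : dm (⊥ : Submodule F V) = 0 := finrank_bot F V
  have tp : dm (⊤ : Submodule F V) = finrank F V := finrank_top F V
  have i1 : ∀ g ∈ K, ∀ P, dm P = 1 → c1 (g • P) = c1 P := fun g hg P e =>
    ((o1 _ _ e ((dm_smul g P).trans e)).2 ⟨g, hg, rfl⟩).symm
  obtain ⟨i, j, hij⟩ : ∃ i j, ∀ x L, x ≤ L → dm x = 1 → dm L = 2 → c1 x = i → c2 L ≠ j := by
    by_contra! k
    choose x L h1 h2 h3 h4 h5 using k
    have inj : Function.Injective fun p : Fin 2 × Fin 2 => c (x p.1 p.2) (L p.1 p.2) := by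
      intro p r e
      obtain ⟨g, hg, e1, e2⟩ := (o _ _ _ _ (h1 _ _) (h2 _ _) (h3 _ _) (h1 _ _) (h2 _ _) (h3 _ _)).1 e
      exact Prod.ext
        ((h4 _ _).symm.trans (((o1 _ _ (h2 _ _) (h2 _ _)).2 ⟨g, hg, e1⟩).trans (h4 _ _)))
        ((h5 _ _).symm.trans (((o2 _ _ (h3 _ _) (h3 _ _)).2 ⟨g, hg, e2⟩).trans (h5 _ _)))
    simpa using Fintype.card_le_of_injective _ inj
  obtain ⟨P, hP, cP⟩ := s1 i
  obtain ⟨Q, hQ, cQ⟩ := s1 (i + 1)
  have cQ' : c1 Q ≠ i := by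
    rw [cQ]
    revert i
    intro i _ _ _
    fin_cases i <;> simp
  have hL : dm (P ⊔ Q) = 2 := by
    have e1 := Submodule.finrank_sup_add_finrank_inf_eq P Q
    have e2 : finrank F (P ⊓ Q : Submodule F V) ≤ finrank F Q := Submodule.finrank_mono inf_le_right
    have e3 : finrank F (P ⊓ Q : Submodule F V) ≠ 1 := fun e => cQ' (by
      rw [← Submodule.eq_of_le_of_finrank_eq (inf_le_right : P ⊓ Q ≤ Q) (e.trans hQ.symm),
        Submodule.eq_of_le_of_finrank_eq (inf_le_left : P ⊓ Q ≤ P) (e.trans hP.symm), cP])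
    simp only [dm] at hP hQ ⊢
    omega
  have z0 : ∀ L, dm L = 2 → c2 L = j → cnt (fun P => c1 P = i) ⊥ L = 0 := fun L e k => by
    rw [cnt, Set.ncard_eq_zero (Set.toFinite _), Set.eq_empty_iff_forall_notMem]
    rintro x ⟨⟨-, h2, h3⟩, h4⟩
    exact hij x L h2 (by rw [h3, b0]) e h4 k
  obtain ⟨L, eL, cL⟩ := s2 j
  rcases zb F V ⊥ (fun P => c1 P = i) (cnt (fun P => c1 P = i) ⊥ (P ⊔ Q)) (by omega) (by
      have h1 := Set.ncard_lt_ncard (s := {x | x ∈ Cov ⊥ (P ⊔ Q) ∧ c1 x = i}) (t := Cov ⊥ (P ⊔ Q))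
        ⟨fun x hx => hx.1, fun k => cQ' (k ⟨bot_le, le_sup_right, by rw [hQ, b0]⟩).2⟩
      rw [cov F V _ _ bot_le, hL, b0] at h1
      simp [br, Finset.sum_range_succ] at h1
      rw [cnt]
      omega)
    (fun L _ e => by
      rw [b0] at e
      refine (em (c2 L = j)).imp (z0 L e) fun k => ?_
      have k' := hij P _ le_sup_left hP hL cP
      obtain ⟨g, hg, rfl⟩ := (o2 _ _ hL e).1 (by omega)
      rw [← smul_bot g]
      exact (cnt_smul g fun x hx => by rw [i1 g hg x (by rw [hx.2.2, b0])]).trans (by rw [smul_bot]))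
    ⟨L, bot_le, by rw [eL, b0], z0 L eL cL⟩ ⟨P, ⟨bot_le, le_top, by rw [hP, b0]⟩, cP⟩ with
    ⟨W, ⟨-, -, hW⟩, k⟩ | ⟨W, -, hW, k⟩
  · refine ⟨W, by rintro rfl; omega, by rintro rfl; omega, fun g hg => ?_⟩
    refine (k _ ⟨bot_le, le_top, by rw [dm_smul, hW]⟩).1 ?_
    rw [i1 g hg W (by rw [hW, b0])]
    exact (k W ⟨bot_le, le_top, hW⟩).2 rfl
  · refine ⟨W, by rintro rfl; omega, by rintro rfl; omega, fun g hg => ?_⟩
    refine Submodule.eq_of_le_of_finrank_eq ?_ (dm_smul g W)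
    rintro _ ⟨v, hv, rfl⟩
    by_cases v0 : v = 0
    · simp [v0]
    have e : dm (F ∙ v) = 1 := finrank_span_singleton v0
    have k1 := k _ ⟨bot_le, le_top, by rw [e, b0]⟩
    have k2 := k (g • (F ∙ v)) ⟨bot_le, le_top, by rw [dm_smul, e, b0]⟩
    rw [i1 g hg _ e, k1, smul_span, Submodule.span_singleton_le_iff_mem,
      Submodule.span_singleton_le_iff_mem, not_iff_not] at k2
    exact k2.1 hv

end Cfsg.Agent.H94.R3Ca
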