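import Cfsg.Agent.H74.RuDefs
import Cfsg.Agent.H31.HermStab

/-!
# The rank on totally isotropic subspaces of dimension at least two is at least four
-/

set_option autoImplicit false

namespace Cfsg.Agent.H94.RuPar

open Cfsg Module Cfsg.Agent.H31 Cfsg.Agent.H74.Ru
open Equiv (Perm swap)

theorem four {G X : Type} [Group G] {K : Subgroup G} (r : Rk3 K) (I : G → X)
    (h : ∀ k ∈ K, ∀ k' ∈ K, ∀ g, I (k * g * k') = I g) (a b c d : G) :
    I a = I b ∨ I a = I c ∨ I a = I d ∨ I b = I c ∨ I b = I d ∨ I c = I d := by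
  obtain ⟨x, y, r⟩ := r
  have k : ∀ g, I g = I 1 ∨ I g = I x ∨ I g = I y := fun g => by
    rcases r g with k | ⟨k, hk, k', hk', rfl⟩ | ⟨k, hk, k', hk', rfl⟩
    · exact .inl (by simpa using h g k 1 K.one_mem 1)
    · exact .inr (.inl (h k hk k' hk' x))
    · exact .inr (.inr (h k hk k' hk' y))
  have := k a
  have := k b
  have := k c
  have := k d
  grind

/-- reverse the first and the last `m` indices -/
def ρ (n m : ℕ) : Perm (Fin n) :=
  Function.Involutive.toPerm (fun i => if i.val < m ∨ i.rev.val < m then i.rev else i) fun i => by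
    by_cases h : i.val < m ∨ i.rev.val < m
    · simp only [if_pos h, Fin.rev_rev, if_pos h.symm]
    · simp only [if_neg h]

theorem ρ_val (n m : ℕ) (i : Fin n) :
    (ρ n m i).val = if i.val < m ∨ n - (i.val + 1) < m then n - (i.val + 1) else i.val := by
  simp only [ρ, Function.Involutive.coe_toPerm, Fin.val_rev]
  split_ifs <;> rfl

theorem ρ_rv (n m : ℕ) : Rv (ρ n m) := fun i => Fin.ext (by
  have := i.2
  simp only [Fin.val_rev, ρ_val]
  split_ifs <;> omega)

/-- exchange the indices `1`, `2` and their reverses -/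
def τv (n i : ℕ) : ℕ :=
  if i = 1 then 2 else if i = 2 then 1 else if i = n - 2 then n - 3
    else if i = n - 3 then n - 2 else i

theorem exists_τ {n : ℕ} (hn : 6 ≤ n) : ∃ π : Perm (Fin n), Rv π ∧ ∀ i, (π i).val = τv n i := by
  refine ⟨Function.Involutive.toPerm (fun i => ⟨τv n i, ?_⟩)
    fun i => Fin.ext ?_, fun i => Fin.ext ?_, fun _ => rfl⟩ <;> have := i.2
  · unfold τv
    split_ifs <;> omega
  · change τv n (τv n i) = i
    unfold τv
    split_ifs <;> omega
  · change τv n (n - (i + 1)) = n - (τv n i + 1)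
    unfold τv
    split_ifs <;> omega

theorem par (ka : KaStmt) (frm : FrmStmt) : ParStmt := by
  intro F V _ _ _ _ _ S K hK r3 W W0 hW KW
  by_contra s1
  have s0 : finrank F W ≠ 0 := fun e => W0 (Submodule.finrank_eq_zero.1 e)
  have sn := S.herm.two_mul_finrank_le hW
  rw [S.dim] at sn
  have hn := S.hn
  obtain ⟨v, hv, e⟩ := (frm S).1 _ sn (fun i => (finBasis F W i : V))
    ((finBasis F W).linearIndependent.map' W.subtype W.ker_subtype)
    fun i j => hW _ (finBasis F W i).2 _ (finBasis F W j).2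
  have eW : W = Fl F v (finrank F W) := by
    refine le_antisymm ?_ (Submodule.span_le.2 ?_)
    · have := congrArg (Submodule.map W.subtype) (finBasis F W).span_eq
      rw [Submodule.map_span, Submodule.map_subtype_top] at this
      refine this.ge.trans (Submodule.span_mono ?_)
      rintro _ ⟨_, ⟨i, rfl⟩, rfl⟩
      exact ⟨_, i.2, e i⟩
    · rintro _ ⟨j, hj, rfl⟩
      exact (e ⟨j, hj⟩).symm ▸ (finBasis F W _).2
  clear e
  generalize finrank F W = s at *
  have mW : ∀ x, x ∈ W ↔ ∀ j : Fin S.n, s ≤ j.val → S.B (v j.rev) x = 0 :=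
    eW ▸ (ka S v hv).2.1 s
  have hc : ∀ i j : Fin S.n, S.B (v j.rev) (v i) = 0 ↔ i.val ≠ j.val := fun i j => by
    rw [hv, Fin.rev_rev]; simp [Fin.ext_iff]
  have ex : ∀ π, Rv π → ∃ g : S.G, ∀ j x,
      S.B (v j.rev) (g.1 x) = 0 ↔ S.B (v (π j).rev) x = 0 := fun π hπ => by
    obtain ⟨g, hg, k⟩ := (frm S).2.2 v (fun i => v (π i)) hv fun i j => by
      simp only [hv _ _, ← hπ i, π.apply_eq_iff_eq]
    refine ⟨⟨g⁻¹, inv_mem hg⟩, fun j x => ?_⟩
    obtain ⟨c, hc⟩ := k j.rev
    rw [← hg.1, apply_inv_apply, hc, hπ, smul_left, mul_eq_zero, map_eq_zero, or_iff_right c.ne_zero]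
  have I4 := four r3 (fun g => (finrank F (W ⊓ W.comap (g.1 : V →ₗ[F] V) : Submodule F V),
      ∀ w ∈ W, ∀ w' ∈ W, S.B w (g.1 w') = 0)) fun k hk k' hk' g => by
    have h1 := KW hk
    have h2 := KW hk'
    refine Prod.ext ?_ (propext ⟨fun h w hw w' hw' => ?_, fun h w hw w' hw' => ?_⟩)
    · have := LinearEquiv.finrank_map_eq k'.1.symm (W ⊓ W.comap (g.1 : V →ₗ[F] V))
      rw [← Submodule.comap_equiv_eq_map_symm] at this
      exact (congrArg (fun X : Submodule F V => finrank F X)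
        (Submodule.ext fun x => and_congr (h2 x) (h1 _).symm)).trans this
    · have := h _ ((h1 w).1 hw) _ ((inv_mem h2 w').1 hw')
      rw [← k.2.1]
      simpa using this
    · have := h _ ((inv_mem h1 w).1 hw) _ ((h2 w').1 hw')
      rw [← k.2.1] at this
      simpa using this
  simp only [Prod.ext_iff] at I4
  choose g hg using fun m => ex _ (ρ_rv S.n m)
  have mX : ∀ m ≤ s, ∀ x, x ∈ W ⊓ W.comap ((g m).1 : V →ₗ[F] V) ↔
      ∀ j : Fin S.n, s ≤ j.val ∨ j.val < m → S.B (v j.rev) x = 0 := fun m hm x => by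
    simp only [Submodule.mem_inf, Submodule.mem_comap, LinearEquiv.coe_coe, mW, hg]
    refine ⟨fun h j k => k.elim (h.1 j) fun k => ?_, fun h => ⟨fun j k => h j (.inl k), fun j k =>
      h _ ?_⟩⟩ <;> have := j.2
    · rw [show j = ρ S.n m j.rev from Fin.ext (by rw [ρ_val, Fin.val_rev]; split_ifs <;> omega)]
      exact h.2 _ (by rw [Fin.val_rev]; omega)
    · rw [ρ_val]; split_ifs <;> omega
  have lt : ∀ m m', m < m' → m' ≤ s →
      finrank F (W ⊓ W.comap ((g m').1 : V →ₗ[F] V) : Submodule F V) <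
        finrank F (W ⊓ W.comap ((g m).1 : V →ₗ[F] V) : Submodule F V) := fun m m' h h' =>
    Submodule.finrank_lt_finrank_of_lt (SetLike.lt_iff_le_and_exists.2
      ⟨fun x hx => (mX m (by omega) x).2 fun j k => (mX m' h' x).1 hx j (by omega),
        v ⟨m, by omega⟩, (mX m (by omega) _).2 fun j k => (hc _ _).2 (by dsimp only; omega),
        fun k => (hc _ _).1 ((mX m' h' _).1 k ⟨m, by omega⟩ (.inr h)) rfl⟩)
  have l1 := lt 0 1 (by omega) (by omega)
  have l2 := lt 1 2 (by omega) (by omega)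
  by_cases s3 : 3 ≤ s
  · have l3 := lt 2 3 (by omega) s3
    have := I4 (g 0) (g 1) (g 2) (g 3)
    omega
  obtain rfl : s = 2 := by omega
  obtain ⟨π, hπ, eπ⟩ := exists_τ hn
  obtain ⟨t, ht⟩ := ex π hπ
  have v0 : ∀ i : Fin S.n, i.val < 2 → v i ∈ W := fun i h =>
    (mW _).2 fun j k => (hc _ _).2 (by omega)
  have n1 : ∀ m, 0 < m → ¬ ∀ w ∈ W, ∀ w' ∈ W, S.B w ((g m).1 w') = 0 := fun m h k => by
    have := k _ (v0 S.i0 (by simp [Un.i0])) _ (v0 S.i0 (by simp [Un.i0]))
    rw [← Fin.rev_rev S.i0, hg, hc, ρ_val] at this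
    simp only [Fin.val_rev, Un.i0] at this
    exact this (if_pos (by omega)).symm
  have p1 : ∀ w ∈ W, ∀ w' ∈ W, S.B w (t.1 w') = 0 := fun w hw w' hw' => by
    rw [eW] at hw
    refine (Submodule.span_le.2 ?_ : _ ≤ LinearMap.ker (S.B.flip (t.1 w'))) hw
    rintro _ ⟨i, hi, rfl⟩
    change S.B (v i) _ = 0
    rw [← Fin.rev_rev i, ht]
    refine (mW _).1 hw' _ ?_
    replace hi : i.val < 2 := hi
    rw [eπ, Fin.val_rev, τv]
    split_ifs <;> omega
  have l3 : finrank F (W ⊓ W.comap (t.1 : V →ₗ[F] V) : Submodule F V) <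
      finrank F (W ⊓ W.comap ((g 0).1 : V →ₗ[F] V) : Submodule F V) :=
    Submodule.finrank_lt_finrank_of_lt (SetLike.lt_iff_le_and_exists.2
      ⟨fun x hx => (mX 0 (by omega) x).2 fun j k => (mW x).1 hx.1 j (by omega),
        v S.i1, (mX 0 (by omega) _).2 fun j k => (hc _ _).2 (by simp only [Un.i1]; omega),
        fun k => (hc _ _).1 ((ht _ _).1 ((mW _).1 k.2 ⟨2, by omega⟩ le_rfl)) (by
          rw [eπ]; rfl)⟩)
  rcases I4 (g 0) (g 1) (g 2) t with h | h | h | h | h | h
  · omega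
  · omega
  · omega
  · omega
  · exact n1 1 one_pos (h.2 ▸ p1)
  · exact n1 2 two_pos (h.2 ▸ p1)

end Cfsg.Agent.H94.RuPar
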