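import Cfsg.Agent.H58.SWDefs

/-! Project SW, piece IDEM: primitive idempotents of the span of an abelian group. -/

set_option autoImplicit false
set_option linter.unusedSectionVars false
open Matrix Cfsg
open scoped commutatorElement

namespace Cfsg.Agent.H94.SwIdem

open Cfsg.Agent.H58.SW

section
variable {F : Type} [Field F] [Fintype F] [DecidableEq F] {n : ℕ} {A : Subgroup (Gl n F)}

theorem one_mem (A : Subgroup (Gl n F)) : (1 : Mt n F) ∈ spanG A :=
  Submodule.subset_span ⟨1, A.one_mem, rfl⟩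

theorem mul_mem {a b : Mt n F} (ha : a ∈ spanG A) (hb : b ∈ spanG A) : a * b ∈ spanG A := by
  induction ha using Submodule.span_induction with
  | zero => rw [zero_mul]; exact Submodule.zero_mem _
  | add x y _ _ h1 h2 => rw [add_mul]; exact Submodule.add_mem _ h1 h2
  | smul c x _ h => rw [smul_mul_assoc]; exact Submodule.smul_mem _ _ h
  | mem x hx =>
    obtain ⟨x, hx, rfl⟩ := hx
    induction hb using Submodule.span_induction with
    | zero => rw [mul_zero]; exact Submodule.zero_mem _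
    | add x y _ _ h1 h2 => rw [mul_add]; exact Submodule.add_mem _ h1 h2
    | smul c x _ h => rw [mul_smul_comm]; exact Submodule.smul_mem _ _ h
    | mem y hy =>
      obtain ⟨y, hy, rfl⟩ := hy
      exact Submodule.subset_span ⟨x * y, A.mul_mem hx hy, rfl⟩

theorem pow_mem {a : Mt n F} (ha : a ∈ spanG A) (k : ℕ) : a ^ k ∈ spanG A := by
  induction k with
  | zero => rw [pow_zero]; exact one_mem A
  | succ k ih => rw [pow_succ]; exact mul_mem ih ha

theorem comm (h : Ab A) {a b : Mt n F} (ha : a ∈ spanG A) (hb : b ∈ spanG A) : Commute a b := by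
  induction ha using Submodule.span_induction with
  | zero => exact Commute.zero_left _
  | add x y _ _ h1 h2 => exact h1.add_left h2
  | smul c x _ h => exact h.smul_left c
  | mem x hx =>
    obtain ⟨x, hx, rfl⟩ := hx
    induction hb using Submodule.span_induction with
    | zero => exact Commute.zero_right _
    | add x y _ _ h1 h2 => exact h1.add_right h2
    | smul c x _ h => exact h.smul_right c
    | mem y hy =>
      obtain ⟨y, hy, rfl⟩ := hy
      exact congrArg Units.val (h x hx y hy).eq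

theorem prim_of (h : Ab A) {N : ℕ} (hN : ∀ b ∈ spanG A, b ^ (N + 2) = b) : ∃ E, Prim A E := by
  classical
  have : Fintype (Mt n F) := Fintype.ofFinite _
  let E : Finset (Mt n F) := Finset.univ.filter fun e => e ∈ spanG A ∧ e * e = e ∧ e ≠ 0 ∧
    ∀ f ∈ spanG A, f * f = f → f * e = f → f = 0 ∨ f = e
  have hE : ∀ e, e ∈ E ↔ e ∈ spanG A ∧ e * e = e ∧ e ≠ 0 ∧
      ∀ f ∈ spanG A, f * f = f → f * e = f → f = 0 ∨ f = e := fun e => by simp [E]
  have orth : ∀ e ∈ E, ∀ f ∈ E, e ≠ f → e * f = 0 := fun e he f hf ne => by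
    obtain ⟨e1, e2, -, e4⟩ := (hE e).1 he
    obtain ⟨f1, f2, -, f4⟩ := (hE f).1 hf
    have c := (comm h e1 f1).eq
    have i : e * f * (e * f) = e * f := by
      rw [mul_assoc, ← mul_assoc f, ← c, mul_assoc, f2, ← mul_assoc, e2]
    rcases e4 _ (mul_mem e1 f1) i (by rw [c, mul_assoc, e2]) with a | a
    · exact a
    · rcases f4 _ (mul_mem e1 f1) i (by rw [mul_assoc, f2]) with b | b
      · exact b
      · exact absurd (a.symm.trans b) ne
  refine ⟨E, ⟨fun e he => ((hE e).1 he).2.1, fun e he => ((hE e).1 he).2.2.1, orth, ?_⟩,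
    fun e he => ((hE e).1 he).1, fun e he b hb => ?_, hE⟩
  · have sm : ∑ e ∈ E, e ∈ spanG A := Submodule.sum_mem _ fun e he => ((hE e).1 he).1
    have es : ∀ e ∈ E, e * ∑ f ∈ E, f = e := fun e he => by
      rw [Finset.mul_sum, Finset.sum_eq_single_of_mem e he fun f hf ne => orth e he f hf ne.symm,
        ((hE e).1 he).2.1]
    have ss : (∑ f ∈ E, f) * ∑ f ∈ E, f = ∑ f ∈ E, f := by
      rw [Finset.sum_mul, Finset.sum_congr rfl es]
    generalize ∑ f ∈ E, f = s at sm es ss
    by_contra ne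
    obtain ⟨f, ⟨f1, f2, f3, f4⟩, hm⟩ := Set.exists_min_image
      {f : Mt n F | f ∈ spanG A ∧ f * f = f ∧ f ≠ 0 ∧ f * s = 0}
      (fun f => {y : Mt n F | y * f = y}.ncard) (Set.toFinite _)
      ⟨1 - s, Submodule.sub_mem _ (one_mem A) sm, by simp [mul_sub, sub_mul, ss],
        sub_ne_zero.2 (Ne.symm ne), by simp [sub_mul, ss]⟩
    refine f3 ((es f ((hE f).2 ⟨f1, f2, f3, fun g g1 g2 g3 => ?_⟩)).symm.trans f4)
    by_contra hg
    push Not at hg
    refine absurd (hm g ⟨g1, g2, hg.1, by rw [← g3, mul_assoc, f4, mul_zero]⟩) (not_le.2 ?_)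
    refine Set.ncard_lt_ncard ⟨fun y (hy : y * g = y) => ?_, fun hs => hg.2 ?_⟩ (Set.toFinite _)
    · change y * f = y
      rw [← hy, mul_assoc, g3]
    · have : f * g = f := hs (show f * f = f from f2)
      rw [← g3, (comm h g1 f1).eq, this]
  · obtain ⟨e1, e2, -, e4⟩ := (hE e).1 he
    have m := mul_mem e1 hb
    have k := hN _ m
    by_cases z : e * b = 0
    · exact .inl z
    refine .inr ⟨_, pow_mem m N, ?_⟩
    rw [← pow_succ']
    refine (e4 _ (pow_mem m _) ?_ ?_).resolve_left fun z' => z ?_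
    · rw [← pow_add, show N + 1 + (N + 1) = N + 2 + N by ring, pow_add, k, ← pow_succ']
    · rw [pow_succ, mul_assoc, (comm h e1 hb).eq, mul_assoc b, e2]
    · rw [← k, pow_succ, z', zero_mul]

end

theorem idem (hKA : KAStmt) : IdemStmt := by
  intro F _ _ _ n c r A hr rp hA hZ
  have ka := hKA F n c
  have := c.chr
  have : Fact c.p.Prime := ⟨c.hp⟩
  have : Nonempty (Fin n) := ⟨⟨0, by have := c.hn; omega⟩⟩
  obtain ⟨f, -, hf⟩ := FiniteField.card F c.p
  have q1 : 1 < Fintype.card F := Fintype.one_lt_card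
  have m0 : 0 < r * (Fintype.card F - 1) := Nat.mul_pos hr.pos (by omega)
  have cop : (Fintype.card F).Coprime (r * (Fintype.card F - 1)) := by
    refine Nat.Coprime.mul_right ?_ ?_
    · rw [hf]
      exact ((Nat.coprime_primes c.hp hr).2 rp.symm).pow_left _
    · exact ((Nat.coprime_self_sub_right q1.le).2 (Nat.coprime_one_right _))
  have hm := Nat.ModEq.pow_totient cop
  have k0 := Nat.totient_pos.2 m0
  generalize (r * (Fintype.card F - 1)).totient = k at hm k0
  obtain ⟨N, hN⟩ := Nat.exists_eq_add_of_le' (show 2 ≤ Fintype.card F ^ k from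
    Nat.one_lt_pow k0.ne' q1)
  refine prim_of hA (N := N) fun b hb => ?_
  rw [← hN]
  induction hb using Submodule.span_induction with
  | zero => exact zero_pow (by omega)
  | add x y hx hy h1 h2 =>
    rw [hf, ← pow_mul] at h1 h2 ⊢
    rw [add_pow_char_pow_of_commute _ _ (comm hA hx hy), h1, h2]
  | smul a x _ h => rw [smul_pow, h, FiniteField.pow_card_pow]
  | mem x hx =>
    obtain ⟨x, hx, rfl⟩ := hx
    obtain ⟨a, ha, e⟩ := (ka.mem_Z _).1 (hZ x hx)
    have h1 : x ^ (r * (Fintype.card F - 1)) = 1 := Units.ext (by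
      rw [pow_mul, Units.val_pow_eq_pow_val, e, smul_pow, FiniteField.pow_card_sub_one_eq_one a ha.1]
      simp)
    have h2 : x ^ Fintype.card F ^ k = x ^ 1 :=
      pow_eq_pow_iff_modEq.2 (hm.of_dvd (orderOf_dvd_of_pow_eq_one h1))
    rw [← Units.val_pow_eq_pow_val, h2, pow_one]

end Cfsg.Agent.H94.SwIdem
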