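import Cfsg.Agent.H97.U4Defs

set_option autoImplicit false

namespace Cfsg.Agent.H94.U4W

open Cfsg.Agent.H97 Cfsg.Agent.H97.U4 Subgroup
open Cfsg.Agent.H97.U5 (Hm)

universe u

variable {K : Type u} [Field K] {T : Hm K} {p : ℕ}

theorem lin {β : K → K} (h1 : ∀ x y, β (x + y) = β x + β y)
    (h2 : ∀ f x, T.σ f = f → β (f * x) = f * β x) : ∃ c r, ∀ x, β x = c * x + r * T.σ x := by
  have he := T.ep_ne
  have e : T.om = T.ep + T.σ T.om := by simp [Hm.ep]
  refine ⟨(β T.om - T.σ T.om * β 1) / T.ep, (T.om * β 1 - β T.om) / T.ep, fun x => ?_⟩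
  have h3 : x = (T.om * T.σ x - T.σ T.om * x) / T.ep * 1 + (x - T.σ x) / T.ep * T.om := by
    field_simp; linear_combination -x * e
  conv_lhs => rw [h3, h1, h2 _ _ (by simp [map_div₀, div_neg, ← neg_div]),
    h2 _ _ (by simp [map_div₀, div_neg, ← neg_div])]
  field_simp; ring

theorem w3 [Finite K] : W3Stmt T p := by
  intro Γ hG hB hO g hg hn
  have a0 : ∀ x y : K, g (0, x + y) = g (0, x) + g (0, y) := fun x y => by
    rw [← hG.add g hg]; simp
  have hi : Function.Injective fun x : K => (g (0, x)).1 := fun x y h => by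
    by_contra e
    refine hO g hg hn (x - y) (sub_ne_zero.2 e) ?_
    have := congrArg Prod.fst (a0 (x - y) y)
    simp only [sub_add_cancel, Prod.fst_add] at this h
    linear_combination h - this
  choose ι hι using Finite.injective_iff_surjective.1 hi
  have hι' : ∀ x, ι (g (0, x)).1 = x := fun x => hi (hι _)
  obtain ⟨c, r, hc⟩ := lin (T := T) (β := fun y => (g (0, ι y)).2) (fun x y => by
    have : ι (x + y) = ι x + ι y := hi (by
      simp only [a0, Prod.fst_add]
      exact (hι _).trans (congrArg₂ _ (hι x).symm (hι y).symm))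
    simp only [this, a0, Prod.snd_add]) fun f x hf => by
    obtain ⟨f', -, h1⟩ := hB.sem g⁻¹ (Γ.inv_mem hg) f hf
    have h2 : f • g (0, ι x) = g (0, f' * ι x) := by
      have := congrArg g (h1 (g (0, ι x)))
      simpa using this
    have h3 : ι (f * x) = f' * ι x := by
      rw [← hι' (f' * ι x), ← h2, Prod.smul_fst, smul_eq_mul]
      exact congrArg (fun z => ι (f * z)) (hι x).symm
    simp only [h3, ← h2, Prod.smul_snd, smul_eq_mul]
  have hg' : ∀ y, g (0, ι y) = (y, c * y + r * T.σ y) := fun y => Prod.ext (hι y) (hc y)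
  have hs : c + T.σ c = 0 := by
    have := hG.perp g hg (0, ι T.om) (0, ι 1) (by simp [Perp, hm])
    rw [hg', hg'] at this
    simp only [Perp, hm, map_add, map_mul, map_one, T.inv] at this
    refine mul_right_cancel₀ T.ep_ne ?_
    simp only [Hm.ep]
    linear_combination this
  refine ⟨r, fun h2 => ?_, uW c, ⟨c, hs, rfl⟩, fun w => ⟨?_, ?_⟩⟩
  · have k : ∀ y, T.σ r * y ^ 2 + r * T.σ y ^ 2 = 0 := fun y => by
      have := hG.sing h2 g hg (0, ι y) (by simp [hm])
      rw [hg'] at this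
      simp only [hm, map_add, map_mul, T.inv] at this
      linear_combination this - y * T.σ y * hs
    have k1 := k 1
    have k2 := k T.om
    rw [map_one] at k1
    refine mul_right_cancel₀ (pow_ne_zero 2 T.ep_ne) ?_
    simp only [Hm.ep]
    linear_combination k2 - T.om ^ 2 * k1 + (r * T.om ^ 2 - r * T.om * T.σ T.om) * h2
  · rintro ⟨x, rfl⟩
    refine ⟨(g (0, x)).1, ?_⟩
    rw [Equiv.Perm.mul_apply, ← hι' x, hg', uW_apply]
    simp
  · rintro ⟨y, rfl⟩
    refine ⟨ι y, ?_⟩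
    rw [Equiv.Perm.mul_apply, hg', uW_apply]
    simp

theorem tau_inv (r : K) (x : W K) : (tauW T r)⁻¹ x = (x.1, x.2 - r * T.σ x.1) := rfl

theorem tau_A (r : K) {u : Equiv.Perm (W K)} (hu : u ∈ AW T) : tauW T r * u * (tauW T r)⁻¹ = u := by
  obtain ⟨b, -, rfl⟩ := hu
  ext x <;> simp only [Equiv.Perm.mul_apply, tau_inv, uW_apply, tauW_apply]
  ring

theorem tau_A' (r : K) {u : Equiv.Perm (W K)} (hu : tauW T r * u * (tauW T r)⁻¹ ∈ AW T) : u ∈ AW T := by
  have h := tau_A r hu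
  rw [mul_inv_eq_iff_eq_mul, inv_mul_cancel_right, mul_assoc, mul_left_cancel_iff] at h
  have h2 := tau_A r hu
  rwa [show tauW T r * u * (tauW T r)⁻¹ = u by
    apply mul_left_cancel (a := tauW T r)
    apply mul_right_cancel (b := (tauW T r)⁻¹)
    rw [h2]] at hu

theorem tau_N (r : K) : tauW T r ∈ NW T :=
  mem_normalizer_iff.2 fun _ => ⟨fun h => by rwa [tau_A r h], tau_A' r⟩

omit [Field K] in
theorem unconj (τ g : Equiv.Perm (W K)) (x : W K) : g x = τ⁻¹ ((τ * g * τ⁻¹) (τ x)) := by simp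

theorem wg_conj {Γ : Subgroup (Equiv.Perm (W K))} (hG : WG T p Γ) (h2 : (2 : K) ≠ 0) (r : K) :
    WG T p (Γ.comap (MulAut.conj (tauW T r)).toMonoidHom) where
  le u hu := by
    change tauW T r * u * (tauW T r)⁻¹ ∈ Γ
    rw [tau_A r hu]; exact hG.le hu
  add g hg x y := by
    have h1 : tauW T r (x + y) = tauW T r x + tauW T r y := by
      ext <;> simp [tauW_apply]; ring
    rw [unconj (tauW T r) g, unconj (tauW T r) g x, unconj (tauW T r) g y, h1,
      hG.add (tauW T r * g * (tauW T r)⁻¹) hg]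
    ext <;> simp only [tau_inv, Prod.fst_add, Prod.snd_add, map_add]
    ring
  perp g hg x y h := by
    have h1 : Perp T (tauW T r x) (tauW T r y) := by
      simp only [Perp, hm, tauW_apply, map_add, map_mul, T.inv] at h ⊢
      linear_combination h
    have h3 := hG.perp _ hg _ _ h1
    rw [unconj (tauW T r) g x, unconj (tauW T r) g y]
    change Perp T ((tauW T r * g * (tauW T r)⁻¹) _) ((tauW T r * g * (tauW T r)⁻¹) _) at h3
    generalize (tauW T r * g * (tauW T r)⁻¹) (tauW T r x) = a at h3 ⊢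
    generalize (tauW T r * g * (tauW T r)⁻¹) (tauW T r y) = b at h3 ⊢
    simp only [Perp, hm, tau_inv, map_sub, map_mul, T.inv] at h3 ⊢
    linear_combination h3
  syl M hM hp hA m hm := tau_A' r (hG.syl (M.map (MulAut.conj (tauW T r)).toMonoidHom)
    (map_le_iff_le_comap.2 hM) (hp.map _) (fun u hu => ⟨u, hA hu, tau_A r hu⟩) ⟨m, hm, rfl⟩)
  ti g hg u hu h1 h := by
    have h3 := hG.ti _ hg u hu h1 (by
      change tauW T r * g * (tauW T r)⁻¹ * u * (tauW T r * g * (tauW T r)⁻¹)⁻¹ ∈ _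
      rw [← tau_A r h] at h
      conv_lhs => skip
      convert h using 1
      conv_lhs => rw [← tau_A r hu]
      group)
    have h4 := mul_mem (mul_mem (inv_mem (tau_N r)) h3) (tau_N r)
    convert h4 using 1
    change g = (tauW T r)⁻¹ * (tauW T r * g * (tauW T r)⁻¹) * tauW T r
    group
  sing h := absurd h h2

theorem semD_conj {Γ : Subgroup (Equiv.Perm (W K))} (hS : SemD T Γ) (r : K) :
    SemD T (Γ.comap (MulAut.conj (tauW T r)).toMonoidHom) := by
  intro g hg hn
  have h1 : tauW T r * g * (tauW T r)⁻¹ ∈ NW T := mul_mem (mul_mem (tau_N r) hn) (inv_mem (tau_N r))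
  obtain ⟨φ, hφ⟩ := hS _ hg h1
  have h2 : ∀ x, g (0, x) = (tauW T r * g * (tauW T r)⁻¹) (0, x) := fun x => by
    have := nor_AW T hn x
    simp only [Equiv.Perm.mul_apply, tau_inv, tauW_apply, map_zero, mul_zero, sub_zero, this, add_zero]
    exact Prod.ext this rfl
  exact ⟨φ, fun c x => by rw [h2, h2]; exact hφ c x⟩

theorem w5 [Finite K] (w1 : W1Stmt T p) (w2 : W2Stmt T p) (w3 : W3Stmt T p) (w4 : W4Stmt T p) :
    WStmt T p := by
  intro Γ hG hc ⟨g0, hg0, hn0⟩
  have hB := w1 Γ hG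
  have hD : Sem T Γ → SemD T Γ := fun h g hg hn => by
    obtain ⟨φ, hφ⟩ := h g hg hn
    exact ⟨φ, fun c x => by rw [← hφ]; simp⟩
  have hO := w2 Γ hG hB (hc.imp_right fun h => ⟨h.1, hD h.2⟩)
  have key : ∀ g ∈ Γ, g ∉ NW T → ∃ u ∈ AW T, Gr T (u * g) 0 := by
    intro g hg hn
    obtain ⟨r, h0, u, hu, hr⟩ := w3 Γ hG hB hO g hg hn
    suffices r = 0 from ⟨u, hu, this ▸ hr⟩
    by_cases h2 : (2 : K) = 0
    · exact h0 h2
    obtain ⟨hb, hs⟩ := hc.resolve_left h2
    have G' := wg_conj hG h2 r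
    have S' := semD_conj (hD hs) r
    have F' := w4 _ G' (w1 _ G') (w2 _ G' (w1 _ G') (Or.inr ⟨hb, S'⟩)) (Or.inr ⟨hb, S'⟩)
      ⟨(tauW T r)⁻¹ * (u * g) * tauW T r, by
        change tauW T r * ((tauW T r)⁻¹ * (u * g) * tauW T r) * (tauW T r)⁻¹ ∈ Γ
        convert mul_mem (hG.le hu) hg using 1
        group, fun w => by
        have h3 : ∀ x, ((tauW T r)⁻¹ * (u * g) * tauW T r) (0, x) = (tauW T r)⁻¹ ((u * g) (0, x)) :=
          fun x => by rw [Equiv.Perm.mul_apply, Equiv.Perm.mul_apply, tauW_apply]; simp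
        simp only [h3]
        constructor
        · rintro ⟨x, rfl⟩
          obtain ⟨y, hy⟩ := (hr _).1 ⟨x, rfl⟩
          exact ⟨y, by rw [hy, tau_inv]; simp⟩
        · rintro ⟨y, rfl⟩
          obtain ⟨x, hx⟩ := (hr _).2 ⟨y, rfl⟩
          exact ⟨x, by rw [← hx, tau_inv]; simp⟩⟩
    obtain ⟨c, hc1, hc2⟩ := hb.unit
    have m1 := mul_mem (F' (c * epu T) (by simp [hc1])) (inv_mem (F' (epu T) (by simp)))
    change tauW T r * (nW (c * epu T) * (nW (epu T))⁻¹) * (tauW T r)⁻¹ ∈ Γ at m1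
    set h := tauW T r * (nW (c * epu T) * (nW (epu T))⁻¹) * (tauW T r)⁻¹ with hh
    have he := T.ep_ne
    have hc0 := c.ne_zero
    have ha : ∀ x : W K, h x = ((c : K)⁻¹ * x.1, c * x.2 + ((c : K)⁻¹ - c) * r * T.σ x.1) := fun x => by
      have e : ∀ z : W K, (nW (epu T))⁻¹ z = (-(T.ep)⁻¹ * z.2, T.ep * z.1) := fun _ => rfl
      simp only [hh, Equiv.Perm.mul_apply, tau_inv, e, nW_apply, tauW_apply, Units.val_mul, coe_epu,
        map_mul, map_inv₀, hc1, T.σ_ep]
      ext <;> simp only <;> field_simp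
      ring
    obtain ⟨φ, hφ⟩ := hs h m1 (hB.s0 h m1 fun x => by simp [ha])
    have k1 := congrArg Prod.snd (hφ T.om (0, 1))
    have k2 := congrArg Prod.snd (hφ T.om (1, 0))
    simp only [ha, Prod.smul_mk, smul_eq_mul, mul_zero, mul_one, map_zero, map_one, add_zero,
      zero_add] at k1 k2
    have k3 : φ T.om = T.om := mul_right_cancel₀ hc0 (by linear_combination -k1)
    rw [k3] at k2
    have k4 : (c : K)⁻¹ - c ≠ 0 := fun e => hc2 (by
      field_simp at e
      linear_combination -e)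
    refine mul_left_cancel₀ (mul_ne_zero k4 he) ?_
    simp only [Hm.ep]
    linear_combination -k2
  refine ⟨w4 Γ hG hB hO (Or.inl key) ?_, fun g hg c x => ?_⟩
  · obtain ⟨u, hu, h⟩ := key g0 hg0 hn0
    exact ⟨_, mul_mem (hG.le hu) hg0, h⟩
  · by_cases hn : g ∈ NW T
    · have hi : Function.Injective fun x : K => (g (0, x)).2 := fun x y h => by
        have : g (0, x) = g (0, y) := Prod.ext (by rw [nor_AW T hn, nor_AW T hn]) h
        simpa using this
      obtain ⟨y, hy⟩ := Finite.injective_iff_surjective.1 hi (c * (g (0, x)).2)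
      exact ⟨y, Prod.ext (by simp [nor_AW T hn]) hy⟩
    · obtain ⟨_, ⟨b, -, rfl⟩, h⟩ := key g hg hn
      obtain ⟨y, hy⟩ := (h _).1 ⟨x, rfl⟩
      obtain ⟨x', hx⟩ := (h _).2 ⟨c * y, rfl⟩
      refine ⟨x', (uW b).injective ?_⟩
      rw [Equiv.Perm.mul_apply] at hy hx
      rw [← hx]
      simp only [uW_apply, Prod.mk.injEq, Prod.smul_fst, Prod.smul_snd, smul_eq_mul] at hy ⊢
      exact ⟨by rw [hy.1], by linear_combination -c * hy.2⟩

end Cfsg.Agent.H94.U4W
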